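import Cfsg.Agent.H4.Blk

set_option autoImplicit false
open Cfsg Subgroup Matrix
open scoped MatrixGroups commutatorElement

namespace H16.BB

/-- The matrix with entries `a b c d` is `±1` or has trace `3`. -/
def PT {R : Type*} [CommRing R] (a b c d : R) : Prop :=
  (a = 1 ∧ b = 0 ∧ c = 0 ∧ d = 1) ∨ (a = -1 ∧ b = 0 ∧ c = 0 ∧ d = -1) ∨ a + d = 3

instance decPT {R : Type*} [CommRing R] [DecidableEq R] (a b c d : R) : Decidable (PT a b c d) := by
  unfold PT; infer_instance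

/-- closure properties of `PT` -/
def PC (R : Type*) [CommRing R] : Prop :=
  ∀ a b c d : R, a * d - b * c = 1 → ∀ x y z w : R, x * w - y * z = 1 →
    (PT a b c d → PT x y z w → PT (a * x + b * z) (a * y + b * w) (c * x + d * z) (c * y + d * w)) ∧
    PT ((a * x + b * z) * (d * w + b * z) - (a * y + b * w) * (c * w + a * z))
      ((a * y + b * w) * (c * y + a * x) - (a * x + b * z) * (d * y + b * x))
      ((c * x + d * z) * (d * w + b * z) - (c * y + d * w) * (c * w + a * z))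
      ((c * y + d * w) * (c * y + a * x) - (c * x + d * z) * (d * y + b * x))

theorem pc2 : PC (ZMod 2) := by unfold PC; decide +kernel

theorem pc3 : PC (ZMod 3) := by unfold PC; decide +kernel

theorem pt_map {R S : Type*} [CommRing R] [CommRing S] (f : R ≃+* S) (a b c d : R) :
    PT (f a) (f b) (f c) (f d) ↔ PT a b c d := by
  have h1 : ∀ x, f x = -1 ↔ x = -1 := fun x => by
    rw [← f.injective.eq_iff, map_neg, map_one]
  have h3 : ∀ x, f x = 3 ↔ x = 3 := fun x => by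
    rw [← f.injective.eq_iff, map_ofNat]
  simp only [PT, ← map_add, h1, h3, map_eq_zero_iff f f.injective, map_eq_one_iff f f.injective]

theorem pc_map {R S : Type*} [CommRing R] [CommRing S] (f : R ≃+* S) (h : PC R) : PC S := by
  intro a b c d h1 x y z w h2
  obtain ⟨a, rfl⟩ := f.surjective a
  obtain ⟨b, rfl⟩ := f.surjective b
  obtain ⟨c, rfl⟩ := f.surjective c
  obtain ⟨d, rfl⟩ := f.surjective d
  obtain ⟨x, rfl⟩ := f.surjective x
  obtain ⟨y, rfl⟩ := f.surjective y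
  obtain ⟨z, rfl⟩ := f.surjective z
  obtain ⟨w, rfl⟩ := f.surjective w
  simp only [← map_mul, ← map_add, ← map_sub, pt_map, map_eq_one_iff f f.injective] at h1 h2 ⊢
  exact h _ _ _ _ h1 _ _ _ _ h2

variable {F : Type*} [Field F]

theorem sl_det (g : SL(2, F)) : g.1 0 0 * g.1 1 1 - g.1 0 1 * g.1 1 0 = 1 := by
  rw [← det_fin_two]; exact g.2

theorem pt_of_mem (h : PC F) {g : SL(2, F)} (hg : g ∈ commutator SL(2, F)) :
    PT (g.1 0 0) (g.1 0 1) (g.1 1 0) (g.1 1 1) := by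
  let S : Subgroup SL(2, F) :=
    { carrier := {g | PT (g.1 0 0) (g.1 0 1) (g.1 1 0) (g.1 1 1)}
      one_mem' := Or.inl (by simp)
      mul_mem' := fun {a b} ha hb => by
        have := (h _ _ _ _ (sl_det a) _ _ _ _ (sl_det b)).1 ha hb
        simpa [Matrix.mul_apply, Fin.sum_univ_two] using this
      inv_mem' := fun {a} ha => by
        change PT _ _ _ _
        rcases ha with ⟨a, b, c, d⟩ | ⟨a, b, c, d⟩ | a
        · left; simp [adjugate_fin_two, a, b, c, d]
        · right; left; simp [adjugate_fin_two, a, b, c, d]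
        · right; right; simp [adjugate_fin_two, ← a, add_comm] }
  refine (commutator_le.2 fun a _ b _ => ?_ : commutator SL(2, F) ≤ S) hg
  have := (h _ _ _ _ (sl_det a) _ _ _ _ (sl_det b)).2
  change PT _ _ _ _
  convert this using 1 <;>
    simp [commutatorElement_def, adjugate_fin_two, Matrix.mul_apply, Fin.sum_univ_two] <;> ring

theorem rel_of_mem (h : PC F) {g : SL(2, F)} (hg : g ∈ commutator SL(2, F)) :
    g = 1 ∨ g = -1 ∨ g.1 * g.1 = -1 + 3 • g.1 := by
  have d := sl_det g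
  rcases pt_of_mem h hg with ⟨a, b, c, d⟩ | ⟨a, b, c, d⟩ | a
  · left; ext i j; fin_cases i <;> fin_cases j <;> simp [a, b, c, d]
  · right; left; ext i j; fin_cases i <;> fin_cases j <;> simp [a, b, c, d]
  · right; right; rw [three'_nsmul]; ext i j
    fin_cases i <;> fin_cases j <;> simp [Matrix.mul_apply, Fin.sum_univ_two]
    · linear_combination g.1 0 0 * a - d
    · linear_combination g.1 0 1 * a
    · linear_combination g.1 1 0 * a
    · linear_combination g.1 1 1 * a - d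

theorem pow_of_rel2 (h2 : (2 : F) = 0) {g : SL(2, F)}
    (h : g = 1 ∨ g = -1 ∨ g.1 * g.1 = -1 + 3 • g.1) : g ^ 3 ^ 1 = 1 := by
  have t : ∀ y : Matrix (Fin 2) (Fin 2) F, y + y = 0 := fun y => by
    rw [← two_smul F y, h2, zero_smul]
  have t1 : (-1 : Matrix (Fin 2) (Fin 2) F) = 1 := neg_eq_of_add_eq_zero_left (t 1)
  apply Subtype.ext
  rcases h with rfl | rfl | h
  · simp
  · change (-1 : Matrix (Fin 2) (Fin 2) F) ^ 3 ^ 1 = 1
    rw [t1, one_pow]
  · change g.1 ^ 3 ^ 1 = 1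
    rw [three'_nsmul, t, zero_add, t1] at h
    rw [pow_one, pow_succ, _root_.sq, h, add_mul, one_mul, h, add_left_comm, t, add_zero]

theorem pow_of_rel3 (h3 : (3 : F) = 0) {g : SL(2, F)}
    (h : g = 1 ∨ g = -1 ∨ g.1 * g.1 = -1 + 3 • g.1) : g ^ 2 ^ 2 = 1 := by
  apply Subtype.ext
  rcases h with rfl | rfl | h
  · simp
  · change (-1 : Matrix (Fin 2) (Fin 2) F) ^ 2 ^ 2 = 1
    norm_num
  · change g.1 ^ 2 ^ 2 = 1
    rw [← Nat.cast_smul_eq_nsmul F, Nat.cast_ofNat, h3, zero_smul, add_zero] at h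
    rw [_root_.sq 2, pow_mul, _root_.sq g.1, h]; simp

theorem exists_unip {p : ℕ} (hp : (p : F) = 0) : ∃ u : SL(2, F), u ≠ 1 ∧ u ^ p ^ 1 = 1 := by
  let u : F → SL(2, F) := fun t => ⟨!![1, t; 0, 1], by simp [det_fin_two]⟩
  have : ∀ n : ℕ, u 1 ^ n = u n := fun n => by
    induction n with
    | zero => rw [pow_zero]; ext i j; fin_cases i <;> fin_cases j <;> simp [u]
    | succ n ih =>
      rw [pow_succ, ih]; apply Subtype.ext
      change !![1, (n : F); 0, 1] * !![1, 1; 0, 1] = !![1, ((n + 1 : ℕ) : F); 0, 1]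
      simp [add_comm]
  refine ⟨u 1, fun h => ?_, ?_⟩
  · simpa [u] using congrArg (fun g : SL(2, F) => g.1 0 1) h
  · rw [pow_one, this, hp]; ext i j; fin_cases i <;> fin_cases j <;> simp [u]

set_option synthInstance.maxSize 1000 in
theorem a3_tr : ∀ u v : Fin 3 → ZMod 2, ∑ i, u i = 0 → ∑ i, v i = 0 → u ≠ 0 → v ≠ 0 →
    ∃ σ : Equiv.Perm (Fin 3), Equiv.Perm.sign σ = 1 ∧ ∀ i, u (σ⁻¹ i) = v i := by decide +kernel

theorem a3_rel : ∀ σ : Equiv.Perm (Fin 3), Equiv.Perm.sign σ = 1 → σ ^ 3 ^ 1 = 1 ∧ (σ = 1 ∨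
    ∀ u : Fin 3 → ZMod 2, ∑ i, u i = 0 →
      (fun i => u (σ⁻¹ (σ⁻¹ i))) = -u + 3 • (fun i => u (σ⁻¹ i))) := by decide +kernel

theorem a3_card : Nat.card {v : Fin 3 → ZMod 2 | ∑ i, v i = 0} = 2 ^ 2 := by
  rw [Nat.card_eq_fintype_card]; decide +kernel

theorem perm_faith {n : ℕ} (hn : Odd n) {σ : Equiv.Perm (Fin n)}
    (h : ∀ v : Fin n → ZMod 2, ∑ i, v i = 0 → ∀ i, v (σ⁻¹ i) = v i) : σ = 1 := by
  rw [← inv_eq_one]
  ext i
  by_contra hi
  have hi : σ⁻¹ i ≠ i := fun e => hi (congrArg Fin.val e)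
  have h2 : 2 < n := by
    have := Fintype.one_lt_card_iff.2 ⟨_, _, hi⟩
    obtain ⟨m, rfl⟩ := hn
    simp at this; omega
  obtain ⟨k, k1, k2⟩ := Fin.exists_ne_and_ne_of_two_lt i (σ⁻¹ i) h2
  have := h (Pi.single i 1 + Pi.single k 1) (by simp [Finset.sum_add_distrib]; decide) i
  rw [Pi.add_apply, Pi.add_apply, Pi.single_eq_of_ne hi, Pi.single_eq_of_ne k2.symm,
    Pi.single_eq_same, Pi.single_eq_of_ne k1.symm] at this
  exact absurd this (by decide)

theorem an_qs {n : ℕ} (hn : 5 ≤ n) : IsQuasisimple (alternatingGroup (Fin n)) ∧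
    ∃ σ ∈ alternatingGroup (Fin n), σ ≠ 1 ∧ σ ^ 2 ^ 1 = 1 := by
  have hs : IsSimpleGroup (alternatingGroup (Fin n)) := alternatingGroup.isSimpleGroup (by simpa)
  refine ⟨H5.isQuasisimple_iff_top.2 ⟨commutator_alternatingGroup_eq_top (by simpa), inferInstance,
    fun N hN => (hs.eq_bot_or_eq_top_of_normal N hN).symm.imp id
      fun h : N = ⊥ => by rw [h]; exact bot_le⟩, ?_⟩
  obtain ⟨m, rfl⟩ : ∃ m, n = m + 5 := ⟨n - 5, by omega⟩
  let a : Fin 5 → Fin (m + 5) := fun i => Fin.natAdd m i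
  have ha : ∀ i j, a i = a j ↔ i = j := fun i j => by simp [a]
  have c : Commute (Equiv.swap (a 0) (a 1)) (Equiv.swap (a 2) (a 3)) :=
    (Equiv.Perm.disjoint_swap_swap (by simp [ha])).commute
  refine ⟨Equiv.swap (a 0) (a 1) * Equiv.swap (a 2) (a 3), ?_, fun h => ?_, ?_⟩
  · simp [Equiv.Perm.sign_swap', ha]
  · have := congrArg (fun σ : Equiv.Perm _ => σ (a 0)) h
    simp [Equiv.swap_apply_def, ha] at this
  · rw [pow_one, c.mul_pow, _root_.sq, _root_.sq, Equiv.swap_mul_self, Equiv.swap_mul_self, mul_one]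

end H16.BB
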