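import Cfsg.Agent.H14.BbC
import Cfsg.Agent.H4.Comm
import Cfsg.Agent.H16.BB0
import Cfsg.Agent.H3.Transfer2

set_option autoImplicit false
set_option linter.unusedSectionVars false
open Cfsg Subgroup H10 H12 Matrix
open scoped MatrixGroups commutatorElement

namespace H16.BB

variable {G : Type*} [Group G]

/-- `Ω₁(Z(O_p(E)))`. -/
abbrev W0 (p : ℕ) (E : Subgroup G) : Subgroup G := ZO p (pCoreOf p E)

/-- `C_{W₀}(E)`. -/
abbrev ZZ (p : ℕ) (E : Subgroup G) : Subgroup G := ZO p (pCoreOf p E) ⊓ CC(E)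

/-- Data of an exceptional block. -/
structure Exc (p : ℕ) (E : Subgroup G) : Prop where
  p3 : p = 3
  irr : ∀ X : Subgroup G, X ≤ pCoreOf p E → E ≤ NN(X) → X ≤ W0 p E ∨ pCoreOf p E ≤ X ⊔ W0 p E
  comm : ⁅pCoreOf p E, pCoreOf p E⁆ = ZZ p E
  ne : ⁅pCoreOf p E, pCoreOf p E⁆ ≠ ⊥
  tinv : ∃ t ∈ E, ∀ x ∈ pCoreOf p E, t * x * t⁻¹ * x ∈ W0 p E
  nos : ∀ r ∈ NN(pCoreOf p E), (∀ w ∈ W0 p E, r * w * r⁻¹ * w⁻¹ ∈ ZZ p E) →
    (∀ a ∈ pCoreOf p E, r * a * r⁻¹ * a ∈ W0 p E) → False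

/-- Data of a solvable block acting on `W`. -/
structure Sm (p : ℕ) (E W : Subgroup G) : Prop where
  q : (p = 2 ∧ ∀ e ∈ E, ∃ k, e ^ 3 ^ k ∈ pCoreOf p E) ∨
    (p = 3 ∧ ∀ e ∈ E, ∃ k, e ^ 2 ^ k ∈ pCoreOf p E)
  bot : W ⊓ CC(E) = ⊥
  card : Nat.card W = p ^ 2
  tr : ∀ u ∈ W, ∀ v ∈ W, u ≠ 1 → v ≠ 1 → ∃ e ∈ E, e * u * e⁻¹ = v
  rel : ∀ e ∈ E, (∀ w ∈ W, e * w * e⁻¹ = w) ∨ (∀ w ∈ W, e * w * e⁻¹ = w⁻¹) ∨
    ∀ w ∈ W, e * (e * w * e⁻¹) * e⁻¹ = w⁻¹ * (e * w * e⁻¹) ^ 3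

variable [Finite G] {p : ℕ} [hp : Fact p.Prime] {T E : Subgroup G}

theorem sl2sec_cj {F : Type*} [Field F] {R : Subgroup SL(2, F)} {U U₀ : Subgroup G} (g : G)
    (h : ActsAsSL2OnSection F R E U U₀) : ActsAsSL2OnSection F R (cj g E) (cj g U) (cj g U₀) := by
  obtain ⟨h1, h2, ρ, ψ, h3, h4, h5, h6⟩ := h
  have e1 : ∀ (X : Subgroup G) (x : cj g X), (((cjEquiv g X).symm x : X) : G) = g⁻¹ * x * g :=
    fun X x => by
      obtain ⟨y, rfl⟩ := (cjEquiv g X).surjective x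
      rw [MulEquiv.symm_apply_apply]
      change (y : G) = g⁻¹ * (g * y * g⁻¹) * g
      group
  refine ⟨cj_normalizer g U ▸ cj_mono g h1, cj_mono g h2, ρ.comp (cjEquiv g E).symm.toMonoidHom,
    ψ.comp (cjEquiv g U).symm.toMonoidHom, ?_, h4.comp (cjEquiv g U).symm.surjective,
    fun u => ?_, fun e u => ?_⟩
  · rw [MonoidHom.range_comp, MonoidHom.range_eq_top.2 (cjEquiv g E).symm.surjective,
      ← MonoidHom.range_eq_map, h3]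
  · rw [mem_cj, ← e1, ← h5]; rfl
  · obtain ⟨w, hw, k⟩ := h6 ((cjEquiv g E).symm e) ((cjEquiv g U).symm u)
    refine ⟨cjEquiv g U w, ?_, by simpa using k⟩
    change g * w * g⁻¹ = _
    rw [hw, e1, e1]; group

theorem permsec_cj {n : ℕ} {R : Subgroup (Equiv.Perm (Fin n))} {U U₀ : Subgroup G} (g : G)
    (h : ActsAsOddPermModuleOnSection n R E U U₀) :
    ActsAsOddPermModuleOnSection n R (cj g E) (cj g U) (cj g U₀) := by
  obtain ⟨h1, h2, ρ, ψ, h3, h4, h4', h5, h6⟩ := h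
  have e1 : ∀ (X : Subgroup G) (x : cj g X), (((cjEquiv g X).symm x : X) : G) = g⁻¹ * x * g :=
    fun X x => by
      obtain ⟨y, rfl⟩ := (cjEquiv g X).surjective x
      rw [MulEquiv.symm_apply_apply]
      change (y : G) = g⁻¹ * (g * y * g⁻¹) * g
      group
  refine ⟨cj_normalizer g U ▸ cj_mono g h1, cj_mono g h2, ρ.comp (cjEquiv g E).symm.toMonoidHom,
    ψ.comp (cjEquiv g U).symm.toMonoidHom, ?_, fun u => h4 _, fun v hv => ?_,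
    fun u => ?_, fun e u => ?_⟩
  · rw [MonoidHom.range_comp, MonoidHom.range_eq_top.2 (cjEquiv g E).symm.surjective,
      ← MonoidHom.range_eq_map, h3]
  · obtain ⟨u, hu⟩ := h4' v hv
    exact ⟨cjEquiv g U u, by simpa using hu⟩
  · rw [mem_cj, ← e1, ← h5]; rfl
  · obtain ⟨w, hw, k⟩ := h6 ((cjEquiv g E).symm e) ((cjEquiv g U).symm u)
    refine ⟨cjEquiv g U w, ?_, by simpa using k⟩
    change g * w * g⁻¹ = _
    rw [hw, e1, e1]; group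

theorem quot_cj (g : G) : Nonempty (cj g E ⧸ pCore p (cj g E) ≃* E ⧸ pCore p E) := by
  refine ⟨(QuotientGroup.congr _ _ (cjEquiv g E) ?_).symm⟩
  ext x
  obtain ⟨y, rfl⟩ := (cjEquiv g E).surjective x
  rw [← pCoreOf_subgroupOf (cj g E), mem_subgroupOf, ← cj_pCoreOf]
  refine (mem_map_iff_mem (f := (cjEquiv g E : E →* cj g E)) (cjEquiv g E).injective).trans ?_
  rw [← pCoreOf_subgroupOf E, mem_subgroupOf]
  exact conj_mem_cj_iff.symm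

theorem blk_cj (g : G) (h : IsBaumannBlock p T E) : IsBaumannBlock p (cj g T) (cj g E) := by
  obtain ⟨h1, h2, h3, h4, h5⟩ := h
  have q := (quot_cj (p := p) (E := E) g).some
  have w : omegaOneCenter p (pCoreOf p (cj g E)) = cj g (omegaOneCenter p (pCoreOf p E)) := by
    rw [← cj_pCoreOf]; exact (cj_ZO g _).symm
  refine ⟨(cj_resOf g E).symm.trans (congrArg _ h1), by rw [← cj_baum, ← cj_commutator, h2],
    by rw [← cj_pCoreOf, ← cj_commutator, h3], fun h => h4 ?_, ?_⟩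
  · rw [← cj_eq_bot (g := g), cj_commutator, ← h]
    exact congrArg _ (cj_ZO g T)
  rw [w, ← cj_pCoreOf, ← cj_centralizer, ← cj_inf, ← cj_inf, ← cj_commutator]
  rcases h5 with ⟨F, _, _, n, hF, ⟨i⟩, a1, a2⟩ | ⟨h2, m, ⟨i⟩, a1, a2⟩
  · refine Or.inl ⟨F, _, _, n, hF, ⟨q.trans i⟩, sl2sec_cj g a1, a2.imp (congrArg _)
      fun ⟨b1, b2, b3, b4, b5, b6, b7⟩ => ⟨b1, sl2sec_cj g b2, congrArg _ b3, ?_, congrArg _ b5,
        (card_cj g _).trans b6, fun b c1 c2 c3 => ?_⟩⟩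
    · rw [frOf_def] at b4 ⊢
      rw [← b4]
      exact (map_frOf_of_injective (f := (MulAut.conj g).toMonoidHom) (MulAut.conj g).injective
        _).symm
    · rw [← cj_baum, mem_cj] at c1
      rw [← cj_centralizer, mem_cj] at c2
      refine b7 _ c1 c2 ?_
      rw [← cj_le_cj (g := g), cj_commutator, cj_commutator, cj_zpowers]
      simpa [mul_assoc] using c3
  · exact Or.inr ⟨h2, m, ⟨q.trans i⟩, permsec_cj g a1, congrArg _ a2⟩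

theorem perm_data {n : ℕ} (hn : Odd n) (i : E ⧸ pCore p E ≃* alternatingGroup (Fin n))
    (h : ActsAsOddPermModuleOnSection n (alternatingGroup (Fin n)) E (W0 p E) (ZZ p E)) :
    ∃ (ρ : E →* Equiv.Perm (Fin n)) (ψ : G → Fin n → ZMod 2), ρ.range = alternatingGroup (Fin n) ∧
      (∀ x ∈ W0 p E, ∀ y ∈ W0 p E, ψ (x * y) = ψ x + ψ y) ∧ (∀ x ∈ W0 p E, ψ x = 0 ↔ x ∈ ZZ p E) ∧
      ψ '' (W0 p E) = {v | ∑ i, v i = 0} ∧
      (∀ e : E, ∀ x ∈ W0 p E, ψ (e * x * (e : G)⁻¹) = fun i => ψ x ((ρ e)⁻¹ i)) ∧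
      (∀ e : E, (∀ x ∈ W0 p E, ⁅(e : G), x⁆ ∈ ZZ p E) → ρ e = 1) ∧
      ∀ e : E, ρ e = 1 ↔ e.1 ∈ pCoreOf p E := by
  classical
  obtain ⟨h1, h2, ρ, ψ, h3, h4, h4', h5, h6⟩ := h
  let φ : G → Fin n → ZMod 2 := fun x => if hx : x ∈ W0 p E then (ψ ⟨x, hx⟩).toAdd else 0
  have p0 : ∀ x : W0 p E, φ x = (ψ x).toAdd := fun x => dif_pos x.2
  have p1 : ∀ e : E, (∀ x ∈ W0 p E, ⁅(e : G), x⁆ ∈ ZZ p E) → ρ e = 1 := fun e he =>
    perm_faith hn fun v hv i => by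
      obtain ⟨u, rfl⟩ := h4' v hv
      obtain ⟨w, hw, k⟩ := h6 e u
      have : ψ (w * u⁻¹) = 1 := (h5 _).2 (by
        rw [Subgroup.coe_mul, hw]; exact he u u.2)
      rw [map_mul, map_inv, mul_inv_eq_one] at this
      rw [← k, this]
  refine ⟨ρ, φ, h3, fun x hx y hy => ?_, fun x hx => ?_, ?_, fun e x hx => ?_, p1, fun e => ?_⟩
  · rw [p0 ⟨x, hx⟩, p0 ⟨y, hy⟩, ← toAdd_mul, ← map_mul]; exact p0 (⟨x, hx⟩ * ⟨y, hy⟩)
  · rw [p0 ⟨x, hx⟩]; exact h5 ⟨x, hx⟩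
  · ext v
    constructor
    · rintro ⟨x, hx, rfl⟩
      rw [p0 ⟨x, hx⟩]; exact h4 _
    · intro hv
      obtain ⟨u, hu⟩ := h4' v hv
      exact ⟨u, u.2, (p0 u).trans hu⟩
  · obtain ⟨w, hw, k⟩ := h6 e ⟨x, hx⟩
    rw [← hw, p0 w, p0 ⟨x, hx⟩]; exact funext k
  · have a1 : pCore p E ≤ ρ.ker := fun x hx => p1 x fun y hy => by
      rw [commutatorElement_eq_one_iff_mul_comm.2 (mem_CC.1 (ZO_le_CC _ hy) (x : G) ⟨x, hx, rfl⟩)]
      exact one_mem _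
    have a2 : (pCore p E).index = ρ.ker.index := by
      rw [index_ker, h3, ← Nat.card_congr i.toEquiv]; rfl
    have a3 : pCore p E = ρ.ker := eq_of_le_of_card_ge a1 (Nat.eq_of_mul_eq_mul_right
      (Nat.pos_of_ne_zero (index_ne_zero_of_finite (H := ρ.ker)))
      (by rw [card_mul_index, ← a2, card_mul_index])).le
    rw [← MonoidHom.mem_ker, ← a3, ← pCoreOf_subgroupOf, mem_subgroupOf]

theorem blk_faith (h : IsBaumannBlock p T E) {e : G} (he : e ∈ E)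
    (hc : ⁅W0 p E, zpowers e⁆ ≤ CC(E)) : e ∈ pCoreOf p E := by
  have k : ∀ x ∈ W0 p E, ⁅e, x⁆ ∈ ZZ p E := fun x hx => mem_inf.2
    ⟨mul_mem (conj_mem_of_mem_NN (le_NN_ZO (le_NN_pCoreOf E) he) hx) (inv_mem hx), by
      rw [← commutatorElement_inv]
      exact inv_mem (hc (commutator_mem_commutator hx (mem_zpowers e)))⟩
  rcases h.2.2.2.2 with ⟨F, _, _, n, -, hi, a1, -⟩ | ⟨-, m, ⟨i⟩, a1, -⟩
  · obtain ⟨ψ, ρ, s⟩ := H14.Bb.sc_of a1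
    exact (s.ker_iff ((comm_eq_bot.2 (le_CC_ZO _)).le.trans bot_le) hi ⟨e, he⟩).1
      ((s.eq_one_iff _).2 ((s.act_eq_one (s.nn he)).2 k))
  · obtain ⟨ρ, ψ, -, -, -, -, -, b1, b2⟩ := perm_data ⟨m, rfl⟩ i a1
    exact (b2 ⟨e, he⟩).1 (b1 _ k)

theorem sm_of {V : Type*} [AddCommGroup V] (ψ : G → V)
    (q : (p = 2 ∧ ∀ e ∈ E, ∃ k, e ^ 3 ^ k ∈ pCoreOf p E) ∨
      (p = 3 ∧ ∀ e ∈ E, ∃ k, e ^ 2 ^ k ∈ pCoreOf p E))
    (add : ∀ x ∈ W0 p E, ∀ y ∈ W0 p E, ψ (x * y) = ψ x + ψ y)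
    (ker : ∀ x ∈ W0 p E, ψ x = 0 ↔ x ∈ ZZ p E) (hc : Nat.card (ψ '' (W0 p E)) = p ^ 2)
    (tr : ∀ u ∈ W0 p E, ∀ v ∈ W0 p E, ψ u ≠ 0 → ψ v ≠ 0 → ∃ e ∈ E, ψ (e * u * e⁻¹) = ψ v)
    (rel : ∀ e ∈ E, (∀ w ∈ W0 p E, ψ (e * w * e⁻¹) = ψ w) ∨ (∀ w ∈ W0 p E, ψ (e * w * e⁻¹) = -ψ w) ∨
      ∀ w ∈ W0 p E, ψ (e * (e * w * e⁻¹) * e⁻¹) = -ψ w + 3 • ψ (e * w * e⁻¹)) :
    Sm p E ⁅W0 p E, E⁆ := by
  have hn : E ≤ NN(W0 p E) := le_NN_ZO (le_NN_pCoreOf E)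
  obtain ⟨r, hr, hrp, hq⟩ : ∃ r : ℕ, r.Prime ∧ p.Coprime r ∧ ∀ e ∈ E, ∃ k, e ^ r ^ k ∈ pCoreOf p E := by
    rcases q with ⟨rfl, h⟩ | ⟨rfl, h⟩
    · exact ⟨3, by decide, by decide, h⟩
    · exact ⟨2, by decide, by decide, h⟩
  have := Fact.mk hr
  have : IsMulCommutative (W0 p E) := isMulCommutative_iff_le_CC.2 (elab_le_CC (elab_ZO _))
  have := normal_subgroupOf (le_NN_CC hn)
  have cop : (Nat.card (W0 p E)).Coprime ((CC(W0 p E)).relIndex E) := by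
    obtain ⟨a, ha⟩ := IsPGroup.iff_card.1 (isPGroup_ZO (p := p) (pCoreOf p E))
    have : IsPGroup r (E ⧸ (CC(W0 p E)).subgroupOf E) := fun x => by
      obtain ⟨y, rfl⟩ := QuotientGroup.mk_surjective x
      refine (hq y y.2).imp fun k hk => ?_
      rw [← QuotientGroup.mk_pow, QuotientGroup.eq_one_iff]
      exact le_CC_ZO _ hk
    obtain ⟨b, hb⟩ := IsPGroup.iff_card.1 this
    rw [ha, relIndex, index, hb]
    exact Nat.Coprime.pow _ _ hrp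
  obtain ⟨f1, f2⟩ := H3.fitting_decomposition hn cop
  have hW : ⁅W0 p E, E⁆ ≤ W0 p E := comm_le_left hn
  have z : ψ 1 = 0 := (ker 1 (one_mem _)).2 (one_mem _)
  have iv : ∀ x ∈ W0 p E, ψ x⁻¹ = -ψ x := fun x hx => by
    rw [eq_neg_iff_add_eq_zero, ← add _ (inv_mem hx) _ hx, inv_mul_cancel, z]
  have inj : ∀ x ∈ ⁅W0 p E, E⁆, ∀ y ∈ ⁅W0 p E, E⁆, ψ x = ψ y → x = y := fun x hx y hy h => by
    have h1 := mul_mem hx (inv_mem hy)
    have h2 := (ker _ (hW h1)).1 (by rw [add _ (hW hx) _ (inv_mem (hW hy)), iv _ (hW hy), h]; simp)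
    exact mul_inv_eq_one.1 (mem_bot.1 (f1 ▸ (⟨h1, h2.2⟩ : _ ∈ ⁅W0 p E, E⁆ ⊓ CC(E))))
  have cj1 : ∀ e ∈ E, ∀ w ∈ ⁅W0 p E, E⁆, e * w * e⁻¹ ∈ ⁅W0 p E, E⁆ := fun e he w hw =>
    conj_mem_of_mem_NN (right_le_NN_comm _ _ he) hw
  refine ⟨q, f1, ?_, fun u hu v hv u1 v1 => ?_, fun e he => ?_⟩
  · have : ψ '' (W0 p E) = ψ '' (⁅W0 p E, E⁆ : Subgroup G) := by
      refine le_antisymm ?_ (Set.image_mono hW)
      rintro _ ⟨x, hx, rfl⟩
      obtain ⟨a, ha, b, hb, rfl⟩ := (mem_sup_of_NN' ((inf_le_left.trans (elab_le_CC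
        (elab_ZO _))).trans ((CC_anti hW).trans (CC_le_NN _)))).1 (f2.ge hx)
      exact ⟨a, ha, by rw [add _ (hW ha) _ hb.1, (ker b hb.1).2 hb, add_zero]⟩
    rw [← hc, this]
    exact (Nat.card_image_of_injOn fun x hx y hy h => inj x hx y hy h).symm
  · obtain ⟨e, he, h⟩ := tr u (hW hu) v (hW hv) (fun h => u1 (inj _ hu _ (one_mem _) (h.trans z.symm)))
      (fun h => v1 (inj _ hv _ (one_mem _) (h.trans z.symm)))
    exact ⟨e, he, inj _ (cj1 e he u hu) _ hv h⟩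
  · refine (rel e he).imp (fun h w hw => inj _ (cj1 e he w hw) _ hw (h w (hW hw)))
      (Or.imp (fun h w hw => inj _ (cj1 e he w hw) _ (inv_mem hw) ?_) fun h w hw =>
        inj _ (cj1 e he _ (cj1 e he w hw)) _ (mul_mem (inv_mem hw) (pow_mem (cj1 e he w hw) 3)) ?_)
    · rw [h w (hW hw), iv w (hW hw)]
    · have c := hW (cj1 e he w hw)
      rw [h w (hW hw), add _ (inv_mem (hW hw)) _ (pow_mem c 3), iv w (hW hw), pow_succ, _root_.sq,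
        add _ (mul_mem c c) _ c, add _ c _ c, three'_nsmul]

theorem blk_exc (hG : CC(pCore p G) ≤ pCore p G) {T : Sylow p G}
    (h : IsBaumannBlock p (T : Subgroup G) E) : pCoreOf p E = W0 p E ∨ Exc p E := by
  by_cases hne : pCoreOf p E = W0 p E
  · exact Or.inl hne
  obtain ⟨rfl, F, _, _, ψ₁, ψ₂, ρ₁, ρ₂, t, x⟩ := H14.Bb.exc_of h hne
  refine Or.inr ⟨rfl, x.s2.irr, x.comm, fun e => ?_, ⟨t, t.2, fun a ha => x.tW ha⟩,
    fun r hr h1 h2 => x.nos hG (mul_mem hr (x.EQ t.2)) ?_ ?_⟩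
  · have := x.card
    rw [← x.comm, e, card_bot] at this
    exact Finite.one_lt_card.ne this
  · have a : H14.Bb.act _ ψ₂ r = -1 := x.s2.toMd.ext fun a ha => by
      have c := conj_mem_of_mem_NN hr ha
      rw [x.s2.act_apply (x.N2 hr) ha, LinearMap.neg_apply, Module.End.one_apply,
        eq_neg_iff_add_eq_zero, ← x.s2.add _ c _ ha, x.s2.ker _ (mul_mem c ha)]
      exact h2 a ha
    have b : H14.Bb.act _ ψ₂ (t : G) = -1 := LinearMap.ext fun v => by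
      rw [x.s2.act_eq, x.t2, H14.Bb.sl_neg]; rfl
    rw [x.s2.act_mul (x.N2 hr) (x.N2 (x.EQ t.2)), a, b]; simp
  · have a : H14.Bb.act _ ψ₁ r = 1 := (x.s1.act_eq_one (x.N1 hr)).2 h1
    have b : H14.Bb.act _ ψ₁ (t : G) = -1 := LinearMap.ext fun v => by
      rw [x.s1.act_eq, x.t1, H14.Bb.sl_neg]; rfl
    rw [x.s1.act_mul (x.N1 hr) (x.N1 (x.EQ t.2)), a, b]; simp

theorem blk_type (h : IsBaumannBlock p T E) :
    (IsQuasisimple (E ⧸ pCore p E) ∧ ∃ e ∈ E, e ∉ pCoreOf p E ∧ ∃ k, e ^ p ^ k ∈ pCoreOf p E) ∨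
      Sm p E ⁅W0 p E, E⁆ := by
  rcases h.2.2.2.2 with ⟨F, _, _, n, hF, ⟨i⟩, a1, -⟩ | ⟨rfl, m, ⟨i⟩, a1, -⟩
  · obtain ⟨ψ, ρ, s⟩ := H14.Bb.sc_of a1
    have k := s.ker_iff ((comm_eq_bot.2 (le_CC_ZO _)).le.trans bot_le) ⟨i⟩
    have cp : (p : F) = 0 := by
      have := FiniteField.cast_card_eq_zero F
      rw [hF, Nat.cast_pow] at this
      exact pow_eq_zero_iff (by rintro rfl; simp at this) |>.1 this
    by_cases h4 : 4 ≤ Fintype.card F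
    · have q := H4.Blk.qs_SL (F := F) (m := 2) le_rfl fun _ => h4
      have t : commutator SL(2, F) = ⊤ := (H5.isQuasisimple_iff_top.1 q).1
      obtain ⟨u, u1, u2⟩ := exists_unip cp
      obtain ⟨e, rfl⟩ := s.exists_e (t ▸ mem_top u)
      exact Or.inl ⟨H5.qs_of_equiv q (i.trans ((MulEquiv.subgroupCongr t).trans topEquiv)).symm,
        e, e.2, fun h => u1 ((k e).2 h), 1, (k (e ^ p ^ 1)).1 (by rw [map_pow, u2])⟩
    have hn : n = 1 ∧ p < 4 := by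
      have h1 := Fintype.one_lt_card (α := F)
      have h2 := hp.out.two_le
      rw [hF] at h1 h4
      rcases n with _ | _ | n
      · simp at h1
      · exact ⟨rfl, by simpa using h4⟩
      · exact absurd ((Nat.pow_le_pow_left h2 2).trans (Nat.pow_le_pow_right hp.out.pos
          (by omega))) h4
    obtain ⟨rfl, h4⟩ := hn
    rw [pow_one] at hF
    have h23 : p = 2 ∨ p = 3 := by have := hp.out.two_le; omega
    have pc : PC F := by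
      rcases h23 with rfl | rfl
      · exact pc_map (ZMod.ringEquivOfPrime F hp.out hF) pc2
      · exact pc_map (ZMod.ringEquivOfPrime F hp.out hF) pc3
    have r : ∀ e : E, _ := fun e => rel_of_mem pc (s.range.le (⟨e, rfl⟩ : ρ e ∈ ρ.range))
    refine Or.inr (sm_of ψ ?_ s.add s.ker ?_ (fun u hu v hv u0 v0 => ?_) fun e he => ?_)
    · rcases h23 with rfl | rfl
      · exact Or.inl ⟨rfl, fun e he => ⟨1, (k (⟨e, he⟩ ^ 3 ^ 1)).1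
          (by rw [map_pow, pow_of_rel2 (by exact_mod_cast cp) (r _)])⟩⟩
      · exact Or.inr ⟨rfl, fun e he => ⟨2, (k (⟨e, he⟩ ^ 2 ^ 2)).1
          (by rw [map_pow, pow_of_rel3 (by exact_mod_cast cp) (r _)])⟩⟩
    · rw [Set.eq_univ_of_forall (s := ψ '' (W0 p E)) fun v => s.surj v, Nat.card_univ]
      simp [hF]
    · obtain ⟨c, hc, e⟩ := exists_comm_trans u0 v0
      obtain ⟨g, rfl⟩ := s.exists_e hc
      exact ⟨g, g.2, (s.conj g u hu).trans e⟩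
    · refine (r ⟨e, he⟩).imp (fun h w hw => ?_) (Or.imp (fun h w hw => ?_) fun h w hw => ?_)
      · rw [s.conj ⟨e, he⟩ w hw, h, H14.Bb.sl_one]
      · rw [s.conj ⟨e, he⟩ w hw, h, H14.Bb.sl_neg]
      · rw [s.conj ⟨e, he⟩ _ (conj_mem_of_mem_NN (s.nU he) hw), s.conj ⟨e, he⟩ w hw, mulVec_mulVec,
          h, add_mulVec, neg_mulVec, one_mulVec, smul_mulVec]
  obtain ⟨ρ, ψ, b1, b2, b3, b4, b5, -, k⟩ := perm_data ⟨m, rfl⟩ i a1
  rcases m with _ | _ | m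
  · have : E ≤ pCoreOf 2 E := fun e he => (k ⟨e, he⟩).1 (Equiv.ext fun i => Fin.ext (by omega))
    have e0 : E = ⊥ := h.1.symm.trans (resOf_eq_bot ((isPGroup_pCoreOf E).to_le this))
    exact absurd (by rw [e0, commutator_bot_left]) h.2.2.2.1
  · have ev : ∀ x ∈ W0 2 E, ∑ i, ψ x i = 0 := fun x hx => b4.le ⟨x, hx, rfl⟩
    have r : ∀ e : E, _ := fun e => a3_rel (ρ e) (b1 ▸ (⟨e, rfl⟩ : ρ e ∈ ρ.range) :
      ρ e ∈ alternatingGroup _)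
    refine Or.inr (sm_of ψ (Or.inl ⟨rfl, fun e he => ⟨1, (k (⟨e, he⟩ ^ 3 ^ 1)).1
      (by rw [map_pow]; exact (r _).1)⟩⟩) b2 b3 (b4 ▸ a3_card) (fun u hu v hv u0 v0 => ?_)
      fun e he => ?_)
    · obtain ⟨c, hc, e⟩ := a3_tr _ _ (ev u hu) (ev v hv) u0 v0
      obtain ⟨g, rfl⟩ : c ∈ ρ.range := b1 ▸ hc
      exact ⟨g, g.2, (b5 g u hu).trans (funext e)⟩
    · refine (r ⟨e, he⟩).2.imp (fun h w hw => ?_) fun h => Or.inr fun w hw => ?_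
      · rw [b5 ⟨e, he⟩ w hw, h]; rfl
      · rw [b5 ⟨e, he⟩ _ (conj_mem_of_mem_NN (a1.1 he) hw), b5 ⟨e, he⟩ w hw]
        exact h _ (ev w hw)
  · obtain ⟨q, u, hu, u1, u2⟩ := an_qs (n := 2 * (m + 1 + 1) + 1) (by omega)
    obtain ⟨e, rfl⟩ : u ∈ ρ.range := b1 ▸ hu
    exact Or.inl ⟨H5.qs_of_equiv q i.symm, e, e.2, fun h => u1 ((k e).2 h), 1,
      (k (e ^ 2 ^ 1)).1 (by rw [map_pow, u2])⟩

end H16.BB
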