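import Cfsg.Agent.H16.BB1

set_option autoImplicit false
set_option linter.unusedSectionVars false
open Cfsg Subgroup H10 H12

namespace H16.BB

variable {G : Type*} [Group G]

/-- `[Ω₁(Z(O_p(G))), E]`. -/
abbrev WW (p : ℕ) (E : Subgroup G) : Subgroup G := ⁅ZO p (pCore p G), E⁆

/-- A subnormal block in a group of characteristic `p`. -/
structure Bk (p : ℕ) [Fact p.Prime] (E : Subgroup G) : Prop where
  ch : CharPIn p (⊤ : Subgroup G)
  blk : ∃ T : Sylow p G, IsBaumannBlock p (T : Subgroup G) E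
  sn : SubnIn E ⊤

variable [Finite G] {p : ℕ} [hp : Fact p.Prime] {E F : Subgroup G}

omit [Finite G] in
theorem vN (L : Subgroup G) : L ≤ NN(ZO p (pCore p G)) :=
  (le_NN_of_normal L _).trans (NN_le_NN_ZO _)

omit [Finite G] in
theorem WW_le (L : Subgroup G) : WW p L ≤ ZO p (pCore p G) := comm_le_left (vN _)

omit [Finite G] in
theorem WW_CC (L : Subgroup G) {X : Subgroup G} (h : X ≤ pCore p G) : WW p L ≤ CC(X) :=
  (WW_le L).trans ((ZO_le_CC _).trans (CC_anti h))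

omit [Finite G] in
theorem WW_Q (L : Subgroup G) : WW p L ≤ pCore p G := (WW_le L).trans (ZO_le _)

omit [Finite G] in
theorem WW_NN {L X : Subgroup G} (h : X ≤ NN(L)) : X ≤ NN(WW p L) := le_NN_commutator (vN _) h

omit [Finite G] in
theorem cc {A L : Subgroup G} (hL : resOf p L = L) (hA : IsPGroup p A) (ha : A ≤ CC(A))
    (hn : L ≤ NN(A)) : ⁅A, L⁆ ≤ ⁅⁅A, L⁆, L⁆ := by
  have h1 : ⁅⁅A, L⁆, L⁆ ≤ A := (comm_le_left (right_le_NN_comm _ _)).trans (comm_le_left hn)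
  have := comm_resOf_le_of_quadratic (p := p) (V := A) (L := L) (W := ⁅⁅A, L⁆, L⁆)
    ((ha.trans (CC_anti h1)).trans (CC_le_NN _)) (right_le_NN_comm _ _) (fun x hx => by
      obtain ⟨k, hk⟩ := isPGroup_iff_mem.1 hA x (comm_le_left hn hx)
      exact ⟨k, hk ▸ one_mem _⟩) le_rfl
  rwa [hL] at this

omit [Finite G] in
theorem quad {A L : Subgroup G} (hL : resOf p L = L) (hA : IsPGroup p (⁅A, L⁆ : Subgroup G))
    (h : ⁅A, L⁆ ≤ CC(L)) : A ≤ CC(L) := by
  have := resOf_le_CC_of_quadratic hA (comm_eq_bot.2 h)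
  rw [hL] at this
  exact le_CC_symm this

namespace Bk

omit [Finite G] in
theorem res (h : Bk p E) : resOf p E = E := h.blk.choose_spec.1

theorem QN (h : Bk p E) : pCore p G ≤ NN(E) :=
  block_le_NN (isSylowIn_top h.blk.choose) h.blk.choose_spec H10.isPGroup_pCore'
    (le_NN_of_normal _ _) (le_NN_of_normal _ _)

theorem resQ (h : Bk p E) : resOf p (E ⊔ pCore p G) = E :=
  (resOf_sup_pgroup H10.isPGroup_pCore' h.QN).trans h.res

omit [Finite G] in
theorem core (h : Bk p E) : pCoreOf p E = pCore p G ⊓ E := by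
  rw [h.sn.pCoreOf_eq, H10.pCoreOf_top]

omit [Finite G] in
theorem cQ (h : Bk p E) : pCoreOf p E ≤ pCore p G := h.core.le.trans inf_le_left

theorem QE (h : Bk p E) : ⁅pCore p G, E⁆ ≤ pCoreOf p E :=
  (le_inf (comm_le_left (le_NN_of_normal _ _)) (comm_le_right h.QN)).trans h.core.ge

theorem W_le (h : Bk p E) : WW p E ≤ W0 p E :=
  blk_ab_le h.blk.choose_spec ((commutator_mono (ZO_le _) le_rfl).trans h.QE)
    (right_le_NN_comm _ _) (WW_CC _ (WW_Q _))

theorem W_E (h : Bk p E) : WW p E ≤ E := h.W_le.trans ((ZO_le _).trans (pCoreOf_le _))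

theorem W_nc (h : Bk p E) : ¬ WW p E ≤ CC(E) := fun hc => by
  obtain ⟨T, hT⟩ := h.blk
  have hZ := h.ch.ZO_le (isSylowIn_top T)
  rw [H10.pCoreOf_top] at hZ
  have := quad h.res (H10.isPGroup_pCore'.to_le (WW_Q E)) hc
  exact hT.2.2.2.1 (comm_eq_bot'.2 (hZ.trans this))

theorem W0_le (h : Bk p E) : W0 p E ≤ WW p E ⊔ ZZ p E :=
  (blk_irr h.blk.choose_spec h.W_le (right_le_NN_comm _ _)).resolve_left h.W_nc

theorem irr0 (h : Bk p E) {X : Subgroup G} (hX : X ≤ W0 p E) (hn : E ≤ NN(X)) :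
    X ≤ CC(E) ∨ ⁅W0 p E, E⁆ ≤ X := by
  refine (blk_irr h.blk.choose_spec hX hn).imp_right fun h1 => ?_
  refine (commutator_mono h1 le_rfl).trans (comm_sup_le (le_NN_self _) ?_ (comm_le_left hn)
    ((comm_eq_bot.2 inf_le_right).le.trans bot_le))
  exact (inf_le_left.trans (ZO_le_CC _)).trans ((CC_anti (hX.trans (ZO_le _))).trans (CC_le_NN _))

theorem W_eq (h : Bk p E) : ⁅W0 p E, E⁆ = WW p E :=
  le_antisymm ((h.irr0 h.W_le (right_le_NN_comm _ _)).resolve_left h.W_nc)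
    ((cc h.res (isPGroup_ZO _) (elab_le_CC (elab_ZO _)) (vN _)).trans
      (commutator_mono h.W_le le_rfl))

theorem irr (h : Bk p E) {X : Subgroup G} (hX : X ≤ WW p E) (hn : E ≤ NN(X)) :
    X ≤ CC(E) ∨ WW p E ≤ X := h.W_eq ▸ h.irr0 (hX.trans h.W_le) hn

theorem faith (h : Bk p E) {X : Subgroup G} (hX : X ≤ E) (hc : ⁅WW p E, X⁆ ≤ CC(E)) :
    X ≤ pCoreOf p E := fun e he => by
  refine blk_faith h.blk.choose_spec (hX he) ((commutator_mono h.W0_le
    (zpowers_le.2 he)).trans (comm_sup_le ?_ ?_ hc ?_))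
  · exact h.W_E.trans (le_NN_CC (le_NN_self _))
  · exact inf_le_right.trans (le_NN_self _)
  · exact (comm_eq_bot.2 (inf_le_right.trans (CC_anti hX))).le.trans bot_le

theorem ty (h : Bk p E) :
    (IsQuasisimple (E ⧸ pCore p E) ∧ ∃ e ∈ E, e ∉ pCoreOf p E ∧ ∃ k, e ^ p ^ k ∈ pCoreOf p E) ∨
      Sm p E (WW p E) := h.W_eq ▸ blk_type h.blk.choose_spec

theorem ex (h : Bk p E) : pCoreOf p E = WW p E ∨ Exc p E := by
  refine (blk_exc (charPIn_top.1 h.ch) h.blk.choose_spec).imp_left fun e => ?_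
  rw [← h.W_eq, ← e]
  exact h.blk.choose_spec.2.2.1.symm

theorem cj' (h : Bk p E) (g : G) : Bk p (cj g E) := by
  obtain ⟨T, hT⟩ := h.blk
  refine ⟨h.ch, ⟨g • T, ?_⟩, by simpa [cj_top] using h.sn.cj g⟩
  rw [Sylow.coe_subgroup_smul, cj_smul]
  exact blk_cj g hT

end Bk

/-- A `p`-element commuting with an irreducible action acts trivially. -/
theorem pel {U U₀ : Subgroup G} {f : G} (hU : U ≤ pCore p G) (h0 : U₀ ≤ U)
    (irr : ∀ X ≤ U, E ≤ NN(X) → X ≤ U₀ ∨ U ≤ X ⊔ U₀) (hne : ¬ U ≤ U₀) (hE : E ≤ NN(U))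
    (hf : ∃ k, f ^ p ^ k ∈ pCore p G) (f1 : zpowers f ⊔ pCore p G ≤ NN(U))
    (f0 : zpowers f ⊔ pCore p G ≤ NN(U₀)) (hc : ⁅E, zpowers f⁆ ≤ pCore p G) :
    ⁅U, zpowers f⁆ ≤ U₀ := by
  have hP : IsPGroup p (zpowers f ⊔ pCore p G : Subgroup G) := by
    rw [isPGroup_iff_mem]
    intro x hx
    obtain ⟨a, ⟨i, rfl⟩, b, hb, rfl⟩ := (mem_sup_of_NN (le_NN_of_normal _ _)).1 hx
    obtain ⟨k, hk⟩ := hf
    have : (f ^ i * b) ^ p ^ k ∈ pCore p G := by
      rw [← QuotientGroup.eq_one_iff] at hk hb ⊢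
      simp only [QuotientGroup.mk_pow, QuotientGroup.mk_mul, QuotientGroup.mk_zpow] at hk ⊢
      rw [hb, mul_one, ← zpow_natCast, ← zpow_mul, mul_comm, zpow_mul, zpow_natCast, hk, one_zpow]
    obtain ⟨j, hj⟩ := isPGroup_iff_mem.1 H10.isPGroup_pCore' _ this
    exact ⟨k + j, by rw [pow_add, pow_mul, hj]⟩
  have hEP : E ≤ NN(zpowers f ⊔ pCore p G) := le_NN_of_comm_le_right
    (comm_sup_le' (le_sup_left.trans (le_NN_self _)) (le_sup_right.trans (le_NN_self _))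
      (hc.trans le_sup_right) ((comm_le_right (le_NN_of_normal _ _)).trans le_sup_right))
  rcases irr _ (comm_le_left f1) (le_NN_commutator hE hEP) with h | h
  · exact (commutator_mono le_rfl le_sup_left).trans h
  · exact absurd (le_of_le_sup_comm_pgroup hP (hU.trans le_sup_right)
      ((h0.trans hU).trans le_sup_right) le_rfl f0 (h.trans (sup_comm _ _).le)) hne

theorem tri (hE : Bk p E) (hF : Bk p F) (n1 : F ≤ NN(E)) (n2 : E ≤ NN(F)) :
    WW p E = WW p F ∨ F ≤ CC(WW p E) ∨ E ≤ CC(WW p F) := by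
  have k : ∀ {A B : Subgroup G}, Bk p B → B ≤ NN(A) → WW p A ⊓ WW p B ≤ CC(B) →
      B ≤ CC(WW p A) := fun {A B} hB n h => by
    have h1 : ⁅WW p A, B⁆ ≤ WW p A ⊓ WW p B :=
      le_inf (comm_le_left (WW_NN n)) (commutator_mono (WW_le _) le_rfl)
    exact le_CC_symm (quad hB.res (H10.isPGroup_pCore'.to_le
      (h1.trans (inf_le_left.trans (WW_Q _)))) (h1.trans h))
  rcases hE.irr (X := WW p F ⊓ WW p E) inf_le_right
    (le_NN_inf (WW_NN n2) (WW_NN (le_NN_self _))) with h | h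
  · exact Or.inr (Or.inr (k hE n2 h))
  rcases hF.irr (X := WW p E ⊓ WW p F) inf_le_right
    (le_NN_inf (WW_NN n1) (WW_NN (le_NN_self _))) with h' | h'
  · exact Or.inr (Or.inl (k hF n1 h'))
  exact Or.inl (le_antisymm (h.trans inf_le_left) (h'.trans inf_le_left))

theorem caseY_comm (hE : Bk p E) (hF : Bk p F) (n2 : E ≤ NN(F)) (hW : WW p E = WW p F)
    (hc : ⁅F, E⁆ ≤ pCore p G) {e : G} (he : e ∈ E) (hk : ∃ k, e ^ p ^ k ∈ pCoreOf p E) :
    e ∈ pCoreOf p E := by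
  have hz : zpowers e ≤ E := zpowers_le.2 he
  have h1 : WW p F ⊓ CC(F) ≤ CC(E) :=
    (hE.irr (inf_le_left.trans hW.ge) (le_NN_inf (WW_NN n2) (le_NN_CC n2))).resolve_right
      fun h => hF.W_nc (hW.ge.trans (h.trans inf_le_right))
  have h2 : zpowers e ⊔ pCore p G ≤ NN(F) := sup_le (hz.trans n2) hF.QN
  have := pel (E := F) (U := WW p F) (U₀ := WW p F ⊓ CC(F)) (WW_Q _) inf_le_left
    (fun X hX hn => (hF.irr hX hn).imp (le_inf hX) fun h => h.trans le_sup_left)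
    (fun h => hF.W_nc (h.trans inf_le_right)) (WW_NN (le_NN_self _))
    (hk.imp fun k h => hE.cQ h) (WW_NN h2) (le_NN_inf (WW_NN h2) (le_NN_CC h2))
    ((commutator_mono le_rfl hz).trans hc)
  exact hE.faith hz (hW ▸ this.trans h1) (mem_zpowers e)

end H16.BB
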