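import Cfsg.Agent.H16.BB3

set_option autoImplicit false
set_option linter.unusedSectionVars false
open Cfsg Subgroup H10 H12
open scoped commutatorElement

namespace H16.BB

variable {G : Type*} [Group G] [Finite G] {p : ℕ} [hp : Fact p.Prime] {E F R W : Subgroup G}

theorem W0_NN {X : Subgroup G} (h : X ≤ NN(E)) : X ≤ NN(W0 p E) := le_NN_ZO (le_NN_pCoreOf' h)

theorem ZZ_NN {X : Subgroup G} (h : X ≤ NN(E)) : X ≤ NN(ZZ p E) :=
  le_NN_inf (W0_NN h) (le_NN_CC h)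

theorem cE_NN : pCoreOf p E ≤ NN(E) := (pCoreOf_le _).trans (le_NN_self _)

theorem comm_le_J {A J C : Subgroup G} (h : A ≤ J ⊔ C) (hJ : J ≤ A) (hC : C ≤ CC(A)) :
    ⁅A, A⁆ ≤ ⁅J, J⁆ := by
  have hJA : ⁅J, J⁆ ≤ A := comm_le_of_le hJ hJ
  have c1 : C ≤ NN(⁅J, J⁆) := (hC.trans (CC_anti hJA)).trans (CC_le_NN _)
  have a : ⁅J, A⁆ ≤ ⁅J, J⁆ := (commutator_mono le_rfl h).trans (comm_sup_le' (left_le_NN_comm _ _)
    c1 le_rfl ((comm_eq_bot'.2 (hC.trans (CC_anti hJ))).le.trans bot_le))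
  exact (commutator_mono h le_rfl).trans (comm_sup_le (left_le_NN_comm _ _) c1 a
    ((comm_eq_bot.2 hC).le.trans bot_le))

theorem triv_U (hE : Bk p E) (hW : R ≤ CC(WW p E))
    (h : pCoreOf p E = WW p E ∨ (Exc p E ∧ ⁅pCoreOf p E, R⁆ ≤ W0 p E)) :
    resOf p R ≤ CC(pCoreOf p E) := by
  rcases h with h | ⟨x, h⟩
  · rw [h]; exact (resOf_le _).trans hW
  have h1 : ⁅⁅pCoreOf p E, R⁆, pCoreOf p E⁆ = ⊥ := comm_eq_bot.2 (h.trans (ZO_le_CC _))
  have h2 : ⁅⁅pCoreOf p E, pCoreOf p E⁆, R⁆ ≤ ⊥ :=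
    three_subgroups (le_NN_of_normal _ _) (le_NN_of_normal _ _) (le_NN_of_normal _ _) h1.le
      (by rw [commutator_comm R]; exact h1.le)
  rw [x.comm] at h2
  have h3 : W0 p E ≤ CC(R) :=
    hE.W0_le.trans (sup_le (le_CC_symm hW) (comm_eq_bot.1 (le_bot_iff.1 h2)))
  exact resOf_le_CC_of_quadratic ((isPGroup_ZO _).to_le h) (comm_eq_bot.2 (h.trans h3))

theorem twin (hE : Bk p E) (hF : Bk p F) (n1 : F ≤ NN(E)) (n2 : E ≤ NN(F)) (x : Exc p E)
    (h : ¬ ⁅pCoreOf p E, F⁆ ≤ W0 p E) : Exc p F ∧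
      pCoreOf p E ≤ (pCoreOf p E ⊓ pCoreOf p F) ⊔ W0 p E ∧
      pCoreOf p F ≤ (pCoreOf p E ⊓ pCoreOf p F) ⊔ W0 p F ∧ ZZ p E = ZZ p F := by
  have d1 : ⁅pCoreOf p E, F⁆ ≤ pCoreOf p E := comm_le_left (le_NN_pCoreOf' n1)
  have d2 : ⁅pCoreOf p E, F⁆ ≤ pCoreOf p F := (commutator_mono hE.cQ le_rfl).trans hF.QE
  have a1 : pCoreOf p E ≤ (pCoreOf p E ⊓ pCoreOf p F) ⊔ W0 p E :=
    ((x.irr _ d1 (le_NN_commutator (le_NN_pCoreOf _) n2)).resolve_left h).trans
      (sup_le_sup_right (le_inf d1 d2) _)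
  have a2 := comm_le_J a1 inf_le_left (ZO_le_CC _)
  have a3 : ¬ pCoreOf p E ⊓ pCoreOf p F ≤ W0 p F := fun hh => x.ne (le_bot_iff.1 (a2.trans
    (comm_eq_bot.2 (hh.trans ((ZO_le_CC _).trans (CC_anti inf_le_right)))).le))
  have y : Exc p F := hF.ex.resolve_left fun e =>
    a3 (inf_le_right.trans (e.le.trans hF.W_le))
  have a4 := (y.irr _ inf_le_right
    (le_NN_inf (le_NN_pCoreOf' n1) (le_NN_pCoreOf _))).resolve_left a3
  refine ⟨y, a1, a4, ?_⟩
  rw [← x.comm, ← y.comm]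
  exact le_antisymm (a2.trans (commutator_mono inf_le_right inf_le_right))
    ((comm_le_J a4 inf_le_right (ZO_le_CC _)).trans (commutator_mono inf_le_left inf_le_left))

theorem Exc.nle (x : Exc p E) : ¬ pCoreOf p E ≤ W0 p E := fun h =>
  x.ne (comm_eq_bot.2 (h.trans (ZO_le_CC _)))

theorem exists_inv (hE : Bk p E) (x : Exc p E) (n : R ≤ NN(E)) (hc : ⁅E, R⁆ ≤ pCore p G)
    (h2 : ∀ r ∈ R, ∃ k, r ^ 2 ^ k ∈ pCore p G) (h : ¬ ⁅pCoreOf p E, R⁆ ≤ W0 p E) :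
    ∃ r ∈ R, ∀ a ∈ pCoreOf p E, r * a * r⁻¹ * a ∈ W0 p E := by
  classical
  have hQ : pCore p G ≤ stabMod (pCoreOf p E) (W0 p E) := by
    refine le_stabMod.2 ⟨W0_NN hE.QN, ?_⟩
    rw [commutator_comm]
    refine (x.irr _ (comm_le_left (le_NN_pCoreOf' hE.QN)) (le_NN_commutator (le_NN_pCoreOf _)
      (le_NN_of_normal _ _))).resolve_right fun hh => x.nle ?_
    exact le_of_le_sup_comm_pgroup H10.isPGroup_pCore' hE.cQ ((ZO_le _).trans hE.cQ) le_rfl
      (W0_NN hE.QN) (hh.trans (sup_comm _ _).le)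
  have h1 : ¬ R ≤ stabMod (pCoreOf p E) (W0 p E) := fun hh =>
    h (by rw [commutator_comm]; exact (le_stabMod.1 hh).2)
  obtain ⟨r₀, hr₀, hn⟩ := SetLike.not_le_iff_exists.1 h1
  have ex : ∃ k, r₀ ^ 2 ^ k ∈ stabMod (pCoreOf p E) (W0 p E) := (h2 r₀ hr₀).imp fun k h => hQ h
  obtain ⟨k, hk⟩ : ∃ k, Nat.find ex = k + 1 := Nat.exists_eq_succ_of_ne_zero fun h0 => by
    have := Nat.find_spec ex
    rw [h0] at this
    exact hn (by simpa using this)
  set r := r₀ ^ 2 ^ k with hr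
  have r1 : r ∈ R := pow_mem hr₀ _
  have r2 : r ∉ stabMod (pCoreOf p E) (W0 p E) := Nat.find_min ex (by omega)
  have r3 : r * r ∈ stabMod (pCoreOf p E) (W0 p E) := by
    have := Nat.find_spec ex
    rwa [hk, pow_succ, pow_mul, _root_.sq] at this
  have hz : zpowers r ≤ R := zpowers_le.2 r1
  set D := pCoreOf p E ⊓ stabMod (zpowers r) (W0 p E) with hD
  have d1 : ⁅D, zpowers r⁆ ≤ W0 p E := (le_stabMod.1 inf_le_right).2
  have d2 : E ≤ NN(D) := by
    refine le_NN_of_comm_le_left (le_inf ((commutator_mono inf_le_left le_rfl).trans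
      (comm_le_left (le_NN_pCoreOf _))) (le_stabMod.2 ⟨W0_NN ((comm_le_of_le
        (inf_le_left.trans (pCoreOf_le _)) le_rfl).trans (le_NN_self _)), ?_⟩))
    refine three_subgroups (W0_NN (inf_le_left.trans cE_NN)) (W0_NN (le_NN_self _))
      (W0_NN (hz.trans n)) ((commutator_mono (((commutator_mono le_rfl hz).trans hc).trans hQ)
        inf_le_left).trans (le_stabMod.1 le_rfl).2) ?_
    rw [commutator_comm (zpowers r)]
    exact (commutator_mono d1 le_rfl).trans (comm_le_left (W0_NN (le_NN_self _)))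
  have d3 : D ≤ W0 p E := (x.irr D inf_le_left d2).resolve_right fun hh => r2 <| by
    refine (le_stabMod.2 ⟨W0_NN (hz.trans n), ?_⟩ : zpowers r ≤ _) (mem_zpowers r)
    rw [commutator_comm]
    exact (commutator_mono hh le_rfl).trans (comm_sup_le (W0_NN (inf_le_left.trans cE_NN))
      (le_NN_self _) d1 (comm_le_left (W0_NN (hz.trans n))))
  refine ⟨r, r1, fun a ha => d3 ?_⟩
  have ha' : r * a * r⁻¹ ∈ pCoreOf p E := conj_mem_of_mem_NN (le_NN_pCoreOf' n r1) ha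
  have hs : zpowers (r * a * r⁻¹ * a) ≤ pCoreOf p E := zpowers_le.2 (mul_mem ha' ha)
  refine ⟨mul_mem ha' ha, (le_stabMod.2 ⟨W0_NN (hs.trans cE_NN), ?_⟩ :
    zpowers _ ≤ _) (mem_zpowers _)⟩
  refine H4.commutator_zpowers_zpowers_le (W0_NN (hs.trans cE_NN) (mem_zpowers _)) (W0_NN n r1) ?_
  have e1 : ⁅r * r, a⁆ ∈ W0 p E := r3.2 a ha
  have e2 : ⁅a, r * a * r⁻¹⁆ ∈ W0 p E := (x.comm.le (commutator_mem_commutator ha ha')).1
  convert inv_mem (mul_mem e1 e2) using 1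
  simp only [commutatorElement_def]; group

theorem Bk.cen (h : Bk p E) : pCoreOf p E ⊓ CC(E) ≤ W0 p E :=
  blk_ab_le h.blk.choose_spec inf_le_left (le_NN_inf (le_NN_pCoreOf _) (le_NN_CC (le_NN_self _)))
    (inf_le_right.trans (CC_anti (inf_le_left.trans (pCoreOf_le _))))

theorem Bk.cle (hE : Bk p E) (n : R ≤ NN(E)) (hW : R ≤ CC(WW p E)) : ⁅E, R⁆ ≤ pCoreOf p E :=
  hE.faith (comm_le_left n) ((comm_eq_bot'.2 ((commutator_mono le_rfl hW).trans
    (comm_le_right (le_NN_CC (WW_NN (le_NN_self _)))))).le.trans bot_le)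

theorem caseX (hE : Bk p E) (hF : Bk p F) (n1 : F ≤ NN(E)) (n2 : E ≤ NN(F))
    (hW : F ≤ CC(WW p E)) : ⁅E, F⁆ = ⊥ := by
  have hD := hE.cle n1 hW
  have h : pCoreOf p E = WW p E ∨ (Exc p E ∧ ⁅pCoreOf p E, F⁆ ≤ W0 p E) := by
    refine hE.ex.imp_right fun x => ⟨x, by_contra fun h => ?_⟩
    obtain ⟨y, a1, a2, e⟩ := twin hE hF n1 n2 x h
    have b1 : W0 p E ≤ CC(F) :=
      hE.W0_le.trans (sup_le (le_CC_symm hW) (e.le.trans inf_le_right))
    have b2 : ⁅WW p F, E⁆ ≤ ZZ p F := le_inf ((comm_le_left (WW_NN n2)).trans hF.W_le)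
      ((commutator_mono (WW_le _) le_rfl).trans (le_CC_symm hW))
    have b3 : W0 p F ≤ CC(E) := hF.W0_le.trans (sup_le (quad hE.res ((isPGroup_ZO _).to_le
      (b2.trans inf_le_left)) (b2.trans (e.ge.trans inf_le_right))) (e.ge.trans inf_le_right))
    obtain ⟨t, ht, ti⟩ := y.tinv
    have tn := le_NN_pCoreOf' (p := p) n1 ht
    refine x.nos t tn (fun w hw => ?_) fun a ha => ?_
    · rw [mem_CC.1 (b1 hw) t ht]; simp
    · obtain ⟨j, hj, c, hc, rfl⟩ := (mem_sup_of_NN (W0_NN (inf_le_left.trans cE_NN))).1 (a1 ha)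
      have c1 : t * j * t⁻¹ * j ∈ W0 p E :=
        hE.cen ⟨mul_mem (conj_mem_of_mem_NN tn hj.1) hj.1, b3 (ti j hj.2)⟩
      have c2 : t⁻¹ * c = c * t⁻¹ := mem_CC.1 (b1 hc) _ (inv_mem ht)
      have c3 : j * c = c * j := mem_CC.1 (ZO_le_CC _ hc) _ hj.1
      convert mul_mem (mul_mem c1 hc) hc using 1
      calc t * (j * c) * t⁻¹ * (j * c) = t * j * (c * t⁻¹) * j * c := by group
        _ = t * j * t⁻¹ * (c * j) * c := by rw [← c2]; group
        _ = _ := by rw [← c3]; group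
  have h1 := triv_U hE hW h
  rw [hF.res] at h1
  exact comm_eq_bot.2 (quad hF.res ((isPGroup_pCoreOf E).to_le hD) (hD.trans (le_CC_symm h1)))

theorem qgrp {q : ℕ} {Q : Subgroup G} [Q.Normal] (h1 : ∀ e ∈ E, ∃ k, e ^ q ^ k ∈ Q)
    (h2 : ∀ e ∈ F, ∃ k, e ^ q ^ k ∈ Q) (n : F ≤ NN(E)) : ∀ e ∈ E ⊔ F, ∃ k, e ^ q ^ k ∈ Q := by
  have k : ∀ X : Subgroup G, (∀ e ∈ X, ∃ k, e ^ q ^ k ∈ Q) →
      IsPGroup q (X.map (QuotientGroup.mk' Q)) := fun X h => isPGroup_iff_mem.2 <| by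
    rintro _ ⟨e, he, rfl⟩
    exact (h e he).imp fun k hk => by rw [← map_pow]; exact (QuotientGroup.eq_one_iff _).2 hk
  have := isPGroup_sup_of_NN' (k E h1) (k F h2) (map_le_NN_map _ n)
  rw [← Subgroup.map_sup] at this
  intro e he
  obtain ⟨j, hj⟩ := isPGroup_iff_mem.1 this _ (mem_map_of_mem _ he)
  exact ⟨j, (QuotientGroup.eq_one_iff _).1 (by rwa [← map_pow] at hj)⟩

theorem Sm.p23 (s : Sm p E W) : p = 2 ∨ p = 3 := s.q.imp And.left And.left

theorem same_act (sE : Sm p E W) (sF : Sm p F W) (hW : ∀ w ∈ W, w ^ p = 1) (n : F ≤ NN(W))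
    {f : G} (hf : f ∈ F) : ∃ e ∈ E, e⁻¹ * f ∈ CC(W) := by
  have hne : W ≠ ⊥ := fun h => by
    have := sE.card
    rw [h, card_bot] at this
    exact (Nat.one_lt_pow two_ne_zero hp.out.one_lt).ne this
  obtain ⟨⟨w, hw⟩, hw1⟩ := (nontrivial_iff_exists_ne 1).1 ((nontrivial_iff_ne_bot W).2 hne)
  have w1 : w ≠ 1 := fun h => hw1 (Subtype.ext h)
  have ht := conj_mem_of_mem_NN (n hf) hw
  have t1 : f * w * f⁻¹ ≠ 1 := by simpa using w1
  obtain ⟨e, he, ew⟩ := sE.tr w hw _ ht w1 t1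
  refine ⟨e, he, ?_⟩
  suffices h : ∀ u ∈ W, e * u * e⁻¹ = f * u * f⁻¹ by
    refine mem_CC.2 fun u hu => ?_
    calc u * (e⁻¹ * f) = e⁻¹ * (e * u * e⁻¹) * f := by group
      _ = _ := by rw [h u hu]; group
  have wp := hW w hw
  have nr : ∀ g : G, g * (g * w * g⁻¹) * g⁻¹ = w⁻¹ * (g * w * g⁻¹) ^ 3 →
      g * w * g⁻¹ ≠ w ∧ g * w * g⁻¹ ≠ w⁻¹ := fun g h => ⟨fun k => by
      rw [k, k] at h
      exact w1 (by calc w = w⁻¹ * (w⁻¹ * w ^ 3) := by group
        _ = 1 := by rw [← h]; group), fun k => by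
      have k' : g * w⁻¹ * g⁻¹ = w := by
        calc g * w⁻¹ * g⁻¹ = (g * w * g⁻¹)⁻¹ := by group
          _ = w := by rw [k, inv_inv]
      rw [k, k'] at h
      have h5 : w ^ 5 = 1 := by
        calc w ^ 5 = (w⁻¹ * w⁻¹ ^ 3)⁻¹ * w := by group
          _ = 1 := by rw [← h]; group
      rcases sE.p23 with rfl | rfl
      · exact w1 (by calc w = w ^ 5 * ((w ^ 2) ^ 2)⁻¹ := by group
          _ = 1 := by rw [h5, wp]; group)
      · exact w1 (by calc w = (w ^ 3) ^ 2 * (w ^ 5)⁻¹ := by group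
          _ = 1 := by rw [h5, wp]; group)⟩
  have iv : w = w⁻¹ → ∀ u ∈ W, u = u⁻¹ := fun h u hu => by
    rcases sE.p23 with rfl | rfl
    · exact eq_inv_of_mul_eq_one_left (by rw [← _root_.sq]; exact hW u hu)
    · exact absurd (by calc w = w ^ 3 * (w⁻¹ * w⁻¹) := by group
        _ = 1 := by rw [wp]; nth_rewrite 1 [← h]; group) w1
  rcases sE.rel e he with a | a | a <;> rcases sF.rel f hf with b | b | b
  · exact fun u hu => (a u hu).trans (b u hu).symm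
  · exact fun u hu => (a u hu).trans ((iv ((a w hw).symm.trans (ew.trans (b w hw))) u hu).trans
      (b u hu).symm)
  · exact absurd (ew.symm.trans (a w hw)) (nr f (b w hw)).1
  · exact fun u hu => (a u hu).trans ((iv ((b w hw).symm.trans (ew.symm.trans (a w hw))) u
      hu).symm.trans (b u hu).symm)
  · exact fun u hu => (a u hu).trans (b u hu).symm
  · exact absurd (ew.symm.trans (a w hw)) (nr f (b w hw)).2
  · exact absurd (ew.trans (b w hw)) (nr e (a w hw)).1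
  · exact absurd (ew.trans (b w hw)) (nr e (a w hw)).2
  let C : Subgroup G := W ⊓ Subgroup.centralizer {f⁻¹ * e}
  have mC : ∀ u ∈ W, u ∈ C ↔ e * u * e⁻¹ = f * u * f⁻¹ := fun u hu => by
    simp only [C, mem_inf, hu, true_and, mem_centralizer_singleton_iff]
    constructor
    · intro h
      calc e * u * e⁻¹ = f * (f⁻¹ * e * u) * e⁻¹ := by group
        _ = _ := by rw [← h]; group
    · intro h
      calc u * (f⁻¹ * e) = f⁻¹ * (f * u * f⁻¹) * e := by group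
        _ = _ := by rw [← h]; group
  have c1 : zpowers w ≤ C := zpowers_le.2 ((mC w hw).2 ew)
  have c2 : f * w * f⁻¹ ∈ C := (mC _ ht).2 (by rw [b w hw, ← ew, a w hw])
  have o : orderOf w = p := orderOf_eq_prime wp w1
  have c3 : f * w * f⁻¹ ∉ zpowers w := fun h => by
    classical
    rw [mem_zpowers_iff_mem_range_orderOf, Finset.mem_image] at h
    obtain ⟨i, hi, h⟩ := h
    rw [o, Finset.mem_range] at hi
    have : i < 3 := by rcases sE.p23 with rfl | rfl <;> omega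
    interval_cases i
    · exact t1 (by simpa using h.symm)
    · exact (nr f (b w hw)).1 (by simpa using h.symm)
    · obtain rfl : p = 3 := by rcases sE.p23 with rfl | rfl <;> omega
      exact (nr f (b w hw)).2 (by rw [← h]; exact eq_inv_of_mul_eq_one_left (by rw [← wp]; group))
  have c4 : p < Nat.card C := by
    rw [← o, ← Nat.card_zpowers]
    exact lt_of_le_of_ne (card_le_of_le c1) fun h => c3 (eq_of_le_of_card_ge c1 h.ge ▸ c2)
  have c5 : Nat.card C ∣ p ^ 2 := sE.card ▸ card_dvd_of_le inf_le_left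
  obtain ⟨i, hi, h⟩ := (Nat.dvd_prime_pow hp.out).1 c5
  have c6 : C = W := eq_of_le_of_card_ge inf_le_left (by
    have : 1 < i := (Nat.pow_lt_pow_iff_right hp.out.one_lt).1 (by rw [pow_one, ← h]; exact c4)
    rw [sE.card, h]
    exact Nat.pow_le_pow_right hp.out.pos this)
  exact fun u hu => (mC u hu).1 (c6 ▸ hu)

theorem caseY (hE : Bk p E) (hF : Bk p F) (n1 : F ≤ NN(E)) (n2 : E ≤ NN(F))
    (sE : Sm p E (WW p E)) (sF : Sm p F (WW p F)) (hW : WW p E = WW p F) : E ≤ F := by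
  set R := (E ⊔ F) ⊓ CC(WW p E) with hR
  have k : ∀ {A B : Subgroup G}, Bk p A → Bk p B → B ≤ NN(A) → Sm p A (WW p A) →
      Sm p B (WW p B) → R ≤ A ⊔ B → R ≤ CC(WW p A) → resOf p R ≤ CC(pCoreOf p A) := by
    intro A B hA hB n sA sB h1 h2
    have n' : R ≤ NN(A) := h1.trans (sup_le (le_NN_self _) n)
    refine triv_U hA h2 (hA.ex.imp_right fun x => ⟨x, by_contra fun h => ?_⟩)
    have q : ∀ {X : Subgroup G}, Bk p X → Sm p X (WW p X) → ∀ e ∈ X, ∃ k, e ^ 2 ^ k ∈ pCore p G :=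
      fun hX sX e he => by
        rcases sX.q with ⟨h2, -⟩ | ⟨-, h3⟩
        · exact absurd (h2.symm.trans x.p3) (by decide)
        · exact (h3 e he).imp fun k h => hX.cQ h
    obtain ⟨r, hr, hi⟩ := exists_inv hA x n' ((hA.cle n' h2).trans hA.cQ)
      (fun r hr => qgrp (q hA sA) (q hB sB) n r (h1 hr)) h
    refine x.nos r (le_NN_pCoreOf' n' hr) (fun w hw => ?_) hi
    have : ⁅R, W0 p A⁆ ≤ ZZ p A := (commutator_mono le_rfl hA.W0_le).trans (comm_sup_le'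
      (ZZ_NN (hA.W_E.trans (le_NN_self _))) (le_NN_self _) ((comm_eq_bot.2 h2).le.trans bot_le)
      (comm_le_right (ZZ_NN n')))
    exact this (commutator_mem_commutator hr hw)
  have k1 := k hE hF n1 sE sF inf_le_left inf_le_right
  have k2 := k hF hE n2 sF sE (inf_le_left.trans (sup_comm _ _).le) (hW ▸ inf_le_right)
  have hU : pCoreOf p E ⊔ pCoreOf p F ≤ pCore p G := sup_le hE.cQ hF.cQ
  have l1 : E ⊔ F ≤ NN(pCoreOf p E ⊔ pCoreOf p F) := le_NN_sup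
    (le_NN_pCoreOf' (sup_le (le_NN_self _) n1)) (le_NN_pCoreOf' (sup_le n2 (le_NN_self _)))
  have k3 : resOf p R ≤ CC(pCore p G) := resOf_le_CC_of_step (H10.isPGroup_pCore'.to_le hU)
    ((commutator_mono le_rfl ((resOf_le _).trans inf_le_left)).trans (comm_sup_le'
      (le_sup_left.trans l1) (le_sup_right.trans l1) (hE.QE.trans le_sup_left)
      (hF.QE.trans le_sup_right))) (by rw [CC_sup]; exact le_inf k1 k2)
  have k4 : IsPGroup p R := isPGroup_of_resOf_isPGroup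
    (H10.isPGroup_pCore'.to_le (k3.trans (charPIn_top.1 hE.ch)))
  have k5 : E ≤ F ⊔ R := fun e he => by
    obtain ⟨f, hf, h⟩ := same_act (hW ▸ sF) sE (fun w hw => (mem_ZO.1 (WW_le _ hw)).2.2)
      (WW_NN (le_NN_self _)) he
    have : e = f * (f⁻¹ * e) := by group
    rw [this]
    exact mul_mem (mem_sup_left hf) (mem_sup_right
      ⟨mul_mem (mem_sup_right (inv_mem hf)) (mem_sup_left he), h⟩)
  calc E = resOf p E := hE.res.symm
    _ ≤ resOf p (F ⊔ R) := resOf_mono k5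
    _ ≤ F := resOf_sup_le k4 (inf_le_left.trans (sup_le n2 (le_NN_self _)))

theorem norm_small (hE : Bk p E) (hF : Bk p F) (sE : Sm p E (WW p E)) (sF : Sm p F (WW p F))
    (H : ∀ f ∈ F, E = cj f E ∨ ⁅E, cj f E⁆ = ⊥) : F ≤ NN(E) := by
  have cm : ∀ {a b : G}, a ∈ ZO p (pCore p G) → b ∈ ZO p (pCore p G) → a * b = b * a :=
    fun ha hb => mem_CC.1 (elab_le_CC (elab_ZO _) hb) _ ha
  have cv : ∀ (g : G) {a : G}, a ∈ ZO p (pCore p G) → g * a * g⁻¹ ∈ ZO p (pCore p G) :=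
    fun g a ha => conj_mem_of_mem_NN (vN ⊤ (mem_top g)) ha
  have inv : ∀ f ∈ F, f ∉ NN(E) → ∀ x ∈ WW p F, f * x * f⁻¹ = x⁻¹ := fun f hf hn => by
    have c := comm_eq_bot.1 ((H f hf).resolve_left fun h => hn (mem_NN.2 h.symm))
    have z : ∀ w ∈ WW p E, f * w * f⁻¹ ∈ CC(E) := fun w hw =>
      le_CC_symm c (conj_mem_cj (hE.W_E hw))
    have b : ∀ w ∈ WW p E, w ∈ CC(E) → w = 1 := fun w hw h =>
      mem_bot.1 (sE.bot ▸ (⟨hw, h⟩ : w ∈ WW p E ⊓ CC(E)))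
    let δ : WW p E → WW p F := fun w => ⟨(w : G)⁻¹ * (f * w * f⁻¹), by
      have := commutator_mem_commutator (inv_mem (WW_le _ w.2)) hf
      rwa [commutatorElement_def, inv_inv, mul_assoc, mul_assoc, ← mul_assoc f] at this⟩
    have inj : Function.Injective δ := fun u w h => by
      have h : (u : G)⁻¹ * (f * u * f⁻¹) = (w : G)⁻¹ * (f * w * f⁻¹) := congrArg Subtype.val h
      have e : (w : G) * (u : G)⁻¹ = f * (w * (u : G)⁻¹) * f⁻¹ := by
        calc (w : G) * (u : G)⁻¹ = w * ((u : G)⁻¹ * (f * u * f⁻¹)) * (f * u * f⁻¹)⁻¹ := by group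
          _ = _ := by rw [h]; group
      have := b _ (mul_mem w.2 (inv_mem u.2)) (e ▸ z _ (mul_mem w.2 (inv_mem u.2)))
      exact Subtype.ext (mul_inv_eq_one.1 this).symm
    have sur := (inj.bijective_of_nat_card_le (sF.card.trans sE.card.symm).le).2
    intro x hx
    obtain ⟨w, hw⟩ := sur ⟨x, hx⟩
    obtain ⟨u, hu⟩ := sur ⟨_, conj_mem_of_mem_NN (WW_NN (le_NN_self _) hf) hx⟩
    have hw : (w : G)⁻¹ * (f * w * f⁻¹) = x := congrArg Subtype.val hw
    have hu : (u : G)⁻¹ * (f * u * f⁻¹) = f * x * f⁻¹ := congrArg Subtype.val hu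
    have v1 := WW_le _ w.2
    have v2 := WW_le _ u.2
    have e1 : (w : G) * u = (f⁻¹ * u * f) * (f * w * f⁻¹) := by
      have := cm (cv f v1) v2
      calc (w : G) * u = f⁻¹ * (f * w * f⁻¹ * u) * ((u : G)⁻¹ * (f * u * f⁻¹)) * f := by group
        _ = _ := by rw [this, hu, ← hw]; group
    have e2 : f⁻¹ * u * f ∈ CC(E) := by
      rw [← mem_cj, cj_centralizer]
      exact c (hE.W_E u.2)
    have e3 : (w : G) * u = 1 := b _ (mul_mem w.2 u.2) (e1 ▸ mul_mem e2 (z _ w.2))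
    rw [← hu, ← hw, eq_inv_of_mul_eq_one_right e3, mul_inv_rev, inv_inv,
      cm (inv_mem (cv f v1)) v1]
    group
  by_contra hn
  obtain ⟨f₀, hf₀, hn⟩ := SetLike.not_le_iff_exists.1 hn
  have hne : WW p F ≠ ⊥ := fun h => hF.W_nc (h.le.trans bot_le)
  obtain ⟨⟨w, hw⟩, hw1⟩ := (nontrivial_iff_exists_ne 1).1 ((nontrivial_iff_ne_bot _).2 hne)
  have w1 : w ≠ 1 := fun h => hw1 (Subtype.ext h)
  have k : ∀ f ∈ F, f ∉ NN(E) → f ∈ NN(zpowers w) := fun f hf h =>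
    mem_NN_of_conj_mem fun x hx => by
      rw [inv f hf h x (zpowers_le.2 hw hx)]; exact inv_mem hx
  have k2 : F ≤ NN(zpowers w) := fun f hf => by
    by_cases h : f ∈ NN(E)
    · have := mul_mem (k _ (mul_mem hf hf₀) fun h' => hn ((mul_mem_cancel_left h).1 h'))
        (inv_mem (k _ hf₀ hn))
      rwa [mul_inv_cancel_right] at this
    · exact k f hf h
  rcases hF.irr (zpowers_le.2 hw) k2 with h | h
  · exact w1 (mem_bot.1 (sF.bot ▸ (⟨hw, h (mem_zpowers w)⟩ : w ∈ WW p F ⊓ CC(F))))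
  · have := card_le_of_le h
    rw [sF.card, Nat.card_zpowers, orderOf_eq_prime (mem_ZO.1 (WW_le _ hw)).2.2 w1] at this
    have := hp.out.one_lt
    nlinarith

end H16.BB
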