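import Cfsg.Agent.H16.BB4
import Cfsg.Agent.S1261

set_option autoImplicit false
set_option linter.unusedSectionVars false
open Cfsg Subgroup H10 H12

namespace H16.BB

variable {G : Type*} [Group G] [Finite G] {p : ℕ} [hp : Fact p.Prime] {E F : Subgroup G}

theorem qs_cases (hE : Bk p E) (hF : Bk p F) (q : IsQuasisimple (E ⧸ pCore p E)) :
    E ≤ F ∨ ⁅E, F⁆ ≤ pCore p G := by
  have sn : ∀ {X : Subgroup G}, Bk p X → (X.map (QuotientGroup.mk' (pCore p G))).IsSubnormal :=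
    fun hX => subnIn_top.1 (by
      have := hX.sn.map (QuotientGroup.mk' (pCore p G))
      rwa [map_top_of_surjective _ (QuotientGroup.mk'_surjective _)] at this)
  let φ := (QuotientGroup.mk' (pCore p G)).comp E.subtype
  have hk : pCore p E = φ.ker := by
    ext x
    rw [← pCoreOf_subgroupOf, hE.core, mem_subgroupOf, MonoidHom.mem_ker]
    simp [φ]
  have hr : φ.range = E.map (QuotientGroup.mk' (pCore p G)) := by
    rw [MonoidHom.range_comp, range_subtype]
  have q' := H5.qs_of_equiv q (((QuotientGroup.quotientMulEquivOfEq hk).trans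
    (QuotientGroup.quotientKerEquivRange φ)).trans (MulEquiv.subgroupCongr hr))
  refine (Cfsg.Agent.S1261.result _ _ ⟨sn hE, q'⟩ (sn hF)).imp (fun h => ?_) fun h => ?_
  · rw [map_le_iff_le_comap, comap_map_eq, QuotientGroup.ker_mk'] at h
    exact hE.res.ge.trans ((resOf_mono h).trans hF.resQ.le)
  · rwa [← Subgroup.map_commutator, Subgroup.map_eq_bot_iff, QuotientGroup.ker_mk'] at h

theorem Bk.nn (hE : Bk p E) (h : ⁅E, F⁆ ≤ pCore p G) : F ≤ NN(E) := by
  rw [← hE.resQ]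
  exact le_NN_resOf' (le_NN_of_comm_le_left (comm_sup_le (le_sup_left.trans (le_NN_self _))
    (le_sup_right.trans (le_NN_self _)) (h.trans le_sup_right)
    ((comm_le_left (le_NN_of_normal _ _)).trans le_sup_right)))

theorem comm_case (hE : Bk p E) (hF : Bk p F) (h : ⁅E, F⁆ ≤ pCore p G)
    (k : ∃ e ∈ E, e ∉ pCoreOf p E ∧ ∃ k, e ^ p ^ k ∈ pCoreOf p E) : ⁅E, F⁆ = ⊥ := by
  have h' : ⁅F, E⁆ ≤ pCore p G := commutator_comm E F ▸ h
  have n1 := hE.nn h
  have n2 := hF.nn h'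
  obtain ⟨e, he, hn, hk⟩ := k
  rcases tri hE hF n1 n2 with a | a | a
  · exact absurd (caseY_comm hE hF n2 a h' he hk) hn
  · exact caseX hE hF n1 n2 a
  · rw [commutator_comm]; exact caseX hF hE n2 n1 a

theorem qs_case (hE : Bk p E) (hF : Bk p F) (q : IsQuasisimple (E ⧸ pCore p E))
    (k : ∃ e ∈ E, e ∉ pCoreOf p E ∧ ∃ k, e ^ p ^ k ∈ pCoreOf p E) : E = F ∨ ⁅E, F⁆ = ⊥ := by
  rcases qs_cases hE hF q with a | a
  swap
  · exact Or.inr (comm_case hE hF a k)
  rcases hF.ty with ⟨q', -⟩ | s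
  · exact (qs_cases hF hE q').imp (le_antisymm a) fun b =>
      comm_case hE hF (commutator_comm F E ▸ b) k
  obtain ⟨e, he, hn, j, hj⟩ := k
  refine absurd (hE.core ▸ (⟨?_, he⟩ : e ∈ pCore p G ⊓ E)) hn
  have key : ∀ q : ℕ, q.Coprime p → (∃ i, e ^ q ^ i ∈ pCoreOf p F) → e ∈ pCore p G := by
    rintro q hq ⟨i, hi⟩
    have h1 := (QuotientGroup.eq_one_iff _).2 (hF.cQ hi)
    have h2 := (QuotientGroup.eq_one_iff _).2 (hE.cQ hj)
    rw [QuotientGroup.mk_pow, ← orderOf_dvd_iff_pow_eq_one] at h1 h2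
    rw [← QuotientGroup.eq_one_iff, ← orderOf_eq_one_iff]
    exact Nat.eq_one_of_dvd_coprimes (Nat.Coprime.pow i j hq) h1 h2
  rcases s.q with ⟨rfl, h⟩ | ⟨rfl, h⟩
  · exact key 3 (by decide) (h e (a he))
  · exact key 2 (by decide) (h e (a he))

theorem main (n : ℕ) : ∀ E F : Subgroup G, Nat.card (E ⊔ F : Subgroup G) = n → Bk p E → Bk p F →
    E = F ∨ ⁅E, F⁆ = ⊥ := by
  induction n using Nat.strong_induction_on with
  | _ n ih =>
  intro E F hn hE hF
  rcases hE.ty with ⟨q, k⟩ | sE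
  · exact qs_case hE hF q k
  rcases hF.ty with ⟨q, k⟩ | sF
  · rw [commutator_comm]; exact (qs_case hF hE q k).imp_left Eq.symm
  have k : ∀ {A B : Subgroup G}, Nat.card (A ⊔ B : Subgroup G) = n → Bk p A → Bk p B →
      Sm p A (WW p A) → Sm p B (WW p B) → B ≤ NN(A) := fun {A B} hn hA hB sA sB => by
    by_cases h : A = A ⊔ B
    · exact (le_sup_right.trans h.ge).trans (le_NN_self _)
    obtain ⟨N, h1, h2, h3⟩ := (hA.sn.of_le le_sup_left le_top).exists_normal h
    refine norm_small hA hB sA sB fun f hf => ih _ ?_ _ _ rfl hA (hA.cj' f)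
    have h4 : A ⊔ cj f A ≤ N := sup_le h1 (cj_le_of_mem_NN (h3 (mem_sup_right hf)) h1)
    rw [← hn]
    exact (card_le_of_le h4).trans_lt (lt_of_le_of_ne (card_le_of_le h2.le)
      fun e => h2.ne (eq_of_le_of_card_ge h2.le e.ge))
  have n1 := k hn hE hF sE sF
  have n2 := k (sup_comm E F ▸ hn) hF hE sF sE
  rcases tri hE hF n1 n2 with a | a | a
  · exact Or.inl (le_antisymm (caseY hE hF n1 n2 sE sF a) (caseY hF hE n2 n1 sF sE a.symm))
  · exact Or.inr (caseX hE hF n1 n2 a)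
  · right; rw [commutator_comm]; exact caseX hF hE n2 n1 a

end H16.BB
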