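import Cfsg.Agent.H16.CV1
import Cfsg.Prelude.Def_G2

/-! Symplectic groups and `G₂` in characteristic two are covered by two classes of subgroups. -/

set_option autoImplicit false
set_option linter.unusedSectionVars false
set_option linter.unusedSimpArgs false
set_option linter.unusedVariables false

namespace H16.CV

open Module H23 H23.Form H14.Wall Cfsg.Lie

universe u
variable {F : Type u} {V : Type*} [Field F] [AddCommGroup V] [Module F V]

theorem two_classes [Finite F] (h2 : (2 : F) = 0) :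
    ∃ c : F, (∀ s, s ^ 2 + s ≠ c) ∧ ∀ a, (∃ s, s ^ 2 + s = a) ∨ ∃ s, s ^ 2 + s = a + c := by
  let φ : F →+ F := AddMonoidHom.mk' (fun s => s ^ 2 + s) fun a b => by
    linear_combination a * b * h2
  have h1 : φ.range.index = 2 := by
    rw [AddSubgroup.index_range, Nat.card_eq_two_iff' (0 : φ.ker)]
    refine ⟨⟨1, show (1 : F) ^ 2 + 1 = 0 by linear_combination h2⟩, by simp [Subtype.ext_iff],
      fun ⟨s, hs⟩ h0 => Subtype.ext (mul_left_cancel₀ (fun e => h0 (Subtype.ext e)) ?_)⟩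
    have : s ^ 2 + s = 0 := hs
    linear_combination this - s * h2
  obtain ⟨c, hc⟩ : ∃ c, c ∉ φ.range := by
    by_contra h
    push Not at h
    rw [(AddSubgroup.eq_top_iff' _).2 h] at h1; simp at h1
  refine ⟨c, fun s hs => hc ⟨s, hs⟩, fun a => ?_⟩
  by_cases ha : a ∈ φ.range
  · exact Or.inl ha
  · exact Or.inr ((AddSubgroup.add_mem_iff_of_index_two h1).2 (iff_of_false ha hc))

/-- maps preserving a function -/
def pq (Q : V → F) : Submonoid (End F V) where
  carrier := {f | ∀ x, Q (f x) = Q x}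
  mul_mem' ha hb x := (ha _).trans (hb x)
  one_mem' _ := rfl

section sp
variable [FiniteDimensional F V] {Φ : Form (RingHom.id F) V} (hΦ : Φ.Nondeg) (hε : Φ.ε = -1)
  (hκ : Φ.κ = 0) (h2 : (2 : F) = 0) {Q : V → F} (hQ : ∀ x y, Q (x + y) = Q x + Q y + Φ.B x y)
  (hQ' : ∀ (c : F) x, Q (c • x) = c ^ 2 * Q x)
include hΦ hε hκ h2 hQ hQ'

theorem fm_quad (c : F) {a b : V} (ha : a ≠ 0) (hb : b ≠ 0) (hab : a + b ≠ 0) (h0 : Φ.B a b = 0) :
    Fm (Pres Φ) fun M => ∃ v, (∃ s, s ^ 2 + s = Q v + c) ∧ M = pq fun x => Q x + Φ.B v x ^ 2 := by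
  have sy : ∀ x y, Φ.B x y = Φ.B y x := fun x y => by
    rw [Φ.symm x y, hε]; simp only [RingHom.id_apply]; linear_combination Φ.B x y * h2
  have T : ∀ (u : V) (k : F), ∃ g, Pres Φ g ∧ ∀ v x, Q (g x) + Φ.B v (g x) ^ 2 =
      Q x + Φ.B v x ^ 2 + Φ.B u x ^ 2 * (k + k ^ 2 * (Q u + Φ.B v u ^ 2)) := fun u k => by
    obtain ⟨g, hg, -, e⟩ := hΦ.exists_qrefl hκ (d := u) (c := k) (by simp [hε, B_self_alt hε])
    refine ⟨_, pres_O ⟨g, hg⟩, fun v x => ?_⟩
    simp only [LinearEquiv.coe_coe, e, hQ, hQ', map_add, map_smul, smul_eq_mul, sy x u]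
    linear_combination (Φ.B v x * k * Φ.B u x * Φ.B v u) * h2
  refine ⟨?_, ?_⟩
  · rintro _ ⟨v, -, rfl⟩
    obtain ⟨u, hu, h1⟩ : ∃ u, u ≠ 0 ∧ Q u + Φ.B v u ^ 2 ≠ 1 := by
      by_contra hc
      push Not at hc
      have := hc _ hab
      rw [hQ, map_add] at this
      refine one_ne_zero (α := F) ?_
      linear_combination hc a ha + hc b hb - this + h0 + (Φ.B v a * Φ.B v b + 1) * h2
    obtain ⟨x, hx⟩ := hΦ.exists_ne hu
    obtain ⟨g, hg, e⟩ := T u 1
    refine ⟨g, hg, fun h => h1 ?_⟩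
    have := h x
    simp only [e, hx] at this
    linear_combination this - h2
  · rintro _ _ ⟨v, ⟨s, hs⟩, rfl⟩ ⟨v', ⟨s', hs'⟩, rfl⟩
    obtain ⟨k, hk⟩ : ∃ k, k + k ^ 2 * (Q (v + v') + Φ.B v' (v + v') ^ 2) = 1 := by
      have h3 : Q (v + v') + Φ.B v' (v + v') ^ 2 =
          (s + s' + Φ.B v v') ^ 2 + (s + s' + Φ.B v v') := by
        rw [hQ, map_add, B_self_alt hε, sy v' v]
        linear_combination -hs - hs' - (c + s * s' + (s + s') * Φ.B v v') * h2
      rw [h3]
      generalize s + s' + Φ.B v v' = t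
      by_cases h : t ^ 2 + t = 0
      · exact ⟨1, by simp [h]⟩
      · exact ⟨t / (t ^ 2 + t), by
          generalize hT : t ^ 2 + t = T at h; field_simp; linear_combination hT⟩
    obtain ⟨g, hg, e⟩ := T (v + v') k
    have e' : ∀ x, Q (g x) + Φ.B v' (g x) ^ 2 = Q x + Φ.B v x ^ 2 := fun x => by
      rw [e, hk, map_add, LinearMap.add_apply]
      linear_combination (Φ.B v' x ^ 2 + Φ.B v x * Φ.B v' x) * h2
    refine ⟨g, hg, fun f hf f' h x => ?_⟩
    obtain ⟨x, rfl⟩ := hg.surj hΦ x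
    have := LinearMap.congr_fun h x
    simp only [Module.End.mul_apply] at this
    rw [this]; exact (e' _).trans ((hf x).trans (e' x).symm)

theorem dye [Finite F] {g : End F V} (hg : Pres Φ g) :
    ∃ v, g ∈ pq fun x => Q x + Φ.B v x ^ 2 := by
  have inj : ∀ a b : F, a ^ 2 = b ^ 2 → a = b := fun a b h =>
    sub_eq_zero.1 (pow_eq_zero_iff two_ne_zero |>.1 (by linear_combination h + (b ^ 2 - a * b) * h2))
  choose r hr using fun x => (Finite.injective_iff_surjective (f := fun a : F => a ^ 2)).1 inj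
    (Q (g x) - Q x)
  replace hr : ∀ x, r x ^ 2 = Q (g x) - Q x := hr
  obtain ⟨w, hw⟩ := hΦ.exists_repr
    { toFun := r
      map_add' := fun x y => inj _ _ (by
        rw [hr, map_add, hQ, hQ, hg.B]; linear_combination -hr x - hr y - r x * r y * h2)
      map_smul' := fun c x => inj _ _ (by
        rw [hr, map_smul, hQ', hQ', RingHom.id_apply, smul_eq_mul, mul_pow, hr]; ring) }
  have : w ∈ Φ.perp (LinearMap.ker (g - 1)) := (Φ.mem_perp').2 fun x hx => by
    have h1 : g x = x := sub_eq_zero.1 hx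
    rw [hw]; exact inj _ _ (by simp [hr, h1])
  rw [perp_ker hΦ] at this
  obtain ⟨v, rfl⟩ := this
  refine ⟨v, fun x => ?_⟩
  have := hr x
  rw [← show _ = r x from hw x, B_adj'] at this
  simp only [LinearMap.sub_apply, map_sub, Module.End.one_apply] at this
  linear_combination -this + (Φ.B v (g x) ^ 2 - Φ.B v (g x) * Φ.B v x) * h2

end sp

theorem cov_sp_even [Fintype F] (h2 : (2 : F) = 0) {m : ℕ} (hm : 2 ≤ m) :
    Cov (Matrix.symplecticGroup (Fin m) F) := by
  classical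
  obtain ⟨c, -, hc⟩ := two_classes h2
  let Q : (Fin m ⊕ Fin m → F) → F := fun x => ∑ i, x (.inl i) * x (.inr i)
  have hQ : ∀ x y, Q (x + y) = Q x + Q y + (spForm m F).B x y := fun x y => by
    simp only [Q, spForm_B, sympForm_eq, ← Finset.sum_add_distrib, Pi.add_apply]
    exact Finset.sum_congr rfl fun i _ => by linear_combination x (.inl i) * y (.inr i) * h2
  have hQ' : ∀ (c : F) x, Q (c • x) = c ^ 2 * Q x := fun c x => by
    simp only [Q, Finset.mul_sum, Pi.smul_apply, smul_eq_mul]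
    exact Finset.sum_congr rfl fun i _ => by ring
  have hf := fun c => fm_quad (spForm_nondeg m) rfl rfl h2 hQ hQ' c
    (a := Pi.single (.inl ⟨0, by omega⟩) 1) (b := Pi.single (.inl ⟨1, by omega⟩) 1) (by simp) (by simp)
    (fun h => by simpa [Pi.single_apply, Fin.ext_iff] using congrFun h (.inl ⟨0, by omega⟩)) (by simp [spForm_B, sympForm_eq, Pi.single_apply, Fin.ext_iff])
  refine cover ((lin _ F).comp (Matrix.symplecticGroup (Fin m) F).subtype) sp_pres
    (fun f => exists_sp) (hf 0) (hf c) fun f hf => ?_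
  obtain ⟨v, hv⟩ := dye (spForm_nondeg m) rfl rfl h2 hQ hQ' hf
  exact ⟨_, (hc (Q v)).imp (fun h => ⟨v, by simpa using h, rfl⟩) fun h => ⟨v, h, rfl⟩, hv⟩

/-- norm of a split octonion -/
def zN (x : Fin 8 → F) : F := x 0 * x 7 - (x 1 * x 4 + x 2 * x 5 + x 3 * x 6)

/-- unit of the split octonions -/
def zE (F : Type*) [Field F] : Fin 8 → F := ![1, 0, 0, 0, 0, 0, 0, 1]

/-- automorphisms of the split octonions -/
def ZA (f : End F (Fin 8 → F)) : Prop := IsUnit f ∧ ∀ x y, f (zornMul x y) = zornMul (f x) (f y)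

theorem z_sq (x : Fin 8 → F) : zornMul x x = (x 0 + x 7) • x - zN x • zE F := by
  ext i; fin_cases i <;> simp [zornMul, dot3, cross3, zN, zE] <;> ring

theorem z_one (x : Fin 8 → F) : zornMul x (zE F) = x := by
  ext i; fin_cases i <;> simp [zornMul, dot3, cross3, zE]

theorem ZA.mul {f g : End F (Fin 8 → F)} (hf : ZA f) (hg : ZA g) : ZA (f * g) :=
  ⟨hf.1.mul hg.1, fun x y => by simp only [Module.End.mul_apply, hg.2, hf.2]⟩

theorem ZA.inv {f : End F (Fin 8 → F)} (hf : ZA f) : ∃ g, ZA g ∧ ∀ x, g (f x) = x := by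
  obtain ⟨g, hg⟩ := hf.1.exists_left_inv
  have h1 : ∀ x, g (f x) = x := LinearMap.congr_fun hg
  refine ⟨g, ⟨IsUnit.of_mul_eq_one _ hg, fun x y => ?_⟩, h1⟩
  obtain ⟨x, rfl⟩ := ((Module.End.isUnit_iff f).1 hf.1).2 x
  obtain ⟨y, rfl⟩ := ((Module.End.isUnit_iff f).1 hf.1).2 y
  rw [← hf.2, h1, h1, h1]

theorem ZA.one {f : End F (Fin 8 → F)} (hf : ZA f) : f (zE F) = zE F := by
  obtain ⟨x, hx⟩ := ((Module.End.isUnit_iff f).1 hf.1).2 (zE F)
  have h1 : zornMul (zE F) x = x := by ext i; fin_cases i <;> simp [zornMul, dot3, cross3, zE]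
  have := hf.2 (zE F) x
  rw [h1, hx, z_one] at this
  exact this.symm

theorem ZA.norm {f : End F (Fin 8 → F)} (hf : ZA f) (x : Fin 8 → F) : zN (f x) = zN x := by
  have h1 := hf.2 x x
  rw [z_sq, z_sq, map_sub, map_smul, map_smul, hf.one] at h1
  by_cases h : x 0 + x 7 - (f x 0 + f x 7) = 0
  · have := congrFun h1 0
    simp only [zE, Pi.sub_apply, Pi.smul_apply, smul_eq_mul, Matrix.cons_val_zero] at this
    linear_combination this - f x 0 * h
  obtain ⟨s, hs⟩ : ∃ s : F, f x = s • zE F := ⟨(zN x - zN (f x)) / (x 0 + x 7 - (f x 0 + f x 7)), by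
    rw [div_eq_inv_mul, mul_smul, eq_inv_smul_iff₀ h]; linear_combination (norm := module) h1⟩
  rw [hs, ((Module.End.isUnit_iff f).1 hf.1).1 (hs.trans (by rw [map_smul, hf.one]) : f x = f (s • zE F))]

/-- a short root automorphism -/
def zX (p q r : F) : End F (Fin 8 → F) where
  toFun x := ![x 0 + (p * x 4 + q * x 5 + r * x 6),
    x 1 + (x 7 - x 0 - (p * x 4 + q * x 5 + r * x 6)) * p,
    x 2 + (x 7 - x 0 - (p * x 4 + q * x 5 + r * x 6)) * q,
    x 3 + (x 7 - x 0 - (p * x 4 + q * x 5 + r * x 6)) * r,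
    x 4 - (q * x 3 - r * x 2), x 5 - (r * x 1 - p * x 3), x 6 - (p * x 2 - q * x 1),
    x 7 - (p * x 4 + q * x 5 + r * x 6)]
  map_add' x y := by ext i; fin_cases i <;> simp <;> ring
  map_smul' c x := by ext i; fin_cases i <;> simp <;> ring

theorem za_X (p q r : F) : ZA (zX p q r) :=
  ⟨IsUnit.of_mul_eq_one (zX (-p) (-q) (-r)) (LinearMap.ext fun x => by
    ext i; fin_cases i <;> simp [zX] <;> ring), fun x y => by
    ext i; fin_cases i <;> simp [zX, zornMul, dot3, cross3] <;> ring⟩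

/-- the swap automorphism -/
def zS (F : Type*) [Field F] : End F (Fin 8 → F) where
  toFun x := ![x 7, -x 4, -x 5, -x 6, -x 1, -x 2, -x 3, x 0]
  map_add' x y := by ext i; fin_cases i <;> simp <;> ring
  map_smul' c x := by ext i; fin_cases i <;> simp

theorem za_S : ZA (zS F) :=
  ⟨IsUnit.of_mul_eq_one (zS F) (LinearMap.ext fun x => by ext i; fin_cases i <;> simp [zS]),
    fun x y => by ext i; fin_cases i <;> simp [zS, zornMul, dot3, cross3] <;> ring⟩

/-- the automorphism given by a matrix of determinant one -/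
def zL (a b c : Fin 3 → F) : End F (Fin 8 → F) where
  toFun x := ![x 0, dot3 a (zA F x), dot3 b (zA F x), dot3 c (zA F x), dot3 (cross3 b c) (zB F x),
    dot3 (cross3 c a) (zB F x), dot3 (cross3 a b) (zB F x), x 7]
  map_add' x y := by ext i; fin_cases i <;> simp [dot3] <;> ring
  map_smul' c x := by ext i; fin_cases i <;> simp [dot3] <;> ring

theorem za_L {a b c : Fin 3 → F} (h : dot3 a (cross3 b c) = 1) : ZA (zL a b c) := by
  simp only [dot3, cross3, Matrix.cons_val] at h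
  refine ⟨(LinearMap.isUnit_iff_ker_eq_bot _).2 (LinearMap.ker_eq_bot'.2 fun x hx => ?_), fun x y => ?_⟩
  · have h0 := congrFun hx 0
    have h1 := congrFun hx 1
    have h2 := congrFun hx 2
    have h3 := congrFun hx 3
    have h4 := congrFun hx 4
    have h5 := congrFun hx 5
    have h6 := congrFun hx 6
    have h7 := congrFun hx 7
    simp only [zL, dot3, cross3, LinearMap.coe_mk, AddHom.coe_mk, Matrix.cons_val, Pi.zero_apply]
      at h0 h1 h2 h3 h4 h5 h6 h7
    ext i; fin_cases i <;> simp only [Fin.reduceFinMk, Fin.zero_eta, Fin.mk_one, Pi.zero_apply]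
    · exact h0
    · linear_combination (b 1 * c 2 - b 2 * c 1) * h1 + (c 1 * a 2 - c 2 * a 1) * h2 +
        (a 1 * b 2 - a 2 * b 1) * h3 - x 1 * h
    · linear_combination (b 2 * c 0 - b 0 * c 2) * h1 + (c 2 * a 0 - c 0 * a 2) * h2 +
        (a 2 * b 0 - a 0 * b 2) * h3 - x 2 * h
    · linear_combination (b 0 * c 1 - b 1 * c 0) * h1 + (c 0 * a 1 - c 1 * a 0) * h2 +
        (a 0 * b 1 - a 1 * b 0) * h3 - x 3 * h
    · linear_combination a 0 * h4 + b 0 * h5 + c 0 * h6 - x 4 * h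
    · linear_combination a 1 * h4 + b 1 * h5 + c 1 * h6 - x 5 * h
    · linear_combination a 2 * h4 + b 2 * h5 + c 2 * h6 - x 6 * h
    · exact h7
  ext i; fin_cases i <;> simp only [zL, zornMul, dot3, cross3, LinearMap.coe_mk, AddHom.coe_mk,
    Matrix.cons_val, Fin.reduceFinMk, Fin.zero_eta, Fin.mk_one, Pi.sub_apply, Pi.add_apply,
    Pi.smul_apply, smul_eq_mul]
  · linear_combination (norm := (simp only [dot3, cross3, Matrix.cons_val]; ring1))
      -(dot3 (zA F x) (zB F y)) * h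
  · linear_combination (norm := (simp only [dot3, cross3, Matrix.cons_val]; ring1))
      (dot3 a (cross3 (zB F x) (zB F y))) * h
  · linear_combination (norm := (simp only [dot3, cross3, Matrix.cons_val]; ring1))
      (dot3 b (cross3 (zB F x) (zB F y))) * h
  · linear_combination (norm := (simp only [dot3, cross3, Matrix.cons_val]; ring1))
      (dot3 c (cross3 (zB F x) (zB F y))) * h
  · ring
  · ring
  · ring
  · linear_combination (norm := (simp only [dot3, cross3, Matrix.cons_val]; ring1))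
      -(dot3 (zB F x) (zA F y)) * h

theorem z_norm {c : F} (hc : c ≠ 0) {s : F} (hs : s ^ 2 + s ≠ 0) (h2 : (2 : F) = 0) {u : Fin 8 → F}
    (h1 : u 0 + u 7 = 1) (hu : zN u = c) : ∃ x, ZA x ∧ x u = ![0, c, 0, 0, 1, 0, 0, 1] := by
  have s3 : ∀ u : Fin 8 → F, u 0 = 0 → u 7 = 1 → zN u = c →
      ∃ x, ZA x ∧ x u = ![0, c, 0, 0, 1, 0, 0, 1] := fun u a1 a2 a3 => by
    have a4 : u 1 * u 4 + u 2 * u 5 + u 3 * u 6 = c := by
      rw [zN, a1] at a3; linear_combination -a3 - c * h2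
    obtain ⟨b, d, b1⟩ : ∃ b d : Fin 3 → F, c • cross3 b d = zA F u := by
      by_cases e1 : u 1 = 0
      · by_cases e2 : u 2 = 0
        · exact ⟨![u 3 / c, 0, 0], ![0, 1, 0], by
            ext i; fin_cases i <;> simp [cross3, e1, e2]; field_simp⟩
        · exact ⟨![0, -u 3 / c, u 2 / c], ![1, 0, 0], by
            ext i; fin_cases i <;> simp [cross3, e1] <;> field_simp⟩
      · exact ⟨![-u 2 / c, u 1 / c, 0], ![-u 3 / u 1, 0, 1], by
          ext i; fin_cases i <;> simp [cross3] <;> field_simp⟩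
    have c0 := congrFun b1 0
    have c1 := congrFun b1 1
    have c2 := congrFun b1 2
    simp only [cross3, Pi.smul_apply, smul_eq_mul, Matrix.cons_val] at c0 c1 c2
    have b2 : dot3 (zB F u) (cross3 b d) = 1 := mul_left_cancel₀ hc (by
      simp only [dot3, cross3, Matrix.cons_val]
      linear_combination u 4 * c0 + u 5 * c1 + u 6 * c2 + a4)
    refine ⟨_, za_L b2, ?_⟩
    simp only [dot3, cross3, Matrix.cons_val] at b2
    ext i; fin_cases i <;> simp only [zL, dot3, cross3, LinearMap.coe_mk, AddHom.coe_mk,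
      Matrix.cons_val, Fin.reduceFinMk, Fin.zero_eta, Fin.mk_one, a1, a2]
    · linear_combination a4
    · linear_combination -b 0 * c0 - b 1 * c1 - b 2 * c2
    · linear_combination -d 0 * c0 - d 1 * c1 - d 2 * c2
    · linear_combination b2
    · ring
    · ring
  have s2 : ∀ u : Fin 8 → F, u 0 + u 7 = 1 → zN u = c → (u 4 ≠ 0 ∨ u 5 ≠ 0 ∨ u 6 ≠ 0) →
      ∃ x, ZA x ∧ x u = ![0, c, 0, 0, 1, 0, 0, 1] := fun u a1 a2 a3 => by
    obtain ⟨p, q, r, h⟩ : ∃ p q r, u 0 + (p * u 4 + q * u 5 + r * u 6) = 0 := by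
      rcases a3 with a | a | a
      · exact ⟨-u 0 / u 4, 0, 0, by field_simp; ring⟩
      · exact ⟨0, -u 0 / u 5, 0, by field_simp; ring⟩
      · exact ⟨0, 0, -u 0 / u 6, by field_simp; ring⟩
    obtain ⟨x, hx, e⟩ := s3 (zX p q r u) h (by
      change u 7 - (p * u 4 + q * u 5 + r * u 6) = 1; linear_combination a1 - h)
      (by rw [(za_X p q r).norm, a2])
    exact ⟨_, hx.mul (za_X p q r), e⟩
  by_cases a3 : u 4 ≠ 0 ∨ u 5 ≠ 0 ∨ u 6 ≠ 0
  · exact s2 u h1 hu a3
  push Not at a3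
  obtain ⟨t, ht⟩ : ∃ t, t * (1 + t * u 1) ≠ 0 := by
    by_cases e : u 1 = 1
    · exact ⟨s, fun h => hs (by rw [e] at h; linear_combination h)⟩
    · exact ⟨1, fun h => e (by linear_combination h - h2)⟩
  have hy := za_S.mul ((za_X t 0 0).mul (za_S (F := F)))
  obtain ⟨x, hx, e⟩ := s2 ((zS F * (zX t 0 0 * zS F)) u) (by simp [zS, zX]; linear_combination h1)
    (by rw [hy.norm, hu]) (Or.inl fun h => ht (by
      simp only [zS, zX, Module.End.mul_apply, LinearMap.coe_mk, AddHom.coe_mk, Matrix.cons_val,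
        a3.1] at h
      linear_combination -h - t * h1 + (t * u 7) * h2))
  exact ⟨_, hx.mul hy, e⟩

theorem fm_oct {c : F} (hc : c ≠ 0) {s : F} (hs : s ^ 2 + s ≠ 0) (h2 : (2 : F) = 0) :
    Fm ZA fun M => ∃ W, (∃ u : Fin 8 → F, u 0 + u 7 = 1 ∧ zN u = c ∧
      W = Submodule.span F {zE F, u}) ∧ M = stab W := by
  refine fm_sub ?_ ?_
  · rintro _ _ ⟨u, a1, a2, rfl⟩ ⟨u', b1, b2, rfl⟩
    obtain ⟨x, hx, e⟩ := z_norm hc hs h2 a1 a2
    obtain ⟨y, hy, e'⟩ := z_norm hc hs h2 b1 b2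
    obtain ⟨z, hz, k⟩ := hy.inv
    refine ⟨_, hz.mul hx, ?_⟩
    rw [Submodule.map_span, Set.image_pair, (hz.mul hx).one, Module.End.mul_apply, e, ← e', k]
  · rintro _ ⟨u, a1, a2, rfl⟩
    have key : ∀ w : Fin 8 → F, w 0 + w 7 = 1 → zN w = c → (∀ a b : F, a • zE F + b • u ≠ w) →
        ∃ W', (∃ u : Fin 8 → F, u 0 + u 7 = 1 ∧ zN u = c ∧ W' = Submodule.span F {zE F, u}) ∧
          ¬ W' ≤ Submodule.span F {zE F, u} := fun w b1 b2 b3 =>
      ⟨_, ⟨w, b1, b2, rfl⟩, fun h => by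
        obtain ⟨a, b, e⟩ := Submodule.mem_span_pair.1 (h (Submodule.subset_span (by simp : w ∈ _)))
        exact b3 a b e⟩
    by_cases e : u 1 = 0
    · exact key ![0, 1, 0, 0, c, 0, 0, 1] (by simp) (by simp [zN]; linear_combination -c * h2)
        fun a b h => by simpa [zE, e] using congrFun h 1
    · refine key ![0, 0, 1, 0, 0, c, 0, 1] (by simp) (by simp [zN]; linear_combination -c * h2)
        fun a b h => ?_
      have hb : b = 0 := by simpa [zE, e] using congrFun h 1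
      simpa [zE, hb] using congrFun h 2

theorem z_fix (h2 : (2 : F) = 0) {f : End F (Fin 8 → F)} (hf : ZA f) :
    ∃ (u : Fin 8 → F) (s : F), u 0 + u 7 = 1 ∧ f u = u + s • zE F := by
  let B : LinearMap.BilinForm F (Fin 8 → F) := LinearMap.mk₂ F
    (fun x y => zN (x + y) - zN x - zN y) (fun _ _ _ => by simp [zN]; ring)
    (fun _ _ _ => by simp [zN]; ring) (fun _ _ _ => by simp [zN]; ring) fun _ _ _ => by simp [zN]; ring
  have hB : ∀ x y, B x y = zN (x + y) - zN x - zN y := fun _ _ => rfl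
  let Φ := ofAlt B fun x => by rw [hB]; simp only [zN, Pi.add_apply]; linear_combination (x 0 * x 7 - (x 1 * x 4 + x 2 * x 5 + x 3 * x 6)) * h2
  have hΦ : Φ.Nondeg := fun x hx => by
    have h : ∀ y, zN (x + y) - zN x - zN y = 0 := hx
    ext i
    have := h (Pi.single (![7, 4, 5, 6, 1, 2, 3, 0] i) 1)
    fin_cases i <;> simp [zN] at this ⊢ <;> first | linear_combination this | linear_combination -this
  have hp : ∀ x y, Φ.B (f x) (f y) = Φ.B x y := fun x y => by
    change B _ _ = B _ _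
    rw [hB, hB, ← map_add, hf.norm, hf.norm, hf.norm]
  have hE : ∀ x, Φ.B x (zE F) = x 0 + x 7 := fun x => by
    change B _ _ = _
    rw [hB]; simp [zN, zE]; ring
  obtain ⟨e, h3, h4⟩ := hΦ.exists_perp_eq_one (W := (Φ.perp (F ∙ zE F)).map (f - 1)) (x := zE F) (by
    rintro ⟨x, hx, e⟩
    have h5 := hE x
    rw [B_eq_zero_symm _ (Φ.mem_perp_span_singleton.1 hx)] at h5
    have h6 := hf.norm x
    rw [show f x = x + zE F from by rw [← e]; simp] at h6
    simp only [zN, zE, Pi.add_apply, Matrix.cons_val] at h6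
    exact one_ne_zero (α := F) (by linear_combination h6 + h5))
  have : f e - e ∈ Φ.perp (Φ.perp (F ∙ zE F)) := (Φ.mem_perp').2 fun y hy => by
    obtain ⟨x, rfl⟩ := ((Module.End.isUnit_iff f).1 hf.1).2 y
    have hx : x ∈ Φ.perp (F ∙ zE F) := by
      rw [mem_perp_span_singleton] at hy ⊢; rw [← hp, hf.one, hy]
    have := h3 _ ⟨x, hx, rfl⟩
    simp only [LinearMap.sub_apply, map_sub, Module.End.one_apply, hp] at this ⊢
    linear_combination -this
  rw [hΦ.perp_perp] at this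
  obtain ⟨s, hs⟩ := Submodule.mem_span_singleton.1 this
  exact ⟨e, s, (hE e).symm.trans h4, by rw [hs]; abel⟩

theorem cov_G2 [Fintype F] (h2 : (2 : F) = 0) (h4 : 3 ≤ Fintype.card F) : Cov (G2 F) := by
  classical
  obtain ⟨c, hc0, hc⟩ := two_classes h2
  obtain ⟨s, hs⟩ : ∃ s : F, s ^ 2 + s ≠ 0 := by
    obtain ⟨s, -, hs⟩ := Finset.exists_mem_notMem_of_card_lt_card (s := ({0, 1} : Finset F))
      (t := Finset.univ) (lt_of_le_of_lt Finset.card_le_two (by rw [Finset.card_univ]; omega))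
    simp only [Finset.mem_insert, Finset.mem_singleton, not_or] at hs
    exact ⟨s, fun h => hs.2 (mul_left_cancel₀ hs.1 (by linear_combination h - s * h2))⟩
  refine cover (C := ZA) (((lin _ F).comp (Units.coeHom _)).comp (G2 F).subtype)
    (fun g => ⟨(g.1.isUnit.map (lin _ F)), g.2⟩) (fun f hf => ?_) (fm_oct hs hs h2)
    (fm_oct (c := c) (fun e => hc0 0 (by simp [e])) hs h2) fun f hf => ?_
  · obtain ⟨x, hx⟩ := exists_GL_of_inj ((Module.End.isUnit_iff f).1 hf.1).1
    exact ⟨⟨x, by subst hx; exact hf.2⟩, hx⟩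
  obtain ⟨u, t, h1, e⟩ := z_fix h2 hf
  have key : ∀ (a c : F), zN u + a + a ^ 2 = c → ∃ M, (∃ W, (∃ u : Fin 8 → F, u 0 + u 7 = 1 ∧
      zN u = c ∧ W = Submodule.span F {zE F, u}) ∧ M = stab W) ∧ f ∈ M := fun a c h =>
    ⟨_, ⟨_, ⟨u + a • zE F, by simp [zE]; linear_combination h1 + a * h2, by
      rw [← h]; simp [zN, zE]; linear_combination a * h1, rfl⟩, rfl⟩, mem_stab_span (by
      rintro _ (rfl | rfl)
      · rw [hf.one]; exact Submodule.subset_span (by simp)
      · exact Submodule.mem_span_pair.2 ⟨t, 1, by rw [map_add, map_smul, hf.one, e]; module⟩)⟩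
  rcases hc (zN u) with ⟨a, ha⟩ | ⟨a, ha⟩
  · obtain ⟨M, h, k⟩ := key (a + s) (s ^ 2 + s) (by linear_combination ha + (zN u + a * s) * h2)
    exact ⟨M, Or.inl h, k⟩
  · obtain ⟨M, h, k⟩ := key a c (by linear_combination ha + zN u * h2)
    exact ⟨M, Or.inr h, k⟩

end H16.CV
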