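import Cfsg.Agent.H16.CV1

/-! Unitary groups covered by two classes of subgroups; shift operators in characteristic three. -/

set_option autoImplicit false
set_option linter.unusedSectionVars false
set_option linter.unusedSimpArgs false
set_option linter.unusedVariables false

namespace H16.CV

open Module Polynomial H23 H23.Form H14.Wall

universe u
variable {F : Type u} {V : Type*} [Field F] [AddCommGroup V] [Module F V] [FiniteDimensional F V]

theorem exists_D {g : End F V} (h : ∀ q ∈ ed g, derivative q = 0) :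
    ∃ D : End F V, D * g = g * (D + 1) := by
  obtain ⟨k, q, hq, h1, e, he⟩ := exists_mdl_ed g
  let d : ∀ i, End F (AdjoinRoot (q i)) := fun i => (aeval (AdjoinRoot.root (q i))).toLinearMap ∘ₗ
    LinearMap.mulLeft F X ∘ₗ derivative ∘ₗ AdjoinRoot.modByMonicHom (hq i).monic
  have hd : ∀ i f, d i (AdjoinRoot.mk _ f) = AdjoinRoot.mk _ (X * derivative f) := fun i f => by
    simp only [d, LinearMap.comp_apply, AdjoinRoot.modByMonicHom_mk, LinearMap.mulLeft_apply,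
      AlgHom.toLinearMap_apply, AdjoinRoot.aeval_eq, AdjoinRoot.mk_eq_mk]
    rw [modByMonic_eq_sub_mul_div, derivative_sub, derivative_mul, h (q i) (by rw [h1]; simp)]
    exact ⟨-(X * derivative (f /ₘ q i)), by ring⟩
  let D : End F (∀ i, AdjoinRoot (q i)) := LinearMap.pi fun i => d i ∘ₗ LinearMap.proj i
  refine ⟨e.symm.toLinearMap ∘ₗ D ∘ₗ e.toLinearMap, LinearMap.ext fun v => e.injective ?_⟩
  simp only [Module.End.mul_apply, LinearMap.comp_apply, LinearEquiv.coe_coe, he,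
    LinearEquiv.apply_symm_apply, LinearMap.add_apply, Module.End.one_apply, map_add]
  ext i
  obtain ⟨f, hf⟩ := AdjoinRoot.mk_surjective (e v i)
  simp only [D, LinearMap.pi_apply, LinearMap.comp_apply, LinearMap.proj_apply, mdl_apply,
    Pi.add_apply, ← hf, ← AdjoinRoot.mk_X, ← map_mul, hd, ← map_add]
  simp [mul_add, add_comm]

theorem jac {A : Type*} [Ring A] (h3 : (3 : A) = 0) {a s s' s'' : A} (h1 : a * s = s * a + s')
    (h2 : a * s' = s' * a + s'') (h4 : s * s' = s' * s) : (a + s) ^ 3 = a ^ 3 + s ^ 3 + s'' := by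
  obtain rfl : s' = a * s - s * a := by rw [h1]; abel
  obtain rfl : s'' = a * (a * s - s * a) - (a * s - s * a) * a := by rw [h2]; abel
  linear_combination (norm := noncomm_ring) h3 * (a * s * a + s * a * s) - h4

theorem three_end (h3 : (3 : F) = 0) : (3 : End F V) = 0 := by
  rw [← map_ofNat (algebraMap F (End F V)) 3, h3, map_zero]

theorem adjust (h3 : (3 : F) = 0) {θ x y : End F V} (h1 : θ * x = x * θ + x)
    (h2 : θ * y = y * θ - y) (h4 : x * y = y * x) {c e e' : F} (hc : c ≠ 0)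
    (hN : (x + y - c • 1) ^ 3 = 0) (hθ : θ ^ 3 - θ - e' • 1 = 0) :
    (θ + ((e - e') / c) • (x + y - c • 1)) ^ 3 - (θ + ((e - e') / c) • (x + y - c • 1)) - e • 1 = 0 := by
  obtain ⟨t, ht, h⟩ : ∃ t, t = (e - e') / c ∧ e = e' + t * c := ⟨_, rfl, by field_simp; ring⟩
  rw [← ht, jac (three_end h3) (s' := t • (x - y)) (s'' := t • (x + y)), _root_.smul_pow, hN, h]
  · linear_combination (norm := module) hθ
  · simp only [mul_smul_comm, smul_mul_assoc, mul_add, add_mul, mul_sub, sub_mul, h1, h2, mul_one,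
      one_mul]; module
  · simp only [mul_smul_comm, smul_mul_assoc, mul_add, add_mul, mul_sub, sub_mul, h1, h2]; module
  · simp only [mul_smul_comm, smul_mul_assoc, mul_add, add_mul, mul_sub, sub_mul, h4, mul_one,
      one_mul]; module

theorem cubic_shift [Nontrivial V] (h3 : (3 : F) = 0) {g θ : End F V} (hg : IsUnit g)
    (h : θ * g = g * (θ + 1)) {m : F[X]} (h0 : m ≠ 0) (hd : m.natDegree ≤ 3) (hm : aeval θ m = 0) :
    ∃ e : F, θ ^ 3 - θ - e • 1 = 0 := by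
  have sh : ∀ p : F[X], aeval θ p = 0 → aeval (θ + 1) p = 0 := fun p hp => LinearMap.ext fun v =>
    ((Module.End.isUnit_iff g).1 hg).1 (by
      rw [aeval_comm_of_comm (g := θ) fun v => (LinearMap.congr_fun h v).symm, hp]; simp)
  have h1 := sh m hm
  rw [aeval_eq_sum_range' (n := 4) (by omega)] at hm h1
  simp only [Finset.sum_range_succ, Finset.range_zero, Finset.sum_empty, zero_add, pow_zero,
    pow_one] at hm h1
  have e2 : (θ + 1) ^ 2 = θ ^ 2 + (2 : F) • θ + 1 := by rw [two_smul]; noncomm_ring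
  have e3 : (θ + 1) ^ 3 = θ ^ 3 + 1 := by
    linear_combination (norm := noncomm_ring) three_end (V := V) h3 * (θ ^ 2 + θ)
  rw [e2, e3] at h1
  have sc : ∀ a : F, a • (1 : End F V) = 0 → a = 0 := fun a ha => by simpa using ha
  have h2 : (2 * m.coeff 2) • θ + (m.coeff 1 + m.coeff 2 + m.coeff 3) • (1 : End F V) = 0 := by
    linear_combination (norm := module) h1 - hm
  have h4 := sh (C (2 * m.coeff 2) * X + C (m.coeff 1 + m.coeff 2 + m.coeff 3)) (by
    simpa [Algebra.algebraMap_eq_smul_one, -map_mul, -map_add, aeval_add, aeval_mul] using h2)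
  simp only [aeval_add, aeval_mul, aeval_C, aeval_X, Algebra.algebraMap_eq_smul_one,
    smul_mul_assoc, one_mul] at h4
  have h5 : m.coeff 2 = 0 := by
    have := sc (2 * m.coeff 2) (by linear_combination (norm := module) h4 - h2)
    linear_combination -this + m.coeff 2 * h3
  have h6 : m.coeff 1 = -m.coeff 3 := by
    have := sc (m.coeff 1 + m.coeff 3) (by simpa [h5] using h2)
    linear_combination this
  have h7 : m.coeff 3 ≠ 0 := fun h7 => h0 (by
    have := sc (m.coeff 0) (by simpa [h5, h6, h7] using hm)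
    ext i
    rcases (show i = 0 ∨ i = 1 ∨ i = 2 ∨ i = 3 ∨ 3 < i by omega) with rfl | rfl | rfl | rfl | hi
    exacts [this, by simp [h6, h7], h5, h7, coeff_eq_zero_of_natDegree_lt (by omega)])
  refine ⟨-m.coeff 0 / m.coeff 3, (smul_eq_zero_iff_right h7).1 ?_⟩
  rw [smul_sub, smul_smul, mul_div_cancel₀ _ h7]
  rw [h5, h6] at hm
  linear_combination (norm := module) hm

section form
variable {σ : F →+* F} {Φ : Form σ V} (hΦ : Φ.Nondeg)
include hΦ

theorem finish [Nontrivial V] (h3 : (3 : F) = 0) {g : End F V} (hg : Pres Φ g)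
    (hD : ∀ q ∈ ed g, derivative q = 0) {c : F} (hc : σ c = c)
    (hN : (g + adj hΦ g - c • 1) ^ 3 = 0)
    (hq : ∀ θ, adj hΦ θ = θ → ∃ m : F[X], m ≠ 0 ∧ m.natDegree ≤ 3 ∧ aeval θ m = 0) {e : F}
    (he : σ e = e) : ∃ θ, (adj hΦ θ = θ ∧ θ ^ 3 - θ - e • 1 = 0) ∧ g ∈ nrm ⊤ θ := by
  obtain ⟨D, hD⟩ := exists_D hD
  have A := anti_adj hΦ
  have a1 := adj_mul_self hΦ hg.B
  have a2 := mul_eq_one_comm.1 a1
  generalize hh : adj hΦ g = h at a1 a2 hN
  have hh' : adj hΦ h = g := by rw [← hh, A.inv]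
  have b1 : adj hΦ D * g = g * (adj hΦ D + 1) := by
    have := congrArg (fun x => g * adj hΦ x * g) hD
    simp only [A.mul, A.add, A.one, hh] at this
    rwa [← mul_assoc, a2, one_mul, mul_assoc, mul_assoc, a1, mul_one] at this
  obtain ⟨θ, b2, b3⟩ : ∃ θ, adj hΦ θ = θ ∧ θ * g = g * θ + g := ⟨-(D + adj hΦ D), by
    rw [A.neg, A.add, A.inv, add_comm], by
    linear_combination (norm := noncomm_ring) -hD - b1 - three_end (V := V) h3 * g⟩
  have b4 : θ * h = h * θ - h := by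
    have := congrArg (fun x => h * x * h) b3
    simp only [mul_add, add_mul, ← mul_assoc, a1, one_mul] at this
    rw [mul_assoc, a2, mul_one] at this
    rw [this]; abel
  obtain ⟨m, m1, m2, m3⟩ := hq θ b2
  obtain ⟨e', he'⟩ := cubic_shift h3 (IsUnit.of_mul_eq_one _ a2) (by rw [b3, mul_add, mul_one])
    m1 m2 m3
  have b5 : σ e' = e' := by
    have := congrArg (adj hΦ) he'
    rw [A.sub, A.sub, A.pow, b2, adj_smul, A.one, A.zero] at this
    have : (σ e' - e') • (1 : End F V) = 0 := by linear_combination (norm := module) he' - this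
    simpa [sub_eq_zero] using this
  have key : ∀ x y (c : F), adj hΦ x = y → x * g = g * x → y * g = g * y → θ * x = x * θ + x →
      θ * y = y * θ - y → x * y = y * x → σ c = c → c ≠ 0 → (x + y - c • 1) ^ 3 = 0 →
      ∃ θ, (adj hΦ θ = θ ∧ θ ^ 3 - θ - e • 1 = 0) ∧ g ∈ nrm ⊤ θ :=
    fun x y c c1 c2 c3 c4 c5 c6 c7 c8 c9 => ⟨_, ⟨by
      rw [A.add, adj_smul, A.sub, A.add, adj_smul, ← c1, A.inv, A.one, b2, map_div₀, map_sub, he,
        b5, c7, add_comm x], adjust h3 c4 c5 c6 c8 c9 he'⟩, -1, trivial, by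
      simp only [mul_smul_comm, smul_mul_assoc, mul_add, add_mul, mul_sub, sub_mul, c2, c3, b3,
        mul_one, one_mul]; module⟩
  by_cases h0 : c = 0
  · refine key (h * h) (g * g) 1 (by rw [A.mul, hh']) (by rw [mul_assoc, a1, ← mul_assoc, a2]; simp)
      (mul_assoc _ _ _) ?_ ?_ ?_ (map_one σ) one_ne_zero ?_
    · linear_combination (norm := noncomm_ring) b4 * h + h * b4 - three_end (V := V) h3 * (h * h)
    · linear_combination (norm := noncomm_ring) b3 * g + g * b3 + three_end (V := V) h3 * (g * g)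
    · rw [mul_assoc, ← mul_assoc h g, a1, one_mul, a1, mul_assoc, ← mul_assoc g h, a2, one_mul, a2]
    · rw [h0, zero_smul, sub_zero] at hN
      rw [show h * h + g * g - (1 : F) • 1 = (g + h) ^ 2 from by
        rw [one_smul]; linear_combination (norm := (noncomm_ring; simp)) -a1 - a2 - three_end (V := V) h3,
        ← pow_mul, mul_comm, pow_mul, hN]; simp
  · exact key g h c hh rfl (a1.trans a2.symm) b3 b4 (a2.trans a1.symm) hc h0 hN

theorem orbit_le {g : End F V} (hg : Pres Φ g) {p : F[X]} (hp : p ∈ ed g) (h : dual σ p ≠ p) :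
    {p} + ({p} : Multiset F[X]).map (dual σ) ≤ ed g := by
  have : dual σ p ∈ ed g := by rw [← ed_dual_of_B hΦ hg.B]; exact Multiset.mem_map_of_mem _ hp
  refine (Multiset.le_iff_subset (by simpa using h.symm)).2 fun x hx => ?_
  simp only [Multiset.map_singleton, Multiset.mem_add, Multiset.mem_singleton] at hx
  rcases hx with rfl | rfl <;> assumption

theorem base_dual {g : End F V} (hg : Pres Φ g) {p : F[X]} (hm : p.Monic) (hp : Irreducible p)
    {e : ℕ} (he : 1 ≤ e) (h : p ^ e ∈ ed g) :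
    p.coeff 0 ≠ 0 ∧ (dual σ (p ^ e) = p ^ e → dual σ p = p) := by
  have h0 : p.coeff 0 ≠ 0 := fun h0 => ed_coeff_ne hΦ hg _ h (by
    rw [coeff_zero_eq_eval_zero] at h0 ⊢; simp [h0]; omega)
  exact ⟨h0, fun h1 => (pow_eq_pow_irred (monic_dual σ h0) (irreducible_dual Φ.invol hp hm h0) hm hp
    he ((dual_pow σ p e).symm.trans h1)).1⟩

theorem finrank_perp_eq {A : Submodule F V} {a : ℕ} (h : finrank F A + a = finrank F V) :
    finrank F (Φ.perp A) = a := by have := hΦ.finrank_perp_add A; omega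

end form

theorem ed_eq_of_le {g : End F V} {s : Multiset F[X]} (h : s ≤ ed g)
    (hd : (s.map natDegree).sum = finrank F V) : ed g = s := by
  obtain ⟨t, ht⟩ := Multiset.le_iff_exists_add.1 h
  have h1 := sum_natDegree_ed g
  rw [ht, Multiset.map_add, Multiset.sum_add] at h1
  rw [ht, Multiset.eq_zero_of_forall_notMem (s := t) fun r hr => ?_, add_zero]
  have := Multiset.le_sum_of_mem (Multiset.mem_map_of_mem natDegree hr)
  have := (ed_isPP (f := g) (q := r) (by simp [ht, hr])).natDegree_pos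
  omega

theorem exists_mem_ed (g : End F V) (h : finrank F V ≠ 0) : ∃ (p : F[X]) (e : ℕ),
    p.Monic ∧ Irreducible p ∧ 1 ≤ e ∧ p ^ e ∈ ed g := by
  obtain ⟨r, hr⟩ := Multiset.exists_mem_of_ne_zero ((ed_eq_zero_iff g).not.2 h)
  obtain ⟨p, e, a1, a2, a3, rfl⟩ := ed_isPP hr
  exact ⟨p, e, a1, a2, a3, hr⟩

section herm
variable [Fintype F] {q : ℕ} {hF : Fintype.card F = q ^ 2} {Φ : Form (conj hF) V} (hΦ : Φ.Nondeg)
  (hε : Φ.ε = 1) {g : End F V}
include hΦ hε

theorem fm_det {P : Submodule F V → Prop}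
    (tr : ∀ W W', P W → P W' → ∃ g ∈ Φ.O, W.map g.toLinearMap = W')
    (dt : ∀ W, P W → ∀ l : F, l ^ (q + 1) = 1 → ∃ g ∈ Φ.Stab W, LinearMap.det g.1.toLinearMap = l)
    (ne : ∀ W, P W → ∃ W', P W' ∧ ¬ W' ≤ W) :
    Fm (fun f => Pres Φ f ∧ LinearMap.det f = 1) fun M => ∃ W, P W ∧ M = stab W := by
  refine fm_sub (fun W W' h h' => ?_) ne
  obtain ⟨g, hg, e⟩ := tr W W' h h'
  have h1 := det_norm hΦ (pres_O ⟨g, hg⟩)
  obtain ⟨k, hk, e'⟩ := dt W' h' (LinearMap.det g.toLinearMap)⁻¹ (by rw [inv_pow, h1, inv_one])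
  refine ⟨_, ⟨pres_mul (pres_O k) (pres_O ⟨g, hg⟩), by
    rw [map_mul, e', inv_mul_cancel₀ g.isUnit_det'.ne_zero]⟩, ?_⟩
  rw [Module.End.mul_eq_comp, Submodule.map_comp, e]; exact hk

theorem fm_pt (h2 : 2 ≤ finrank F V) : Fm (fun f => Pres Φ f ∧ LinearMap.det f = 1)
    fun M => ∃ W, (∃ v, Φ.B v v = 1 ∧ W = F ∙ v) ∧ M = stab W := by
  have hκ := Φ.κ_eq_zero (conj_ne_id hF)
  refine fm_det hΦ hε ?_ ?_ ?_
  · rintro _ _ ⟨v, hv, rfl⟩ ⟨w, hw, rfl⟩
    obtain ⟨g, hg, e⟩ := hΦ.witt_one (x := v) (y := w) (by rintro rfl; simp at hv)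
      (by rintro rfl; simp at hw) (hv.trans hw.symm) (by simp [Q_of_κ hκ])
    exact ⟨g, hg, by simp [Submodule.map_span, e]⟩
  · rintro _ ⟨v, hv, rfl⟩ l hl
    obtain ⟨g, h1, h⟩ := exists_qrefl_det hF hΦ hε hv hl
    exact ⟨g, mem_Stab_of_le.2 fun u hu => by
      rw [h]; exact add_mem hu (Submodule.smul_mem _ _ (Submodule.mem_span_singleton_self _)), h1⟩
  · rintro _ ⟨v, hv, rfl⟩
    obtain ⟨w, hw⟩ := exists_orthonormal_family_herm (conj_ne_id hF) hε hΦ h2
    by_contra hc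
    push Not at hc
    have k : ∀ i, ∃ a : F, a • v = w i := fun i => Submodule.mem_span_singleton.1
      (hc _ ⟨w i, by simp [hw], rfl⟩ (Submodule.mem_span_singleton_self _))
    obtain ⟨a, ha⟩ := k 0
    obtain ⟨b, hb⟩ := k 1
    have h0 := hw 0 0
    have h1 := hw 0 1
    have h3 := hw 1 1
    simp only [← ha, ← hb, B_smul_left, B_smul_right, hv] at h0 h1 h3
    simp at h0 h1 h3
    rcases h1 with h | ⟨h, -⟩ <;> simp [h] at h0 h3

theorem fm_ts (h4 : finrank F V = 4) : Fm (fun f => Pres Φ f ∧ LinearMap.det f = 1)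
    fun M => ∃ W, (Φ.TotSing W ∧ finrank F W = 2) ∧ M = stab W := by
  have : Nontrivial V := Module.nontrivial_of_finrank_pos (R := F) (by omega)
  refine fm_det hΦ hε (fun W W' h h' => hΦ.exists_map_eq h.1 h'.1 (h.2.trans h'.2.symm))
    (fun W h => exists_det_Stab_totSing hF hΦ hε h.1) fun W h => ?_
  obtain ⟨b, h1, h2, -, h3, h5⟩ := hΦ.exists_hyperbolic_basis h.1 h.2 h4
  refine ⟨Submodule.span F (Set.range fun i => b (.inr i)), ⟨totSing_span ?_ ?_, ?_⟩, fun k => ?_⟩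
  · rintro _ ⟨i, rfl⟩ _ ⟨j, rfl⟩; exact h3 i j
  · rintro _ ⟨i, rfl⟩; exact h5 _
  · exact (finrank_span_eq_card (b.linearIndependent.comp _ Sum.inr_injective)).trans (by simp)
  · simpa [h2] using h.1.1 _ (h1 0) _ (k (Submodule.subset_span ⟨0, rfl⟩))

/-- there is a nonsingular eigenvector -/
def NP {σ : F →+* F} (Φ : Form σ V) (g : End F V) : Prop :=
  ∃ v, Φ.B v v ≠ 0 ∧ ∃ c : F, g v = c • v

omit hΦ in
theorem NP.stab (h : NP Φ g) : ∃ M, (∃ W, (∃ v, Φ.B v v = 1 ∧ W = F ∙ v) ∧ M = stab W) ∧ g ∈ M := by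
  obtain ⟨v, hv, c, h⟩ := h
  obtain ⟨x, hx⟩ := exists_norm_eq_of_invol (conj_ne_id hF) Φ.invol (μ := (Φ.B v v)⁻¹) (by
    rw [map_inv₀]; congr 1; rw [Φ.symm v v, hε, one_mul, Φ.invol]; simpa [hε] using Φ.symm v v)
  refine ⟨_, ⟨_, ⟨x • v, ?_, rfl⟩, rfl⟩, mem_stab_span ?_⟩
  · rw [B_smul_left, B_smul_right, ← mul_assoc, hx, inv_mul_cancel₀ hv]
  · rintro _ rfl
    exact Submodule.mem_span_singleton.2 ⟨c, by rw [map_smul, h, smul_comm]⟩

theorem np_of_nd (hg : Pres Φ g) {A : Submodule F V} (hn : (Φ.restrict A).Nondeg)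
    (hA : ∀ x ∈ A, g x ∈ A) (h : finrank F A = 1 ∨ finrank F A + 1 = finrank F V) : NP Φ g := by
  have key : ∀ A : Submodule F V, (Φ.restrict A).Nondeg → (∀ x ∈ A, g x ∈ A) → finrank F A = 1 →
      NP Φ g := fun A hn hA h => by
    obtain ⟨v, hv, h1⟩ := exists_herm_self_eq_one (conj_ne_id hF) Φ hε
      (Φ.nondeg_restrict_iff.1 hn) (by rintro rfl; simp at h)
    obtain ⟨c, hc⟩ := (finrank_eq_one_iff_of_nonzero' (⟨v, hv⟩ : A) (by
      rintro e; rw [Subtype.ext_iff] at e; simp [show v = 0 from e] at h1)).1 h ⟨_, hA v hv⟩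
    exact ⟨v, by simp [h1], c, (congrArg Subtype.val hc).symm⟩
  rcases h with h | h
  · exact key A hn hA h
  · exact key _ (hΦ.nondeg_restrict_perp (Φ.nondeg_restrict_iff.1 hn)) (hg.perp_inv hΦ hA)
      (finrank_perp_eq hΦ h)

theorem herm_orb (hg : Pres Φ g) {p : F[X]} (hm : p.Monic) (hp : Irreducible p) {e : ℕ} (he : 1 ≤ e)
    (h : p ^ e ∈ ed g) : ∃ A : Submodule F V, (Φ.restrict A).Nondeg ∧ (∀ x ∈ A, g x ∈ A) ∧
      (finrank F A = e * p.natDegree ∧ Odd p.natDegree ∧ dual (conj hF) p = p ∨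
        finrank F A = 2 * (e * p.natDegree) ∧ ∃ W : Submodule F V,
          finrank F W = e * p.natDegree ∧ Φ.TotSing W ∧ ∀ x ∈ W, g x ∈ W) := by
  obtain ⟨h0, h1⟩ := base_dual hΦ hg hm hp he h
  by_cases hd : dual (conj hF) (p ^ e) = p ^ e
  · obtain ⟨A, a1, a2, a3⟩ := herm_nd hΦ hε hg (Multiset.singleton_le.2 h) (by simp [hd])
    exact ⟨A, a2, a3, Or.inl ⟨by simpa [hm.natDegree_pow] using a1,
      ((self_dual_iff hF hm hp h0).1 (h1 hd)).1, h1 hd⟩⟩
  · have h2 := ed_coeff_ne hΦ hg _ h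
    obtain ⟨A, a1, a2, a3⟩ := herm_nd hΦ hε hg (orbit_le hΦ hg h hd) (by
      simpa [dual_dual Φ.invol (hm.pow e) h2] using Multiset.pair_comm _ _)
    obtain ⟨W, b⟩ := herm_ts hΦ hε hg (orbit_le hΦ hg h hd)
    exact ⟨A, a2, a3, Or.inr ⟨by simp [a1, natDegree_dual _ h2, hm.natDegree_pow, two_mul], W,
      by simpa [hm.natDegree_pow] using b⟩⟩

theorem eig_two (hg : Pres Φ g) (h2 : finrank F V = 2) : ∃ (c : F) (v : V), g v = c • v ∧ v ≠ 0 := by
  by_contra hc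
  push Not at hc
  obtain ⟨p, e, a1, a2, a3, a4⟩ := exists_mem_ed g (by omega)
  have b1 := two_le_deg hc a1 a2 a3 a4
  obtain ⟨A, -, -, h⟩ := herm_orb hΦ hε hg a1 a2 a3 a4
  have b2 := A.finrank_le
  have b3 : p.natDegree ≤ e * p.natDegree := Nat.le_mul_of_pos_left _ a3
  rcases h with ⟨h, ⟨k, hk⟩, -⟩ | ⟨h, -⟩ <;> omega

omit hε in
theorem adj_sub_self (hg : Pres Φ g) {c : F} (hc : dual (conj hF) (X - C c) = X - C c)
    (h0 : c ≠ 0) : adj hΦ (g - c • 1) = -(conj hF c) • (adj hΦ g * (g - c • 1)) := by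
  rw [dual_X_sub_C _ h0, sub_right_inj, C_inj] at hc
  have A := anti_adj hΦ
  have : conj hF c * c = 1 := by
    have := mul_inv_cancel₀ ((map_ne_zero (conj hF)).2 h0)
    rwa [hc] at this
  rw [A.sub, adj_smul, A.one, mul_sub, adj_mul_self hΦ hg.B, mul_smul_comm, mul_one, smul_sub,
    smul_smul, neg_mul, this]
  module

theorem su4_cover (h4 : finrank F V = 4) (hg : Pres Φ g) (hn : ¬ NP Φ g) :
    ∃ W : Submodule F V, (Φ.TotSing W ∧ finrank F W = 2) ∧ ∀ x ∈ W, g x ∈ W := by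
  have hκ := Φ.κ_eq_zero (conj_ne_id hF)
  have ev : ∀ A : Submodule F V, (Φ.restrict A).Nondeg → (∀ x ∈ A, g x ∈ A) → finrank F A = 2 →
      ∃ v ∈ A, v ≠ 0 ∧ Φ.B v v = 0 ∧ ∃ c : F, g v = c • v := fun A h1 h2 h3 => by
    obtain ⟨c, v, h5, h6⟩ := eig_two h1 hε (hg.restrict h2) h3
    have := congrArg Subtype.val h5
    exact ⟨v, v.2, by simpa using h6, by_contra fun h => hn ⟨v, h, c, this⟩, c, this⟩
  have two : ∀ A : Submodule F V, (Φ.restrict A).Nondeg → (∀ x ∈ A, g x ∈ A) → finrank F A = 2 →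
      ∃ W : Submodule F V, (Φ.TotSing W ∧ finrank F W = 2) ∧ ∀ x ∈ W, g x ∈ W := fun A h1 h2 h3 => by
    have hd := Φ.nondeg_restrict_iff.1 h1
    obtain ⟨u, a1, a2, a3, a, a4⟩ := ev A h1 h2 h3
    obtain ⟨w, b1, b2, b3, b, b4⟩ := ev _ (hΦ.nondeg_restrict_perp hd) (hg.perp_inv hΦ h2)
      (finrank_perp_eq hΦ (by omega))
    have c1 : Φ.B u w = 0 := b1 u a1
    refine ⟨Submodule.span F {u, w}, ⟨totSing_span ?_ fun _ _ => Q_of_κ hκ _, ?_⟩, mem_stab_span ?_⟩
    · rintro _ (rfl | rfl) _ (rfl | rfl)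
      exacts [a3, c1, Φ.B_eq_zero_symm c1, b3]
    · have : LinearIndependent F ![u, w] := (LinearIndependent.pair_iff' a2).2 fun t ht =>
        b2 (Submodule.disjoint_def.1 hd w (ht ▸ A.smul_mem t a1) b1)
      have := finrank_span_eq_card this
      rwa [Matrix.range_cons_cons_empty] at this
    · rintro _ (rfl | rfl)
      · exact Submodule.mem_span_pair.2 ⟨a, 0, by simp [a4]⟩
      · exact Submodule.mem_span_pair.2 ⟨0, b, by simp [b4]⟩
  obtain ⟨p, e, a1, a2, a3, a4⟩ := exists_mem_ed g (by omega)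
  obtain ⟨A, b1, b2, h⟩ := herm_orb hΦ hε hg a1 a2 a3 a4
  have b3 := A.finrank_le
  have b4 : ¬ (finrank F A = 1 ∨ finrank F A + 1 = finrank F V) := fun h => hn (np_of_nd hΦ hε hg b1 b2 h)
  by_cases b5 : finrank F A = 2
  · exact two A b1 b2 b5
  have b6 := Nat.mul_pos a3 a2.natDegree_pos
  rcases h with ⟨h, h1, h2⟩ | ⟨h, W, h1, h2, h3⟩
  swap
  · exact ⟨W, ⟨h2, by omega⟩, h3⟩
  have b7 : p.natDegree = 1 := h1.coprime_two_right.pow_right 2 |>.eq_one_of_dvd
    ⟨e, by rw [mul_comm]; omega⟩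
  obtain rfl : e = 4 := by rw [b7] at h; omega
  obtain ⟨c, rfl⟩ : ∃ c, p = X - C c := ⟨-p.coeff 0, by simpa using a1.eq_X_add_C b7⟩
  have c0 : c ≠ 0 := by simpa using (base_dual hΦ hg a1 a2 a3 a4).1
  have c1 := ed_eq_of_le (Multiset.singleton_le.2 a4) (by simp [h4])
  have c2 : ∀ k, aeval g ((X - C c) ^ k) = (g - c • 1) ^ k := fun k => by
    simp [Algebra.algebraMap_eq_smul_one]
  have c3 : (g - c • 1) ^ 4 = 0 := by rw [← c2, aeval_eq_zero_iff_ed, c1]; simp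
  have c4 := kd_eq_sum g ((X - C c) ^ 2)
  rw [c1, Multiset.map_singleton, Multiset.sum_singleton, gd_pow_pow, kd, c2] at c4
  have c5 := LinearMap.finrank_range_add_finrank_ker ((g - c • 1) ^ 2)
  have c6 : Commute (adj hΦ g) (g - c • 1) := by
    have := adj_mul_self hΦ hg.B
    rw [Commute, SemiconjBy, mul_sub, sub_mul, this, mul_eq_one_comm.1 this]; simp
  refine ⟨LinearMap.range ((g - c • 1) ^ 2), ⟨⟨?_, fun _ _ => Q_of_κ hκ _⟩, by simp at c4; omega⟩, ?_⟩
  · rintro _ ⟨x, rfl⟩ _ ⟨y, rfl⟩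
    rw [← B_adj hΦ, (anti_adj hΦ).pow, adj_sub_self hΦ hg h2 c0, _root_.smul_pow, c6.mul_pow,
      ← Module.End.mul_apply, smul_mul_assoc, mul_assoc, ← pow_add, c3]; simp
  · rintro _ ⟨x, rfl⟩
    exact ⟨g x, LinearMap.congr_fun (((Commute.refl g).sub_left ((Commute.one_left g).smul_left c)).pow_left 2).eq x⟩

theorem cube_inj (h3 : (3 : F) = 0) {a b : F} (h : a ^ 3 = b ^ 3) : a = b :=
  sub_eq_zero.1 (pow_eq_zero_iff three_ne_zero |>.1 (by
    linear_combination h - (a ^ 2 * b - a * b ^ 2) * h3))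

theorem fm_su3 (h3 : (3 : F) = 0) (hV : finrank F V = 3) {e : F} (he : ∀ x, x ^ 3 - x ≠ e) :
    Fm (fun f => Pres Φ f ∧ LinearMap.det f = 1)
      fun M => ∃ θ, (adj hΦ θ = θ ∧ θ ^ 3 - θ - e • 1 = 0) ∧ M = nrm ⊤ θ := by
  have hσ := conj_ne_id hF
  have hκ := Φ.κ_eq_zero hσ
  have A := anti_adj hΦ
  obtain ⟨w, hw⟩ := exists_sub_ne hσ
  refine fm_nrm (fun θ θ' h h' => ?_) fun θ h => ?_
  · have : Finite V := finite_of_fd (F := F)
    have : Finite (End F V) := finite_of_fd (F := F)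
    obtain ⟨⟨x, hx⟩, -⟩ := sim_of_irred (asp_deg (k := 3) (by omega) e).1
      (asp_irred (by omega) le_rfl he) ((aeval_asp _ _ _).trans h.2) ((aeval_asp _ _ _).trans h'.2)
    obtain ⟨y, hy, h1⟩ : ∃ y : End F V, IsUnit y ∧ y * θ = θ' * y :=
      ⟨x.toLinearMap, (LinearMap.isUnit_iff_isUnit_det _).2 x.isUnit_det', LinearMap.ext hx⟩
    have h2 : θ * adj hΦ y = adj hΦ y * θ' := by
      have := congrArg (adj hΦ) h1
      rwa [A.mul, A.mul, h.1, h'.1] at this
    obtain ⟨c, hc, h4⟩ := A.exists_sqrt (g := 1) (a := adj hΦ y * y) (ω := w • 1) (by simp [A.one])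
      ((A.isUnit hy).mul hy) (by rw [A.mul, A.inv]) (by simp) (mem_Bic.2 fun x _ => by simp) (by
        rw [adj_smul, A.one, ← sub_smul]; exact Algebra.algebraMap_eq_smul_one (A := End F V) (w - conj hF w) ▸ (IsUnit.mk0 _ hw).map _)
    have h5 : θ * c = c * θ := mem_Bic.1 hc θ (by
      rintro _ (rfl | rfl)
      · simp
      · rw [mul_assoc, h1, ← mul_assoc, ← h2, mul_assoc])
    obtain ⟨d, hd⟩ := (isUnit_of_mul_isUnit_right (h4 ▸ (A.isUnit hy).mul hy : IsUnit (_ * c))).exists_right_inv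
    have hd' := mul_eq_one_comm.1 hd
    have h6 : Pres Φ (y * d) := ⟨B_of_adj_mul_self hΦ (by
      rw [A.mul, mul_assoc, ← mul_assoc _ y, ← h4, mul_assoc, hd, mul_one, ← A.mul, hd, A.one]),
      fun _ => by simp [Q_of_κ hκ]⟩
    have h7 := det_norm hΦ h6
    obtain ⟨μ, hμ⟩ := (Finite.injective_iff_surjective (f := fun a : F => a ^ 3)).1
      (fun _ _ => cube_inj hΦ hε h3) (LinearMap.det (y * d))⁻¹
    replace hμ : μ ^ 3 = _ := hμ
    have h8 : LinearMap.det (μ • (y * d)) = 1 := by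
      rw [LinearMap.det_smul, hV, hμ, inv_mul_cancel₀ fun e => by simp [e] at h7]
    refine ⟨_, ⟨pres_smul_herm h6 (cube_inj hΦ hε h3 (by
      rw [← pow_mul, mul_comm, pow_mul, hμ, inv_pow, h7]; simp)), h8⟩,
      (LinearMap.isUnit_iff_isUnit_det _).2 (by simp only [h8, isUnit_one]), ?_⟩
    rw [smul_mul_assoc, mul_smul_comm, ← mul_assoc, ← h1, mul_assoc, mul_assoc,
      comm_inv_of_comm hd' hd h5.symm]
  · obtain ⟨u, -, h0, hu⟩ := exists_sing_of_herm hσ hε (T := ⊤) (by simp [hV])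
    obtain ⟨g, hg, h1, h2⟩ := hΦ.exists_qrefl hκ (d := u) (c := w - conj hF w) (by
      rw [hε, hu.1, map_sub, Φ.invol]; ring)
    obtain ⟨v, hv⟩ := hΦ.exists_ne h0
    exact ⟨g.toLinearMap, ⟨pres_O ⟨g, hg⟩, by simp [h1, hu.1]⟩, notMem_nrm (no_eig he h.2)
      (Or.inr hV.ge) (φ := (w - conj hF w) • Φ.B u) (w := v) h0 (by simpa [hv] using hw) h2⟩

theorem su3_cover (h3 : (3 : F) = 0) (hV : finrank F V = 3) {e : F} (he : ∀ x, x ^ 3 - x ≠ e)
    (he' : conj hF e = e) (hg : Pres Φ g) (hn : ¬ NP Φ g) :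
    ∃ θ, (adj hΦ θ = θ ∧ θ ^ 3 - θ - e • 1 = 0) ∧ g ∈ nrm ⊤ θ := by
  have : Nontrivial V := Module.nontrivial_of_finrank_pos (R := F) (by omega)
  have An := anti_adj hΦ
  have c0 := adj_mul_self hΦ hg.B
  have c0' := mul_eq_one_comm.1 c0
  obtain ⟨p, j, a1, a2, a3, a4⟩ := exists_mem_ed g (by omega)
  obtain ⟨A, b1, b2, h⟩ := herm_orb hΦ hε hg a1 a2 a3 a4
  have b3 := A.finrank_le
  have b4 : ¬ (finrank F A = 1 ∨ finrank F A + 1 = finrank F V) := fun h => hn (np_of_nd hΦ hε hg b1 b2 h)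
  have b6 := Nat.mul_pos a3 a2.natDegree_pos
  obtain ⟨h, h1, h2⟩ := h.resolve_right fun h => by omega
  have c1 := ed_eq_of_le (Multiset.singleton_le.2 a4) (by simp [a1.natDegree_pow]; omega)
  have c2 : aeval g (p ^ j) = 0 := by rw [aeval_eq_zero_iff_ed, c1]; simp
  have cube : ∀ a b : End F V, a * b = b * a → (a + b) ^ 3 = a ^ 3 + b ^ 3 := fun a b h => by
    simpa using jac (three_end h3) (s' := 0) (s'' := 0) (by simpa using h) (by simp) (by simp)
  have cm : ∀ a : End F V, a * g = g * a → adj hΦ a * g = g * adj hΦ a := fun a h => by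
    have := An.comm h
    exact (comm_inv_of_comm c0' c0 this.symm).symm
  rcases (Nat.dvd_prime Nat.prime_three).1 (⟨p.natDegree, by omega⟩ : j ∣ 3) with rfl | rfl
  · obtain ⟨s, hs⟩ := exists_root (asp_irred (k := 3) (by omega) le_rfl he) a2 (by
      rw [(asp_deg (by omega) e).2]; exact ⟨1, by omega⟩)
    have d1 : aeval (aeval g s) (asp 3 e) = 0 := by
      obtain ⟨t, ht⟩ := hs
      rw [← aeval_comp, ht, map_mul, ← pow_one p, c2, zero_mul]
    rw [aeval_asp] at d1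
    have d2 := congrArg (adj hΦ) d1
    rw [An.sub, An.sub, An.pow, adj_smul, An.one, An.zero, he'] at d2
    have d3 : ∀ a, a * g = g * a → aeval g s * a = a * aeval g s := fun a h =>
      LinearMap.ext fun v => (aeval_comm_of_comm (LinearMap.congr_fun h) s v).symm
    have d4 := cm _ (d3 g rfl)
    refine ⟨-(aeval g s + adj hΦ (aeval g s)), ⟨by rw [An.neg, An.add, An.inv, add_comm], ?_⟩, 0,
      trivial, by simp [mul_add, add_mul, d4, d3 g rfl]⟩
    rw [Odd.neg_pow (by decide), cube _ _ (d3 _ d4)]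
    linear_combination (norm := module) -d1 - d2 - (e * h3) • (1 : End F V)
  · obtain ⟨c, rfl⟩ : ∃ c, p = X - C c := ⟨-p.coeff 0, by simpa using a1.eq_X_add_C (by omega)⟩
    have d1 : (g - c • 1) ^ 3 = 0 := by simpa [Algebra.algebraMap_eq_smul_one] using c2
    refine finish hΦ h3 hg (fun r hr => ?_) (c := c + conj hF c) (by
      rw [map_add, Φ.invol, add_comm]) ?_ (fun θ _ => ⟨θ.charpoly, θ.charpoly_monic.ne_zero, by
        rw [θ.charpoly_natDegree, hV], θ.aeval_self_charpoly⟩) he'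
    · rw [c1, Multiset.mem_singleton] at hr
      simp [hr, derivative_pow, h3]
    · rw [show g + adj hΦ g - (c + conj hF c) • 1 = (g - c • 1) + adj hΦ (g - c • 1) from by
        rw [An.sub, adj_smul, An.one]; module, cube, ← An.pow, d1, An.zero, add_zero]
      rw [An.sub, adj_smul, An.one]
      simp only [mul_sub, sub_mul, c0, c0', smul_mul_assoc, mul_smul_comm, one_mul, mul_one]; module

end herm

theorem cov_su [Fintype F] {q : ℕ} (hF : Fintype.card F = q ^ 2) {n : ℕ}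
    {P Q : Submonoid (End F (Fin n → F)) → Prop}
    (h1 : Fm (fun f => Pres (huForm hF n) f ∧ LinearMap.det f = 1) P)
    (h2 : Fm (fun f => Pres (huForm hF n) f ∧ LinearMap.det f = 1) Q)
    (h : ∀ f, Pres (huForm hF n) f → ∃ M, (P M ∨ Q M) ∧ f ∈ M) : Cov (Cfsg.SU n F q) := by
  refine cover (((lin (Fin n) F).comp Matrix.SpecialLinearGroup.coeMonoidHom).comp
    (Cfsg.SU n F q).subtype) (fun g => ⟨⟨fun u v => g.2 v u, fun _ => rfl⟩,
      (LinearMap.det_toLin' _).trans g.1.2⟩) (fun f hf => ?_) h1 h2 fun f hf => h f hf.1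
  obtain ⟨A, rfl⟩ := Matrix.toLin'.surjective f
  exact ⟨⟨⟨A, by simpa using hf.2⟩, fun u v => hf.1.B v u⟩, rfl⟩

theorem cov_SU4 [Fintype F] {q : ℕ} (hF : Fintype.card F = q ^ 2) : Cov (Cfsg.SU 4 F q) := by
  have hΦ := huForm_nondeg hF 4
  refine cov_su hF (fm_pt hΦ rfl (by simp)) (fm_ts hΦ rfl (by simp)) fun f hf => ?_
  by_cases h : NP (huForm hF 4) f
  · exact (h.stab rfl).imp fun M h => ⟨Or.inl h.1, h.2⟩
  · obtain ⟨W, h1, h2⟩ := su4_cover hΦ rfl (by simp) hf h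
    exact ⟨_, Or.inr ⟨W, h1, rfl⟩, h2⟩

theorem cov_SU3 [Fintype F] {q a : ℕ} (hF : Fintype.card F = q ^ 2) (h3 : (3 : F) = 0)
    (hq : q = 3 ^ a) : Cov (Cfsg.SU 3 F q) := by
  have hΦ := huForm_nondeg hF 3
  obtain ⟨e, he⟩ := exists_asp (F := F) (k := 3) (by omega)
  obtain ⟨w, hw⟩ : ∃ w : F, w ^ 3 - w = e ^ q - e := by
    rw [hq]; clear hq
    induction a with
    | zero => exact ⟨0, by simp⟩
    | succ a ih => obtain ⟨w, hw⟩ := ih; exact ⟨w + e ^ 3 ^ a, by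
        rw [pow_succ 3 a, pow_mul]
        linear_combination hw + (w ^ 2 * e ^ 3 ^ a + w * (e ^ 3 ^ a) ^ 2) * h3⟩
  have h1 : ∀ x, x ^ 3 - x ≠ e + conj hF e := fun x hx => he (w - x) (by
    rw [conj_apply] at hx
    linear_combination hw - hx + (w * x ^ 2 - w ^ 2 * x - e) * h3)
  refine cov_su hF (fm_pt hΦ rfl (by simp)) (fm_su3 hΦ rfl h3 (by simp) h1) fun f hf => ?_
  by_cases h : NP (huForm hF 3) f
  · exact (h.stab rfl).imp fun M h => ⟨Or.inl h.1, h.2⟩
  · obtain ⟨θ, h1, h2⟩ := su3_cover hΦ rfl h3 (by simp) h1 (by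
      rw [map_add, conj_conj, add_comm]) hf h
    exact ⟨_, Or.inr ⟨θ, h1, rfl⟩, h2⟩

end H16.CV
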