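import Cfsg.Agent.H7.AltCov2

/-! Commutators in the double covers of the alternating groups. -/

set_option autoImplicit false
set_option linter.unusedSectionVars false

namespace H16.DA

open Equiv Equiv.Perm Finset
open scoped commutatorElement

variable {X : Type*} [Fintype X] [DecidableEq X]

theorem disj_swap {y : Perm X} {p q : X} (hp : y p = p) (hq : y q = q) : (swap p q).Disjoint y := fun a => by
  by_cases e : a = p
  · exact Or.inr (e ▸ hp)
  by_cases e' : a = q
  · exact Or.inr (e' ▸ hq)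
  · exact Or.inl (swap_apply_of_ne_of_ne e e')

theorem ct_swap {p q : X} (h : p ≠ q) : (swap p q).cycleType = {2} :=
  isSwap_iff_cycleType.1 ⟨p, q, h, rfl⟩

/-- every permutation is a product of two almost balanced involutions -/
theorem two_inv (n : ℕ) : ∀ σ : Perm X, #σ.support ≤ n → ∀ p, ∃ (x y : Perm X) (k l : ℕ), σ = x * y ∧
    x * x = 1 ∧ y * y = 1 ∧ y p = p ∧ (∀ a, σ a = a → x a = a ∧ y a = a) ∧
    x.cycleType = Multiset.replicate k 2 ∧ y.cycleType = Multiset.replicate l 2 ∧ (k = l ∨ k = l + 1) := by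
  induction n with
  | zero =>
    intro σ h p
    obtain rfl : σ = 1 := by simpa using h
    exact ⟨1, 1, 0, 0, by simp⟩
  | succ n ih =>
    intro σ h
    have main : ∀ p, σ p ≠ p → ∃ (x y : Perm X) (k l : ℕ), σ = x * y ∧
        x * x = 1 ∧ y * y = 1 ∧ y p = p ∧ (∀ a, σ a = a → x a = a ∧ y a = a) ∧
        x.cycleType = Multiset.replicate k 2 ∧ y.cycleType = Multiset.replicate l 2 ∧
        (k = l ∨ k = l + 1) := fun p hp => by
      obtain ⟨x, y, k, l, h1, h2, h3, h4, h5, h6, h7, h8⟩ := ih (swap p (σ p) * σ)⁻¹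
        (by have := card_support_swap_mul hp; rw [support_inv]; omega) (σ p)
      obtain ⟨a1, a2⟩ := h5 p (by simp)
      have a3 := disj_swap a2 h4
      refine ⟨swap p (σ p) * y, x, l + 1, k, ?_, ?_, h2, a1, fun a e => ?_, ?_, h6, by omega⟩
      · rw [mul_assoc, ← inv_eq_of_mul_eq_one_right h2, ← inv_eq_of_mul_eq_one_right h3, ← mul_inv_rev, ← h1]
        simp [← mul_assoc]
      · rw [← pow_two, a3.commute.mul_pow]
        simp [pow_two, h3]
      · have e1 : a ≠ p := fun e' => hp (e' ▸ e)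
        have e2 : a ≠ σ p := fun e' => e1 (σ.injective (e.trans e'))
        obtain ⟨b1, b2⟩ := h5 a (by simp [symm_apply_eq, e, swap_apply_of_ne_of_ne e1 e2])
        exact ⟨by simp [b2, swap_apply_of_ne_of_ne e1 e2], b1⟩
      · rw [a3.cycleType_mul, ct_swap hp.symm, h7, Multiset.replicate_succ, Multiset.singleton_add]
    intro p
    by_cases e : σ p = p
    · by_cases e' : σ = 1
      · exact ⟨1, 1, 0, 0, by simp [e']⟩
      · obtain ⟨q, hq⟩ := not_forall.1 (mt Perm.ext e')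
        obtain ⟨x, y, k, l, h1, h2, h3, -, h5, h6⟩ := main q hq
        exact ⟨x, y, k, l, h1, h2, h3, (h5 p e).2, h5, h6⟩
    · exact main p e

/-- permutations with two cycles of length two -/
def Two (x : Perm X) : Prop :=
  ∃ a c, x a ≠ a ∧ x (x a) = a ∧ x c ≠ c ∧ x (x c) = c ∧ c ≠ a ∧ c ≠ x a

theorem two_of {x : Perm X} (h : x * x = 1) (h2 : 2 < #x.support) : Two x := by
  have e : ∀ a, x (x a) = a := fun a => by simpa using congrArg (· a) h
  obtain ⟨a, ha⟩ := card_pos.1 (by omega : 0 < #x.support)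
  obtain ⟨c, hc, hc'⟩ := exists_mem_notMem_of_card_lt_card (card_le_two.trans_lt h2 : #{a, x a} < _)
  exact ⟨a, c, mem_support.1 ha, e a, mem_support.1 hc, e c, by simpa using hc'⟩

theorem Two.mul {x w : Perm X} (h : Two x) (hd : x.Disjoint w) : Two (x * w) := by
  obtain ⟨a, c, h1, h2, h3, h4, h5, h6⟩ := h
  have e : ∀ a, x a ≠ a → w a = a := fun a => (hd a).resolve_left
  have e' : ∀ a, x a ≠ a → w (x a) = x a := fun a ha => e _ (by simpa using ha)
  exact ⟨a, c, by simpa [e, e', h1, h3] using ⟨h2, h4, h5, h6⟩⟩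

theorem card_supp {x : Perm X} {k : ℕ} (h : x.cycleType = Multiset.replicate k 2) : #x.support = 2 * k := by
  rw [← sum_cycleType, h]
  simp [mul_comm]

theorem sign_rep {x : Perm X} {k : ℕ} (h : x.cycleType = Multiset.replicate k 2) : sign x = (-1) ^ k := by
  rw [sign_of_cycleType, h]
  simp [pow_add, mul_comm k 2, pow_mul]

theorem peel {x : Perm X} {k : ℕ} (h : x * x = 1) (hk : x.cycleType = Multiset.replicate (k + 1) 2) {p q : X}
    (hp : x p = p) (hq : x q ≠ q) : ∃ w : Perm X, w * w = 1 ∧ w.cycleType = Multiset.replicate k 2 ∧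
      x = w * swap q (x q) ∧ w.Disjoint (swap q (x q) * swap q p) ∧
      (x * swap q p).cycleType = Multiset.replicate k 2 + {3} := by
  have e : ∀ a, x (x a) = a := fun a => by simpa using congrArg (· a) h
  have a1 : q ≠ p := fun e' => hq (e' ▸ hp)
  have a2 : x q ≠ p := fun e' => a1 (x.injective (e'.trans hp.symm))
  have a3 : (x * swap q (x q)) q = q := by simp [e]
  have a4 : (x * swap q (x q)) (x q) = x q := by simp
  have a5 : (x * swap q (x q)) p = p := by simp [swap_apply_of_ne_of_ne a1.symm a2.symm, hp]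
  have a6 := (disj_swap a3 a4).symm
  have a7 := a6.mul_right (disj_swap a3 a5).symm
  have a8 : x = x * swap q (x q) * swap q (x q) := by simp [mul_assoc]
  have a9 : (x * swap q (x q)).cycleType = Multiset.replicate k 2 := by
    rw [a8, a6.cycleType_mul, ct_swap hq.symm, Multiset.replicate_succ, ← Multiset.singleton_add,
      add_comm] at hk
    exact add_left_cancel hk
  refine ⟨_, ?_, a9, a8, a7, ?_⟩
  · rw [a8, ← pow_two, a6.commute.mul_pow] at h
    simpa [pow_two] using h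
  · conv_lhs => rw [a8]
    rw [mul_assoc, a7.cycleType_mul, a9, (isThreeCycle_swap_mul_swap_same hq.symm a1 a2).cycleType]

theorem two_dbl {a b c d : X} (h : [a, b, c, d].Nodup) : Two (swap a b * swap c d) := by
  simp only [List.nodup_cons, List.mem_cons, not_or] at h
  refine ⟨a, c, ?_⟩
  simp only [Perm.mul_apply, swap_apply_def]
  grind

theorem key (h5 : 5 ≤ Fintype.card X) {σ : Perm X} (hs : sign σ = 1) :
    ∃ x y : Perm X, σ = x * y ∧ sign x = 1 ∧ IsConj x⁻¹ y ∧ Two x := by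
  by_cases e : σ = 1
  · obtain ⟨a, b, i, j, h⟩ := H7.exists_four (X := X) (by omega)
    refine ⟨swap a b * swap i j, _, by rw [e, mul_inv_cancel], by simp [h], IsConj.refl _,
      two_dbl (by simp; grind)⟩
  obtain ⟨q, hq⟩ := not_forall.1 (mt Perm.ext e)
  obtain ⟨x, y, k, l, rfl, h2, h3, h4, -, h6, h7, h8⟩ := two_inv _ σ le_rfl q
  have a1 := sign_rep h6
  obtain rfl : k = l := h8.resolve_right fun e => by
    rw [map_mul, a1, sign_rep h7, e, pow_succ, mul_right_comm, ← mul_pow] at hs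
    simp at hs
  have a2 : x q ≠ q := by simpa [h4] using hq
  obtain ⟨p, hp, hp'⟩ : ∃ p, y p ≠ p ∧ x p = p := by
    by_contra! h
    have := eq_of_subset_of_card_le (fun p hp => mem_support.2 (h p (mem_support.1 hp)) :
      y.support ⊆ x.support) (by rw [card_supp h6, card_supp h7])
    exact mem_support.1 (this ▸ mem_support.2 a2 : q ∈ y.support) h4
  obtain ⟨k, rfl⟩ : ∃ m, k = m + 1 := ⟨k - 1, by
    have := card_pos.2 ⟨q, mem_support.2 a2⟩
    rw [card_supp h6] at this
    omega⟩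
  rcases Nat.even_or_odd k with hk | hk
  swap
  · exact ⟨x, y, rfl, by rw [a1, hk.add_one.neg_one_pow], isConj_iff_cycleType_eq.2 (by
      rw [cycleType_inv, h6, h7]), two_of h2 (by rw [card_supp h6]; have := hk.pos; omega)⟩
  obtain ⟨w, b1, b2, b3, b4, b5⟩ := peel h2 h6 hp' a2
  obtain ⟨u, c1, c2, c3, c4, c5⟩ := peel h3 h7 h4 hp
  have a3 : q ≠ p := fun e' => a2 (e' ▸ hp')
  by_cases hk0 : k = 0
  · subst hk0
    obtain rfl : w = 1 := cycleType_eq_zero.1 b2
    obtain rfl : u = 1 := cycleType_eq_zero.1 c2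
    have a4 : x q ≠ p := fun e' => a3 (x.injective (e'.trans hp'.symm))
    have a5 : y p ≠ q := fun e' => a3 (y.injective (e'.trans h4.symm)).symm
    rw [one_mul] at b3 c3
    rw [b3, c3]
    generalize x q = s at a2 a4
    generalize y p = t at hp a5
    by_cases e : s = t
    · subst e
      obtain ⟨a, b, ha, hb, hab⟩ := one_lt_card_iff.1 (show 1 < #({p, q, s}ᶜ : Finset X) by
        have := card_le_three (a := p) (b := q) (c := s)
        rw [card_compl]
        omega)
      simp only [mem_compl, mem_insert, mem_singleton, not_or] at ha hb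
      refine ⟨swap q s * swap a b, swap a b * swap p s, by simp [mul_assoc], by simp [a2.symm, hab],
        isConj_iff.2 ⟨swap p q, ?_⟩, two_dbl (by simp; grind)⟩
      ext z
      simp [swap_apply_def]
      grind
    · refine ⟨swap q p * swap s t, swap q t * swap s p, ?_, by simp [a3, e],
        isConj_iff.2 ⟨swap p t, ?_⟩, two_dbl (by simp; grind)⟩
      all_goals
        ext z
        simp [swap_apply_def]
        grind
  refine ⟨x * swap q p, swap q p * y, by simp [mul_assoc], ?_, isConj_iff_cycleType_eq.2 ?_, ?_⟩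
  · rw [map_mul, a1, sign_swap a3, ← pow_succ, hk.add_one.add_one.neg_one_pow]
  · rw [cycleType_inv, b5, ← c5, ← cycleType_inv, mul_inv_rev, inv_eq_of_mul_eq_one_right h3, swap_inv,
      swap_comm]
  · rw [b3, mul_assoc]
    exact (two_of b1 (by rw [card_supp b2]; obtain ⟨m, rfl⟩ := hk; omega)).mul b4

variable {E : Type*} [Group E] {π : E →* Perm X}

theorem sq_ne (hp : commutator E = ⊤) (c : H7.AC π) (h2 : ∀ z, π z = 1 → z ^ 2 = 1) {z : E} (z1 : π z = 1)
    (z2 : z ≠ 1) {a b i j : X} (h : [a, b, i, j].Nodup) {x : E} (hx : π x = swap a j * swap b i) :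
    x ^ 2 ≠ 1 := fun e => by
  simp only [List.nodup_cons, List.mem_cons, not_or] at h
  have hab : a ≠ b := h.1.1
  have hi : i ≠ a := Ne.symm h.1.2.1
  have hi' : i ≠ b := Ne.symm h.2.1.1
  have hj : j ≠ a := Ne.symm h.1.2.2.1
  have hj' : j ≠ b := Ne.symm h.2.1.2.1
  have hij : i ≠ j := h.2.2.1.1
  obtain ⟨Y, hY⟩ := c.el_cop (by decide) h2
  obtain ⟨z', -, -, hz, D, d1, d2⟩ := c.main hY hab hi hi' hj hj' hij
  obtain ⟨w, hw, e1⟩ := c.exists_z (a := Y (H7.c3 a b i) * Y (H7.c3 a b j)) (b := x) (by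
    rw [map_mul, hY.map _ (H7.c3_three hab hi hi'), hY.map _ (H7.c3_three hab hj hj'), hx,
      H7.c3_mul hab hi hi' hj hj' hij])
  rw [e1, (c.cen w hw x).mul_pow, h2 w hw, e, one_mul] at hz
  have a1 : commutator E ≤ D := Subgroup.commutator_le.2 fun g _ h _ => by
    obtain ⟨d, hd, e⟩ := d2 g
    obtain ⟨d', hd', e'⟩ := d2 h
    rw [commutatorElement_def, ← c.conj_eq e, show d * h * d⁻¹ * h⁻¹ = d * (h * d⁻¹ * h⁻¹) by group,
      ← c.conj_eq e']
    exact D.mul_mem hd (D.mul_mem (D.mul_mem hd' (D.inv_mem hd)) (D.inv_mem hd'))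
  exact z2 (by simpa [← hz] using d1 z (a1 (hp ▸ trivial)) z1)

theorem flip (hp : commutator E = ⊤) (c : H7.AC π) {z : E} (z1 : π z = 1) (z2 : z ≠ 1)
    (hz : ∀ w, π w = 1 → w = 1 ∨ w = z) {x : E} (hx : Two (π x)) : ∃ t : E, t * x * t⁻¹ = z * x := by
  have z3 : z * z = 1 := (hz _ (by simp [z1])).resolve_right (by simpa using z2)
  have h2 : ∀ w, π w = 1 → w ^ 2 = 1 := fun w hw => by
    rcases hz w hw with rfl | rfl <;> simp [pow_two, z3]
  obtain ⟨a, b, h1, h3, h4, h5, h6, h7⟩ := hx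
  have h8 : π x b ≠ a := fun e => h7 (by rw [← e, h5])
  have h9 : π x b ≠ π x a := by simpa using h6
  generalize ha : π x a = a' at *
  generalize hb : π x b = b' at *
  obtain ⟨s, hs⟩ := c.surj (swap a a' * swap b b') (by simp [h1.symm, h4.symm])
  obtain ⟨u, hu⟩ := c.surj (swap a a' * swap a b) (by simp [h1.symm, h6.symm])
  have sq : ∀ {a b i j : X}, [a, b, i, j].Nodup → ∀ x : E, π x = swap a j * swap b i → x ^ 2 = z :=
    fun h x hx => (hz _ (by
      simp only [List.nodup_cons, List.mem_cons, not_or] at h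
      rw [map_pow, hx, pow_two]
      ext z
      simp [swap_apply_def]
      grind)).resolve_left (sq_ne hp c h2 z1 z2 h hx)
  have a0 : ∀ v, π (s⁻¹ * x) v = v ∨ (v ≠ a ∧ v ≠ a' ∧ v ≠ b ∧ v ≠ b' ∧ π (s⁻¹ * x) v = π x v ∧
      π x v ≠ a ∧ π x v ≠ a' ∧ π x v ≠ b ∧ π x v ≠ b') := fun v => by
    have b0 := fun w => (π x).injective.eq_iff (a := v) (b := w)
    have := b0 a
    have := b0 a'
    have := b0 b
    have := b0 b'
    simp [hs, swap_apply_def]
    grind
  have a1 : Commute (s⁻¹ * x) ⁅u, s⁆ := c.commute_comm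
    (Perm.Disjoint.commute fun v => (a0 v).imp_right fun h => by simp [hu, swap_apply_def, h])
    (Perm.Disjoint.commute fun v => (a0 v).imp_right fun h => by simp [hs, swap_apply_def, h])
  have a3 : π (⁅u, s⁆ * s) = swap a b * swap a' b' := by
    rw [commutatorElement_def, inv_mul_cancel_right, map_mul, map_mul, map_inv, hs, ← conj_mul,
      ← swap_apply_apply, ← swap_apply_apply, swap_comm a b, hu]
    simp [swap_apply_def, *, h7.symm]
  have a2 : π ⁅u, s⁆ = swap a b' * swap a' b := by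
    rw [← mul_left_inj (π s), ← map_mul, a3, hs]
    ext v
    simp [swap_apply_def]
    grind
  generalize ⁅u, s⁆ = t at a1 a2 a3
  have a4 := sq (b := b) (i := b') (by simp; grind) s hs
  have a5 := sq (b := a') (i := b) (by simp; grind) t a2
  have a6 := sq (b := a') (i := b') (by simp; grind) _ a3
  have a7 : t * s * t⁻¹ * s⁻¹ = z := by
    rw [show t * s * t⁻¹ * s⁻¹ = (t * s) ^ 2 * s⁻¹ * (t ^ 2)⁻¹ * s * (s ^ 2)⁻¹ by simp [pow_two, mul_assoc],
      a4, a5, a6, (c.cen z z1 _).eq, inv_eq_of_mul_eq_one_right z3, mul_assoc _ z z, z3]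
    simp
  refine ⟨t, ?_⟩
  rw [← a7, mul_assoc _ s⁻¹, ← mul_inv_eq_iff_eq_mul.2 a1.eq.symm]
  group

theorem comm (h5 : 5 ≤ Fintype.card X) (hp : commutator E = ⊤) (c : H7.AC π) {z : E} (z1 : π z = 1)
    (z2 : z ≠ 1) (hz : ∀ w, π w = 1 → w = 1 ∨ w = z) (g : E) : ∃ a b : E, a * b * a⁻¹ * b⁻¹ = g := by
  obtain ⟨x, y, h1, h2, h3, h4⟩ := key h5 (c.even g)
  obtain ⟨x, rfl⟩ := c.surj x h2
  obtain ⟨t, ht⟩ := flip hp c z1 z2 hz h4
  obtain ⟨h, rfl⟩ : ∃ h : E, π h * (π x)⁻¹ * (π h)⁻¹ = y := by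
    obtain ⟨h, rfl⟩ := isConj_iff.1 h3
    obtain ⟨a, -, a1, a2, -⟩ := h4
    rcases Int.units_eq_one_or (sign h) with e | e
    · obtain ⟨h, rfl⟩ := c.surj h e
      exact ⟨h, rfl⟩
    · obtain ⟨h', e'⟩ := c.surj (h * swap a (π x a)) (by simp [e, a1.symm])
      refine ⟨h', ?_⟩
      have : swap a (π x a) * (π x)⁻¹ = (π x)⁻¹ * swap a (π x a) := by
        rw [mul_swap_eq_swap_mul, swap_comm]
        simp [Perm.inv_eq_iff_eq.2 a2.symm]
      rw [e', mul_assoc h, this]
      simp [mul_assoc]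
  rcases hz (g⁻¹ * (x * h * x⁻¹ * h⁻¹)) (by simp [h1, mul_assoc]) with e | e
  · exact ⟨x, h, (inv_mul_eq_one.1 e).symm⟩
  · refine ⟨x, h * t, ?_⟩
    have e1 : t * x⁻¹ * t⁻¹ = x⁻¹ * z⁻¹ := by
      rw [← mul_inv_rev, ← ht]
      group
    rw [inv_mul_eq_iff_eq_mul] at e
    calc _ = x * h * (t * x⁻¹ * t⁻¹) * h⁻¹ := by group
      _ = x * h * x⁻¹ * h⁻¹ * z⁻¹ := by
        rw [e1, mul_assoc _ h⁻¹, (c.cen z z1 h⁻¹).inv_left.symm.eq]
        group
      _ = g := by rw [e, mul_inv_cancel_right]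

theorem dbl_alt {G : Type*} [Group G] (hp : commutator G = ⊤) {n : ℕ} (hn : 5 ≤ n)
    (hZ : Nat.card (Subgroup.center G) = 2) (e : G ⧸ Subgroup.center G ≃* alternatingGroup (Fin n))
    (g : G) : ∃ a b : G, a * b * a⁻¹ * b⁻¹ = g := by
  obtain ⟨c, hc⟩ := H7.AC.of_equiv le_rfl e
  obtain ⟨z, hz, hz'⟩ := (Nat.card_eq_two_iff' (1 : Subgroup.center G)).1 hZ
  refine comm (by simpa using hn) hp c ((hc z.1).2 z.2) (by simpa using hz) (fun w hw => ?_) g
  by_cases e : w = 1
  · exact Or.inl e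
  · exact Or.inr (congrArg Subtype.val (hz' ⟨w, (hc w).1 hw⟩ (by simpa using e)))

end H16.DA
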