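import Cfsg.Agent.S2986
import Cfsg.Agent.H14.BbE
import Cfsg.Agent.H4.Replace

set_option autoImplicit false
set_option linter.unusedSectionVars false
open Cfsg Subgroup H10 H12 H16.BB
open scoped commutatorElement

namespace H16.Fin

variable {G : Type*} [Group G] [Finite G] {p : ℕ} [hp : Fact p.Prime] {E F : Subgroup G}
  {T : Sylow p G}

theorem cw_le (hE : Bk p E) : CC(WW p E) ≤ NN(E) := by
  rw [← hE.W_eq]
  exact H14.Bb.s2985 (charPIn_top.1 hE.ch) _ hE.blk.choose_spec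

theorem gen23 (bF : IsBaumannBlock p (T : Subgroup G) F) (h3 : p = 3) :
    F ≤ closure {f | f ∈ F ∧ ∃ a b, f ^ (p ^ a * 2 ^ b) = 1} := by
  have k : ∀ f ∈ F, ∀ m, f ^ m ∈ pCoreOf p F → ∃ a, f ^ (p ^ a * m) = 1 := fun f hf m h =>
    (isPGroup_iff_mem.1 (isPGroup_pCoreOf F) _ h).imp fun a ha => by rw [mul_comm, pow_mul, ha]
  rcases blk_type bF with ⟨q, e, he, hn, j, hj⟩ | s
  swap
  · intro f hf
    rcases s.q with ⟨h2, -⟩ | ⟨-, h⟩
    · exact absurd (h2.symm.trans h3) (by decide)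
    · obtain ⟨b, hb⟩ := h f hf
      obtain ⟨a, ha⟩ := k f hf _ hb
      exact subset_closure ⟨hf, a, b, ha⟩
  set N := closure {f | f ∈ F ∧ ∃ a b, f ^ (p ^ a * 2 ^ b) = 1} with hN
  have n1 : N ≤ F := (closure_le _).2 fun f hf => hf.1
  have n2 : F ≤ NN(N) := le_NN_of_cj_le fun g hg => by
    rw [cj_le_iff, hN, closure_le]
    rintro f ⟨hf, a, b, h⟩
    rw [SetLike.mem_coe, mem_cj, inv_inv]
    exact subset_closure ⟨mul_mem (mul_mem hg hf) (inv_mem hg), a, b, by rw [conj_pow, h]; simp⟩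
  have n3 : pCoreOf p F ≤ N := fun f hf => by
    obtain ⟨a, ha⟩ := k f (pCoreOf_le _ hf) 1 (by simpa using hf)
    exact subset_closure ⟨pCoreOf_le _ hf, a, 0, by simpa using ha⟩
  obtain ⟨a, ha⟩ := k e he _ hj
  rw [← pow_add] at ha
  have n4 : zpowers e ≤ N := zpowers_le.2 (subset_closure ⟨he, a + j, 0, by simpa using ha⟩)
  have := normal_subgroupOf (le_NN_pCoreOf (p := p) F)
  have q' := H5.qs_of_equiv q (QuotientGroup.quotientMulEquivOfEq (pCoreOf_subgroupOf F).symm)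
  rcases (H5.isQuasisimple_iff_top.1 q').2.2 _ (bar_normal n1 n2) with h | h
  · exact ((bar_eq_top n1).1 h).ge.trans (sup_le le_rfl (inf_le_right.trans n3))
  rw [← CC_top, ← bar_self, bar_le_CC_iff n1 le_rfl] at h
  refine absurd (le_pCoreOf (P := zpowers e ⊔ pCoreOf p F) (isPGroup_sup_of_NN
    (isPGroup_iff_mem.2 ?_) (isPGroup_pCoreOf F) ((n4.trans n1).trans (le_NN_pCoreOf F)))
    (sup_le (n4.trans n1) (pCoreOf_le _)) (le_NN_of_comm_le_left (comm_sup_le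
      (le_sup_left.trans (le_NN_self _)) (le_sup_right.trans (le_NN_self _))
      (((commutator_mono n4 le_rfl).trans h).trans le_sup_right)
      ((comm_le_left (le_NN_pCoreOf F)).trans le_sup_right))) (mem_sup_left (mem_zpowers e))) hn
  rintro _ ⟨i, rfl⟩
  exact ⟨a + j, by
    rw [← zpow_natCast, ← zpow_mul, mul_comm, zpow_mul, zpow_natCast, ha, one_zpow]⟩

theorem mem_stab (hE : Bk p E) (x : Exc p E) {c : G} (hc : c ∈ CC(WW p E)) {a b : ℕ}
    (h : c ^ (p ^ a * 2 ^ b) ∈ pCore p G) : c ∈ stabMod (pCoreOf p E) (W0 p E) := by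
  have k : ∀ {r : G}, r ∈ CC(WW p E) → ⁅pCoreOf p E, zpowers r⁆ ≤ W0 p E →
      r ∈ stabMod (pCoreOf p E) (W0 p E) := fun {r} hr h =>
    (le_stabMod.2 ⟨W0_NN ((zpowers_le.2 hr).trans (cw_le hE)), (commutator_comm _ _).le.trans h⟩ :
      zpowers r ≤ _) (mem_zpowers r)
  have h1 : c ^ 2 ^ b ∈ stabMod (pCoreOf p E) (W0 p E) := by
    have z := zpowers_le.2 (pow_mem hc (2 ^ b))
    have n : zpowers (c ^ 2 ^ b) ⊔ pCore p G ≤ NN(E) := sup_le (z.trans (cw_le hE)) hE.QN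
    exact k (pow_mem hc _) (pel hE.cQ (ZO_le _) x.irr x.nle (le_NN_pCoreOf _)
      ⟨a, by rwa [← pow_mul, mul_comm]⟩ (le_NN_pCoreOf' n) (W0_NN n)
      ((hE.cle (z.trans (cw_le hE)) z).trans hE.cQ))
  have h2 : c ^ p ^ a ∈ stabMod (pCoreOf p E) (W0 p E) := by
    have z := zpowers_le.2 (pow_mem hc (p ^ a))
    have n := z.trans (cw_le hE)
    refine k (pow_mem hc _) (by_contra fun hh => ?_)
    obtain ⟨r, hr, hi⟩ := exists_inv hE x n ((hE.cle n z).trans hE.cQ) (by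
      rintro _ ⟨i, rfl⟩
      refine ⟨b, ?_⟩
      rw [← zpow_natCast, ← zpow_mul, mul_comm, zpow_mul, zpow_natCast, ← pow_mul]
      exact zpow_mem h _) hh
    refine x.nos r (le_NN_pCoreOf' n hr) (fun w hw => ?_) hi
    have : ⁅zpowers (c ^ p ^ a), W0 p E⁆ ≤ ZZ p E := (commutator_mono le_rfl hE.W0_le).trans
      (comm_sup_le' (ZZ_NN (hE.W_E.trans (le_NN_self _))) (le_NN_self _)
        ((comm_eq_bot.2 z).le.trans bot_le) (comm_le_right (ZZ_NN n)))
    exact this (commutator_mem_commutator hr hw)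
  have cop : (p ^ a).Coprime (2 ^ b) := Nat.Coprime.pow _ _ (by rw [x.p3]; decide)
  have := mul_mem (zpow_mem h2 ((p ^ a).gcdA (2 ^ b))) (zpow_mem h1 ((p ^ a).gcdB (2 ^ b)))
  rwa [← zpow_natCast, ← zpow_natCast, ← zpow_mul, ← zpow_mul, ← zpow_add, ← Nat.gcd_eq_gcd_ab,
    cop, Nat.cast_one, zpow_one] at this

theorem ex2 (hE : Bk p E) (bF : IsBaumannBlock p (T : Subgroup G) F) :
    ∃ (C : Subgroup G) (D : Set G), D ⊆ F ∧ F ≤ closure D ∧
      (∀ f ∈ D, ∀ c ∈ CC(WW p E), (∀ n, f ^ n = 1 → c ^ n ∈ pCore p G) → c ∈ C) ∧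
      ∀ R ≤ CC(WW p E) ⊓ C, resOf p R ≤ CC(pCoreOf p E) := by
  rcases hE.ex with h | x
  · exact ⟨⊤, F, le_rfl, (closure_eq F).ge, fun _ _ _ _ _ => mem_top _,
      fun R hR => triv_U hE (hR.trans inf_le_left) (Or.inl h)⟩
  · exact ⟨stabMod (pCoreOf p E) (W0 p E), _, fun f hf => hf.1, gen23 bF x.p3,
      fun f ⟨_, a, b, hf⟩ c hc h => mem_stab hE x hc (h _ hf),
      fun R hR => triv_U hE (hR.trans inf_le_left) (Or.inr ⟨x, (commutator_comm _ _).le.trans
        (le_stabMod.1 (hR.trans inf_le_right)).2⟩)⟩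

theorem pow_mod {e f : G} (he : e ∈ E) (hf : f ∈ NN(E)) (n : ℕ) : (e * f) ^ n * (f ^ n)⁻¹ ∈ E := by
  induction n with
  | zero => simp
  | succ n ih =>
    convert mul_mem ih (conj_mem_of_mem_NN (pow_mem hf n) he) using 1
    rw [pow_succ, pow_succ]; group

theorem fin (hE : Bk p E) (bF : IsBaumannBlock p (T : Subgroup G) F) (n : F ≤ NN(E))
    (h : F ≤ E ⊔ CC(WW p E)) : F ≤ E ∨ ⁅F, E⁆ = ⊥ := by
  obtain ⟨C, D, d1, d2, d3, d4⟩ := ex2 hE bF
  have hG := charPIn_top.1 hE.ch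
  have res : resOf p F = F := bF.1
  by_cases hW : F ≤ CC(WW p E)
  · have h1 := d4 F (le_inf hW (d2.trans ((closure_le _).2 fun f hf =>
      d3 f hf f (hW (d1 hf)) fun n h => h ▸ one_mem _)))
    rw [res] at h1
    have hD := hE.cle n hW
    exact Or.inr (comm_eq_bot'.2 (quad res ((isPGroup_pCoreOf E).to_le hD)
      (hD.trans (le_CC_symm h1))))
  left
  have pn : pCore p G ≤ NN(F) := block_le_NN (isSylowIn_top T) bF H10.isPGroup_pCore'
    (le_NN_of_normal _ _) (le_NN_of_normal _ _)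
  have p1 : ⁅pCore p G, F⁆ ≤ pCore p G := comm_le_left (le_NN_of_normal _ _)
  have p2 : ⁅pCore p G, F⁆ ≤ pCoreOf p F := le_pCoreOf (H10.isPGroup_pCore'.to_le p1)
    (comm_le_right pn) (right_le_NN_comm _ _)
  have x1 : ⁅WW p E, F⁆ ≤ WW p E := comm_le_left (WW_NN n)
  have x2 : ⁅WW p E, F⁆ ≤ W0 p F := blk_ab_le bF ((commutator_mono (WW_Q _) le_rfl).trans p2)
    (right_le_NN_comm _ _) (x1.trans (WW_CC _ (x1.trans (WW_Q _))))
  have x3 := (blk_irr bF x2 (right_le_NN_comm _ _)).resolve_left fun hh => hW (le_CC_symm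
    (quad res (H10.isPGroup_pCore'.to_le (x1.trans (WW_Q _))) hh))
  have x4 : W0 p F ≤ WW p E ⊔ ZZ p F := x3.trans (sup_le_sup_right x1 _)
  have x5 : ⁅W0 p F, F⁆ ≤ WW p E := (commutator_mono x3 le_rfl).trans (comm_sup_le
    (x1.trans (le_NN_self _)) (WW_NN ((inf_le_left.trans ((ZO_le _).trans (pCoreOf_le _))).trans n))
    ((comm_le_left (right_le_NN_comm _ _)).trans x1)
    ((comm_eq_bot.2 inf_le_right).le.trans bot_le))
  have x6 : CC(WW p E) ≤ NN(F) := (CC_anti x5).trans (H14.Bb.s2985 hG T bF)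
  have en : E ≤ NN(CC(WW p E)) := le_NN_CC (WW_NN (le_NN_self _))
  have q1 : pCoreOf p F ≤ E := by
    rcases blk_exc hG bF with e | y
    · rw [← bF.2.2.1, e]; exact x5.trans hE.W_E
    obtain ⟨t, ht, ti⟩ := y.tinv
    obtain ⟨e, he, c, hc, rfl⟩ := (mem_sup_of_NN en).1 (h ht)
    have cn := x6 hc
    have e1 : e ∈ NN(F) := (mul_mem_cancel_right cn).1 (le_NN_self F ht)
    have j1 : pCoreOf p F ≤ (pCoreOf p F ⊓ E) ⊔ W0 p F := by
      refine (y.irr _ inf_le_left (le_NN_inf (le_NN_pCoreOf _) n)).resolve_left fun hh => ?_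
      refine y.nos c (NN_le_NN_pCoreOf _ cn) (fun w hw => ?_) fun a ha => ?_
      · have : ⁅zpowers c, W0 p F⁆ ≤ ZZ p F := (commutator_mono le_rfl x3).trans (comm_sup_le'
          (ZZ_NN ((comm_le_right ((WW_Q _).trans pn)).trans (le_NN_self _))) (le_NN_self _)
          ((comm_eq_bot.2 ((zpowers_le.2 hc).trans (CC_anti x1))).le.trans bot_le)
          (comm_le_right (ZZ_NN (zpowers_le.2 cn))))
        exact this (commutator_mem_commutator (mem_zpowers c) hw)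
      · have a1 := conj_mem_of_mem_NN (NN_le_NN_pCoreOf (p := p) _ cn) ha
        have a2 : (c * a * c⁻¹) * e * (c * a * c⁻¹)⁻¹ * e⁻¹ ∈ W0 p F := hh <| mem_inf.2 ⟨by
            rw [mul_assoc, mul_assoc, ← mul_assoc e]
            exact mul_mem a1 (conj_mem_of_mem_NN (NN_le_NN_pCoreOf _ e1) (inv_mem a1)),
          mul_mem (conj_mem_of_mem_NN (n (pCoreOf_le _ a1)) he) (inv_mem he)⟩
        convert mul_mem a2 (ti a ha) using 1
        group
    have j2 := comm_le_J j1 inf_le_left (ZO_le_CC _)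
    rw [y.comm] at j2
    exact j1.trans (sup_le inf_le_right (x4.trans (sup_le hE.W_E
      (j2.trans (comm_le_of_le inf_le_right inf_le_right)))))
  have q2 : ⁅pCore p G, E ⊔ F⁆ ≤ pCoreOf p E := comm_sup_le' (le_NN_pCoreOf _) (le_NN_pCoreOf' n)
    hE.QE ((le_inf p1 (p2.trans q1)).trans hE.core.ge)
  set R := (E ⊔ F) ⊓ (CC(WW p E) ⊓ C) with hR
  have r1 : F ≤ E ⊔ R := d2.trans ((closure_le _).2 fun f hf => by
    obtain ⟨e, he, c, hc, rfl⟩ := (mem_sup_of_NN en).1 (h (d1 hf))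
    refine mul_mem (mem_sup_left he) (mem_sup_right ⟨(mul_mem_cancel_left (mem_sup_left he)).1
      (mem_sup_right (d1 hf)), hc, d3 _ hf c hc fun m hm => hE.cQ ?_⟩)
    have := pow_mod (inv_mem he) (n (d1 hf)) m
    rw [hm, inv_one, mul_one, inv_mul_cancel_left] at this
    exact hE.faith (zpowers_le.2 this) ((comm_eq_bot'.2 (zpowers_le.2 (pow_mem hc m))).le.trans
      bot_le) (mem_zpowers _))
  have r2 : resOf p R ≤ CC(pCore p G) := resOf_le_CC_of_step (isPGroup_pCoreOf E)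
    ((commutator_mono le_rfl ((resOf_le _).trans inf_le_left)).trans q2) (d4 R inf_le_right)
  have r3 : IsPGroup p R := isPGroup_of_resOf_isPGroup (H10.isPGroup_pCore'.to_le (r2.trans hG))
  calc F = resOf p F := res.symm
    _ ≤ resOf p (E ⊔ R) := resOf_mono r1
    _ ≤ E := resOf_sup_le r3 (inf_le_left.trans (sup_le (le_NN_self _) n))

end H16.Fin
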