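import Cfsg.Agent.H16.LA4

/-! Products of two regular unipotent matrices (Lev). -/

set_option autoImplicit false

namespace H16.LV

open Module Polynomial LinearMap Submodule

universe u

variable {K V : Type*} [Field K] [AddCommGroup V] [Module K V]

/-- the field has at least four elements -/
def Big (K : Type*) : Prop := ∀ a b c : K, ∃ s, s ≠ a ∧ s ≠ b ∧ s ≠ c

omit [Field K] in
theorem big_of (h : 4 ≤ Cardinal.mk K) : Big K := fun a b c => by
  classical
  by_contra! H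
  have : (Set.univ : Set K) ⊆ ({a, b, c} : Finset K) := fun s _ => by simp; tauto
  have h1 := Cardinal.mk_le_mk_of_subset this
  rw [Cardinal.mk_univ, Finset.coe_sort_coe, Cardinal.mk_coe_finset] at h1
  have h2 : (4 : ℕ) ≤ ({a, b, c} : Finset K).card := by exact_mod_cast h.trans h1
  exact absurd (h2.trans Finset.card_le_three) (by decide)

theorem one_bad {S : Submodule K V} {x : V} (hx : x ∉ S) (y : V) : ∃ a : K, ∀ s, y + s • x ∈ S → s = a := by
  by_cases h : ∃ a : K, y + a • x ∈ S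
  · obtain ⟨a, ha⟩ := h
    exact ⟨a, fun s hs => by_contra fun e => hx ((S.smul_mem_iff (sub_ne_zero.2 e)).1 (by
      simpa [sub_smul] using S.sub_mem hs ha))⟩
  · exact ⟨0, fun s hs => (h ⟨s, hs⟩).elim⟩

theorem avoid_step (hK : Big K) {A B C D : Submodule K V} (h : ∃ x, x ∉ A ∧ x ∉ B ∧ x ∉ C)
    (hD : D ≠ ⊤) : ∃ x, x ∉ A ∧ x ∉ B ∧ x ∉ C ∧ x ∉ D := by
  obtain ⟨x, h1, h2, h3⟩ := h
  by_cases h4 : x ∈ D
  swap
  · exact ⟨x, h1, h2, h3, h4⟩
  obtain ⟨y, -, hy⟩ := SetLike.exists_of_lt hD.lt_top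
  obtain ⟨a, ha⟩ := one_bad h1 y
  obtain ⟨b, hb⟩ := one_bad h2 y
  obtain ⟨c, hc⟩ := one_bad h3 y
  obtain ⟨s, a1, a2, a3⟩ := hK a b c
  exact ⟨y + s • x, mt (ha s) a1, mt (hb s) a2, mt (hc s) a3,
    fun e => hy ((D.add_mem_iff_left (D.smul_mem s h4)).1 e)⟩

theorem avoid (hK : Big K) {A B C D : Submodule K V} (hA : A ≠ ⊤) (hB : B ≠ ⊤) (hC : C ≠ ⊤)
    (hD : D ≠ ⊤) : ∃ x, x ∉ A ∧ x ∉ B ∧ x ∉ C ∧ x ∉ D := by
  obtain ⟨x, -, hx⟩ := SetLike.exists_of_lt hA.lt_top
  obtain ⟨x, h1, -, -, h2⟩ := avoid_step hK ⟨x, hx, hx, hx⟩ hB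
  obtain ⟨x, h1, h2, -, h3⟩ := avoid_step hK ⟨x, h1, h2, h2⟩ hC
  exact avoid_step hK ⟨x, h1, h2, h3⟩ hD

theorem exists_dual (hK : Big K) {u a b c d : V} (ha : a ∉ K ∙ u) (hb : b ∉ K ∙ u) (hc : c ∉ K ∙ u)
    (hd : d ∉ K ∙ u) : ∃ θ : Dual K V, θ u = 0 ∧ θ a = 1 ∧ θ b ≠ 0 ∧ θ c ≠ 0 ∧ θ d ≠ 0 := by
  have key : ∀ {v}, v ∉ K ∙ u → ker (Dual.eval K V v ∘ₗ (ker (Dual.eval K V u)).subtype) ≠ ⊤ :=
    fun {v} hv e => by
      obtain ⟨f, h1, h2⟩ := exists_dual_map_eq_bot_of_notMem hv inferInstance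
      exact h1 (e.ge (mem_top (x := ⟨f, by
        simpa using h2.le (mem_map_of_mem (mem_span_singleton_self u))⟩)))
  obtain ⟨⟨θ, h0⟩, h1, h2, h3, h4⟩ := avoid (V := ker (Dual.eval K V u)) hK (key ha) (key hb) (key hc) (key hd)
  simp only [mem_ker, comp_apply, subtype_apply, Dual.eval_apply] at h0 h1 h2 h3 h4
  exact ⟨(θ a)⁻¹ • θ, by simp [h0], by simp [h1], by simp [h1, h2], by simp [h1, h3], by simp [h1, h4]⟩

variable [FiniteDimensional K V] {g : End K V} {e : V} {θ : Dual K V}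

theorem eq_one_of (h : finrank K V = 1) (hg : LinearMap.det g = 1) : g = 1 := by
  obtain ⟨c, rfl, -⟩ := g.existsUnique_eq_smul_id_of_finrank_eq_one h
  obtain rfl : c = 1 := by simpa [h] using hg
  exact one_smul _ _

/-- not a scalar and not a transvection -/
def Good (g : End K V) : Prop := (∀ c : K, g ≠ c • 1) ∧ finrank K (ker (g - 1)) + 2 ≤ finrank K V

/-- regular unipotent -/
def Reg (g : End K V) : Prop := (∃ k, (g - 1) ^ k = 0) ∧ ∃ u, ∀ v, g v = v → v ∈ K ∙ u

/-- Schur complement -/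
def sc (g : End K V) (e : V) (θ : Dual K V) (h : θ (g e) = 1) : End K (ker θ) :=
  (g - (θ ∘ₗ g).smulRight (g e)).restrict fun _ _ => by simp [h]

omit [FiniteDimensional K V] in
theorem sc_apply (h : θ (g e) = 1) (w : ker θ) : (sc g e θ h w : V) = g w - θ (g w) • g e := rfl

/-- projection onto the hyperplane -/
def pr (e : V) (θ : Dual K V) (h : θ e = 1) : V →ₗ[K] ker θ :=
  (1 - θ.smulRight e : End K V).codRestrict _ fun _ => by simp [h]

omit [FiniteDimensional K V] in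
theorem pr_apply (h : θ e = 1) (v : V) : (pr e θ h v : V) = v - θ v • e := rfl

theorem rank_ker (h : θ e = 1) : finrank K (ker θ) + 1 = finrank K V :=
  Dual.finrank_ker_add_one_of_ne_zero (by rintro rfl; simp at h)

theorem det_sc (h0 : θ e = 1) (h : θ (g e) = 1) : LinearMap.det (sc g e θ h) = LinearMap.det g := by
  let L : End K V := g - (θ ∘ₗ g - θ).smulRight (g e)
  have h1 : ker θ ≤ (ker θ).comap L := fun v hv => by simp [L, h, mem_ker.1 hv]
  have h2 : g = L ∘ₗ transvection (θ ∘ₗ g - θ) e := LinearMap.ext fun v => by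
    simp [L, transvection.apply, h, h0]
  have h3 : (ker θ).mapQ (ker θ) L h1 = LinearMap.id := LinearMap.ext fun v => by
    obtain ⟨v, rfl⟩ := (ker θ).mkQ_surjective v
    exact (Submodule.Quotient.eq _).2 (by simp [L, h])
  have h4 : L.restrict h1 = sc g e θ h := LinearMap.ext fun w => Subtype.ext (by
    simp [L, sc_apply, restrict_apply, mem_ker.1 w.2])
  conv_rhs => rw [h2, det_comp, L.det_eq_det_mul_det _ h1, h3, h4]
  simp [h, h0]

omit [FiniteDimensional K V] in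
theorem not_le (h3 : 3 ≤ finrank K V) (a b : V) : span K {a, b} ≠ ⊤ := fun e => by
  classical
  have h1 := finrank_span_le_card (R := K) ({a, b} : Set V)
  have h2 : ({a, b} : Set V).toFinset.card ≤ 2 := by simpa using Finset.card_le_two
  rw [e, finrank_top] at h1
  omega

theorem exists_e (hK : Big K) (hg : Good g) {c : V} (hc : c ≠ 0) {r : Dual K V} (hr : r ≠ 0) :
    ∃ e, r e ≠ 0 ∧ c ∉ K ∙ (g e - e) ∧ (∀ l : K, g e ≠ l • e) ∧
      (ker (g - 1) ≠ ⊥ → e ∉ range (g - 1)) := by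
  have h0 : Nontrivial V := ⟨c, 0, hc⟩
  obtain ⟨l, h1, h2⟩ : ∃ l : K, (ker (g - 1) ≠ ⊥ → l = 1) ∧
      ((∀ m : K, ker (g - m • 1) = ⊥) ∨ ker (g - l • 1) ≠ ⊥) := by
    by_cases a : ker (g - 1) = ⊥
    · by_cases b : ∀ m : K, ker (g - m • 1) = ⊥
      · exact ⟨1, fun _ => rfl, .inl b⟩
      · obtain ⟨l, b⟩ := not_forall.1 b
        exact ⟨l, fun e => (e a).elim, .inr b⟩
    · exact ⟨1, fun _ => rfl, .inr (by rwa [one_smul])⟩
  have h3 : (K ∙ c).comap (g - 1) ≠ ⊤ := fun e => by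
    have := finrank_range_add_finrank_ker (g - 1)
    have := finrank_mono (range_le_iff_comap.2 e)
    have := finrank_span_singleton (K := K) hc
    have := hg.2
    omega
  have h4 : ∀ {e}, e ∉ (K ∙ c).comap (g - 1) → c ∉ K ∙ (g e - e) := fun {e} a b => a (by
    obtain ⟨s, rfl⟩ := mem_span_singleton.1 b
    exact mem_span_singleton.2 ⟨s⁻¹, by simp [left_ne_zero_of_smul hc]⟩)
  rcases h2 with h2 | h2
  · obtain ⟨e, a1, a2, a3, -⟩ := avoid hK (mt ker_eq_top.1 hr) h3 bot_ne_top bot_ne_top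
    exact ⟨e, a1, h4 a2, fun m a => a3 ((h2 m).le (by simp [a])), fun a => (a (by simpa using h2 1)).elim⟩
  · obtain ⟨e, a1, a2, a3, a4⟩ := avoid hK (mt ker_eq_top.1 hr) h3 (C := ker (g - l • 1))
      (fun a => hg.1 l (sub_eq_zero.1 (ker_eq_top.1 a))) (mt ker_eq_bot_iff_range_eq_top.2 h2)
    refine ⟨e, a1, h4 a2, fun m a => ?_, fun a => by simpa [h1 a] using a4⟩
    by_cases b : m = l
    · exact a3 (by simp [a, b])
    · exact a4 ⟨(m - l)⁻¹ • e, by simp [a, ← sub_smul, smul_smul, sub_ne_zero.2 b]⟩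

theorem good_sc (h3 : 3 ≤ finrank K V) (hd : LinearMap.det g = 1) (hg : Good g)
    (h1 : ∀ l : K, g e ≠ l • e) (h2 : ker (g - 1) ≠ ⊥ → e ∉ range (g - 1)) :
    ∃ t ∉ K ∙ (g e - e), ∀ (θ : Dual K V) (_ : θ e = 1) (h : θ (g e) = 1), θ t ≠ 0 →
      Good (sc g e θ h) := by
  let T : K → Submodule K V := fun l => (K ∙ g e).comap (g - l • 1)
  have a0 : g e ≠ 0 := by simpa using h1 0
  have a1 : ∀ l, l ≠ 0 → e ∉ T l := fun l hl a => by
    obtain ⟨s, a⟩ := mem_span_singleton.1 a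
    by_cases b : s = 1
    · exact a0 (by rw [show e = 0 by simpa [b, hl, eq_sub_iff_add_eq] using a, map_zero])
    · exact h1 ((1 - s)⁻¹ * l) (by
        rw [mul_smul, eq_inv_smul_iff₀ (sub_ne_zero.2 (Ne.symm b)), sub_smul, a]; simp)
  have a2 : finrank K (K ∙ (g e - e)) = 1 :=
    finrank_span_singleton (sub_ne_zero.2 (by simpa using h1 1))
  have a3 : ∀ l : K, (∀ v, g v - l • v ∈ span K {e, g e}) → l ≠ 0 ∧ l ≠ 1 := fun l a => by
    have b := finrank_lt (not_le h3 e (g e))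
    have b1 : finrank K (span K {e, g e}) ≤ 2 := by
      classical exact (finrank_span_le_card _).trans (by simpa using Finset.card_le_two)
    constructor <;> rintro rfl
    · exact not_le h3 e (g e) (top_unique ((range_eq_top.2 (g.equivOfDetNeZero (by simp [hd])).surjective).ge.trans
        (by rintro _ ⟨v, rfl⟩; simpa using a v)))
    · have b2 : range (g - 1) ≤ span K {e, g e} := by rintro _ ⟨v, rfl⟩; simpa using a v
      have := finrank_range_add_finrank_ker (g - 1)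
      have := hg.2
      have := finrank_mono b2
      exact h2 (fun b3 => by have := finrank_eq_zero.2 b3; omega)
        ((eq_of_le_of_finrank_le b2 (by omega)).ge (subset_span (by simp)))
  have a4 : finrank K (T 1) + 2 ≤ finrank K V := by
    by_cases b : ker (g - 1) = ⊥
    · have := finrank_le_finrank_of_injective (f := (g - (1 : K) • 1).restrict (p := T 1) (q := K ∙ g e)
        fun _ h => h) ((injective_restrict_iff _).2 (by simp [b]))
      rw [finrank_span_singleton a0] at this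
      omega
    · refine le_trans (Nat.add_le_add_right (finrank_mono fun v hv => ?_) 2) hg.2
      obtain ⟨s, hs⟩ := mem_span_singleton.1 hv
      obtain rfl : s = 0 := by_contra fun c => h2 b ⟨s⁻¹ • v - e, by
        rw [map_sub, map_smul, ← one_smul K (1 : End K V), ← hs]; simp [c]⟩
      simpa using hs.symm
  have a5 : ∀ (θ : Dual K V) (h : θ (g e) = 1) (l : K) (w : ker θ), sc g e θ h w = l • w → w.1 ∈ T l :=
    fun θ h l w a => mem_span_singleton.2 ⟨θ (g w), by
      have := congrArg Subtype.val a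
      rw [sc_apply] at this
      simp [← show _ = l • w.1 from this]⟩
  have a6 : ∀ (θ : Dual K V) (_ : θ e = 1) (h : θ (g e) = 1), (T 1 ≤ ker θ → T 1 ≤ K ∙ (g e - e)) →
      finrank K (ker (sc g e θ h - 1)) + 2 ≤ finrank K (ker θ) := fun θ h0 h a => by
    have b1 := rank_ker h0
    have b2 : (ker (sc g e θ h - 1)).map (ker θ).subtype ≤ T 1 ⊓ ker θ := by
      rintro _ ⟨w, b, rfl⟩
      exact ⟨a5 θ h 1 w (by simpa [sub_eq_zero] using b), w.2⟩
    have b3 := finrank_mono b2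
    rw [finrank_map_subtype_eq] at b3
    by_cases b4 : T 1 ≤ ker θ
    swap
    · have := finrank_lt_finrank_of_lt (inf_lt_left.2 b4)
      omega
    by_contra b5
    have b6 := finrank_mono (inf_le_left.trans (a b4) : T 1 ⊓ ker θ ≤ _)
    let u : ker θ := ⟨g e - e, by simp [h, h0]⟩
    have b7 : (K ∙ u) ≤ ker (sc g e θ h - 1) := (span_singleton_le_iff_mem _ _).2 (by
      have := (eq_of_le_of_finrank_le (b2.trans (inf_le_left.trans (a b4))) (by
        rw [finrank_map_subtype_eq]; omega)).ge (mem_span_singleton_self _)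
      obtain ⟨w, b, c⟩ := this
      rwa [show u = w from Subtype.ext c.symm])
    have b8 : (K ∙ u) ≤ (K ∙ u).comap (sc g e θ h) := fun v hv => by
      rwa [mem_comap, show sc g e θ h v = v from sub_eq_zero.1 (b7 hv)]
    have b9 := (sc g e θ h).det_eq_det_mul_det _ b8
    have c1 := finrank_quotient_add_finrank (K ∙ u)
    rw [finrank_span_singleton fun c => h1 1 (by simpa [u, sub_eq_zero] using c)] at c1
    have c0 : (sc g e θ h).restrict (p := K ∙ u) (q := K ∙ u) b8 = 1 := LinearMap.ext fun v =>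
      Subtype.ext (show sc g e θ h v.1 = v.1 from sub_eq_zero.1 (b7 v.2))
    rw [det_sc h0, hd, c0, map_one, one_mul] at b9
    refine (a3 1 fun v => ?_).2 rfl
    obtain ⟨s, hs⟩ := mem_span_singleton.1 ((Submodule.Quotient.eq _).1
      (LinearMap.congr_fun (eq_one_of (by omega) b9.symm) (Submodule.Quotient.mk (pr e θ h0 v))))
    have c2 := congrArg Subtype.val hs
    simp only [u, SetLike.val_smul, AddSubgroupClass.coe_sub, sc_apply, pr_apply, map_sub, map_smul] at c2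
    exact mem_span_pair.2 ⟨-s - θ v, s + θ (g v), by
      simp only [h, smul_eq_mul, mul_one] at c2
      linear_combination (norm := module) c2⟩
  have a7 : ∀ (θ : Dual K V) (_ : θ e = 1) (h : θ (g e) = 1) (l : K), sc g e θ h = l • 1 →
      ker θ ≤ T l ∧ ∀ v, g v - l • v ∈ span K {e, g e} := fun θ h0 h l a => by
    refine ⟨fun w hw => a5 θ h l ⟨w, hw⟩ (by simp [a]), fun v => ?_⟩
    obtain ⟨s, hs⟩ := mem_span_singleton.1 (a5 θ h l (pr e θ h0 v) (by simp [a]))
    exact mem_span_pair.2 ⟨-l * θ v, s + θ v, by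
      simp only [pr_apply, map_sub, map_smul, LinearMap.sub_apply, LinearMap.smul_apply, End.one_apply] at hs
      linear_combination (norm := module) hs⟩
  by_cases b : ∃ l : K, ∀ v, g v - l • v ∈ span K {e, g e}
  · obtain ⟨l, b⟩ := b
    have b0 : ∀ m : K, ∀ v ∉ span K {e, g e}, g v - m • v ∈ span K {e, g e} → m = l := fun m v c d =>
      by_contra fun f => c ((smul_mem_iff _ (sub_ne_zero.2 f)).1 (by
        simpa [sub_smul] using sub_mem (b v) d))
    obtain ⟨f, f1, f2⟩ := exists_dual_map_eq_bot_of_notMem (p := K ∙ g e) (x := e) (fun c =>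
      a1 1 one_ne_zero (sub_mem (mem_span_singleton_self _) (by simpa using c))) inferInstance
    have f3 : f (g e) = 0 := by simpa using f2.le (mem_map_of_mem (mem_span_singleton_self _))
    have b1 : ker (f ∘ₗ (g - l • 1)) ≤ T l := fun v hv => by
      obtain ⟨x, y, c⟩ := mem_span_pair.1 (b v)
      obtain rfl : x = 0 := by simpa [← c, f1, f3] using hv
      exact mem_span_singleton.2 ⟨y, by simpa using c⟩
    have b2 := finrank_range_add_finrank_ker (f ∘ₗ (g - l • 1))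
    have b3 := (range (f ∘ₗ (g - l • 1))).finrank_le
    have b4 := finrank_mono b1
    obtain ⟨t, t1, t2⟩ := SetLike.not_le_iff_exists.1 fun c : T l ≤ K ∙ (g e - e) => by
      have := finrank_mono c
      rw [finrank_self] at b3
      omega
    refine ⟨t, t2, fun θ h0 h ht => ⟨fun m c => ?_, a6 θ h0 h fun c v hv => ?_⟩⟩
    · obtain ⟨c1, c2⟩ := a7 θ h0 h m c
      obtain ⟨v, -, hv⟩ := SetLike.exists_of_lt (not_le h3 e (g e)).lt_top
      obtain rfl := b0 m v hv (c2 v)
      exact a1 m (a3 m b).1 (by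
        simpa [ht, smul_smul, pr_apply] using smul_mem _ (θ t)⁻¹ (sub_mem t1 (c1 (pr e θ h0 t).2)))
    · obtain ⟨x, y, rfl⟩ := mem_span_pair.1 (by_contra fun d => (a3 l b).2
        (b0 1 v d (span_mono (by simp) hv)).symm)
      obtain rfl : x = -y := by simpa [h, h0, add_eq_zero_iff_eq_neg] using c hv
      exact mem_span_singleton.2 ⟨y, by module⟩
  · by_cases c : T 1 ≤ K ∙ (g e - e)
    · exact ⟨e, fun d => by
        obtain ⟨s, d⟩ := mem_span_singleton.1 d
        have : s ≠ 0 := fun f => a0 (by rw [f, zero_smul] at d; rw [← d, map_zero])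
        exact h1 (1 + s⁻¹) (by rw [add_smul, ← congrArg (s⁻¹ • ·) d, inv_smul_smul₀ this]; simp),
        fun θ h0 h _ => ⟨fun m d => b ⟨m, (a7 θ h0 h m d).2⟩, a6 θ h0 h fun _ => c⟩⟩
    · obtain ⟨t, t1, t2⟩ := SetLike.not_le_iff_exists.1 c
      exact ⟨t, t2, fun θ h0 h ht => ⟨fun m d => b ⟨m, (a7 θ h0 h m d).2⟩,
        a6 θ h0 h fun d => (ht (d t1)).elim⟩⟩

omit [FiniteDimensional K V] in
theorem Reg.low {L : End K (ker θ)} (H : Reg L) (h0 : θ e = 1) (c : ker θ) (hc : ∀ w, L w - w ≠ c) :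
    Reg ((ker θ).subtype ∘ₗ L ∘ₗ pr e θ h0 + θ.smulRight (e + c)) := by
  obtain ⟨⟨k, h1⟩, u, h2⟩ := H
  set M := (ker θ).subtype ∘ₗ L ∘ₗ pr e θ h0 + θ.smulRight (e + c)
  have a1 : ∀ v, (M - 1) v = ((L - 1) (pr e θ h0 v) + θ v • c : ker θ) := fun v => by
    simp [M, pr_apply]; abel
  have a2 : ∀ w : ker θ, pr e θ h0 w = w := fun w => Subtype.ext (by simp [pr_apply, mem_ker.1 w.2])
  refine ⟨⟨k + 1, LinearMap.ext fun v => ?_⟩, u, fun v hv => ?_⟩
  · have := LinearMap.congr_fun (End.commute_pow_left_of_commute (f := (ker θ).subtype) (g := L - 1)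
      (g₂ := M - 1) (LinearMap.ext fun w => by simp [-LinearMap.sub_apply, a1, a2, mem_ker.1 w.2]) k)
    rw [pow_succ, End.mul_apply, a1]
    simpa [h1] using this ((L - 1) (pr e θ h0 v) + θ v • c)
  · have a3 : (L - 1) (pr e θ h0 v) + θ v • c = 0 := Subtype.ext ((a1 v).symm.trans (by simp [hv]))
    have a4 : θ v = 0 := by_contra fun a => hc ((-(θ v)⁻¹) • pr e θ h0 v) (by
      rw [map_smul, ← smul_sub, show L _ - pr e θ h0 v = _ from eq_neg_of_add_eq_zero_left a3]; simp [a])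
    obtain ⟨s, hs⟩ := mem_span_singleton.1 (h2 (pr e θ h0 v) (by simpa [a4, sub_eq_zero] using a3))
    exact mem_span_singleton.2 ⟨s, by simpa [pr_apply, a4] using congrArg Subtype.val hs⟩

omit [FiniteDimensional K V] in
theorem Reg.up {U : End K (ker θ)} (H : Reg U) (h0 : θ e = 1) (r : Dual K (ker θ))
    (hr : ∀ w, U w = w → r w = 0 → w = 0) {M : End K V}
    (hM : ∀ v, M v = U (pr e θ h0 v) + (θ v + r (pr e θ h0 v)) • e) :
    Reg M ∧ ∀ v, M v = v → v ∈ K ∙ e := by
  obtain ⟨⟨k, h1⟩, -⟩ := H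
  have a1 : ∀ v, pr e θ h0 (M v) = U (pr e θ h0 v) := fun v => Subtype.ext (by
    simp [hM, pr_apply, h0, mem_ker.1 (U _).2])
  have a2 : ∀ v, pr e θ h0 v = 0 → v = θ v • e := fun v hv => sub_eq_zero.1 (congrArg Subtype.val hv)
  have a3 : ∀ v, M v = v → v ∈ K ∙ e := fun v hv => mem_span_singleton.2 ⟨_, (a2 v (hr _
    (by rw [← a1, hv]) (by simpa [hM, h0, mem_ker.1 (U _).2] using congrArg θ hv))).symm⟩
  refine ⟨⟨⟨k + 1, LinearMap.ext fun v => ?_⟩, e, a3⟩, a3⟩
  have := LinearMap.congr_fun (End.commute_pow_left_of_commute (f := pr e θ h0) (g := M - 1)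
    (g₂ := U - 1) (LinearMap.ext fun w => by simp [a1]) k) v
  rw [pow_succ', End.mul_apply, a2 _ (this.symm.trans (by simp [h1]))]
  simp [hM, show pr e θ h0 e = 0 from Subtype.ext (by simp [pr_apply, h0]), h0]

theorem lu (hK : Big K) (n : ℕ) : ∀ {V : Type u} [AddCommGroup V] [Module K V] [FiniteDimensional K V]
    (g : End K V), finrank K V = n + 1 → LinearMap.det g = 1 → (n ≠ 0 → Good g) → ∀ c : V, c ≠ 0 →
    ∀ r : Dual K V, r ≠ 0 → ∃ L U, g = L * U ∧ Reg L ∧ Reg U ∧ (∀ w, L w - w ≠ c) ∧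
      ∀ w, U w = w → r w = 0 → w = 0 := by
  induction n with
  | zero =>
    intro V _ _ _ g h1 h2 _ c hc r hr
    have h3 := (finrank_eq_one_iff_of_nonzero' c hc).1 h1
    have h4 : Reg (1 : End K V) := ⟨⟨1, by simp⟩, c, fun v _ => mem_span_singleton.2 (h3 v)⟩
    refine ⟨1, 1, by rw [eq_one_of h1 h2, one_mul], h4, h4, by simpa using hc.symm, fun w _ h => ?_⟩
    by_contra h5
    exact hr (LinearMap.ext fun v => by
      obtain ⟨s, rfl⟩ := (finrank_eq_one_iff_of_nonzero' w h5).1 h1 v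
      simp [h])
  | succ n ih =>
    intro V _ _ _ g h1 h2 h3 c hc r hr
    replace h3 := h3 (by simp)
    obtain ⟨e, a1, a2, a3, a4⟩ := exists_e hK h3 hc hr
    have a5 : e ∉ K ∙ (g e - e) := fun d => by
      obtain ⟨s, d⟩ := mem_span_singleton.1 d
      have : s ≠ 0 := fun f => a1 (by rw [f, zero_smul] at d; rw [← d, map_zero])
      exact a3 (1 + s⁻¹) (by rw [add_smul, ← congrArg (s⁻¹ • ·) d, inv_smul_smul₀ this]; simp)
    obtain ⟨t, a6, a7⟩ : ∃ t ∉ K ∙ (g e - e), ∀ (θ : Dual K V) (_ : θ e = 1) (h : θ (g e) = 1),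
        θ t ≠ 0 → n ≠ 0 → Good (sc g e θ h) := by
      by_cases hn : n = 0
      · exact ⟨e, a5, fun _ _ _ _ h => (h hn).elim⟩
      · exact (good_sc (by omega) h2 h3 a3 a4).imp fun t h => ⟨h.1, fun θ a b c _ => h.2 θ a b c⟩
    obtain ⟨_, ⟨v, rfl⟩, a8⟩ := SetLike.not_le_iff_exists.1 fun a : range (g - 1) ≤ K ∙ (g e - e) => by
      have := finrank_range_add_finrank_ker (g - 1)
      have := finrank_mono a
      have := finrank_span_singleton (K := K) (sub_ne_zero.2 (by simpa using a3 1) : g e - e ≠ 0)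
      have := h3.2
      omega
    obtain ⟨θ, b1, b2, b3, b4, b5⟩ := exists_dual hK a5 a2 a6 a8
    have b6 : θ (g e) = 1 := by rwa [map_sub, b2, sub_eq_zero] at b1
    obtain ⟨L, U, c1, c2, c3, c4, c5⟩ := ih (sc g e θ b6) (by have := rank_ker b2; omega)
      ((det_sc b2 b6).trans h2) (a7 θ b2 b6 b4) ⟨g e - e, b1⟩
      (fun a => a3 1 (by simpa [sub_eq_zero] using congrArg Subtype.val a)) (θ ∘ₗ g ∘ₗ (ker θ).subtype)
      fun a => b5 (by simpa [pr_apply, b6] using LinearMap.congr_fun a (pr e θ b2 v))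
    obtain ⟨d1, d2⟩ := c3.up b2 _ c5 (M := (ker θ).subtype ∘ₗ U ∘ₗ pr e θ b2 + (θ ∘ₗ g).smulRight e)
      fun v => by simp [pr_apply, b6]
    refine ⟨_, _, LinearMap.ext fun w => ?_, c2.low b2 _ c4, d1, fun w a => b3 ?_, fun w a b => ?_⟩
    · have d3 : ∀ w : ker θ, pr e θ b2 w = w := fun w => Subtype.ext (by simp [pr_apply, mem_ker.1 w.2])
      have d4 := congrArg Subtype.val (LinearMap.congr_fun c1 (pr e θ b2 w))
      simp [sc_apply, pr_apply, b6] at d4
      simp [d3, show pr e θ b2 e = 0 from Subtype.ext (by simp [pr_apply, b2]), b2, mem_ker.1 (U _).2,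
        ← d4, sub_smul]
    · simp [← a, mem_ker.1 (L _).2, b6]
    · obtain ⟨s, rfl⟩ := mem_span_singleton.1 (d2 w a)
      simp [show s = 0 by simpa [a1] using b]

theorem Reg.inv {x y : End K V} (h : Reg x) (e : y * x = 1) : Reg y := by
  obtain ⟨⟨k, h1⟩, u, h2⟩ := h
  have e' := mul_eq_one_comm.1 e
  refine ⟨⟨k, ?_⟩, u, fun v hv => h2 v (by simpa [hv] using LinearMap.congr_fun e' v)⟩
  rw [show y - 1 = -y * (x - 1) by simp [mul_sub, e, neg_add_eq_sub], Commute.mul_pow (Commute.neg_left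
    (Commute.sub_right (e.trans e'.symm) (Commute.one_right _))), h1, mul_zero]

section Mat

open Matrix

variable {n : ℕ} {A : Matrix (Fin (n + 1)) (Fin (n + 1)) K}

theorem Reg.edM_eq (h : Reg (toLin' A)) : edM A = {(X - C 1) ^ (n + 1)} := by
  obtain ⟨⟨k, h1⟩, u, h2⟩ := h
  have h3 : (A - 1) ^ k = 0 := toLin'.injective (by simpa [toLin'_pow, ← End.one_eq_id] using h1)
  have h4 := uni_rank (edM_eq_uni h3)
  have h5 := finrank_range_add_finrank_ker (toLin' (A - 1))
  have h6 : finrank K (ker (toLin' (A - 1))) ≤ 1 := (finrank_mono fun v hv =>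
    h2 v (by simpa [sub_mulVec, sub_eq_zero] using hv)).trans (by simpa using finrank_span_le_card {u})
  have h7 : (jt A).card ≠ 0 := fun e => by
    have := sum_natDegree_edM A
    rw [← jt, Multiset.card_eq_zero.1 e] at this
    simp at this
  have h8 : (A - 1).rank = finrank K (range (toLin' (A - 1))) := rfl
  simp only [finrank_fin_fun, Fintype.card_fin] at h4 h5
  simpa using edM_of_regular h3 (by rw [Fintype.card_fin]; omega)

theorem reg_upper (h1 : ∀ i j, j < i → A i j = 0) (h2 : ∀ i, A i i = 1)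
    (h3 : ∀ v, A *ᵥ v = v → ∀ i, i ≠ 0 → v i = 0) : Reg (toLin' A) := by
  refine ⟨⟨n + 1, ?_⟩, Pi.single 0 1, fun v hv => mem_span_singleton.2 ⟨v 0, funext fun i => ?_⟩⟩
  · have h4 := (A - 1).aeval_self_charpoly
    rw [charpoly_of_isUpperTriangular _ fun i j (e : j < i) => by simp [h1 i j e, e.ne']] at h4
    simpa [toLin'_pow, h2, ← End.one_eq_id] using congrArg toLin' h4
  · by_cases e : i = 0 <;> simp [e, h3 v hv i]

theorem rank_one (h : A.rank ≤ 1) (h0 : A ≠ 0) : A.rank = 1 :=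
  le_antisymm h (Nat.pos_of_ne_zero fun e => h0 (toLin'.injective
    ((range_eq_bot.1 (finrank_eq_zero.1 e)).trans (map_zero _).symm)))

theorem lev (hK : 4 ≤ Cardinal.mk K) (n : ℕ) (hn : 3 ≤ n) (J g : GL (Fin n) K)
    (hJ : ∀ i j : Fin n, J.1 i j = if i = j then 1 else if j.val = i.val + 1 then 1 else 0)
    (hg : ¬ ∃ c : K, g.1 = c • (1 : Matrix (Fin n) (Fin n) K)) (hdet : g.1.det = 1) :
    ∃ x y : GL (Fin n) K, g = (x * J * x⁻¹) * (y * J * y⁻¹) := by
  obtain ⟨n, rfl⟩ : ∃ m, n = m + 2 + 1 := ⟨n - 3, by omega⟩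
  have a0 : ∀ (v : Fin (n + 2 + 1) → K) (i : Fin (n + 2)), (J.1 *ᵥ v) i.castSucc = v i.castSucc + v i.succ :=
    fun v i => by
      rw [mulVec, dotProduct, Finset.sum_eq_add i.castSucc i.succ (Fin.castSucc_lt_succ.ne)]
      · simp [hJ, Fin.castSucc_lt_succ.ne]
      · exact fun j _ h => by
          simp [hJ, h.1.symm, show j.val ≠ i.val + 1 from fun e => h.2 (Fin.ext e)]
      all_goals simp
  have a1 : ∀ s : K, Reg (toLin' (J.1 + single 0 (Fin.last _) s)) := fun s => reg_upper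
    (fun i j e => by simp [hJ, e.ne', show j.val ≠ i.val + 1 by omega, e.ne_zero.symm])
    (fun i => by
      rw [Matrix.add_apply, hJ, if_pos rfl, single_apply_of_ne, add_zero]
      rintro ⟨rfl, e⟩
      exact absurd e (by simp [Fin.ext_iff])) fun v hv i hi => by
      have b1 := fun i : Fin (n + 2) => congrFun hv i.castSucc
      simp only [add_mulVec, Pi.add_apply, a0, single_mulVec] at b1
      obtain ⟨i, rfl⟩ := Fin.exists_succ_eq.2 hi
      have b2 := b1 (Fin.last _)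
      simpa [show v (Fin.last _) = 0 by simpa [← Fin.val_inj] using b2] using b1 i
  have a2 : edM J.1 = {(X - C 1) ^ (n + 2 + 1)} := by simpa using (a1 0).edM_eq
  suffices H : ∃ L U : Matrix (Fin (n + 2 + 1)) (Fin (n + 2 + 1)) K, edM g.1 = edM (L * U) ∧
      edM L = edM J.1 ∧ edM U = edM J.1 by
    obtain ⟨L, U, h1, h2, h3⟩ := H
    obtain ⟨P, h1⟩ := edM_eq_iff.1 h1.symm
    obtain ⟨Q, h2⟩ := edM_eq_iff.1 h2.symm
    obtain ⟨R, h3⟩ := edM_eq_iff.1 h3.symm
    refine ⟨P * Q, P * R, Units.ext ?_⟩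
    simp only [Units.val_mul, _root_.mul_inv_rev, mul_assoc, Units.inv_mul_cancel_left,
      ← mul_assoc Q.1 J.1, ← mul_assoc R.1 J.1, h2, h3, Units.mul_inv_cancel_left]
    rw [← mul_assoc L, ← mul_assoc, h1, Units.mul_inv_cancel_right]
  have a3 : ∀ c : K, toLin' g.1 ≠ c • 1 := fun c e => hg ⟨c, toLin'.injective (by simp [e, End.one_eq_id])⟩
  by_cases h : finrank K (ker (toLin' g.1 - 1)) + 2 ≤ finrank K (Fin (n + 2 + 1) → K)
  · obtain ⟨L, U, h1, h2, h3, -⟩ := lu (big_of hK) (n + 2) (toLin' g.1) (by simp) (by simpa using hdet)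
      (fun _ => ⟨a3, h⟩) (Pi.single 0 1) (by simp) (LinearMap.proj 0) fun e => by
        simpa using LinearMap.congr_fun e (Pi.single 0 1)
    obtain ⟨L, rfl⟩ := toLin'.surjective L
    obtain ⟨U, rfl⟩ := toLin'.surjective U
    exact ⟨L, U, congrArg edM (toLin'.injective (h1.trans (toLin'_mul _ _).symm)), a2 ▸ h2.edM_eq,
      a2 ▸ h3.edM_eq⟩
  have b2 : finrank K (range (toLin' (g.1 - 1))) ≤ 1 := by
    have b1 := finrank_range_add_finrank_ker (toLin' g.1 - 1)
    rw [map_sub, toLin'_one, ← End.one_eq_id]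
    omega
  have a4 := rank_one b2 (sub_ne_zero.2 fun e => hg ⟨1, by simp [e]⟩)
  obtain ⟨a, b, hab⟩ : ∃ a b, g.1 - 1 = vecMulVec a b := by
    obtain ⟨a, ha⟩ := finrank_le_one_iff.1 b2
    choose b hb using fun j => ha ⟨_, Pi.single j 1, rfl⟩
    exact ⟨a, b, Matrix.ext fun i j => by
      simpa [vecMulVec_apply, mul_comm, Matrix.one_apply, Pi.single_apply] using
        (congrFun (congrArg Subtype.val (hb j)) i).symm⟩
  have a5 : b ⬝ᵥ a = 0 := by
    rw [sub_eq_iff_eq_add', vecMulVec_eq Unit] at hab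
    rw [hab, det_one_add_replicateCol_mul_replicateRow] at hdet
    simpa using hdet
  have a6 : (J⁻¹).1 * (J.1 + single 0 (Fin.last _) 1) - 1 = single 0 (Fin.last _) 1 := by
    rw [← Units.mul_right_inj J, mul_sub, Units.mul_inv_cancel_left]
    ext i j
    by_cases e : j = Fin.last _ <;> simp [e, hJ, Matrix.single_apply, eq_comm]
  refine ⟨(J⁻¹).1, _, ?_, ?_, a2 ▸ (a1 1).edM_eq⟩
  · rw [(edM_of_sq_zero (by rw [hab, _root_.sq, vecMulVec_mul_vecMulVec, a5]; simp)).1,
      (edM_of_sq_zero (by rw [a6, _root_.sq, single_mul_single_of_ne _ _ _ _ (by simp)])).1, a4, a6,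
      rank_one (by rw [single_eq_single_vecMulVec_single]; exact rank_vecMulVec_le _ _)
        fun e => by simpa using congrFun (congrFun e 0) (Fin.last _)]
  · exact a2 ▸ ((a1 0).inv (by simp [← toLin'_mul, End.mul_eq_comp, End.one_eq_id])).edM_eq

end Mat

end H16.LV
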