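import Cfsg.Agent.H16.CV3

/-! Factorizations `g = a c⁻¹` with prescribed elementary divisors: infrastructure. -/

set_option autoImplicit false
set_option linter.unusedSectionVars false
set_option linter.unusedSimpArgs false
set_option linter.unusedVariables false

namespace H16.OR

open Module Polynomial H14.Wall H16.CV

universe u
variable {F : Type u} [Field F] {V W U : Type*} [AddCommGroup V] [Module F V]
  [FiniteDimensional F V] [AddCommGroup W] [Module F W] [FiniteDimensional F W]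
  [AddCommGroup U] [Module F U] [FiniteDimensional F U] {s t s' t' : Multiset F[X]}

/-- `g = a c⁻¹` with `ed a = s` and `ed c = t` -/
def Fac (g : End F V) (s t : Multiset F[X]) : Prop :=
  nm s ≠ 0 ∧ ∃ c, ed (g * c) = s ∧ ed c = t

theorem Fac.sim {g : End F V} {h : End F W} (e : Sim g h) (H : Fac g s t) : Fac h s t := by
  obtain ⟨h0, c, h1, h2⟩ := H
  obtain ⟨e, he⟩ := e
  refine ⟨h0, e.conj c, ?_, by rw [← h2, (sim_conj c e).ed_eq]⟩
  rw [← h1]
  refine (Sim.ed_eq ⟨e, fun v => ?_⟩).symm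
  simp [he, LinearEquiv.conj_apply]

theorem Fac.prod {g : End F V} {h : End F W} (H : Fac g s t) (H' : Fac h s' t') :
    Fac (g.prodMap h) (s + s') (t + t') := by
  obtain ⟨h0, c, h1, h2⟩ := H
  obtain ⟨h0', c', h1', h2'⟩ := H'
  refine ⟨by rw [nm_add]; exact mul_ne_zero h0 h0', c.prodMap c', ?_, ?_⟩
  · rw [← h1, ← h1', ← ed_prodMap]; rfl
  · rw [ed_prodMap, h2, h2']

theorem Fac.det {g : End F V} (H : Fac g s t) : LinearMap.det g * nm t = nm s := by
  obtain ⟨h0, c, h1, h2⟩ := H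
  rw [← h1, ← h2, ← det_eq_nm, ← det_eq_nm, map_mul]

theorem Fac.isPP {g : End F V} (H : Fac g s t) : (∀ p ∈ s, IsPP p) ∧ ∀ p ∈ t, IsPP p := by
  obtain ⟨h0, c, rfl, rfl⟩ := H
  exact ⟨fun p => ed_isPP, fun p => ed_isPP⟩

theorem Fac.deg {g : End F V} (H : Fac g s t) : (s.map natDegree).sum = finrank F V := by
  obtain ⟨h0, c, rfl, rfl⟩ := H
  exact sum_natDegree_ed _

theorem fac_one {B : End F V} (h : nm (ed B) ≠ 0) : Fac (1 : End F V) (ed B) (ed B) :=
  ⟨h, B, by rw [one_mul], rfl⟩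

/-- pairwise coprime -/
def Cop (s t : Multiset F[X]) : Prop := ∀ p ∈ s, ∀ r ∈ t, IsCoprime p r

theorem Cop.symm (h : Cop s t) : Cop t s := fun r hr p hp => (h p hp r hr).symm

/-- lower block triangular map -/
def tri (A : End F V) (X : V →ₗ[F] W) (B : End F W) : End F (V × W) :=
  (A ∘ₗ LinearMap.fst F V W).prod (X ∘ₗ LinearMap.fst F V W + B ∘ₗ LinearMap.snd F V W)

theorem tri_apply (A : End F V) (X : V →ₗ[F] W) (B : End F W) (x : V × W) :
    tri A X B x = (A x.1, X x.1 + B x.2) := rfl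

theorem ed_tri {A : End F V} (X : V →ₗ[F] W) {B : End F W} (h : Cop (ed A) (ed B)) :
    ed (tri A X B) = ed A + ed B := by
  let S : End F (V →ₗ[F] W) := LinearMap.lcomp F W A - LinearMap.llcomp F V W W B
  have hS : ∀ Z v, S Z v = Z (A v) - B (Z v) := fun _ _ => rfl
  have hi : Function.Injective S := by
    refine (injective_iff_map_eq_zero S).2 fun Z hZ => LinearMap.ext fun v => ?_
    have h1 := aeval_comm_of_comm (f := A) (g := B) (e := Z)
      (fun v => sub_eq_zero.1 (by rw [← hS, hZ]; rfl)) (ed A).prod v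
    rw [← charpoly_eq_prod_ed, LinearMap.aeval_self_charpoly, charpoly_eq_prod_ed] at h1
    have h2 : IsUnit (aeval B (ed A).prod) := (isUnit_aeval_iff_ed B _).2 fun r hr =>
      Multiset.prod_induction (fun p => IsCoprime p r) _ (fun a b => IsCoprime.mul_left)
        isCoprime_one_left fun p hp => h p hp r hr
    refine ((Module.End.isUnit_iff _).1 h2).1 ?_
    rw [← h1]; simp
  obtain ⟨Z, hZ⟩ := LinearMap.injective_iff_surjective.1 hi X
  rw [← ed_prodMap]
  refine (Sim.ed_eq (sim_of_bijective (tri 1 Z 1) ?_ ?_ fun v => ?_)).symm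
  · refine (injective_iff_map_eq_zero _).2 fun x hx => ?_
    simp only [tri_apply, Module.End.one_apply, Prod.mk_eq_zero] at hx
    exact Prod.ext hx.1 (by simpa [hx.1] using hx.2)
  · exact fun x => ⟨(x.1, x.2 - Z x.1), by simp [tri_apply]⟩
  · simp only [tri_apply, Module.End.one_apply, LinearMap.prodMap_apply, ← hZ, hS, map_add]
    congr 1; abel

/-- block `LU` form -/
def blk (D : End F V) (X : V →ₗ[F] W) (Y : W →ₗ[F] V) (g : End F W) : End F (V × W) :=
  tri D X g * (1 + LinearMap.inl F V W ∘ₗ Y ∘ₗ LinearMap.snd F V W)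

theorem blk_apply (D : End F V) (X : V →ₗ[F] W) (Y : W →ₗ[F] V) (g : End F W) (x : V × W) :
    blk D X Y g x = (D (x.1 + Y x.2), X (x.1 + Y x.2) + g x.2) := by
  simp [blk, tri_apply]

theorem Fac.peel {D : End F V} (X : V →ₗ[F] W) (Y : W →ₗ[F] V) {g : End F W} (H : Fac D s t)
    (H' : Fac g s' t') (h : Cop s s') (h' : Cop t t') : Fac (blk D X Y g) (s + s') (t + t') := by
  obtain ⟨h0, c, rfl, rfl⟩ := H
  obtain ⟨h0', c', rfl, rfl⟩ := H'
  let e := LinearEquiv.prodComm F W V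
  refine ⟨by rw [nm_add]; exact mul_ne_zero h0 h0', e.conj (tri c' (-Y ∘ₗ c') c), ?_, ?_⟩
  · rw [← ed_tri (X ∘ₗ c) h]
    congr 1
    ext x <;> simp [blk_apply, tri_apply, e, LinearEquiv.conj_apply]
  · rw [← (sim_conj _ e).ed_eq, ed_tri _ h'.symm, add_comm]

/-- chained factorization carrying the determinant on a linear elementary divisor -/
def Ch (g : End F V) (a : F) (s : Multiset F[X]) : Prop :=
  ∃ t, Fac g s t ∧ s + {X - C a} = t + {X - C (a * LinearMap.det g)}

theorem nm_X (a : F) : nm {X - C a} = a := by simpa using nm_lin' a 1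

theorem Fac.ch {g : End F V} (H : Fac g s t) {a b : F} (h : s + {X - C a} = t + {X - C b}) :
    Ch g a s := by
  refine ⟨t, H, ?_⟩
  have h1 := congrArg nm h
  have h2 := H.det
  have h3 := H.1
  rw [nm_add, nm_add, nm_X, nm_X] at h1
  have h4 : nm t ≠ 0 := by rintro h4; simp_all
  rw [h, show a * LinearMap.det g = b from mul_left_cancel₀ h4 (by rw [← h1, ← h2]; ring)]

theorem Ch.sim {g : End F V} {h : End F W} (e : Sim g h) {a : F} (H : Ch g a s) : Ch h a s :=
  H.elim fun t H => (H.1.sim e).ch H.2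

theorem Ch.prod {g : End F V} {h : End F W} {a : F} (H : Ch g a s)
    (H' : Ch h (a * LinearMap.det g) s') : Ch (g.prodMap h) a (s + s') := by
  obtain ⟨t, h1, h2⟩ := H
  obtain ⟨t', h1', h2'⟩ := H'
  refine (h1.prod h1').ch (b := a * LinearMap.det g * LinearMap.det h) ?_
  rw [add_right_comm, h2, add_assoc, add_comm _ s', h2', add_assoc]

theorem Ch.nm_ne {g : End F V} {a : F} (H : Ch g a s) : nm s ≠ 0 := H.elim fun _ H => H.1.1

theorem not_dvd_lin {p : F[X]} (h : 2 ≤ p.natDegree) (a : F) : ¬ p ∣ X - C a := fun e => by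
  have := natDegree_le_of_dvd e (X_sub_C_ne_zero a)
  rw [natDegree_X_sub_C] at this
  omega

theorem Ch.peel {D : End F V} (X : V →ₗ[F] W) (Y : W →ₗ[F] V) {g : End F W} {a : F}
    (H : Fac D s s) (H' : Ch g a s') (h : ∀ p ∈ s, Irreducible p ∧ 2 ≤ p.natDegree)
    (h' : ∀ p ∈ s, ∀ r ∈ s', ¬ p ∣ r) : Ch (blk D X Y g) a (s + s') := by
  obtain ⟨t, h1, h2⟩ := H'
  refine (H.peel X Y h1 (fun p hp r hr => (h p hp).1.coprime_iff_not_dvd.2 (h' p hp r hr))
    fun p hp r hr => (h p hp).1.coprime_iff_not_dvd.2 ?_).ch (by rw [add_assoc, h2, add_assoc])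
  have : r ∈ s' + {Polynomial.X - C a} := by rw [h2]; simp [hr]
  rw [Multiset.mem_add, Multiset.mem_singleton] at this
  exact this.elim (h' p hp r) fun e => e ▸ not_dvd_lin (h p hp).2 a

theorem ed_irr {θ : End F V} {p : F[X]} (hm : p.Monic) (hp : Irreducible p) (h : aeval θ p = 0)
    (hd : p.natDegree = finrank F V) : ed θ = {p} := by
  obtain ⟨r, e, -, -, -, hr⟩ := exists_mem_ed θ (by rw [← hd]; exact hp.natDegree_pos.ne')
  refine ed_eq_of_le ?_ (by simpa using hd)
  rw [Multiset.singleton_le, ← (sim_of_irred hm hp h h).2 _ hr]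
  exact hr

theorem ed_line (a : F) : ed (a • 1 : End F F) = {X - C a} :=
  ed_irr (monic_X_sub_C a) (irreducible_X_sub_C a) (by simp [Algebra.algebraMap_eq_smul_one])
    (by simp)

theorem fac_line {l a : F} (hl : l ≠ 0) (ha : a ≠ 0) :
    Fac (l • 1 : End F F) {X - C (a * l)} {X - C a} :=
  ⟨by rw [nm_X]; exact mul_ne_zero ha hl, a • 1, by
    rw [← ed_line, smul_mul_smul_comm, mul_one, mul_comm], ed_line a⟩

theorem ch_line {l a : F} (hl : l ≠ 0) (ha : a ≠ 0) : Ch (l • 1 : End F F) a {X - C (a * l)} :=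
  (fac_line hl ha).ch (add_comm _ _)

theorem sim_smul_one (l : F) (h : finrank F V = finrank F W) :
    Sim (l • 1 : End F V) (l • 1 : End F W) :=
  ⟨LinearEquiv.ofFinrankEq V W h, fun v => by simp⟩

theorem ch_scalar_fin {l : F} (hl : l ≠ 0) (k : ℕ) : ∀ a ≠ 0, ∃ s,
    Ch (l • 1 : End F (Fin k → F)) a s ∧ ∀ p ∈ s, p.natDegree = 1 := by
  induction k with
  | zero =>
    intro a ha
    have h : ∀ c : End F (Fin 0 → F), ed c = 0 := fun c => (ed_eq_zero_iff c).2 (by simp)
    exact ⟨0, Fac.ch ⟨by simp [nm], 1, h _, h _⟩ rfl, by simp⟩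
  | succ k ih =>
    intro a ha
    obtain ⟨s, h1, h2⟩ := ih (a * LinearMap.det (l • 1 : End F F)) (by simp [ha, hl])
    refine ⟨_, ((ch_line hl ha).prod h1).sim ((Sim.of_eq ?_).trans (sim_smul_one l ?_)), ?_⟩
    · ext <;> simp
    · simp [add_comm]
    · intro p hp
      rw [Multiset.mem_add, Multiset.mem_singleton] at hp
      exact hp.elim (fun e => e ▸ natDegree_X_sub_C _) (h2 p)

theorem ch_scalar {l : F} (hl : l ≠ 0) {a : F} (ha : a ≠ 0) : ∃ s,
    Ch (l • 1 : End F V) a s ∧ ∀ p ∈ s, p.natDegree = 1 :=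
  (ch_scalar_fin hl (finrank F V) a ha).imp fun s h => ⟨h.1.sim (sim_smul_one l (by simp)), h.2⟩

theorem eq_blk (h : End F (V × W)) (h1 : ∀ v, (h (v, 0)).1 = v) : ∃ X Y g, h = blk 1 X Y g := by
  let X := LinearMap.snd F V W ∘ₗ h ∘ₗ LinearMap.inl F V W
  let Y := LinearMap.fst F V W ∘ₗ h ∘ₗ LinearMap.inr F V W
  refine ⟨X, Y, LinearMap.snd F V W ∘ₗ h ∘ₗ LinearMap.inr F V W - X ∘ₗ Y, ?_⟩
  ext x <;> simp [blk_apply, X, Y, h1]

theorem exists_blk {g : End F V} (hg : Function.Injective g) {A : Submodule F V}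
    (h : Disjoint A (A.map g)) : ∃ (B : Submodule F V) (X : A →ₗ[F] B) (Y : B →ₗ[F] A)
      (k : End F B), finrank F A + finrank F B = finrank F V ∧ Sim (blk 1 X Y k) g := by
  have h1 : Disjoint (A.map (g - 1)) A := by
    rw [Submodule.disjoint_def] at h ⊢
    rintro _ ⟨a, ha, rfl⟩ h2
    have h3 : g a = 0 := h _ (by simpa using A.add_mem h2 ha) ⟨a, ha, rfl⟩
    rw [hg (h3.trans (map_zero g).symm), map_zero]
  obtain ⟨B, h2, h3⟩ := h1.exists_isCompl
  let e := Submodule.prodEquivOfIsCompl A B h3.symm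
  obtain ⟨X, Y, k, h4⟩ := eq_blk (e.symm.conj g) fun v => by
    have : g v = e (v, ⟨(g - 1) v, h2 ⟨v, v.2, rfl⟩⟩) := by simp [e]
    have h5 : e (v, 0) = v := by simp [e]
    simp only [LinearEquiv.conj_apply, LinearMap.comp_apply, LinearEquiv.coe_coe,
      LinearEquiv.symm_symm, h5, this, LinearEquiv.symm_apply_apply]
  exact ⟨B, X, Y, k, Submodule.finrank_add_eq_of_isCompl h3.symm, h4 ▸ (sim_conj g e.symm).symm⟩

theorem inj_blk {D : End F V} {X : V →ₗ[F] W} {Y : W →ₗ[F] V} {g : End F W}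
    (hg : Function.Injective (blk D X Y g)) : Function.Injective g := by
  refine (injective_iff_map_eq_zero _).2 fun w hw => ?_
  have : blk D X Y g (-Y w, w) = blk D X Y g 0 := by simp [blk_apply, hw]
  simpa using congrArg Prod.snd (hg this)

end H16.OR
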