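import Cfsg.Agent.H16.OR1

/-! Factorizations in dimension two, rootless polynomials. -/

set_option autoImplicit false
set_option linter.unusedSectionVars false
set_option linter.unusedSimpArgs false
set_option linter.unusedVariables false

namespace H16.OR

open Module Polynomial H14.Wall H16.CV

universe u
variable {F : Type u} [Field F] {V W U : Type*} [AddCommGroup V] [Module F V]
  [FiniteDimensional F V] [AddCommGroup W] [Module F W] [FiniteDimensional F W]
  [AddCommGroup U] [Module F U] [FiniteDimensional F U] {s t s' t' : Multiset F[X]}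

/-- a two by two matrix -/
def m2 (a b c d : F) : End F (F × F) :=
  (a • LinearMap.fst F F F + b • LinearMap.snd F F F).prod
    (c • LinearMap.fst F F F + d • LinearMap.snd F F F)

theorem m2_apply (a b c d : F) (x : F × F) :
    m2 a b c d x = (a * x.1 + b * x.2, c * x.1 + d * x.2) := rfl

theorem m2_mul (a b c d a' b' c' d' : F) : m2 a b c d * m2 a' b' c' d' =
    m2 (a * a' + b * c') (a * b' + b * d') (c * a' + d * c') (c * b' + d * d') := by
  ext <;> simp [m2_apply]

theorem m2_one : m2 1 0 0 1 = (1 : End F (F × F)) := by ext <;> simp [m2_apply]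

/-- quadratic polynomial with given trace and norm -/
noncomputable def qd (t c : F) : F[X] := X ^ 2 - C t * X + C c

/-- rootless -/
def RL (t c : F) : Prop := ∀ x, x ^ 2 - t * x + c ≠ 0

theorem qd_deg (t c : F) : (qd t c).Monic ∧ (qd t c).natDegree = 2 :=
  ⟨by unfold qd; monicity!, by unfold qd; compute_degree!⟩

theorem RL.irr {t c : F} (h : RL t c) : Irreducible (qd t c) :=
  irreducible_of_degree_le_three_of_not_isRoot (by simp [(qd_deg t c).2])
    fun x hx => h x (by simpa [qd] using hx)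

theorem nm_qd (t c : F) : nm {qd t c} = c := by
  rw [nm_single, (qd_deg t c).2]; simp [qd]

theorem RL.ne {t c : F} (h : RL t c) : c ≠ 0 := by simpa using h 0

theorem RL.cop {t c : F} (h : RL t c) (a : F) : Cop {X - C a} {qd t c} := by
  simp only [Cop, Multiset.mem_singleton, forall_eq]
  exact (h.irr.coprime_iff_not_dvd.2 (not_dvd_lin (qd_deg t c).2.ge a)).symm

theorem RL.ed_m2 {t c : F} (h : RL t c) {p r s u : F} (h1 : p + u = t) (h2 : p * u - r * s = c) :
    ed (m2 p r s u) = {qd t c} := by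
  refine ed_irr (qd_deg t c).1 h.irr ?_ (by simp [(qd_deg t c).2])
  subst h1 h2
  ext <;> simp [qd, m2_apply, pow_two, Algebra.algebraMap_eq_smul_one] <;> ring

theorem sim_m2 (a b d : F) {c : F} (hc : c ≠ 0) :
    Sim (m2 0 (-(a * d - b * c)) 1 (a + d)) (m2 a b c d) := by
  refine sim_of_bijective (m2 1 a 0 c) ?_ ?_ fun v => ?_
  · refine (injective_iff_map_eq_zero _).2 fun x hx => ?_
    simp only [m2_apply, Prod.mk_eq_zero] at hx
    have : x.2 = 0 := by simpa [hc] using hx.2
    exact Prod.ext (by simpa [this] using hx.1) this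
  · exact fun x => ⟨(x.1 - a * (x.2 / c), x.2 / c), by simp [m2_apply, mul_div_cancel₀, hc]⟩
  · simp only [m2_apply]; congr 1 <;> ring

theorem sim_comp2 {k : End F W} (hW : finrank F W = 2) (hk : ∀ c : F, k ≠ c • 1) :
    ∃ n s, Sim (m2 0 (-n) 1 s) k := by
  obtain ⟨v, hv⟩ : ∃ v, LinearIndependent F ![v, k v] := by
    by_contra! h
    exact (LinearMap.exists_eq_smul_id_of_forall_notLinearIndependent h).elim hk
  let φ : F × F →ₗ[F] W :=
    (LinearMap.toSpanSingleton F W v).coprod (LinearMap.toSpanSingleton F W (k v))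
  have hi : Function.Injective φ := (injective_iff_map_eq_zero _).2 fun x hx =>
    Prod.ext (LinearIndependent.pair_iff.1 hv _ _ hx).1 (LinearIndependent.pair_iff.1 hv _ _ hx).2
  have hs := (LinearMap.injective_iff_surjective_of_finrank_eq_finrank (by simp [hW])).1 hi
  obtain ⟨⟨a, b⟩, h⟩ := hs (k (k v))
  refine ⟨-a, b, sim_of_bijective φ hi hs fun x => ?_⟩
  simp only [φ, m2_apply, LinearMap.coprod_apply, LinearMap.toSpanSingleton_apply, map_add,
    map_smul] at h ⊢
  rw [← h]; module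

theorem conic [Fintype F] {τ t : F} (c : F) (h1 : τ ≠ 2) (h2 : τ = -2 → t ≠ 0) :
    ∃ p r, p ^ 2 - τ * p * r + r ^ 2 - t * p + t * r + c = 0 := by
  by_cases h : ringChar F = 2
  · have h3 : (2 : F) = 0 := by simpa [h] using ringChar.Nat.cast_ringChar (R := F)
    obtain ⟨p, hp⟩ := FiniteField.isSquare_of_char_two h (-((t / τ) ^ 2 - t * (t / τ) + c))
    have : τ ≠ 0 := h3 ▸ h1
    refine ⟨p, -(t / τ), ?_⟩
    have h4 : τ * (t / τ) = t := mul_div_cancel₀ _ this
    linear_combination -hp + p * h4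
  have h3 : (2 : F) ≠ 0 := Ring.two_ne_zero h
  by_cases h4 : τ = -2
  · have := h2 h4
    exact ⟨c / (2 * t), -(c / (2 * t)), by rw [h4]; field_simp; ring⟩
  have h5 : 4 - τ ^ 2 ≠ 0 := fun e => by
    have : (τ - 2) * (τ + 2) = 0 := by linear_combination -e
    rcases mul_eq_zero.1 this with e | e
    exacts [h1 (sub_eq_zero.1 e), h4 (eq_neg_of_add_eq_zero_left e)]
  obtain ⟨x, r, e⟩ := FiniteField.exists_root_sum_quadratic (f := X ^ 2)
    (g := C (4 - τ ^ 2) * X ^ 2 + C (4 * t - 2 * τ * t) * X + C (4 * c - t ^ 2))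
    (degree_X_pow 2) (degree_quadratic h5) (FiniteField.odd_card_of_char_ne_two h)
  simp only [eval_pow, eval_X, eval_add, eval_mul, eval_C] at e
  refine ⟨(x + τ * r + t) / 2, r, ?_⟩
  field_simp
  linear_combination e

theorem RL.fac [Fintype F] {t c : F} (h : RL t c) {a b e d : F} (he : e ≠ 0)
    (hd : a * d - b * e = 1) (h1 : a + d ≠ 2) (h2 : a + d = -2 → t ≠ 0) :
    Fac (m2 a b e d) {qd t c} {qd t c} := by
  refine Fac.sim (sim_m2 a b d he) ?_
  obtain ⟨p, r, hp⟩ := conic c h1 h2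
  rw [hd]
  generalize a + d = τ at *
  refine ⟨by rw [nm_qd]; exact h.ne, m2 (r + t) (τ * r + t - p) (-p) (-r), ?_, ?_⟩
  · rw [m2_mul]
    exact h.ed_m2 (by ring) (by linear_combination -hp)
  · exact h.ed_m2 (by ring) (by linear_combination -hp)

theorem RL.fac_one {t c : F} (h : RL t c) : Fac (1 : End F (F × F)) {qd t c} {qd t c} := by
  have h1 := h.ed_m2 (p := 0) (r := -c) (s := 1) (u := t) (by ring) (by ring)
  rw [← h1]
  exact H16.OR.fac_one (by rw [h1, nm_qd]; exact h.ne)

theorem RL.fac_tri [Fintype F] {t c : F} (h : RL t c) {l : F} (hl : l ≠ 0) :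
    ∃ y, Fac (m2 l 0 y l⁻¹) {qd t c} {qd t c} := by
  by_cases h1 : l = 1
  · exact ⟨0, by rw [h1, inv_one, m2_one]; exact h.fac_one⟩
  have h3 := mul_inv_cancel₀ hl
  by_cases h2 : l = -1 ∧ t = 0
  · refine ⟨0, by rw [nm_qd]; exact h.ne, m2 0 (-c) 1 0, ?_, h.ed_m2 (by simp [h2]) (by ring)⟩
    rw [m2_mul]
    exact h.ed_m2 (by simp [h2]) (by linear_combination c * h3)
  refine ⟨1, h.fac one_ne_zero (by linear_combination h3) (fun e => h1 ?_) fun e e' => h2 ⟨?_, e'⟩⟩
  · exact sub_eq_zero.1 (pow_eq_zero_iff two_ne_zero |>.1 (by linear_combination l * e - h3))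
  · exact eq_neg_of_add_eq_zero_left
      (pow_eq_zero_iff two_ne_zero |>.1 (by linear_combination l * e - h3))

theorem exists_tau : ∃ τ : F, τ ≠ 2 ∧ τ ≠ -2 := by
  by_cases h : (2 : F) = 0
  · exact ⟨1, by simp [h], by simp [h]⟩
  · exact ⟨0, Ne.symm h, by simpa using h⟩

theorem exists_rootless [Fintype F] (d : ℕ) {c : F} (hc : c ≠ 0) :
    ∃ t : F, ∀ x, x ^ (d + 2) - t * x + c ≠ 0 := by
  classical
  have h := (Finset.card_image_le (s := Finset.univ.erase 0)
    (f := fun x : F => (x ^ (d + 2) + c) / x)).trans_lt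
    (Finset.card_erase_lt_of_mem (Finset.mem_univ 0))
  obtain ⟨t, -, ht⟩ := Finset.exists_mem_notMem_of_card_lt_card h
  refine ⟨t, fun x hx => ?_⟩
  have h0 : x ≠ 0 := by rintro rfl; simp [hc] at hx
  exact ht (Finset.mem_image.2 ⟨x, by simp [h0], by
    rw [div_eq_iff h0]; linear_combination hx⟩)

theorem exists_RL [Fintype F] {c : F} (hc : c ≠ 0) : ∃ t, RL t c := exists_rootless 0 hc

theorem exists_ne_two [Fintype F] (h : Fintype.card F ≠ 2) (a : F) : ∃ x, x ≠ 0 ∧ x ≠ a := by
  classical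
  have h1 := Fintype.one_lt_card (α := F)
  obtain ⟨x, -, hx⟩ := Finset.exists_mem_notMem_of_card_lt_card (s := {0, a})
    (t := (Finset.univ : Finset F)) (Finset.card_le_two.trans_lt (by simp; omega))
  exact ⟨x, by simpa using hx⟩

theorem exists_RL_two [Fintype F] (h : Fintype.card F ≠ 2) :
    ∃ c t t' : F, t ≠ t' ∧ RL t c ∧ RL t' c := by
  classical
  obtain ⟨c, hc, h1⟩ := exists_ne_two h 1
  let I := ((Finset.univ.erase 0).erase 1).image fun x : F => x + c / x
  have h2 : I.card ≤ Fintype.card F - 1 - 1 := Finset.card_image_le.trans (by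
    rw [Finset.card_erase_of_mem (by simp), Finset.card_erase_of_mem (by simp), Finset.card_univ])
  have h3 := Fintype.one_lt_card (α := F)
  obtain ⟨t, ht, t', ht', h4⟩ := Finset.one_lt_card.1
    (show 1 < Iᶜ.card by rw [Finset.card_compl]; omega)
  have k : ∀ t ∈ Iᶜ, RL t c := fun t ht x hx => by
    have h0 : x ≠ 0 := by rintro rfl; simp [hc] at hx
    refine Finset.mem_compl.1 ht (Finset.mem_image.2 ?_)
    by_cases e : x = 1
    · exact ⟨c, by simp [hc, h1], by rw [div_self hc]; rw [e] at hx; linear_combination hx⟩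
    · exact ⟨x, by simp [h0, e], by field_simp; linear_combination hx⟩
  exact ⟨c, t, t', h4, k t ht, k t' ht'⟩

theorem exists_B [Fintype F] (hd : 2 ≤ finrank F V) {γ : F} (hγ : γ ≠ 0) : ∃ B : End F V,
    nm (ed B) = γ ∧ ∀ p ∈ ed B, Irreducible p ∧ 2 ≤ p.natDegree := by
  obtain ⟨d, hd⟩ := Nat.exists_eq_add_of_le' hd
  obtain ⟨c, hc⟩ : ∃ c, c = (-1) ^ d * γ := ⟨_, rfl⟩
  obtain ⟨t, ht⟩ := exists_rootless d (c := c) (by simp [hγ, hc])
  have h3 : (C t * X - C c).degree < ((d + 2 : ℕ) : WithBot ℕ) :=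
    lt_of_le_of_lt (b := 1) (by compute_degree) (by norm_cast; omega)
  obtain ⟨B, h1, h2⟩ := exists_ss_charpoly (V := V) (c := X ^ (d + 2) - C t * X + C c)
    (by rw [sub_add]; exact monic_X_pow_sub h3) (by
      rw [hd, sub_add, natDegree_sub_eq_left_of_natDegree_lt] <;> rw [natDegree_X_pow]
      exact lt_of_le_of_lt (b := 1) (by compute_degree) (by omega))
  refine ⟨B, ?_, fun p hp => ⟨h1 p hp, ?_⟩⟩
  · rw [← det_eq_nm, LinearMap.det_eq_sign_charpoly_coeff, h2, hd]
    simp only [coeff_add, coeff_sub, coeff_X_pow, coeff_C_zero, mul_coeff_zero, coeff_X_zero]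
    simp [pow_add, ← mul_assoc, ← mul_pow, hc]
  by_contra! h
  obtain ⟨x, hx⟩ := exists_root_of_degree_eq_one (p := p) (by
    have := (h1 p hp).natDegree_pos
    rw [degree_eq_natDegree (h1 p hp).ne_zero, show p.natDegree = 1 by omega]; rfl)
  have := hx.dvd (Multiset.dvd_prod hp)
  rw [← charpoly_eq_prod_ed, h2] at this
  exact ht x (by simpa using this)

theorem cyc_span {g : End F V} {v : V} (h : ∀ w, ∃ a b c d : F,
    a • v + b • g v + c • g (g v) + d • g (g (g v)) = w) (w : V) : ∃ p : F[X], aeval g p v = w := by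
  obtain ⟨a, b, c, d, rfl⟩ := h w
  exact ⟨C a + C b * X + C c * X ^ 2 + C d * X ^ 3, by
    simp [pow_succ, Algebra.algebraMap_eq_smul_one]⟩

theorem sim_cyc3 {g : End F V} {p : F[X]} (hm : p.Monic) (hd : p.natDegree = 3)
    (hV : finrank F V = 3) (v : V) (h : ∀ w, ∃ a b c d : F,
      a • v + b • g v + c • g (g v) + d • g (g (g v)) = w)
    (h0 : p.coeff 0 • v + p.coeff 1 • g v + p.coeff 2 • g (g v) + g (g (g v)) = 0) :
    Sim (cyc p) g := by
  refine sim_cyc_of_cyclic hm.ne_zero (cyc_span h) ?_ (by omega)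
  have := hm.coeff_natDegree
  rw [hd] at this
  simpa [aeval_eq_sum_range, hd, Finset.sum_range_succ, this, pow_succ] using h0

theorem sim_cyc4 {g : End F V} {p : F[X]} (hm : p.Monic) (hd : p.natDegree = 4)
    (hV : finrank F V = 4) (v : V) (h : ∀ w, ∃ a b c d : F,
      a • v + b • g v + c • g (g v) + d • g (g (g v)) = w)
    (h0 : p.coeff 0 • v + p.coeff 1 • g v + p.coeff 2 • g (g v) + p.coeff 3 • g (g (g v)) +
      g (g (g (g v))) = 0) : Sim (cyc p) g := by
  refine sim_cyc_of_cyclic hm.ne_zero (cyc_span h) ?_ (by omega)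
  have := hm.coeff_natDegree
  rw [hd] at this
  simpa [aeval_eq_sum_range, hd, Finset.sum_range_succ, this, pow_succ] using h0

end H16.OR
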