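import Cfsg.Agent.H16.OR2

/-! Factorizations in dimension three. -/

set_option autoImplicit false
set_option linter.unusedSectionVars false
set_option linter.unusedSimpArgs false
set_option linter.unusedVariables false

namespace H16.OR

open Module Polynomial H14.Wall H16.CV

universe u
variable {F : Type u} [Field F] {V W U : Type*} [AddCommGroup V] [Module F V]
  [FiniteDimensional F V] [AddCommGroup W] [Module F W] [FiniteDimensional F W]
  [AddCommGroup U] [Module F U] [FiniteDimensional F U] {s t s' t' : Multiset F[X]}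

/-- irreducible factors have small degree -/
def Bd (m : ℕ) (s : Multiset F[X]) : Prop :=
  ∀ p ∈ s, ∀ r, Irreducible r → r ∣ p → r.natDegree ≤ 2 ∨ 2 * r.natDegree ≤ m

theorem Bd.add {m m' M : ℕ} (h : Bd m s) (h' : Bd m' s') (e : m ≤ M) (e' : m' ≤ M) :
    Bd M (s + s') := fun p hp r hr hd => (Multiset.mem_add.1 hp).elim
  (fun hp => (h p hp r hr hd).imp_right (·.trans e)) fun hp => (h' p hp r hr hd).imp_right (·.trans e')

theorem bd_of_deg {m : ℕ} (h : ∀ p ∈ s, p ≠ 0 ∧ (p.natDegree ≤ 2 ∨ 2 * p.natDegree ≤ m)) :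
    Bd m s := fun p hp r hr hd => by
  have := natDegree_le_of_dvd hd (h p hp).1
  have := (h p hp).2
  omega

theorem bd_lin {m : ℕ} (h : ∀ p ∈ s, p.natDegree = 1) : Bd m s :=
  bd_of_deg fun p hp => ⟨by rintro rfl; simpa using h 0 hp, by simp [h p hp]⟩

/-- the inductive statement -/
def RP (g : End F V) : Prop := ∀ a ≠ 0, ∀ γ ≠ 0, ∃ s, Ch g a s ∧ nm s = γ ∧
  (∃ p ∈ s, Irreducible p) ∧ Bd (finrank F V) s

/-- the weak inductive statement -/
def R0 (g : End F V) : Prop := ∀ a ≠ 0, ∃ s, Ch g a s ∧ Bd (finrank F V) s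

theorem RP.sim {g : End F V} {h : End F W} (e : Sim g h) (H : RP g) : RP h := fun a ha γ hγ =>
  (H a ha γ hγ).imp fun s H => ⟨H.1.sim e, H.2.1, H.2.2.1, e.finrank_eq ▸ H.2.2.2⟩

theorem RP.r0 {g : End F V} (H : RP g) : R0 g := fun a ha =>
  (H a ha 1 one_ne_zero).imp fun s H => ⟨H.1, H.2.2.2⟩

theorem RP.prod {g : End F V} {h : End F W} (H : RP g) (H' : R0 h) (hg : LinearMap.det g ≠ 0) :
    RP (g.prodMap h) := fun a ha γ hγ => by
  obtain ⟨s', h1, h2⟩ := H' _ (mul_ne_zero ha hg)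
  obtain ⟨s, h3, h4, ⟨p, hp, h5⟩, h6⟩ := H a ha _ (div_ne_zero hγ h1.nm_ne)
  refine ⟨_, h3.prod h1, ?_, ⟨p, by simp [hp], h5⟩, h6.add h2 (by simp) (by simp)⟩
  rw [nm_add, h4, div_mul_cancel₀ _ h1.nm_ne]

theorem r0_scalar {l : F} (hl : l ≠ 0) : R0 (l • 1 : End F V) := fun a ha =>
  (ch_scalar hl ha).imp fun s h => ⟨h.1, bd_lin h.2⟩

theorem rp_blk {g : End F U} (h0 : finrank F V ≠ 0) (h1 : finrank F V ≤ finrank F W)
    (h : ∀ a ≠ 0, ∀ γ ≠ 0, ∃ (D : End F V) (X : V →ₗ[F] W) (Y : W →ₗ[F] V) (k : End F W)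
      (s s' : Multiset F[X]), Sim (blk D X Y k) g ∧ Fac D s s ∧ Ch k a s' ∧
      (∀ p ∈ s, Irreducible p ∧ 2 ≤ p.natDegree) ∧ (∀ p ∈ s, ∀ r ∈ s', ¬ p ∣ r) ∧
      nm s * nm s' = γ ∧ Bd (finrank F W) s') : RP g := fun a ha γ hγ => by
  obtain ⟨D, X, Y, k, s, s', e, h2, h3, h4, h5, h6, h7⟩ := h a ha γ hγ
  have h8 := h2.deg
  have h9 := e.finrank_eq
  rw [finrank_prod] at h9
  obtain ⟨p, hp⟩ := Multiset.exists_mem_of_ne_zero (s := s) (by rintro rfl; exact h0 h8.symm)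
  refine ⟨_, (Ch.peel X Y h2 h3 h4 h5).sim e, by rw [nm_add, h6], ⟨p, by simp [hp], (h4 p hp).1⟩,
    Bd.add (bd_of_deg fun p hp => ⟨(h4 p hp).1.ne_zero, Or.inr ?_⟩) h7 le_rfl (by omega)⟩
  have := Multiset.le_sum_of_mem (Multiset.mem_map_of_mem natDegree hp)
  omega

theorem not_dvd_of_lin (h : ∀ p ∈ s, Irreducible p ∧ 2 ≤ p.natDegree)
    (h' : ∀ p ∈ s', p.natDegree = 1) : ∀ p ∈ s, ∀ r ∈ s', ¬ p ∣ r := fun p hp r hr e => by
  have := natDegree_le_of_dvd e (by rintro rfl; simpa using h' 0 hr)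
  have := h' r hr
  have := (h p hp).2
  omega

theorem rp3 [Fintype F] {g : End F V} {δ : F} (hδ : δ ≠ 0) (h : ∀ t c, RL t c →
    ∃ X Y, ∃ k : End F (F × F), Sim (blk (δ • 1 : End F F) X Y k) g ∧ Fac k {qd t c} {qd t c}) :
    RP g := fun a ha γ hγ => by
  obtain ⟨t, ht⟩ := exists_RL (div_ne_zero hγ (mul_ne_zero ha hδ))
  obtain ⟨X, Y, k, e, h1⟩ := h t _ ht
  refine ⟨_, (((fac_line hδ ha).peel X Y h1 (ht.cop _) (ht.cop _)).ch (b := a * δ)
    (by abel)).sim e, ?_, ⟨_, by simp, ht.irr⟩, bd_of_deg ?_⟩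
  · rw [nm_add, nm_X, nm_qd]; field_simp
  · simp only [Multiset.mem_add, Multiset.mem_singleton]
    rintro p (rfl | rfl)
    · exact ⟨X_sub_C_ne_zero _, Or.inl (by rw [natDegree_X_sub_C]; omega)⟩
    · exact ⟨ht.irr.ne_zero, Or.inl (qd_deg _ _).2.le⟩

theorem sim_of_surj {f g : End F V} (φ : End F V) (hs : Function.Surjective φ)
    (h : ∀ v, φ (f v) = g (φ v)) : Sim f g :=
  sim_of_bijective φ (LinearMap.injective_iff_surjective.2 hs) hs h

/-- a three by three matrix -/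
def m3 (a b c d e f g h i : F) : End F (F × F × F) :=
  let r (a b c : F) := a • LinearMap.fst F F (F × F) +
    (b • LinearMap.fst F F F + c • LinearMap.snd F F F) ∘ₗ LinearMap.snd F F (F × F)
  (r a b c).prod ((r d e f).prod (r g h i))

theorem m3_apply (a b c d e f g h i : F) (x : F × F × F) : m3 a b c d e f g h i x =
    (a * x.1 + (b * x.2.1 + c * x.2.2), d * x.1 + (e * x.2.1 + f * x.2.2),
      g * x.1 + (h * x.2.1 + i * x.2.2)) := rfl

theorem rp3_cyc [Fintype F] {g : End F V} {p : F[X]} (hm : p.Monic) (hd : p.natDegree = 3)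
    (h0 : p.coeff 0 ≠ 0) (e : Sim (cyc p) g) : RP g := by
  obtain ⟨τ, h1, h2⟩ := exists_tau (F := F)
  refine rp3 (neg_ne_zero.2 h0) fun t c ht => ⟨LinearMap.inl F F F,
    (p.coeff 0 - p.coeff 2 - τ) • LinearMap.fst F F F + (1 - p.coeff 1 + (p.coeff 2 + τ) *
      p.coeff 2 - (p.coeff 2 + τ) ^ 2) • LinearMap.snd F F F, m2 0 (-1) 1 τ,
    Sim.trans (Sim.symm (sim_cyc3 hm hd (by simp) (1, 0, 0) (fun w => ?_) ?_)) e,
    ht.fac one_ne_zero (by simp) (by simpa) fun h => absurd (by simpa using h) h2⟩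
  · refine ⟨w.1 + p.coeff 0 * w.2.1, w.2.1 + (p.coeff 2 + τ) * w.2.2, w.2.2, 0, ?_⟩
    ext <;> simp [blk_apply, m2_apply] <;> ring
  · ext <;> simp [blk_apply, m2_apply] <;> ring

theorem rp3_sum [Fintype F] {l n : F} (s : F) (hl : l ≠ 0) (hn : n ≠ 0) :
    RP ((l • 1 : End F F).prodMap (m2 0 (-n) 1 s)) := by
  refine rp3 (mul_ne_zero hn hl) fun t c ht => ?_
  obtain ⟨y, hy⟩ := ht.fac_tri hl
  refine ⟨LinearMap.inr F F F, (y * (n - 1)) • LinearMap.fst F F F +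
    (s - n * l - l⁻¹) • LinearMap.snd F F F, _,
    sim_of_surj (m3 0 1 0 1 (n * y) (-(n * l)) 0 0 1)
      (fun w => ⟨(w.2.1 - n * y * w.1 + n * l * w.2.2, w.1, w.2.2), ?_⟩) fun v => ?_, hy⟩
  · ext <;> simp [m3_apply]; ring
  · ext <;> simp [m3_apply, blk_apply, m2_apply] <;> field_simp <;> ring

theorem det_ne_iff {g : End F V} : LinearMap.det g ≠ 0 ↔ Function.Injective g := by
  rw [Ne, LinearMap.det_eq_zero_iff_ker_ne_bot, not_not, LinearMap.ker_eq_bot]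

theorem IsPP.eq_lin {p : F[X]} (h : IsPP p) (hd : p.natDegree = 1) : ∃ a, p = X - C a :=
  ⟨-p.coeff 0, by rw [h.monic.eq_X_add_C hd]; simp⟩

theorem card_eq_of_lin (h : ∀ p ∈ s, p.natDegree = 1) : (s.map natDegree).sum = s.card := by
  rw [Multiset.map_congr rfl h]; simp

theorem split_lin {g : End F V} (hV : 3 ≤ finrank F V) (hg : ∀ c : F, g ≠ c • 1) {p : F[X]}
    (hp : p ∈ ed g) (hd : p.natDegree = 1) : ∃ (l : F) (n : ℕ) (k : End F (Fin n → F)),
      (∀ c : F, k ≠ c • 1) ∧ Sim g ((l • 1 : End F F).prodMap k) := by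
  have key : ∀ p ∈ ed g, p.natDegree = 1 → ∃ (l : F) (n : ℕ) (k : End F (Fin n → F)),
      p = X - C l ∧ ed g = p ::ₘ ed k ∧ Sim g ((l • 1 : End F F).prodMap k) := fun p hp hd => by
    obtain ⟨l, rfl⟩ := IsPP.eq_lin (ed_isPP hp) hd
    obtain ⟨n, k, h1, h2⟩ := exists_sim_cyc_prod hp
    exact ⟨l, n, k, rfl, h1, sim_of_ed_eq (by rw [ed_prodMap, ed_line, h1]; rfl)⟩
  by_contra! H
  obtain ⟨l, n, k, rfl, h1, h2⟩ := key p hp hd
  have H' := fun l n k => mt (H l n k)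
  push Not at H'
  obtain ⟨c, hc⟩ := H' l n k h2
  rw [eq_smul_iff_ed] at hc
  have h3 := sum_natDegree_ed g
  rw [h1, Multiset.map_cons, Multiset.sum_cons, hd,
    card_eq_of_lin fun p hp => by rw [hc p hp, natDegree_X_sub_C]] at h3
  obtain ⟨r, hr⟩ := Multiset.card_pos_iff_exists_mem.1 (show 0 < (ed k).card by omega)
  obtain ⟨t, ht⟩ := Multiset.exists_cons_of_mem hr
  obtain ⟨r', hr'⟩ := Multiset.card_pos_iff_exists_mem.1 (show 0 < t.card by
    rw [ht, Multiset.card_cons] at h3; omega)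
  obtain ⟨l', n', k', h4, h5, h6⟩ := key r (by simp [h1, hr]) (by rw [hc r hr, natDegree_X_sub_C])
  obtain ⟨c', hc'⟩ := H' l' n' k' h6
  rw [eq_smul_iff_ed] at hc'
  rw [h1, ht, Multiset.cons_swap, Multiset.cons_inj_right] at h5
  have h7 : X - C l = X - C c := by
    rw [hc' (X - C l) (by simp [← h5]), ← hc' r' (by simp [← h5, hr']),
      hc r' (by simp [ht, hr'])]
  refine hg c ((eq_smul_iff_ed g c).2 fun q hq => ?_)
  rw [h1, Multiset.mem_cons] at hq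
  exact hq.elim (· ▸ h7) (hc q)

theorem nl_cases {g : End F V} (h : ∀ p ∈ ed g, p.natDegree ≠ 1) {q : F[X]} (hq : q ∈ ed g) :
    ed g = {q} ∧ q.natDegree = finrank F V ∨ q.natDegree + 2 ≤ finrank F V := by
  obtain ⟨t, ht⟩ := Multiset.exists_cons_of_mem hq
  have h1 := sum_natDegree_ed g
  rw [ht, Multiset.map_cons, Multiset.sum_cons] at h1
  by_cases h0 : t = 0
  · left; subst h0; exact ⟨ht, by simpa using h1⟩
  obtain ⟨r, hr⟩ := Multiset.exists_mem_of_ne_zero h0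
  have hr' : r ∈ ed g := by rw [ht]; exact Multiset.mem_cons_of_mem hr
  have h2 := Multiset.le_sum_of_mem (Multiset.mem_map_of_mem natDegree hr)
  have := h r hr'
  have := (ed_isPP hr').natDegree_pos
  omega

theorem sim_cyc_of_ed {g : End F V} {p : F[X]} (h : ed g = {p}) : Sim (cyc p) g := by
  have h1 : IsPP p := ed_isPP (f := g) (by simp [h])
  have := finite_adj h1.ne_zero
  exact sim_of_ed_eq (by rw [h, ed_cyc h1])

theorem det_m2 (a b c d : F) : LinearMap.det (m2 a b c d) = a * d - b * c := by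
  rw [← LinearMap.det_toMatrix (Basis.finTwoProd F), Matrix.det_fin_two]
  simp [LinearMap.toMatrix_apply, m2_apply]

theorem class3 {g : End F V} (hV : finrank F V = 3) (h0 : LinearMap.det g ≠ 0)
    (hg : ∀ c : F, g ≠ c • 1) :
    (∃ p : F[X], p.Monic ∧ p.natDegree = 3 ∧ p.coeff 0 ≠ 0 ∧ Sim (cyc p) g) ∨
      ∃ l n s : F, l ≠ 0 ∧ n ≠ 0 ∧ Sim ((l • 1 : End F F).prodMap (m2 0 (-n) 1 s)) g := by
  by_cases h : ∃ p ∈ ed g, p.natDegree = 1
  · obtain ⟨p, hp, hd⟩ := h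
    obtain ⟨l, n, k, h1, h2⟩ := split_lin hV.ge hg hp hd
    have h3 := h2.finrank_eq
    obtain ⟨n, s, h4⟩ := sim_comp2 (by rw [finrank_prod, finrank_self] at h3; omega) h1
    have h5 := ((Sim.refl _).prodMap h4).trans h2.symm
    rw [← h5.det, LinearMap.det_prodMap, det_m2] at h0
    exact Or.inr ⟨l, n, s, by rintro rfl; simp at h0, by rintro rfl; simp at h0, h5⟩
  push Not at h
  obtain ⟨p, hp⟩ := Multiset.exists_mem_of_ne_zero ((ed_eq_zero_iff g).not.2 (by omega))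
  have h1 := h p hp
  have h2 := (ed_isPP hp).natDegree_pos
  obtain ⟨h3, h4⟩ := (nl_cases h hp).resolve_right (by omega)
  exact Or.inl ⟨p, (ed_isPP hp).monic, by omega, coeff_ne_of_nm (det_eq_nm g ▸ h0) p hp,
    sim_cyc_of_ed h3⟩

theorem rp_three [Fintype F] {g : End F V} (hV : finrank F V = 3) (h0 : LinearMap.det g ≠ 0)
    (hg : ∀ c : F, g ≠ c • 1) : RP g := by
  rcases class3 hV h0 hg with ⟨p, h1, h2, h3, h4⟩ | ⟨l, n, s, h1, h2, h3⟩
  exacts [rp3_cyc h1 h2 h3 h4, (rp3_sum s h1 h2).sim h3]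

/-- quotient of two similar unipotent elements -/
def U3 (g : End F V) : Prop := ∃ s, Fac g s s ∧ ∀ p ∈ s, p ∣ (X - C 1) ^ 3

theorem U3.sim {g : End F V} {h : End F W} (e : Sim g h) (H : U3 g) : U3 h :=
  H.imp fun s H => ⟨H.1.sim e, H.2⟩

theorem u3_of {g : End F V} (a c : End F V) (h1 : ∀ v, g (c v) = a v) (h2 : Sim a c)
    (h3 : ∀ v, a (a (a v)) - 3 • a (a v) + 3 • a v - v = 0) : U3 g := by
  have h4 : (a - 1) ^ 3 = 0 := LinearMap.ext fun v => by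
    simp only [pow_succ, pow_zero, one_mul, Module.End.mul_apply, LinearMap.sub_apply,
      Module.End.one_apply, map_sub, LinearMap.zero_apply, ← h3 v]
    module
  have h5 : IsUnit a := by simpa using (IsNilpotent.isUnit_add_one ⟨3, h4⟩)
  refine ⟨ed a, ⟨det_eq_nm a ▸ (LinearMap.isUnit_det a h5).ne_zero, c,
    congrArg ed (LinearMap.ext h1), h2.ed_eq.symm⟩, (aeval_eq_zero_iff_ed a _).1 (by simpa)⟩

theorem two_cases [Fintype F] (h : Fintype.card F = 2) (x : F) : x = 0 ∨ x = 1 := by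
  classical
  have : ({0, 1} : Finset F) = Finset.univ := Finset.eq_univ_of_card _ (by simp [h])
  simpa using (this ▸ Finset.mem_univ x : x ∈ ({0, 1} : Finset F))

theorem two_zero [Fintype F] (h : Fintype.card F = 2) : (2 : F) = 0 := by
  simpa [h] using FiniteField.cast_card_eq_zero F

theorem u3_sum (h2 : (2 : F) = 0) {s : F} (hs : s = 0 ∨ s = 1) :
    U3 (((1 : F) • 1 : End F F).prodMap (m2 0 (-1) 1 s)) := by
  rcases hs with rfl | rfl
  · refine u3_of (m3 1 0 0 1 0 1 1 1 0) (m3 1 0 0 1 1 0 1 0 1) (fun v => ?_)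
      (sim_of_surj (m3 1 1 1 0 1 0 0 0 1) (fun w => ⟨(w.1 - w.2.1 - w.2.2, w.2), ?_⟩) fun v => ?_)
      fun v => ?_
    all_goals ext <;> simp [m3_apply, m2_apply] <;> grind
  · refine u3_of (m3 1 0 0 0 0 1 0 1 0) (m3 1 0 0 0 1 1 0 0 1) (fun v => ?_)
      (sim_of_surj (m3 1 0 0 0 1 0 0 1 1) (fun w => ⟨(w.1, w.2.1, w.2.2 - w.2.1), ?_⟩) fun v => ?_)
      fun v => ?_
    all_goals ext <;> simp [m3_apply, m2_apply] <;> grind

theorem u3_LU (x y : F) : U3 (m3 1 1 y 1 2 (y + 1) x (x + 1) (x * y + 2)) := by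
  refine u3_of (m3 1 0 0 1 1 0 x 1 1) (m3 1 (-1) (1 - y) 0 1 (-1) 0 0 1) (fun v => ?_)
    (sim_of_surj (m3 0 (1 - y - x) 1 0 (-1) 0 1 0 0)
      (fun w => ⟨(w.2.2, -w.2.1, w.1 + (1 - y - x) * w.2.1), ?_⟩) fun v => ?_) fun v => ?_
  all_goals ext <;> simp [m3_apply] <;> ring

theorem u3_all [Fintype F] (h : Fintype.card F = 2) {g : End F V} (hV : finrank F V = 3)
    (h0 : LinearMap.det g ≠ 0) : U3 g := by
  have h2 := two_zero h
  have h01 := two_cases h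
  by_cases hg : ∃ c : F, g = c • 1
  · obtain ⟨c, rfl⟩ := hg
    obtain rfl := (h01 c).resolve_left (by rintro rfl; simp [hV] at h0)
    exact u3_of 1 1 (by simp) (Sim.refl _) (by simp)
  push Not at hg
  rcases class3 hV h0 hg with ⟨p, h1, h3, h4, h5⟩ | ⟨l, n, s, h1, h3, h4⟩
  · have h6 := (h01 _).resolve_left h4
    rcases h01 (p.coeff 1) with h7 | h7 <;> rcases h01 (p.coeff 2) with h8 | h8
    · refine (u3_sum h2 (Or.inr rfl)).sim ((sim_cyc3 h1 h3 (by simp) (1, 1, 0)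
        (fun w => ⟨w.1 + w.2.2, w.1 + w.2.1, w.1 + w.2.1 + w.2.2, 0, ?_⟩) ?_).symm.trans h5)
      all_goals ext <;> simp [m2_apply, h6, h7, h8] <;> grind
    · refine (u3_LU 0 0).sim ((sim_cyc3 h1 h3 (by simp) (1, 0, 0)
        (fun w => ⟨w.1 + w.2.1 + w.2.2, w.2.1 + w.2.2, w.2.2, 0, ?_⟩) ?_).symm.trans h5)
      all_goals ext <;> simp [m3_apply, h6, h7, h8] <;> grind
    · refine (u3_LU 1 1).sim ((sim_cyc3 h1 h3 (by simp) (1, 0, 0)
        (fun w => ⟨w.1 + w.2.1, w.2.2, w.2.1 + w.2.2, 0, ?_⟩) ?_).symm.trans h5)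
      all_goals ext <;> simp [m3_apply, h6, h7, h8] <;> grind
    · refine (u3_LU 1 0).sim ((sim_cyc3 h1 h3 (by simp) (1, 0, 0)
        (fun w => ⟨w.1 + w.2.1, w.2.1, w.2.1 + w.2.2, 0, ?_⟩) ?_).symm.trans h5)
      all_goals ext <;> simp [m3_apply, h6, h7, h8] <;> grind
  · obtain rfl := (h01 l).resolve_left h1
    obtain rfl := (h01 n).resolve_left h3
    exact (u3_sum h2 (h01 s)).sim h4

end H16.OR
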