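import Cfsg.Agent.H16.OR3

/-! Factorizations in dimension four. -/

set_option autoImplicit false
set_option linter.unusedSectionVars false
set_option linter.unusedSimpArgs false
set_option linter.unusedVariables false

namespace H16.OR

open Module Polynomial H14.Wall H16.CV

universe u
variable {F : Type u} [Field F] {V W U : Type*} [AddCommGroup V] [Module F V]
  [FiniteDimensional F V] [AddCommGroup W] [Module F W] [FiniteDimensional F W]
  [AddCommGroup U] [Module F U] [FiniteDimensional F U] {s t s' t' : Multiset F[X]}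

/-- block companion form -/
def bG (P Q : End F W) : End F (W × W) :=
  (P ∘ₗ LinearMap.snd F W W).prod (LinearMap.fst F W W + Q ∘ₗ LinearMap.snd F W W)

theorem bG_apply (P Q : End F W) (x : W × W) : bG P Q x = (P x.2, x.1 + Q x.2) := rfl

/-- splitting of a two dimensional map -/
def Sp (M : End F W) : Prop := ∀ a ≠ 0, ∀ γ ≠ 0, ∃ D k t c s, D * k = M ∧ RL t c ∧
  Fac D {qd t c} {qd t c} ∧ Ch k a s ∧ (∀ p ∈ s, p.natDegree = 1) ∧ c * nm s = γ

theorem Sp.sim {M : End F V} {N : End F W} (e : Sim M N) (H : Sp M) : Sp N := fun a ha γ hγ => by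
  obtain ⟨D, k, t, c, s, h1, h2, h3, h4, h5⟩ := H a ha γ hγ
  obtain ⟨e, he⟩ := e
  refine ⟨e.conj D, e.conj k, t, c, s, ?_, h2, h3.sim (sim_conj _ e), h4.sim (sim_conj _ e), h5⟩
  rw [← conj_eq_of_comm he, ← h1]
  exact (LinearEquiv.conj_comp e k D).symm

theorem rp_bG {P : End F W} (Q : End F W) (hW : finrank F W ≠ 0) (H : Sp (-P)) : RP (bG P Q) := by
  refine rp_blk hW le_rfl fun a ha γ hγ => ?_
  obtain ⟨D, k, t, c, s, h1, h2, h3, h4, h5, h6⟩ := H a ha γ hγ
  have h7 : ∀ p ∈ ({qd t c} : Multiset F[X]), Irreducible p ∧ 2 ≤ p.natDegree := by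
    simp [h2.irr, (qd_deg t c).2]
  refine ⟨D, LinearMap.id, Q - D - k, k, _, s, sim_of_surj
    (1 - LinearMap.inl F W W ∘ₗ D ∘ₗ LinearMap.snd F W W) (fun w => ⟨(w.1 + D w.2, w.2), by simp⟩)
    fun v => ?_, h3, h4, h7, not_dvd_of_lin h7 h5, by rw [nm_qd, h6], bd_lin h5⟩
  have := LinearMap.congr_fun h1 v.2
  simp only [Module.End.mul_apply, LinearMap.neg_apply] at this
  ext <;> simp [blk_apply, bG_apply, this]
  abel

theorem sp_of_fac [Fintype F] {M : End F W} (h : ∀ t c, RL t c → Fac M {qd t c} {qd t c}) :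
    Sp M := fun a ha γ hγ => by
  obtain ⟨s, h1, h2⟩ := ch_scalar (V := W) one_ne_zero ha
  obtain ⟨t, ht⟩ := exists_RL (div_ne_zero hγ h1.nm_ne)
  exact ⟨M, _, t, _, s, by simp, ht, h t _ ht, h1, h2, div_mul_cancel₀ _ h1.nm_ne⟩

theorem ch_low {a δ x : F} (y : F) (ha : a ≠ 0) (hδ : δ ≠ 0) (hx : x ≠ 0) (h : x ≠ a * δ) :
    Ch (m2 1 0 y δ) a ({X - C x} + {X - C (a * δ)}) := by
  refine Fac.ch (t := {X - C x} + {X - C a}) (b := a * δ) ⟨by rw [nm_add, nm_X, nm_X]; simp [*],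
    (x • 1 : End F F).prodMap (a • 1), ?_, by rw [ed_prodMap, ed_line, ed_line]⟩ (by abel)
  rw [← ed_line, ← ed_line, ← ed_tri ((y * x) • 1)]
  · congr 1
    ext <;> simp [m2_apply, tri_apply, mul_comm]
  · simp only [ed_line, Cop, Multiset.mem_singleton, forall_eq]
    exact isCoprime_X_sub_C_of_isUnit_sub (sub_ne_zero.2 h).isUnit

theorem sim_swap (a b c d : F) : Sim (m2 a b c d) (m2 d c b a) :=
  ⟨LinearEquiv.prodComm F F F, fun v => by simp [m2_apply, add_comm]⟩

theorem sp_low [Fintype F] (h : Fintype.card F ≠ 2) {M : End F (F × F)} {δ : F} (hδ : δ ≠ 0)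
    (H : ∀ t c, RL t c → ∃ D k y, D * k = M ∧ Fac D {qd t c} {qd t c} ∧ Sim (m2 1 0 y δ) k) :
    Sp M := fun a ha γ hγ => by
  obtain ⟨x, hx, h1⟩ := exists_ne_two h (a * δ)
  have h0 := mul_ne_zero hx (mul_ne_zero ha hδ)
  obtain ⟨t, ht⟩ := exists_RL (div_ne_zero hγ h0)
  obtain ⟨D, k, y, h2, h3, h4⟩ := H t _ ht
  refine ⟨D, k, t, _, _, h2, ht, h3, (ch_low y ha hδ hx h1).sim h4, ?_, ?_⟩
  · simp only [Multiset.mem_add, Multiset.mem_singleton]
    rintro p (rfl | rfl) <;> exact natDegree_X_sub_C _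
  · rw [nm_add, nm_X, nm_X, div_mul_cancel₀ _ h0]

theorem sp_all [Fintype F] (h : Fintype.card F ≠ 2) {M : End F W} (hW : finrank F W = 2)
    (h0 : LinearMap.det M ≠ 0) : Sp M := by
  by_cases hM : ∃ c : F, M = c • 1
  · obtain ⟨c, rfl⟩ := hM
    have hc : c ≠ 0 := by rintro rfl; simp [hW] at h0
    refine Sp.sim (sim_smul_one (V := F × F) c (by simp [hW]))
      (sp_low h (mul_ne_zero hc hc) fun t e ht => ?_)
    obtain ⟨y, hy⟩ := ht.fac_tri hc
    refine ⟨_, _, -(y * c), ?_, hy, Sim.refl _⟩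
    ext <;> simp [m2_apply, hc, mul_comm]
  push Not at hM
  obtain ⟨n, s, e⟩ := sim_comp2 hW hM
  have hn : n ≠ 0 := by rintro rfl; simp [← e.det, det_m2] at h0
  obtain ⟨τ, h1, h2⟩ := exists_tau (F := F)
  refine Sp.sim e (sp_low h hn fun t c ht => ⟨m2 0 (-n) n⁻¹ τ, _, n * (s - τ), ?_,
    ht.fac (inv_ne_zero hn) (by simp [hn]) (by simpa) fun h => absurd (by simpa using h) h2,
    sim_swap _ _ _ _⟩)
  ext <;> simp [m2_apply, hn]

/-- a subspace disjoint from its image -/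
def HW (g : End F V) (k : ℕ) : Prop :=
  ∃ A : Submodule F V, finrank F A = k ∧ Disjoint A (A.map g)

theorem exists_bG {g : End F V} (hg : Function.Injective g) {A : Submodule F V}
    (hA : finrank F V = 2 * finrank F A) (h : Disjoint A (A.map g)) :
    ∃ P Q : End F A, Sim (bG P Q) g := by
  let φ : A × A →ₗ[F] V := A.subtype.coprod (g ∘ₗ A.subtype)
  have hi : Function.Injective φ := (injective_iff_map_eq_zero _).2 fun x hx => by
    have h1 : (x.1 : V) = g (-x.2) := by rw [map_neg]; exact eq_neg_of_add_eq_zero_left hx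
    have h2 := Submodule.disjoint_def.1 h _ x.1.2 ⟨_, (-x.2).2, h1.symm⟩
    rw [h2, ← map_zero g] at h1
    exact Prod.ext (Subtype.ext h2) (Subtype.ext (neg_eq_zero.1 (hg h1).symm))
  let e := LinearMap.linearEquivOfInjective φ hi (by rw [finrank_prod, hA, two_mul])
  have he : ∀ x, e x = x.1 + g x.2 := fun _ => rfl
  refine ⟨LinearMap.fst F A A ∘ₗ e.symm.toLinearMap ∘ₗ g ∘ₗ g ∘ₗ A.subtype,
    LinearMap.snd F A A ∘ₗ e.symm.toLinearMap ∘ₗ g ∘ₗ g ∘ₗ A.subtype, e, fun x => ?_⟩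
  have := e.apply_symm_apply (g (g x.2))
  rw [he] at this
  simp only [he, bG_apply, LinearMap.comp_apply, LinearMap.fst_apply, LinearMap.snd_apply,
    Submodule.coe_add, map_add, Submodule.subtype_apply, LinearEquiv.coe_coe]
  rw [add_left_comm, this]

theorem rp_four [Fintype F] (h : Fintype.card F ≠ 2) {g : End F V} (hV : finrank F V = 4)
    (h0 : LinearMap.det g ≠ 0) (H : HW g 2) : RP g := by
  obtain ⟨A, h1, h2⟩ := H
  obtain ⟨P, Q, e⟩ := exists_bG (det_ne_iff.1 h0) (by omega) h2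
  refine (rp_bG Q (by omega) (sp_all h h1 (det_ne_iff.2 ?_))).sim e
  rw [← e.det, det_ne_iff] at h0
  refine (injective_iff_map_eq_zero _).2 fun w hw => ?_
  have : bG P Q (-Q w, w) = bG P Q 0 := by simpa [bG_apply] using hw
  simpa using congrArg Prod.snd (h0 this)

theorem sp_one [Fintype F] : Sp (-(-1) : End F (F × F)) :=
  sp_of_fac fun t c h => by rw [neg_neg]; exact h.fac_one

theorem sp_three [Fintype F] (h2 : (2 : F) = 0) : Sp (-(-m2 0 1 1 (1 : F))) :=
  sp_of_fac fun t c h => by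
    rw [neg_neg]
    exact h.fac one_ne_zero (by grind) (by simp [h2]) fun h => absurd h (by simp [h2])

theorem rp_four_cyc [Fintype F] (h : Fintype.card F = 2) {g : End F V} {p : F[X]} (hm : p.Monic)
    (hd : p.natDegree = 4) (h0 : p.coeff 0 ≠ 0) (e : Sim (cyc p) g) : RP g := by
  have h2 := two_zero h
  have h01 := two_cases h
  have h6 := (h01 _).resolve_left h0
  by_cases h7 : p.coeff 3 = 1 ∧ p.coeff 2 = 0
  · rcases h01 (p.coeff 1) with h8 | h8
    · refine (rp_bG (m2 0 1 1 1) (by simp) (sp_three h2)).sim ((sim_cyc4 hm hd (by simp)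
        ((1, 0), 0) (fun w => ⟨w.1.1 + w.1.2 + w.2.2, w.1.2 + w.2.1 + w.2.2, w.2.2,
          w.1.2 + w.2.2, ?_⟩) ?_).symm.trans e)
      all_goals ext <;> simp [bG_apply, m2_apply, h6, h7, h8] <;> grind
    · refine (rp_bG (m2 1 0 0 0) (by simp) sp_one).sim ((sim_cyc4 hm hd (by simp)
        ((1, 1), 0) (fun w => ⟨w.1.1 + w.2.1 + w.2.2, w.1.1 + w.1.2 + w.2.2,
          w.1.1 + w.1.2 + w.2.1 + w.2.2, w.1.1 + w.1.2, ?_⟩) ?_).symm.trans e)
      all_goals ext <;> simp [bG_apply, m2_apply, h6, h7, h8] <;> grind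
  have h8 : (p.coeff 2 + 1) * p.coeff 3 = 0 ∧ p.coeff 2 ^ 2 = p.coeff 2 := by
    rcases h01 (p.coeff 2) with h8 | h8 <;> rcases h01 (p.coeff 3) with h9 | h9 <;>
      simp [h8, h9, one_add_one_eq_two, h2] at h7 ⊢
  refine (rp_bG (m2 (p.coeff 2 + 1) (p.coeff 1 + p.coeff 2 + 1) 0 (p.coeff 3 + p.coeff 2 + 1))
    (by simp) (sp_three h2)).sim ((sim_cyc4 hm hd (by simp) ((1, 0), 0)
      (fun w => ⟨w.1.1, w.2.1 + (p.coeff 2 + 1) * w.1.2, w.1.2 + (p.coeff 2 + 1) * w.2.2,
        w.2.2, ?_⟩) ?_).symm.trans e)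
  all_goals ext <;> simp [bG_apply, m2_apply, h6] <;> grind

theorem not_scalar {g : End F V} (h : ∀ p ∈ ed g, p.natDegree ≠ 1) (hV : finrank F V ≠ 0) (c : F) :
    g ≠ c • 1 := fun e => by
  obtain ⟨p, hp⟩ := Multiset.exists_mem_of_ne_zero ((ed_eq_zero_iff g).not.2 hV)
  exact h p hp (by rw [(eq_smul_iff_ed g c).1 e p hp, natDegree_X_sub_C])

theorem split_nl {g : End F V} (h : ∀ p ∈ ed g, p.natDegree ≠ 1) {p : F[X]} (hp : p ∈ ed g) :
    ∃ (n : ℕ) (k : End F (Fin p.natDegree → F)) (k' : End F (Fin n → F)), Sim (k.prodMap k') g ∧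
      (∀ p ∈ ed k, p.natDegree ≠ 1) ∧ (∀ p ∈ ed k', p.natDegree ≠ 1) := by
  obtain ⟨n, k', h1, -⟩ := exists_sim_cyc_prod hp
  obtain ⟨k, hk⟩ := exists_ed_of_finrank (V := Fin p.natDegree → F) (s := {p})
    (by simpa using ed_isPP hp) (by simp)
  exact ⟨n, k, k', sim_of_ed_eq (by rw [ed_prodMap, hk, h1]; rfl), by simpa [hk] using h p hp,
    fun r hr => h r (by simp [h1, hr])⟩

theorem rp_four_two [Fintype F] (h : Fintype.card F = 2) {g : End F V} (hV : finrank F V = 4)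
    (h0 : LinearMap.det g ≠ 0) (H : ∀ p ∈ ed g, p.natDegree ≠ 1) : RP g := by
  obtain ⟨p, hp⟩ := Multiset.exists_mem_of_ne_zero ((ed_eq_zero_iff g).not.2 (by omega))
  rcases nl_cases H hp with ⟨h1, h2⟩ | h1
  · exact rp_four_cyc h (ed_isPP hp).monic (by omega) (coeff_ne_of_nm (det_eq_nm g ▸ h0) p hp)
      (sim_cyc_of_ed h1)
  obtain ⟨n, k, k', e, h2, h3⟩ := split_nl H hp
  have h4 := H p hp
  have h5 := (ed_isPP hp).natDegree_pos
  have h6 := e.finrank_eq
  simp only [finrank_prod, finrank_fin_fun] at h6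
  obtain ⟨a, s, e1⟩ := sim_comp2 (by simp; omega) (not_scalar h2 (by simp; omega))
  obtain ⟨b, t, e2⟩ := sim_comp2 (by simp; omega) (not_scalar h3 (by simp; omega))
  have e3 := (e1.prodMap e2).trans e
  rw [← e3.det, LinearMap.det_prodMap, det_m2, det_m2] at h0
  obtain rfl := (two_cases h a).resolve_left (by rintro rfl; simp at h0)
  obtain rfl := (two_cases h b).resolve_left (by rintro rfl; simp at h0)
  refine (rp_bG (m2 s 0 0 t) (by simp) sp_one).sim (Sim.trans
    ⟨LinearEquiv.prodProdProdComm F F F F F, fun v => ?_⟩ e3)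
  ext <;> simp [bG_apply, m2_apply]

theorem HW.sim {g : End F V} {h : End F W} (e : Sim g h) {k : ℕ} (H : HW g k) : HW h k := by
  obtain ⟨A, h1, h2⟩ := H
  obtain ⟨e, he⟩ := e
  refine ⟨A.map e.toLinearMap, by rw [LinearEquiv.finrank_map_eq, h1], ?_⟩
  rw [Submodule.disjoint_def] at h2 ⊢
  rintro _ ⟨x, hx, rfl⟩ ⟨_, ⟨y, hy, rfl⟩, h3⟩
  simp only [LinearEquiv.coe_coe, ← he] at h3 ⊢
  rw [h2 x hx ⟨y, hy, e.injective h3⟩, map_zero]

theorem HW.prod {g : End F V} {h : End F W} {k l : ℕ} (H : HW g k) (H' : HW h l) :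
    HW (g.prodMap h) (k + l) := by
  obtain ⟨A, h1, h2⟩ := H
  obtain ⟨B, h3, h4⟩ := H'
  refine ⟨A.prod B, by rw [finrank_submodule_prod, h1, h3], ?_⟩
  rw [Submodule.disjoint_def] at h2 h4 ⊢
  rintro _ hx ⟨y, hy, rfl⟩
  exact Prod.ext (h2 _ hx.1 ⟨_, hy.1, rfl⟩) (h4 _ hx.2 ⟨_, hy.2, rfl⟩)

theorem hw_cyc {p : F[X]} (hm : p.Monic) : HW (cyc p) (p.natDegree / 2) := by
  let b := AdjoinRoot.powerBasis' hm
  have hb : LinearIndependent F fun i : Fin p.natDegree => AdjoinRoot.root p ^ (i : ℕ) := by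
    have := b.basis.linearIndependent
    rwa [b.coe_basis] at this
  let f : Fin (p.natDegree / 2) → Fin p.natDegree := fun j => ⟨2 * j, by omega⟩
  let f' : Fin (p.natDegree / 2) → Fin p.natDegree := fun j => ⟨2 * j + 1, by omega⟩
  have h1 := hb.disjoint_span_image (s := Set.range f) (t := Set.range f') (by
    rw [Set.disjoint_left]
    rintro _ ⟨i, rfl⟩ ⟨j, h⟩
    simp only [f, f', Fin.mk.injEq] at h
    omega)
  rw [← Set.range_comp, ← Set.range_comp] at h1
  refine ⟨_, (finrank_span_eq_card (hb.comp f fun i j h => ?_)).trans (by simp), ?_⟩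
  · simp only [f, Fin.mk.injEq] at h
    omega
  · rw [Submodule.map_span, ← Set.range_comp,
      show cyc p ∘ ((fun i : Fin p.natDegree => AdjoinRoot.root p ^ (i : ℕ)) ∘ f) =
        (fun i : Fin p.natDegree => AdjoinRoot.root p ^ (i : ℕ)) ∘ f' from
        funext fun j => by simp [f, f', cyc_apply, pow_succ']]
    exact h1

theorem hw_ed (s : Multiset F[X]) : ∀ (n : ℕ) (g : End F (Fin n → F)), ed g = s →
    HW g (s.map fun p => p.natDegree / 2).sum := by
  induction s using Multiset.induction_on with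
  | empty => exact fun n g _ => ⟨⊥, by simp, by simp⟩
  | cons p s ih =>
    intro n g hg
    have hp : p ∈ ed g := by simp [hg]
    obtain ⟨m, k, h1, h2⟩ := exists_sim_cyc_prod hp
    have := finite_adj (ed_isPP hp).ne_zero
    rw [hg, Multiset.cons_inj_right] at h1
    simpa using ((hw_cyc (ed_isPP hp).monic).prod (ih m k h1.symm)).sim h2.symm

theorem two_mul_half {s : Multiset ℕ} (h : ∀ x ∈ s, Even x) : 2 * (s.map (· / 2)).sum = s.sum := by
  rw [← Multiset.sum_map_mul_left, Multiset.map_congr rfl fun x hx => Nat.two_mul_div_two_of_even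
    (h x hx), Multiset.map_id']

theorem hw_half {g : End F V} (h : ∀ p ∈ ed g, p.natDegree ≠ 1)
    (h' : ∀ p ∈ ed g, 3 ≤ p.natDegree → finrank F V < p.natDegree + 3) :
    HW g (finrank F V / 2) := by
  let e := LinearEquiv.ofFinrankEq (R := F) V (Fin (finrank F V) → F) (by simp)
  have h1 := (hw_ed _ _ _ (sim_conj g e).ed_eq.symm).sim (sim_conj g e).symm
  have h2 := sum_natDegree_ed g
  convert h1
  by_cases h3 : ∀ p ∈ ed g, Even p.natDegree
  · have := two_mul_half (s := (ed g).map natDegree) (by simpa using h3)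
    rw [Multiset.map_map] at this
    simp only [Function.comp_def] at this
    omega
  push Not at h3
  obtain ⟨p, hp, h3⟩ := h3
  obtain ⟨t, ht⟩ := Multiset.exists_cons_of_mem hp
  have h4 := h' p hp (by have := h p hp; grind)
  rw [ht, Multiset.map_cons, Multiset.sum_cons] at h2 ⊢
  have := two_mul_half (s := t.map natDegree) (by
    simp only [Multiset.mem_map, forall_exists_index, and_imp, forall_apply_eq_imp_iff₂]
    intro r hr
    have := Multiset.le_sum_of_mem (Multiset.mem_map_of_mem natDegree hr)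
    have := h r (by simp [ht, hr])
    grind)
  rw [Multiset.map_map] at this
  simp only [Function.comp_def] at this
  omega

end H16.OR
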