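import Cfsg.Agent.H16.OR4

/-! Every element of a special linear group is a commutator. -/

set_option autoImplicit false
set_option linter.unusedSectionVars false
set_option linter.unusedSimpArgs false
set_option linter.unusedVariables false

namespace H16.OR

open Module Polynomial H14.Wall H16.CV

universe u
variable {F : Type u} [Field F] {V W U : Type*} [AddCommGroup V] [Module F V]
  [FiniteDimensional F V] [AddCommGroup W] [Module F W] [FiniteDimensional F W]
  [AddCommGroup U] [Module F U] [FiniteDimensional F U] {s t s' t' : Multiset F[X]}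

theorem fac_one_irr {p : F[X]} (hm : p.Monic) (hp : Irreducible p) (h0 : nm {p} ≠ 0)
    (hd : p.natDegree = finrank F V) : Fac (1 : End F V) {p} {p} := by
  obtain ⟨B, hB⟩ := exists_ed_of_finrank (V := V) (s := {p}) (by simpa using isPP_of_irred hm hp)
    (by simpa)
  exact hB ▸ fac_one (hB ▸ h0)

theorem rp_peel_irr (X : V →ₗ[F] W) (Y : W →ₗ[F] V) {k : End F W} (h2 : 2 ≤ finrank F V)
    (h1 : finrank F V ≤ finrank F W) (h : ∀ a ≠ 0, ∀ γ ≠ 0, ∃ p s, p.Monic ∧ Irreducible p ∧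
      p.natDegree = finrank F V ∧ Ch k a s ∧ (∀ r ∈ s, ¬ p ∣ r) ∧ nm {p} * nm s = γ ∧
      Bd (finrank F W) s) : RP (blk 1 X Y k) := by
  refine rp_blk (V := V) (by omega) h1 fun a ha γ hγ => ?_
  obtain ⟨p, s, h3, h4, h5, h6, h7, h8, h9⟩ := h a ha γ hγ
  exact ⟨1, X, Y, k, {p}, s, Sim.refl _, fac_one_irr h3 h4 (left_ne_zero_of_mul (h8 ▸ hγ)) h5, h6,
    by simp [h4, h5, h2], by simpa, h8, h9⟩

theorem rp_peel [Fintype F] (X : V →ₗ[F] W) (Y : W →ₗ[F] V) {k : End F W} (h2 : 2 ≤ finrank F V)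
    (h1 : finrank F V ≤ finrank F W) (h3 : finrank F W < 2 * finrank F V)
    (h4 : finrank F V = 2 → finrank F W = 3) (h0 : LinearMap.det k ≠ 0)
    (ih : (∀ c : F, k ≠ c • 1) → RP k) : RP (blk 1 X Y k) := by
  by_cases hk : ∃ c : F, k = c • 1
  · obtain ⟨c, rfl⟩ := hk
    have hc : c ≠ 0 := by rintro rfl; simp [show finrank F W ≠ 0 by omega] at h0
    refine rp_blk (V := V) (by omega) h1 fun a ha γ hγ => ?_
    obtain ⟨s, h5, h6⟩ := ch_scalar (V := W) hc ha
    have h7 := div_ne_zero hγ h5.nm_ne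
    obtain ⟨B, h8, h9⟩ := exists_B h2 h7
    exact ⟨1, X, Y, _, _, s, Sim.refl _, fac_one (h8 ▸ h7), h5, h9, not_dvd_of_lin h9 h6,
      by rw [h8, div_mul_cancel₀ _ h5.nm_ne], bd_lin h6⟩
  push Not at hk
  refine rp_peel_irr X Y h2 h1 fun a ha γ hγ => ?_
  by_cases h5 : finrank F V ≠ 2
  · obtain ⟨p, h6, h7, h8, -, h9⟩ := exists_singer (F := F) (d := finrank F V) (by omega)
    have e : nm {p} ≠ 0 := by simp [nm_single, h8]
    obtain ⟨s, e1, e2, -, e3⟩ := ih hk a ha _ (div_ne_zero hγ e)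
    exact ⟨p, s, h6, h7, h9, e1, fun r hr hd => by have := e3 r hr p h7 hd; omega,
      by rw [e2, mul_div_cancel₀ _ e], e3⟩
  push Not at h5
  by_cases hq : Fintype.card F = 2
  · obtain ⟨s, e1, e2⟩ := u3_all hq (h4 h5) h0
    obtain ⟨t, ht⟩ := exists_RL (div_ne_zero hγ e1.1)
    refine ⟨_, s, (qd_deg t _).1, ht.irr, by rw [h5, (qd_deg _ _).2], e1.ch rfl, fun r hr hd =>
      not_dvd_lin (qd_deg _ _).2.ge 1 (ht.irr.prime.dvd_of_dvd_pow (hd.trans (e2 r hr))),
      by rw [nm_qd, div_mul_cancel₀ _ e1.1], fun p hp r hr hd => Or.inl ?_⟩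
    by_contra! e
    exact not_dvd_lin e.le 1 (hr.prime.dvd_of_dvd_pow (hd.trans (e2 p hp)))
  obtain ⟨c, t, t', e, ht, ht'⟩ := exists_RL_two hq
  obtain ⟨s, e1, e2, -, e3⟩ := ih hk a ha _ (div_ne_zero hγ ht.ne)
  obtain ⟨t, ht, e4⟩ : ∃ t, RL t c ∧ ∀ r ∈ s, ¬ qd t c ∣ r := by
    by_contra! H
    obtain ⟨r, hr, hd⟩ := H t ht
    obtain ⟨r', hr', hd'⟩ := H t' ht'
    obtain ⟨u, e5, -⟩ := e1
    have e6 : ∀ p ∈ s, p.Monic := fun p hp => (e5.isPP.1 p hp).monic
    have := natDegree_le_of_dvd ((isCoprime_of_monic_irred (qd_deg t c).1 ht.irr (qd_deg t' c).1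
      ht'.irr fun h => e (by simpa [qd, coeff_X] using congrArg (coeff · 1) h)).mul_dvd
      (hd.trans (Multiset.dvd_prod hr)) (hd'.trans (Multiset.dvd_prod hr')))
      (monic_multiset_prod_of_monic s id e6 |> fun h => by simpa using h.ne_zero)
    rw [natDegree_prod_monic e6, e5.deg, h4 h5, (qd_deg t c).1.natDegree_mul (qd_deg t' c).1,
      (qd_deg t c).2, (qd_deg t' c).2] at this
    omega
  exact ⟨_, s, (qd_deg t _).1, ht.irr, by rw [h5, (qd_deg _ _).2], e1, e4,
    by rw [nm_qd, e2, mul_div_cancel₀ _ ht.ne], e3⟩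

theorem rp_all [Fintype F] (m : ℕ) : ∀ (V : Type u) [AddCommGroup V] [Module F V]
    [FiniteDimensional F V] (g : End F V), finrank F V = m → 3 ≤ m → LinearMap.det g ≠ 0 →
    (∀ c : F, g ≠ c • 1) → RP g := by
  induction m using Nat.strong_induction_on with | _ m ih => ?_
  intro V _ _ _ g hV hm h0 hg
  by_cases h3 : m = 3
  · exact rp_three (by omega) h0 hg
  by_cases h : ∃ p ∈ ed g, p.natDegree = 1
  · obtain ⟨p, hp, hd⟩ := h
    obtain ⟨l, n, k, h1, h2⟩ := split_lin (by omega) hg hp hd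
    have h4 := h2.finrank_eq
    rw [finrank_prod, finrank_self] at h4
    rw [h2.det, LinearMap.det_prodMap] at h0
    have h5 := right_ne_zero_of_mul h0
    exact ((ih _ (by omega) _ k rfl (by omega) h5 h1).prod (r0_scalar (by rintro rfl; simp at h0))
      h5).sim ((sim_prodMap_comm _ _).trans h2.symm)
  push Not at h
  by_cases h' : ∃ p ∈ ed g, 3 ≤ p.natDegree ∧ p.natDegree + 3 ≤ finrank F V
  · obtain ⟨p, hp, h1, h2⟩ := h'
    obtain ⟨n, k, k', e, h4, h5⟩ := split_nl h hp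
    have h6 := e.finrank_eq
    simp only [finrank_prod, finrank_fin_fun] at h6
    rw [← e.det, LinearMap.det_prodMap] at h0
    exact ((ih _ (by omega) _ k (finrank_fin_fun F) h1 (left_ne_zero_of_mul h0)
      (not_scalar h4 (by simp; omega))).prod (ih _ (by omega) _ k' (finrank_fin_fun F) (by omega)
      (right_ne_zero_of_mul h0) (not_scalar h5 (by simp; omega))).r0
      (left_ne_zero_of_mul h0)).sim e
  push Not at h'
  have H := hw_half h h'
  by_cases h4 : m = 4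
  · by_cases hq : Fintype.card F = 2
    · exact rp_four_two hq (by omega) h0 h
    · exact rp_four hq (by omega) h0 (by rwa [hV, h4] at H)
  obtain ⟨A, h1, h2⟩ := H
  obtain ⟨B, X, Y, k, h5, e⟩ := exists_blk (det_ne_iff.1 h0) h2
  have h6 : LinearMap.det k ≠ 0 := det_ne_iff.2 (inj_blk (det_ne_iff.1 (e.det ▸ h0)))
  exact (rp_peel X Y (by omega) (by omega) (by omega) (by omega) h6
    (ih _ (by omega) _ k rfl (by omega) h6)).sim e

/-- quotient of two similar elements of determinant one with an irreducible elementary divisor -/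
def Cm (g : End F V) : Prop := ∃ s, Fac g s s ∧ nm s = 1 ∧ ∃ p ∈ s, Irreducible p

theorem RP.cm {g : End F V} (h : RP g) (h1 : LinearMap.det g = 1) : Cm g := by
  obtain ⟨s, ⟨t, h2, h3⟩, h4, h5, -⟩ := h 1 one_ne_zero 1 one_ne_zero
  rw [h1, mul_one, add_left_inj] at h3
  exact ⟨s, h3 ▸ h2, h4, h5⟩

theorem cm_two [Fintype F] (hq : 4 ≤ Fintype.card F) {g : End F V} (hV : finrank F V = 2)
    (h1 : LinearMap.det g = 1) (hg : ∀ c : F, g ≠ c • 1) : Cm g := by
  classical
  obtain ⟨x, -, hx⟩ := Finset.exists_mem_notMem_of_card_lt_card (s := {0, 1, -1})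
    (t := (Finset.univ : Finset F)) (Finset.card_le_three.trans_lt (by simp; omega))
  simp only [Finset.mem_insert, Finset.mem_singleton, not_or] at hx
  obtain ⟨n, s, e⟩ := sim_comp2 hV hg
  obtain rfl : n = 1 := by simpa [← e.det, det_m2] using h1
  have h2 : Cop {X - C x} {X - C x⁻¹} := by
    simp only [Cop, Multiset.mem_singleton, forall_eq]
    refine isCoprime_X_sub_C_of_isUnit_sub (sub_ne_zero.2 fun h => ?_).isUnit
    have := mul_self_eq_one_iff.1 (show x * x = 1 by nth_rw 2 [h]; exact mul_inv_cancel₀ hx.1)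
    tauto
  have h3 := fac_line one_ne_zero hx.1
  have h4 := fac_line one_ne_zero (inv_ne_zero hx.1)
  rw [mul_one] at h3 h4
  have h5 := sim_m2 1 (s - 2) (s - 1) (one_ne_zero (α := F))
  rw [show (1 : F) * (s - 1) - (s - 2) * 1 = 1 by ring, add_sub_cancel] at h5
  refine ⟨_, (h3.peel 1 ((s - 2) • 1) h4 h2 h2).sim ((Sim.of_eq ?_).trans (h5.symm.trans e)),
    by rw [nm_add, nm_X, nm_X, mul_inv_cancel₀ hx.1], _, by simp, irreducible_X_sub_C x⟩
  ext <;> simp [blk_apply, m2_apply]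
  ring

theorem prod_scaleRoots (s : Multiset F[X]) (c : F) :
    (s.map fun p => p.scaleRoots c).prod = s.prod.scaleRoots c := by
  induction s using Multiset.induction_on with
  | empty => simp
  | cons p s ih => simp [ih, mul_scaleRoots_of_noZeroDivisors]

theorem cm_scalar {c : F} (hV : finrank F V ≠ 0) (h : c ^ finrank F V = 1) :
    Cm (c • 1 : End F V) := by
  obtain ⟨e, he⟩ : ∃ e : F, e = (-1) ^ finrank F V := ⟨_, rfl⟩
  obtain ⟨a, h1, h2⟩ := exists_ss_charpoly (V := V) (monic_X_pow_add_C e hV) natDegree_X_pow_add_C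
  have hc : c ≠ 0 := by rintro rfl; simp [hV] at h
  have h3 : nm (ed a) = 1 := by
    rw [← det_eq_nm, LinearMap.det_eq_sign_charpoly_coeff, h2, coeff_add, coeff_C_zero, he]
    simp [coeff_X_pow, hV.symm, ← mul_pow]
  have h4 : ∀ p ∈ ed a, p.Monic ∧ Irreducible p := fun p hp => ⟨(ed_isPP hp).monic, h1 p hp⟩
  obtain ⟨p, hp⟩ := Multiset.exists_mem_of_ne_zero ((ed_eq_zero_iff a).not.2 hV)
  refine ⟨ed a, ⟨by simp [h3], a, ?_, rfl⟩, h3, p, hp, h1 p hp⟩
  rw [smul_mul_assoc, one_mul, ed_smul a hc]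
  refine eq_of_prod_eq_irred ?_ h4 ?_
  · simp only [Multiset.mem_map, forall_exists_index, and_imp, forall_apply_eq_imp_iff₂]
    exact fun p hp => ⟨(monic_scaleRoots_iff c).2 (h4 p hp).1, irreducible_scaleRoots (h1 p hp) hc⟩
  rw [prod_scaleRoots, ← charpoly_eq_prod_ed, h2]
  ext i
  rw [coeff_scaleRoots, natDegree_X_pow_add_C, coeff_add, coeff_X_pow, coeff_C]
  split_ifs with e1 e2 e2 <;> simp [*]

theorem ore_SL [Fintype F] (n : ℕ) (hn : 2 ≤ n) (hex : n = 2 → 4 ≤ Fintype.card F)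
    (g : Matrix.SpecialLinearGroup (Fin n) F) :
    ∃ a b : Matrix.SpecialLinearGroup (Fin n) F, g = a * b * a⁻¹ * b⁻¹ := by
  have h1 : LinearMap.det (Matrix.toLin' g.1) = 1 := by rw [LinearMap.det_toLin', g.2]
  obtain ⟨s, ⟨-, c, h2, h3⟩, h4, p, hp, h5⟩ : Cm (Matrix.toLin' g.1) := by
    by_cases hg : ∃ c : F, Matrix.toLin' g.1 = c • 1
    · obtain ⟨c, hc⟩ := hg
      rw [hc] at h1 ⊢
      exact cm_scalar (by simp; omega) (by simpa using h1)
    push Not at hg
    by_cases h : n = 2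
    · exact cm_two (hex h) (by simp [h]) h1 hg
    · exact (rp_all n _ _ (by simp) (by omega) (by simp [h1]) hg).cm h1
  obtain ⟨c, rfl⟩ := Matrix.toLin'.surjective c
  let c' : Matrix.SpecialLinearGroup (Fin n) F :=
    ⟨c, by rw [← LinearMap.det_toLin', det_eq_nm, h3, h4]⟩
  have h6 : edM (g * c').1 = s := by
    rw [← h2, Module.End.mul_eq_comp, ← Matrix.toLin'_mul]; rfl
  obtain ⟨b, hb⟩ := isConj_iff.1 (SL_isConj_of_edM (a := g * c') (b := c') (h6.trans h3.symm)
    fun d _ => exists_comm_det_of_irredM (h6 ▸ hp) h5 d)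
  refine ⟨g * c', b, ?_⟩
  calc g = g * c' * (b * (g * c') * b⁻¹)⁻¹ := by rw [hb]; group
    _ = _ := by group

end H16.OR
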