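import Cfsg.Agent.H22.Linear

/-! Transvection calculus inside a subgroup of `SL`. -/

set_option autoImplicit false
set_option linter.unusedSectionVars false
open Matrix

namespace H16.RU

variable {F : Type*} [Field F] {ι : Type*} [Fintype ι] [DecidableEq ι]

/-- the map `x ↦ x + ψ(x) b` -/
def TX (b ψ : ι → F) : Matrix ι ι F := 1 + vecMulVec b ψ

theorem vmv_mulVec (b ψ x : ι → F) : vecMulVec b ψ *ᵥ x = (ψ ⬝ᵥ x) • b := by
  rw [vecMulVec_mulVec]; ext i; simp [mul_comm]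

theorem TX_mulVec (b ψ x : ι → F) : TX b ψ *ᵥ x = x + (ψ ⬝ᵥ x) • b := by
  rw [TX, add_mulVec, one_mulVec, vmv_mulVec]

theorem vecMul_TX (b ψ χ : ι → F) : χ ᵥ* TX b ψ = χ + (χ ⬝ᵥ b) • ψ := by
  rw [TX, vecMul_add, vecMul_one, vecMul_vecMulVec]

theorem TX_smul (c : F) (b ψ : ι → F) : TX (c • b) ψ = TX b (c • ψ) := by
  rw [TX, TX, smul_vecMulVec, vecMulVec_smul]

theorem det_TX (b ψ : ι → F) : (TX b ψ).det = 1 + ψ ⬝ᵥ b := by
  rw [TX, vecMulVec_eq Unit, det_one_add_replicateCol_mul_replicateRow]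

theorem TX_mul_left {b b' ψ : ι → F} (h : ψ ⬝ᵥ b' = 0) : TX b ψ * TX b' ψ = TX (b + b') ψ := by
  rw [ext_iff_mulVec]; intro x
  simp only [← mulVec_mulVec, TX_mulVec, dotProduct_add, dotProduct_smul, h]
  module

theorem TX_mul_right {b ψ ψ' : ι → F} (h : ψ ⬝ᵥ b = 0) : TX b ψ * TX b ψ' = TX b (ψ + ψ') := by
  rw [ext_iff_mulVec]; intro x
  simp only [← mulVec_mulVec, TX_mulVec, dotProduct_add, dotProduct_smul, add_dotProduct, h]
  module

/-- membership of a matrix in a subgroup of `SL` -/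
def In (G : Subgroup (SpecialLinearGroup ι F)) (m : Matrix ι ι F) : Prop :=
  ∃ g ∈ G, (g : Matrix ι ι F) = m

variable {G : Subgroup (SpecialLinearGroup ι F)}

theorem In.one : In G 1 := ⟨1, G.one_mem, rfl⟩

theorem In.mul {a b : Matrix ι ι F} (ha : In G a) (hb : In G b) : In G (a * b) := by
  obtain ⟨g, hg, rfl⟩ := ha
  obtain ⟨h, hh, rfl⟩ := hb
  exact ⟨g * h, G.mul_mem hg hh, rfl⟩

theorem In.pow {a : Matrix ι ι F} (ha : In G a) (k : ℕ) : In G (a ^ k) := by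
  induction k with
  | zero => rw [pow_zero]; exact In.one
  | succ k ih => rw [pow_succ]; exact ih.mul ha

theorem In.inv {a : Matrix ι ι F} (ha : In G a) : ∃ a', In G a' ∧ a' * a = 1 ∧ a * a' = 1 := by
  obtain ⟨g, hg, rfl⟩ := ha
  refine ⟨_, ⟨g⁻¹, G.inv_mem hg, rfl⟩, ?_, ?_⟩
  · exact congrArg Subtype.val (inv_mul_cancel g)
  · exact congrArg Subtype.val (mul_inv_cancel g)

theorem In.of_left {a b : Matrix ι ι F} (ha : In G a) (hc : In G (a * b)) : In G b := by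
  obtain ⟨a', h, h1, -⟩ := ha.inv
  have := h.mul hc
  rwa [← mul_assoc, h1, one_mul] at this

theorem In.of_right {a b : Matrix ι ι F} (ha : In G a) (hc : In G (b * a)) : In G b := by
  obtain ⟨a', h, -, h1⟩ := ha.inv
  have := hc.mul h
  rwa [mul_assoc, h1, mul_one] at this

theorem In.exists_vecMul {a : Matrix ι ι F} (ha : In G a) (ψ : ι → F) : ∃ ψ', ψ' ᵥ* a = ψ := by
  obtain ⟨a', -, h1, -⟩ := ha.inv
  exact ⟨ψ ᵥ* a', by rw [vecMul_vecMul, h1, vecMul_one]⟩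

theorem In.exists_mulVec {a : Matrix ι ι F} (ha : In G a) (x : ι → F) : ∃ y, a *ᵥ y = x := by
  obtain ⟨a', -, -, h1⟩ := ha.inv
  exact ⟨a' *ᵥ x, by rw [mulVec_mulVec, h1, one_mulVec]⟩

/-- the transvection with centre `b` and axis `ψ` lies in `G` -/
def TI (G : Subgroup (SpecialLinearGroup ι F)) (b ψ : ι → F) : Prop :=
  ψ ⬝ᵥ b = 0 ∧ In G (TX b ψ)

variable {b b' ψ ψ' : ι → F}

theorem TI.zero_left (ψ : ι → F) : TI G 0 ψ := ⟨by simp, by simp [TX, In.one]⟩

theorem TI.zero_right (b : ι → F) : TI G b 0 := ⟨by simp, by simp [TX, In.one]⟩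

theorem TI.smul_iff (c : F) : TI G (c • b) ψ ↔ TI G b (c • ψ) := by
  simp only [TI, TX_smul, dotProduct_smul, smul_dotProduct]

theorem TI.congr (h : TI G b ψ) (h1 : b = b') (h2 : ψ = ψ') : TI G b' ψ' := h1 ▸ h2 ▸ h

theorem TI.add_left (h : TI G b ψ) (h' : TI G b' ψ) : TI G (b + b') ψ :=
  ⟨by rw [dotProduct_add, h.1, h'.1, add_zero], TX_mul_left h'.1 ▸ h.2.mul h'.2⟩

theorem TI.add_right (h : TI G b ψ) (h' : TI G b ψ') : TI G b (ψ + ψ') :=
  ⟨by rw [add_dotProduct, h.1, h'.1, add_zero], TX_mul_right h.1 ▸ h.2.mul h'.2⟩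

theorem TI.neg_left (h : TI G b ψ) : TI G (-b) ψ := by
  have h0 : ψ ⬝ᵥ (-b) = 0 := by rw [dotProduct_neg, h.1, neg_zero]
  refine ⟨h0, h.2.of_left ?_⟩
  rw [TX_mul_left h0, add_neg_cancel]
  exact (TI.zero_left ψ).2

theorem TI.neg_right (h : TI G b ψ) : TI G b (-ψ) := by
  have := h.neg_left
  rwa [← neg_one_smul F b, TI.smul_iff, neg_one_smul] at this

theorem TI.sub_left (h : TI G b ψ) (h' : TI G b' ψ) : TI G (b - b') ψ :=
  sub_eq_add_neg b b' ▸ h.add_left h'.neg_left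

theorem TI.sub_right (h : TI G b ψ) (h' : TI G b ψ') : TI G b (ψ - ψ') :=
  sub_eq_add_neg ψ ψ' ▸ h.add_right h'.neg_right

theorem TI.conj {g : Matrix ι ι F} (hg : In G g) (h : TI G b ψ) (e : ψ' ᵥ* g = ψ) :
    TI G (g *ᵥ b) ψ' := by
  refine ⟨by rw [dotProduct_mulVec, e, h.1], hg.of_right ?_⟩
  have : TX (g *ᵥ b) ψ' * g = g * TX b ψ := by
    simp only [TX, add_mul, mul_add, one_mul, mul_one, vecMulVec_mul, mul_vecMulVec, e]
  rw [this]; exact hg.mul h.2

theorem TI.conj' {g : Matrix ι ι F} (hg : In G g) (h : TI G (g *ᵥ b) ψ) : TI G b (ψ ᵥ* g) := by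
  refine ⟨by rw [← dotProduct_mulVec, h.1], hg.of_left ?_⟩
  have : g * TX b (ψ ᵥ* g) = TX (g *ᵥ b) ψ * g := by
    simp only [TX, add_mul, mul_add, one_mul, mul_one, vecMulVec_mul, mul_vecMulVec]
  rw [this]; exact h.2.mul hg

/-- the commutator rule -/
theorem TI.comm (h : TI G b ψ) (h' : TI G b' ψ') (h0 : ψ' ⬝ᵥ b = 0) :
    TI G ((ψ ⬝ᵥ b') • b) ψ' := by
  have := TI.conj h.2 h' (ψ' := ψ') (by rw [vecMul_TX, h0, zero_smul, add_zero])
  rw [TX_mulVec] at this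
  simpa using this.sub_left h'

/-- scalars `c` with the transvection `(c b, ψ)` in `G` -/
def sc (G : Subgroup (SpecialLinearGroup ι F)) (b ψ : ι → F) : AddSubgroup F where
  carrier := {c | TI G (c • b) ψ}
  zero_mem' := by simpa using TI.zero_left ψ
  add_mem' := fun {x y} hx hy => by
    show TI G ((x + y) • b) ψ
    rw [add_smul]; exact TI.add_left hx hy
  neg_mem' := fun {x} hx => by
    show TI G ((-x) • b) ψ
    rw [neg_smul]; exact TI.neg_left hx

/-- `γ` generates `F` as a ring -/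
def Gen (γ : F) : Prop :=
  ∀ S : AddSubgroup F, (∃ x ∈ S, x ≠ 0) → (∀ x ∈ S, γ * x ∈ S) → ∀ c, c ∈ S

theorem Gen.all {γ c₀ : F} (hγ : Gen γ) (h0 : c₀ ≠ 0) (h : TI G (c₀ • b) ψ)
    (hm : ∀ c : F, TI G (c • b) ψ → TI G ((γ * c) • b) ψ) (c : F) : TI G (c • b) ψ :=
  hγ (sc G b ψ) ⟨c₀, h, h0⟩ hm c

/-- all transvections with axis `χ` lie in `G` -/
def Full (G : Subgroup (SpecialLinearGroup ι F)) (χ : ι → F) : Prop :=
  ∀ w, χ ⬝ᵥ w = 0 → TI G w χ

theorem Full.vecMul {χ : ι → F} {g : Matrix ι ι F} (h : Full G χ) (hg : In G g) :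
    Full G (χ ᵥ* g) := fun w hw =>
  TI.conj' hg (h _ (by rw [dotProduct_mulVec, hw]))

theorem Full.of_vecMul {χ : ι → F} {g : Matrix ι ι F} (h : Full G (χ ᵥ* g)) (hg : In G g) :
    Full G χ := by
  obtain ⟨a', ha, -, h1⟩ := hg.inv
  have := h.vecMul ha
  rwa [vecMul_vecMul, h1, vecMul_one] at this

theorem Full.smul {χ : ι → F} (h : Full G χ) (c : F) : Full G (c • χ) := fun w hw => by
  rw [← TI.smul_iff]
  exact h _ (by rw [dotProduct_smul, ← smul_dotProduct, hw])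

theorem Full.add {χ χ' : ι → F} (h : Full G χ) (h' : Full G χ') : Full G (χ + χ') := by
  by_cases hw : ∃ w, χ' ⬝ᵥ w = 0 ∧ χ ⬝ᵥ w ≠ 0
  · obtain ⟨w, h1, h2⟩ := hw
    have := h.vecMul (h' ((χ ⬝ᵥ w)⁻¹ • w) (by rw [dotProduct_smul, h1, smul_zero])).2
    rwa [vecMul_TX, dotProduct_smul, smul_eq_mul, inv_mul_cancel₀ h2, one_smul] at this
  · push Not at hw
    by_cases h0 : χ' = 0
    · rwa [h0, add_zero]
    obtain ⟨i, hi⟩ := Function.ne_iff.1 h0
    have hi : χ' i ≠ 0 := hi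
    have : χ + χ' = (χ i / χ' i + 1) • χ' := by
      ext j
      have := hw (χ' i • Pi.single j 1 - χ' j • Pi.single i 1) (by simp [mul_comm])
      simp only [dotProduct_sub, dotProduct_smul, dotProduct_single, smul_eq_mul, mul_one] at this
      simp only [Pi.add_apply, Pi.smul_apply, smul_eq_mul]
      field_simp
      linear_combination this
    rw [this]; exact h'.smul _

/-- the full axes -/
def fullSub (G : Subgroup (SpecialLinearGroup ι F)) : Submodule F (ι → F) where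
  carrier := {χ | Full G χ}
  zero_mem' := fun w _ => TI.zero_right w
  add_mem' := Full.add
  smul_mem' := fun c _ h => Full.smul h c

theorem eq_top_of_full (h : ∀ χ, Full G χ) : G = ⊤ := by
  refine H22.eq_top_of_transvection_mem G fun i j hij c => ?_
  obtain ⟨g, hg, e⟩ := (h (Pi.single j c) (Pi.single i 1) (by simp [hij.symm])).2
  have : SpecialLinearGroup.transvection hij c = g := by
    refine Subtype.ext ?_
    rw [e, SpecialLinearGroup.transvection_coe, TX]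
    congr 1
    ext a a'
    simp only [vecMulVec_apply, single_apply, Pi.single_apply]
    by_cases h1 : a = i <;> by_cases h2 : a' = j <;> simp [h1, h2, @eq_comm _ i, @eq_comm _ j]
  rwa [this]

/-- the centres with a full root subgroup on the axis `χ` -/
def cenSub (G : Subgroup (SpecialLinearGroup ι F)) (χ : ι → F) : Submodule F (ι → F) where
  carrier := {w | ∀ c : F, TI G (c • w) χ}
  zero_mem' := fun c => by simpa using TI.zero_left χ
  add_mem' := fun ha hb c => by rw [smul_add]; exact (ha c).add_left (hb c)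
  smul_mem' := fun c _ h d => by rw [smul_smul]; exact h _

theorem nakayama {M : Type*} [AddCommGroup M] [Module F M] (f : M →ₗ[F] M) {k : ℕ}
    (hk : f ^ k = 0) (K : Set M) (Y : Submodule F M) (hY : ∀ y ∈ Y, f y ∈ Y)
    (h : ∀ x ∈ K, ∃ y ∈ Y, ∃ z ∈ K, x = y + f z) : ∀ x ∈ K, x ∈ Y := by
  have key : ∀ j : ℕ, ∀ x ∈ K, ∃ y ∈ Y, ∃ z ∈ K, x = y + (f ^ j) z := by
    intro j
    induction j with
    | zero => intro x hx; exact ⟨0, Y.zero_mem, x, hx, by simp⟩
    | succ j ih =>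
      intro x hx
      obtain ⟨y, hy, z, hz, rfl⟩ := h x hx
      obtain ⟨y', hy', z', hz', rfl⟩ := ih z hz
      exact ⟨y + f y', Y.add_mem hy (hY _ hy'), z', hz', by
        rw [map_add, pow_succ', Module.End.mul_apply, add_assoc]⟩
  intro x hx
  obtain ⟨y, hy, z, -, rfl⟩ := key k x hx
  simpa [hk] using hy

theorem Gen.neg {γ : F} (h : Gen γ) : Gen (-γ) := fun S h0 hm =>
  h S h0 fun x hx => by simpa using S.neg_mem (hm x hx)

theorem gen_of_prime [Fintype F] (hp : (Fintype.card F).Prime) (γ : F) : Gen γ := by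
  intro S ⟨x, hx, h0⟩ _ c
  have : Fact (Nat.card F).Prime := ⟨by rw [Nat.card_eq_fintype_card]; exact hp⟩
  rcases AddSubgroup.eq_bot_or_eq_top_of_prime_card S with h | h
  · rw [h] at hx; exact absurd hx h0
  · rw [h]; trivial

theorem gen_of_pow {γ : F} (h : ∀ c : F, c ≠ 0 → ∃ k : ℕ, γ ^ k = c) : Gen γ := by
  intro S ⟨x, hx, h0⟩ hm c
  have key : ∀ k : ℕ, γ ^ k * x ∈ S := by
    intro k
    induction k with
    | zero => simpa using hx
    | succ k ih => rw [pow_succ', mul_assoc]; exact hm _ ih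
  by_cases hc : c = 0
  · rw [hc]; exact S.zero_mem
  obtain ⟨k, hk⟩ := h (c / x) (div_ne_zero hc h0)
  have := key k
  rwa [hk, div_mul_cancel₀ _ h0] at this

theorem exists_prim [Fintype F] : ∃ γ : F, γ ≠ 0 ∧ ∀ c : F, c ≠ 0 → ∃ k : ℕ, γ ^ k = c := by
  obtain ⟨g, hg⟩ := IsCyclic.exists_monoid_generator (α := Fˣ)
  refine ⟨g, g.ne_zero, fun c hc => ?_⟩
  obtain ⟨k, hk⟩ := hg (Units.mk0 c hc)
  exact ⟨k, by simpa using congrArg Units.val hk⟩

theorem exists_genel [Fintype F] : ∃ γ : F, γ ≠ 0 ∧ Gen γ := by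
  obtain ⟨γ, h0, h⟩ := exists_prim (F := F)
  exact ⟨γ, h0, gen_of_pow h⟩

end H16.RU
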