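import Cfsg.Agent.H16.RU1

/-! The shift matrix and a family of regular unipotent matrices. -/

set_option autoImplicit false
set_option linter.unusedSectionVars false
set_option linter.unusedSimpArgs false
open Matrix

namespace H16.RU

variable {F : Type*} [Field F] {n : ℕ}

/-- the shift `e_j ↦ e_{j+1}` -/
def sh (n : ℕ) (F : Type*) [Field F] : Matrix (Fin (n + 1)) (Fin (n + 1)) F :=
  Matrix.of fun i j => if i.val = j.val + 1 then 1 else 0

theorem sh_mulVec_zero (x : Fin (n + 1) → F) : (sh n F *ᵥ x) 0 = 0 := by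
  simp [sh, mulVec, dotProduct]

theorem sh_mulVec_succ (x : Fin (n + 1) → F) (i : Fin n) : (sh n F *ᵥ x) i.succ = x i.castSucc := by
  simp only [sh, mulVec, dotProduct, of_apply, Fin.val_succ, add_left_inj, ite_mul, one_mul, zero_mul]
  rw [Finset.sum_eq_single i.castSucc]
  · simp
  · intro j _ hj
    rw [if_neg]
    intro h; exact hj (Fin.ext (by simp [h]))
  · simp

theorem vecMul_sh_last (x : Fin (n + 1) → F) : (x ᵥ* sh n F) (Fin.last n) = 0 := by
  simp only [sh, vecMul, dotProduct, of_apply, Fin.val_last]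
  refine Finset.sum_eq_zero fun i _ => ?_
  rw [if_neg (by omega), mul_zero]

theorem vecMul_sh_castSucc (x : Fin (n + 1) → F) (i : Fin n) :
    (x ᵥ* sh n F) i.castSucc = x i.succ := by
  simp only [sh, vecMul, dotProduct, of_apply, Fin.val_castSucc, mul_ite, mul_one, mul_zero]
  rw [Finset.sum_eq_single i.succ]
  · simp
  · intro j _ hj
    rw [if_neg]
    intro h; exact hj (Fin.ext (by simp [h]))
  · simp

theorem sh_pow_apply (k : ℕ) (i j : Fin (n + 1)) :
    (sh n F ^ k) i j = if i.val = j.val + k then 1 else 0 := by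
  induction k generalizing i with
  | zero => simp [one_apply, Fin.ext_iff]
  | succ k ih =>
    have : (sh n F ^ (k + 1)) i j = (sh n F *ᵥ fun a => (sh n F ^ k) a j) i := by
      rw [pow_succ']; rfl
    rw [this]
    induction i using Fin.cases with
    | zero => rw [sh_mulVec_zero, if_neg (by simp)]
    | succ i => rw [sh_mulVec_succ, ih]; simp [← add_assoc]

theorem sh_pow_succ : sh n F ^ (n + 1) = 0 := by
  ext i j
  rw [sh_pow_apply, if_neg (by omega)]; rfl

theorem sh_pow_ne : sh n F ^ n ≠ 0 := by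
  intro h
  have := congrFun (congrFun h (Fin.last n)) 0
  rw [sh_pow_apply] at this
  simp at this

/-- first basis vector, also the first coordinate -/
def E0 (n : ℕ) (F : Type*) [Field F] : Fin (n + 1) → F := Pi.single 0 1

theorem E0_dot (x : Fin (n + 1) → F) : E0 n F ⬝ᵥ x = x 0 := by simp [E0]

theorem dot_E0 (x : Fin (n + 1) → F) : x ⬝ᵥ E0 n F = x 0 := by simp [E0]

theorem E0_vecMul_sh : E0 n F ᵥ* sh n F = 0 := by
  ext j
  simp [E0, sh]

theorem E0_dot_sh (x : Fin (n + 1) → F) : E0 n F ⬝ᵥ (sh n F *ᵥ x) = 0 := by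
  rw [E0_dot, sh_mulVec_zero]

theorem exists_sh_mulVec {x : Fin (n + 1) → F} (h : x 0 = 0) :
    ∃ z, sh n F *ᵥ z = x ∧ ∀ i : Fin n, z i.castSucc = x i.succ := by
  refine ⟨Fin.snoc (α := fun _ => F) (Fin.tail x) 0, ?_, fun i => by simp [Fin.tail]⟩
  ext i
  induction i using Fin.cases with
  | zero => rw [sh_mulVec_zero, h]
  | succ i => rw [sh_mulVec_succ]; simp [Fin.tail]

theorem exists_vecMul_sh {x : Fin (n + 1) → F} (h : x (Fin.last n) = 0) :
    ∃ z, z ᵥ* sh n F = x ∧ z 0 = 0 := by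
  refine ⟨Fin.cons (α := fun _ => F) 0 (Fin.init x), ?_, by simp⟩
  ext i
  induction i using Fin.lastCases with
  | last => rw [vecMul_sh_last, h]
  | cast i => rw [vecMul_sh_castSucc]; simp [Fin.init]

/-- the regular unipotent `1 + N` -/
def U (n : ℕ) (F : Type*) [Field F] : Matrix (Fin (n + 1)) (Fin (n + 1)) F := 1 + sh n F

theorem U_mulVec (x : Fin (n + 1) → F) : U n F *ᵥ x = x + sh n F *ᵥ x := by
  rw [U, add_mulVec, one_mulVec]

theorem vecMul_U (x : Fin (n + 1) → F) : x ᵥ* U n F = x + x ᵥ* sh n F := by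
  rw [U, vecMul_add, vecMul_one]

theorem E0_vecMul_U : E0 n F ᵥ* U n F = E0 n F := by rw [vecMul_U, E0_vecMul_sh, add_zero]

theorem E0_vecMul_U_pow (k : ℕ) : E0 n F ᵥ* U n F ^ k = E0 n F := by
  induction k with
  | zero => simp
  | succ k ih => rw [pow_succ, ← vecMul_vecMul, ih, E0_vecMul_U]

theorem E0_dot_U (x : Fin (n + 1) → F) : E0 n F ⬝ᵥ (U n F *ᵥ x) = E0 n F ⬝ᵥ x := by
  rw [dotProduct_mulVec, E0_vecMul_U]

theorem det_U : (U n F).det = 1 := by
  rw [det_of_isLowerTriangular]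
  · simp [U, sh]
  · intro i j hij
    have : i < j := hij
    have h2 : i.val < j.val := this
    simp only [U, sh, Matrix.add_apply, of_apply]
    rw [one_apply_ne this.ne, if_neg (by omega), add_zero]

/-- the second regular unipotent -/
def V (e φ : Fin (n + 1) → F) : Matrix (Fin (n + 1)) (Fin (n + 1)) F :=
  U n F - vecMulVec (sh n F *ᵥ e) (E0 n F) + vecMulVec e φ

theorem V_mulVec (e φ x : Fin (n + 1) → F) :
    V e φ *ᵥ x = U n F *ᵥ x - (E0 n F ⬝ᵥ x) • (sh n F *ᵥ e) + (φ ⬝ᵥ x) • e := by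
  rw [V, add_mulVec, sub_mulVec, vmv_mulVec, vmv_mulVec]

variable {G : Subgroup (SpecialLinearGroup (Fin (n + 1)) F)}

theorem full_E0 (hn : 1 ≤ n) (hU : In G (U n F)) {w : Fin (n + 1) → F}
    (hw : w ⟨1, by omega⟩ ≠ 0) (h : ∀ c : F, TI G (c • w) (E0 n F)) : Full G (E0 n F) := by
  intro x hx
  have h0 : w 0 = 0 := by simpa [E0_dot] using (h 1).1
  have := nakayama (toLin' (sh n F)) (k := n + 1) (by rw [← toLin'_pow, sh_pow_succ, map_zero])
    {x | x 0 = 0} (cenSub G (E0 n F)) (fun y hy c => by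
      have := (TI.conj hU (hy c) E0_vecMul_U).sub_left (hy c)
      simpa [U_mulVec, mulVec_smul] using this) (fun x hx => by
      have hx : x 0 = 0 := hx
      set i1 : Fin (n + 1) := ⟨1, by omega⟩
      obtain ⟨z, hz, hz'⟩ := exists_sh_mulVec (x := x - (x i1 / w i1) • w) (by simp [hx, h0])
      refine ⟨(x i1 / w i1) • w, (cenSub G (E0 n F)).smul_mem _ h, z, ?_, by
        rw [toLin'_apply, hz]; abel⟩
      have := hz' ⟨0, hn⟩
      have e1 : (⟨0, hn⟩ : Fin n).succ = i1 := rfl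
      have e0 : (⟨0, hn⟩ : Fin n).castSucc = 0 := rfl
      rw [e1, e0] at this
      show z 0 = 0
      rw [this]
      simp [div_mul_cancel₀ _ hw]) x (by simpa [E0_dot] using hx) 1
  simpa using this

theorem top_of_full (hU : In G (U n F)) {φ : Fin (n + 1) → F} (hφ : φ (Fin.last n) ≠ 0)
    (h : Full G φ) : G = ⊤ := by
  refine eq_top_of_full fun χ => ?_
  refine nakayama (vecMulLinear (sh n F)) (k := n + 1) ?_ Set.univ (fullSub G) (fun y hy => ?_)
    (fun x _ => ?_) χ trivial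
  · have : ∀ k : ℕ, vecMulLinear (sh n F) ^ k = vecMulLinear (sh n F ^ k) := by
      intro k
      induction k with
      | zero => ext; simp
      | succ k ih =>
        rw [pow_succ', ih]
        refine LinearMap.ext fun x => ?_
        simp [pow_succ]
    rw [this, sh_pow_succ]; ext; simp
  · have := (fullSub G).sub_mem (Full.vecMul hy hU) hy
    simpa [vecMul_U] using this
  · obtain ⟨z, hz, -⟩ := exists_vecMul_sh (x := x - (x (Fin.last n) / φ (Fin.last n)) • φ)
      (by simp [div_mul_cancel₀ _ hφ])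
    exact ⟨(x (Fin.last n) / φ (Fin.last n)) • φ, (fullSub G).smul_mem _ h, z, trivial, by
      rw [vecMulLinear_apply, hz]; abel⟩

/-- finishing lemma -/
theorem finish (hn : 1 ≤ n) (hU : In G (U n F)) {e φ w : Fin (n + 1) → F} (he : E0 n F ⬝ᵥ e = 1)
    (hV : In G (V e φ)) (hφ : φ (Fin.last n) ≠ 0)
    (hw : w ⟨1, by omega⟩ ≠ 0) (h : ∀ c : F, TI G (c • w) (E0 n F)) : G = ⊤ := by
  have hf := full_E0 hn hU hw h
  have h1 := (hf (-(sh n F *ᵥ e)) (by rw [dotProduct_neg, E0_dot_sh, neg_zero])).2.mul hU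
  have h2 : In G (TX e φ) := by
    refine h1.of_left ?_
    convert hV using 1
    rw [ext_iff_mulVec]; intro x
    simp only [← mulVec_mulVec, TX_mulVec, V_mulVec, U_mulVec, mulVec_add, mulVec_smul,
      dotProduct_add, dotProduct_smul, E0_dot_sh, he]
    module
  have h3 := (fullSub G).sub_mem (hf.vecMul h2) hf
  rw [vecMul_TX, he, one_smul, add_sub_cancel_left] at h3
  exact top_of_full hU hφ h3

/-- `s = u⁻¹ v` -/
theorem in_s (hU : In G (U n F)) {e em φ : Fin (n + 1) → F} (he : E0 n F ⬝ᵥ e = 1)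
    (hem : U n F *ᵥ em = e) (hV : In G (V e φ)) : In G (TX (em - e) (E0 n F) * TX e φ) := by
  refine hU.of_left ?_
  convert hV using 1
  rw [ext_iff_mulVec]; intro x
  simp only [← mulVec_mulVec, TX_mulVec, V_mulVec, mulVec_add, mulVec_smul, mulVec_sub, hem,
    dotProduct_add, dotProduct_smul, he, U_mulVec e]
  module

theorem exists_conj_E0 (hn : 1 ≤ n) {φ : Fin (n + 1) → F} (h0 : φ 0 = 0) :
    ∃ g : Matrix (Fin (n + 1)) (Fin (n + 1)) F, g.det = (-1) ^ n * φ (Fin.last n) ∧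
      V (E0 n F) φ * g = g * U n F := by
  set κ := φ (Fin.last n)
  set θ : Fin (n + 1) → F := Pi.single (Fin.last n) κ
  have hl : Fin.last n ≠ 0 := by intro h; have := congrArg Fin.val h; simp at this; omega
  obtain ⟨χ, hχ, hχ0⟩ := exists_vecMul_sh (x := φ - θ) (by simp [θ, κ])
  refine ⟨TX (E0 n F) χ * (sh n F + vecMulVec (E0 n F) θ), ?_, ?_⟩
  · rw [det_mul, det_TX, dot_E0, hχ0, add_zero, one_mul, det_succ_row_zero,
      Finset.sum_eq_single (Fin.last n)]
    · have : (sh n F + vecMulVec (E0 n F) θ).submatrix Fin.succ (Fin.last n).succAbove = 1 := by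
        ext i j
        simp [sh, vecMulVec_apply, E0, one_apply, Fin.ext_iff]
      rw [this]
      simp [sh, vecMulVec_apply, E0, θ]
    · intro j _ hj
      simp [sh, vecMulVec_apply, θ, hj]
    · simp
  · rw [ext_iff_mulVec]; intro x
    have h1 : ∀ y, χ ⬝ᵥ (sh n F *ᵥ y) = φ ⬝ᵥ y - θ ⬝ᵥ y := fun y => by
      rw [dotProduct_mulVec, hχ, sub_dotProduct]
    have h2 : θ ⬝ᵥ E0 n F = 0 := by rw [dot_E0]; simp [θ, hl.symm]
    have h3 : φ ⬝ᵥ E0 n F = 0 := by rw [dot_E0, h0]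
    have h4 : χ ⬝ᵥ E0 n F = 0 := by rw [dot_E0, hχ0]
    have h5 : E0 n F ⬝ᵥ E0 n F = 1 := by rw [dot_E0]; simp [E0]
    simp only [← mulVec_mulVec, TX_mulVec, V_mulVec, U_mulVec, add_mulVec, vmv_mulVec, mulVec_add,
      mulVec_smul, dotProduct_add, dotProduct_smul, E0_dot_sh, h1, h2, h3, h4, h5]
    module

theorem exists_conj (hn : 1 ≤ n) (k : ℕ) {φ : Fin (n + 1) → F}
    (h0 : φ ⬝ᵥ (U n F ^ k *ᵥ E0 n F) = 0) :
    ∃ g : Matrix (Fin (n + 1)) (Fin (n + 1)) F, g.det = (-1) ^ n * φ (Fin.last n) ∧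
      V (U n F ^ k *ᵥ E0 n F) φ * g = g * U n F := by
  obtain ⟨g, hg, h⟩ := exists_conj_E0 hn (φ := φ ᵥ* U n F ^ k) (by
    rw [← dot_E0 (φ ᵥ* U n F ^ k), ← dotProduct_mulVec, h0])
  have hl : (φ ᵥ* U n F ^ k) (Fin.last n) = φ (Fin.last n) := by
    induction k with
    | zero => simp
    | succ k ih =>
      clear ih h0 h hg
      induction k with
      | zero => simp [vecMul_U, vecMul_sh_last]
      | succ k ih => rw [pow_succ, ← vecMul_vecMul, vecMul_U, Pi.add_apply, ih, vecMul_sh_last, add_zero]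
  refine ⟨U n F ^ k * g, by rw [det_mul, det_pow, det_U, one_pow, one_mul, hg, hl], ?_⟩
  have hc : Commute (sh n F) (U n F ^ k) := ((Commute.one_right _).add_right (Commute.refl _)).pow_right k
  have : V (U n F ^ k *ᵥ E0 n F) φ * U n F ^ k = U n F ^ k * V (E0 n F) (φ ᵥ* U n F ^ k) := by
    simp only [V, add_mul, sub_mul, mul_add, mul_sub, vecMulVec_mul, mul_vecMulVec,
      E0_vecMul_U_pow, mulVec_mulVec, hc.eq, ← pow_succ, ← pow_succ']
  rw [← mul_assoc, this, mul_assoc, h, mul_assoc]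

/-- regular unipotent elements -/
def Reg (u : SpecialLinearGroup (Fin (n + 1)) F) : Prop :=
  IsNilpotent ((u : Matrix (Fin (n + 1)) (Fin (n + 1)) F) - 1) ∧
    ((u : Matrix (Fin (n + 1)) (Fin (n + 1)) F) - 1) ^ (n + 1 - 1) ≠ 0

/-- `1 + N` in `SL` -/
def uS (n : ℕ) (F : Type*) [Field F] : SpecialLinearGroup (Fin (n + 1)) F := ⟨U n F, det_U⟩

theorem reg_of_conj {v g : Matrix (Fin (n + 1)) (Fin (n + 1)) F} (hg : g.det ≠ 0)
    (h : v * g = g * U n F) : ∃ v' : SpecialLinearGroup (Fin (n + 1)) F, (v' : Matrix _ _ F) = v ∧ Reg v' := by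
  have hd : v.det = 1 := by
    have := congrArg det h
    rw [det_mul, det_mul, det_U, mul_one] at this
    exact mul_right_cancel₀ hg (by rw [this, one_mul])
  have hu : IsUnit g := (isUnit_iff_isUnit_det g).2 (Ne.isUnit hg)
  have key : ∀ k : ℕ, (v - 1) ^ k * g = g * sh n F ^ k := by
    intro k
    induction k with
    | zero => simp
    | succ k ih =>
      rw [pow_succ', mul_assoc, ih, ← mul_assoc, sub_mul, h, U, pow_succ']
      noncomm_ring
  refine ⟨⟨v, hd⟩, rfl, ⟨n + 1, ?_⟩, fun h0 => sh_pow_ne (n := n) (F := F) ?_⟩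
  · have := key (n + 1)
    rw [sh_pow_succ, mul_zero] at this
    exact hu.mul_left_eq_zero.1 this
  · have := key n
    have h0 : (v - 1) ^ n = 0 := h0
    rw [h0, zero_mul] at this
    exact hu.mul_right_eq_zero.1 this.symm

theorem reg_uS : Reg (uS n F) := by
  obtain ⟨v, hv, h⟩ := reg_of_conj (n := n) (F := F) (v := U n F) (g := 1) (by simp) (by simp)
  have : v = uS n F := Subtype.ext hv
  rwa [← this]

theorem exists_SL_conj {v g : Matrix (Fin (n + 1)) (Fin (n + 1)) F} (hg : g.det = 1)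
    (h : v * g = g * U n F) : ∃ g' : SpecialLinearGroup (Fin (n + 1)) F,
      ((g' * uS n F * g'⁻¹ : SpecialLinearGroup (Fin (n + 1)) F) : Matrix _ _ F) = v := by
  obtain ⟨v', rfl, -⟩ := reg_of_conj (by rw [hg]; exact one_ne_zero) h
  obtain ⟨g', rfl⟩ : ∃ g' : SpecialLinearGroup (Fin (n + 1)) F, (g' : Matrix _ _ F) = g :=
    ⟨⟨g, hg⟩, rfl⟩
  have : g' * uS n F = v' * g' := Subtype.ext h.symm
  exact ⟨g', by rw [this, mul_inv_cancel_right]⟩

/-- `u` and `v` generate -/
def Gen2 (v : Matrix (Fin (n + 1)) (Fin (n + 1)) F) : Prop :=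
  ∀ G : Subgroup (SpecialLinearGroup (Fin (n + 1)) F), In G (U n F) → In G v → G = ⊤

theorem Gen2.pair {v g : Matrix (Fin (n + 1)) (Fin (n + 1)) F} (hv : Gen2 v) (hg : g.det ≠ 0)
    (h : v * g = g * U n F) : ∃ u v : SpecialLinearGroup (Fin (n + 1)) F, Reg u ∧ Reg v ∧
      Subgroup.closure ({u, v} : Set (SpecialLinearGroup (Fin (n + 1)) F)) = ⊤ := by
  obtain ⟨v', rfl, h'⟩ := reg_of_conj hg h
  exact ⟨uS n F, v', reg_uS, h', hv _ ⟨uS n F, Subgroup.subset_closure (by simp), rfl⟩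
    ⟨v', Subgroup.subset_closure (by simp), rfl⟩⟩

theorem Gen2.pair_conj {v g : Matrix (Fin (n + 1)) (Fin (n + 1)) F} (hv : Gen2 v) (hg : g.det = 1)
    (h : v * g = g * U n F) : ∃ u g : SpecialLinearGroup (Fin (n + 1)) F, Reg u ∧
      Subgroup.closure ({u, g * u * g⁻¹} : Set (SpecialLinearGroup (Fin (n + 1)) F)) = ⊤ := by
  obtain ⟨g', hg'⟩ := exists_SL_conj hg h
  exact ⟨uS n F, g', reg_uS, hv _ ⟨uS n F, Subgroup.subset_closure (by simp), rfl⟩
    ⟨_, Subgroup.subset_closure (by simp), hg'⟩⟩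

end H16.RU
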