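import Cfsg.Agent.H16.RU2

/-! Two or three regular unipotent elements generate `SL_n`, `n ≥ 4`. -/

set_option autoImplicit false
set_option linter.unusedSectionVars false
set_option linter.unusedSimpArgs false
open Matrix

namespace H16.RU

section core
variable {F : Type*} [Field F] {ι : Type*} [Fintype ι] [DecidableEq ι]
  {G : Subgroup (SpecialLinearGroup ι F)}

theorem odd_core {η e em φ cm : ι → F} {a : Matrix ι ι F} {γ : F} (h2 : (2 : F) ≠ 0)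
    (he : η ⬝ᵥ e = 1) (hem : η ⬝ᵥ em = 1) (hφe : φ ⬝ᵥ e = 0) (hφm : φ ⬝ᵥ em = -4)
    (hs : In G (TX (em - e) η * TX e φ)) (ha : In G a) (hηa : η ᵥ* a = η)
    (hcm : a *ᵥ cm = e + em) (hb : φ ⬝ᵥ (a *ᵥ (e + em)) = -4) (hγ0 : γ ≠ 0) (hγ : Gen (2 * γ))
    (hg : φ ⬝ᵥ cm = -4 - γ) (c : F) :
    TI G (c • (a *ᵥ (a *ᵥ (e + em)) - a *ᵥ (e + em))) η := by
  have hηa' : ∀ x, η ⬝ᵥ (a *ᵥ x) = η ⬝ᵥ x := fun x => by rw [dotProduct_mulVec, hηa]
  have hηb : η ⬝ᵥ (a *ᵥ (e + em)) = 2 := by rw [hηa', dotProduct_add, he, hem]; norm_num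
  have hηc : η ⬝ᵥ cm = 2 := by rw [← hηa', hcm, dotProduct_add, he, hem]; norm_num
  generalize hbb : a *ᵥ (e + em) = b at *
  obtain ⟨ψ, hψ⟩ : ∃ ψ, ψ = -(φ + (2 : F) • η) := ⟨_, rfl⟩
  have hψx : ∀ x, ψ ⬝ᵥ x = -(φ ⬝ᵥ x + 2 * η ⬝ᵥ x) := fun x => by
    rw [hψ, neg_dotProduct, add_dotProduct, smul_dotProduct, smul_eq_mul]
  have hT : TI G ((1 : F) • (e + em)) ψ := by
    rw [one_smul]
    refine ⟨by rw [hψx, dotProduct_add, dotProduct_add, he, hem, hφe, hφm]; ring, ?_⟩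
    convert hs.mul hs using 1
    rw [ext_iff_mulVec]; intro x
    simp only [← mulVec_mulVec, TX_mulVec, dotProduct_add, dotProduct_smul, dotProduct_sub, he, hem,
      hφe, hφm, hψx]
    module
  obtain ⟨ψ₁, h1⟩ := ha.exists_vecMul ψ
  have hψb : ψ ⬝ᵥ b = 0 := by rw [hψx, hb, hηb]; ring
  have h1c : ψ₁ ⬝ᵥ (e + em) = γ := by rw [← hcm, dotProduct_mulVec, h1, hψx, hg, hηc]; ring
  have ca : ∀ {x : ι → F} (t : F), TI G (t • x) ψ → TI G (t • (a *ᵥ x)) ψ₁ := fun t h => by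
    rw [← mulVec_smul]; exact TI.conj ha h h1
  have T1 : TI G b ψ₁ := by simpa [hbb] using ca 1 hT
  have r1 : ∀ t : F, TI G (t • (e + em)) ψ → TI G ((γ * t) • b) ψ := fun t h => by
    have := T1.comm h hψb
    rwa [dotProduct_smul, h1c, smul_eq_mul, mul_comm] at this
  have hsb : (TX (em - e) η * TX e φ) *ᵥ b = b - (2 : F) • (e + em) := by
    simp only [← mulVec_mulVec, TX_mulVec, dotProduct_add, dotProduct_smul, he, hb, hηb]
    module
  have r2 : ∀ t : F, TI G (t • b) ψ → TI G ((2 * t) • (e + em)) ψ := fun t h => by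
    have := (TI.conj hs h (ψ' := -ψ) (by
      rw [← vecMul_vecMul, hψ]
      simp only [vecMul_TX, neg_neg, add_dotProduct, smul_dotProduct, dotProduct_sub, he, hem,
        hφe, hφm]
      module)).neg_right
    rw [neg_neg, mulVec_smul, hsb] at this
    exact (h.sub_left this).congr (by module) rfl
  have S0 : ∀ t : F, TI G (t • (e + em)) ψ :=
    hγ.all one_ne_zero hT fun t h => by rw [mul_assoc]; exact r2 _ (r1 t h)
  have S1 : ∀ t : F, TI G (t • b) ψ := fun t => by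
    have := r1 _ (S0 (t / γ))
    rwa [mul_div_cancel₀ _ hγ0] at this
  have S2 : ∀ t : F, TI G (t • b) ψ₁ := fun t => hbb ▸ ca t (S0 t)
  have S3 : ∀ t : F, TI G (t • (b - (2 : F) • (e + em))) (ψ₁ - γ • η) := fun t => by
    have hm : ψ₁ ⬝ᵥ em = γ - ψ₁ ⬝ᵥ e := by rw [← h1c, dotProduct_add]; ring
    have := TI.conj hs (S2 t) (ψ' := ψ₁ + (ψ₁ ⬝ᵥ e) • ψ - γ • η) (by
      rw [← vecMul_vecMul]
      simp only [vecMul_TX, add_dotProduct, sub_dotProduct, smul_dotProduct, dotProduct_sub, he, hem,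
        hφe, hφm, hψx, hm]
      rw [hψ]
      module)
    rw [mulVec_smul, hsb] at this
    have h3 : TI G (t • (b - (2 : F) • (e + em))) ((ψ₁ ⬝ᵥ e) • ψ) := by
      rw [← TI.smul_iff]
      exact ((S1 (ψ₁ ⬝ᵥ e * t)).sub_left (S0 (ψ₁ ⬝ᵥ e * t * 2))).congr (by module) rfl
    exact (this.sub_right h3).congr rfl (by module)
  have S4 : ∀ t : F, TI G (t • (a *ᵥ b - b)) ψ₁ := fun t =>
    ((ca t (S1 t)).sub_left (S2 t)).congr (by module) rfl
  have h5 := (S4 (c / γ)).comm (S3 (-(2 * γ)⁻¹)) (by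
    rw [sub_dotProduct, (S4 _).1, smul_dotProduct, dotProduct_smul, dotProduct_sub, hηa']
    simp)
  have h6 : ψ₁ ⬝ᵥ (-(2 * γ)⁻¹ • (b - (2 : F) • (e + em))) = 1 := by
    rw [dotProduct_smul, dotProduct_sub, T1.1, dotProduct_smul, h1c]
    simp only [smul_eq_mul]
    field_simp
    ring
  rw [h6, one_smul] at h5
  have h7 := (S4 (c / γ)).sub_right h5
  rw [sub_sub_cancel, ← TI.smul_iff, smul_smul, mul_div_cancel₀ _ hγ0] at h7
  exact h7

theorem even_core {η e em φ dm : ι → F} {a : Matrix ι ι F} {γ : F} (h2 : (2 : F) = 0)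
    (he : η ⬝ᵥ e = 1) (hem : η ⬝ᵥ em = 1) (hφe : φ ⬝ᵥ e = 0) (hφm : φ ⬝ᵥ em = 0)
    (hs : In G (TX (em - e) η * TX e φ)) (ha : In G a) (hηa : η ᵥ* a = η) (hae : a *ᵥ em = e)
    (hdm : a *ᵥ dm = em - e) (hb : φ ⬝ᵥ (a *ᵥ (em - e)) = 0) (hγ0 : γ ≠ 0) (hγ : Gen γ)
    (hg : φ ⬝ᵥ dm = γ) (c : F) : TI G (c • (em - e)) η := by
  have hηd : η ⬝ᵥ (em - e) = 0 := by rw [dotProduct_sub, he, hem, sub_self]
  have hηb : η ⬝ᵥ (a *ᵥ (em - e)) = 0 := by rw [dotProduct_mulVec, hηa, hηd]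
  have hT : TI G (em - e) φ := by
    refine ⟨by rw [dotProduct_sub, hφe, hφm, sub_self], ?_⟩
    convert hs.mul hs using 1
    rw [ext_iff_mulVec]; intro x
    simp only [← mulVec_mulVec, TX_mulVec, dotProduct_add, dotProduct_smul, dotProduct_sub, he, hem,
      hφe, hφm]
    linear_combination (norm := module) h2 • (-((φ ⬝ᵥ x) • em + (η ⬝ᵥ x) • (em - e)))
  obtain ⟨φ₁, h1⟩ := ha.exists_vecMul φ
  have T1 := TI.conj ha hT h1
  have h1d : φ₁ ⬝ᵥ (em - e) = γ := by rw [← hdm, dotProduct_mulVec, h1, hg]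
  have h1e : φ₁ ⬝ᵥ e = 0 := by rw [← hae, dotProduct_mulVec, h1, hφm]
  have back : ∀ t : F, TI G (t • (a *ᵥ (em - e))) η → TI G (t • (em - e)) η := fun t h => by
    rw [← mulVec_smul] at h
    have := TI.conj' ha h
    rwa [hηa] at this
  have T2 := TI.conj hs T1 (ψ' := φ₁ - γ • η) (by
    rw [← vecMul_vecMul]
    simp only [vecMul_TX, add_dotProduct, sub_dotProduct, smul_dotProduct, he, h1d, h1e, hηd]
    module)
  have hsb : (TX (em - e) η * TX e φ) *ᵥ (a *ᵥ (em - e)) = a *ᵥ (em - e) := by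
    rw [← mulVec_mulVec, TX_mulVec e, hb, zero_smul, add_zero, TX_mulVec, hηb, zero_smul, add_zero]
  rw [hsb] at T2
  have T3 := T1.sub_right T2
  rw [sub_sub_cancel, ← TI.smul_iff] at T3
  refine hγ.all hγ0 (back _ T3) (fun t h => back _ ?_) c
  have := T1.comm h hηb
  rwa [dotProduct_smul, h1d, smul_eq_mul, mul_comm] at this

end core

variable {F : Type*} [Field F] {n : ℕ}

/-- standard basis vectors -/
def E (n : ℕ) (F : Type*) [Field F] (k : ℕ) : Fin (n + 1) → F := fun i => if i.val = k then 1 else 0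

theorem E0_eq : E0 n F = E n F 0 := by
  ext i; simp [E0, E, Pi.single_apply]

theorem sh_E (k : ℕ) : sh n F *ᵥ E n F k = E n F (k + 1) := by
  ext i
  induction i using Fin.cases with
  | zero => rw [sh_mulVec_zero]; simp [E]
  | succ i => rw [sh_mulVec_succ]; simp [E]

theorem E_sh {k : ℕ} (hk : k + 1 ≤ n) : E n F (k + 1) ᵥ* sh n F = E n F k := by
  ext i
  induction i using Fin.lastCases with
  | last => rw [vecMul_sh_last]; simp only [E, Fin.val_last]; rw [if_neg (by omega)]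
  | cast i => rw [vecMul_sh_castSucc]; simp [E]

theorem seq_dot_E (a : ℕ → F) (k : ℕ) :
    (fun i : Fin (n + 1) => a i.val) ⬝ᵥ E n F k = if k ≤ n then a k else 0 := by
  simp only [dotProduct, E, mul_ite, mul_one, mul_zero]
  split_ifs with h
  · rw [Finset.sum_eq_single ⟨k, by omega⟩]
    · simp
    · intro j _ hj
      rw [if_neg fun h => hj (Fin.ext h)]
    · simp
  · exact Finset.sum_eq_zero fun j _ => if_neg (by omega)

theorem E_dot_E (j k : ℕ) : E n F j ⬝ᵥ E n F k = if k ≤ n then (if k = j then 1 else 0) else 0 :=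
  seq_dot_E (fun i => if i = j then 1 else 0) k

/-- a functional with four prescribed values -/
def sq (n : ℕ) (p0 p1 p2 p3 κ : F) : Fin (n + 1) → F := fun i =>
  (fun j : ℕ => if j = 0 then p0 else if j = 1 then p1 else if j = 2 then p2 else
    if j = 3 then p3 else κ) i.val

theorem sq_dot (hn : 3 ≤ n) (p0 p1 p2 p3 κ : F) :
    sq n p0 p1 p2 p3 κ ⬝ᵥ E n F 0 = p0 ∧ sq n p0 p1 p2 p3 κ ⬝ᵥ E n F 1 = p1 ∧
    sq n p0 p1 p2 p3 κ ⬝ᵥ E n F 2 = p2 ∧ sq n p0 p1 p2 p3 κ ⬝ᵥ E n F 3 = p3 := by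
  refine ⟨?_, ?_, ?_, ?_⟩ <;>
    (refine (seq_dot_E (fun j : ℕ => if j = 0 then p0 else if j = 1 then p1 else if j = 2 then p2 else
      if j = 3 then p3 else κ) _).trans ?_; rw [if_pos (by omega)]; simp)

theorem sq_last (hn : 3 ≤ n) (p0 p1 p2 p3 κ : F) :
    sq n p0 p1 p2 p3 κ (Fin.last n) = if n = 3 then p3 else κ := by
  simp only [sq, Fin.val_last]
  rw [if_neg (by omega), if_neg (by omega), if_neg (by omega)]

theorem U_E (k : ℕ) : U n F *ᵥ E n F k = E n F k + E n F (k + 1) := by rw [U_mulVec, sh_E]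

theorem E0_dot_pow (k : ℕ) : E0 n F ⬝ᵥ (U n F ^ k *ᵥ E0 n F) = 1 := by
  rw [dotProduct_mulVec, E0_vecMul_U_pow, dot_E0]; simp [E0]

theorem sh_one (hn : 1 ≤ n) (x : Fin (n + 1) → F) : (sh n F *ᵥ x) ⟨1, by omega⟩ = E0 n F ⬝ᵥ x := by
  rw [E0_dot]; exact sh_mulVec_succ x ⟨0, hn⟩

theorem odd_gen (h2 : (2 : F) ≠ 0) (hn : 3 ≤ n) {γ κ : F} (hγ0 : γ ≠ 0) (hγ : Gen (2 * γ))
    (hl : (if n = 3 then γ - 16 else κ) ≠ 0) :
    sq n (-γ) (γ - 4) (8 - γ) (γ - 16) κ ⬝ᵥ (U n F ^ 2 *ᵥ E0 n F) = 0 ∧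
      Gen2 (V (U n F ^ 2 *ᵥ E0 n F) (sq n (-γ) (γ - 4) (8 - γ) (γ - 16) κ)) := by
  obtain ⟨a0, a1, a2, a3⟩ := sq_dot hn (-γ) (γ - 4) (8 - γ) (γ - 16) κ
  have h0 : sq n (-γ) (γ - 4) (8 - γ) (γ - 16) κ ⬝ᵥ (U n F ^ 2 *ᵥ E0 n F) = 0 := by
    simp only [pow_two, ← mulVec_mulVec, E0_eq, U_E, mulVec_add, dotProduct_add, a0, a1, a2,
      Nat.reduceAdd]
    ring
  refine ⟨h0, fun G hU hV => ?_⟩
  have hem : U n F *ᵥ (U n F ^ 1 *ᵥ E0 n F) = U n F ^ 2 *ᵥ E0 n F := by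
    rw [mulVec_mulVec, ← pow_succ']
  refine finish (by omega) hU (E0_dot_pow 2) hV (by rwa [sq_last hn]) ?_
    (odd_core (cm := U n F *ᵥ E0 n F + E0 n F) h2 (E0_dot_pow 2) (E0_dot_pow 1) h0 ?_
      (in_s hU (E0_dot_pow 2) hem hV) hU E0_vecMul_U ?_ ?_ hγ0 hγ ?_)
  · rw [U_mulVec (U n F *ᵥ _), add_sub_cancel_left, sh_one (by omega), E0_dot_U, dotProduct_add,
      E0_dot_pow, E0_dot_pow]
    rwa [one_add_one_eq_two]
  · simp only [pow_one, E0_eq, U_E, dotProduct_add, a0, a1, Nat.reduceAdd]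
    ring
  · rw [mulVec_add, mulVec_mulVec, pow_two, pow_one]
  · simp only [pow_two, pow_one, ← mulVec_mulVec, E0_eq, U_E, mulVec_add, dotProduct_add, a0, a1, a2,
      a3, Nat.reduceAdd]
    ring
  · simp only [E0_eq, U_E, dotProduct_add, a0, a1, Nat.reduceAdd]
    ring

theorem odd_gen4 (h2 : (2 : F) ≠ 0) (h26 : (26 : F) ≠ 0) (hγ : Gen (2 * (26 : F))) :
    sq 3 (-77 / 4 : F) (17 / 2) (-7 / 4) (-1) 0 ⬝ᵥ (U 3 F ^ 3 *ᵥ E0 3 F) = 0 ∧
      Gen2 (V (U 3 F ^ 3 *ᵥ E0 3 F) (sq 3 (-77 / 4 : F) (17 / 2) (-7 / 4) (-1) 0)) := by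
  obtain ⟨a0, a1, a2, a3⟩ := sq_dot (le_refl 3) (-77 / 4 : F) (17 / 2) (-7 / 4) (-1) 0
  have a4 : E 3 F 4 = 0 := by ext i; simp only [E]; rw [if_neg (by omega)]; rfl
  have h4 : (4 : F) ≠ 0 := by rw [show (4 : F) = 2 * 2 by norm_num]; exact mul_ne_zero h2 h2
  have h0 : sq 3 (-77 / 4 : F) (17 / 2) (-7 / 4) (-1) 0 ⬝ᵥ (U 3 F ^ 3 *ᵥ E0 3 F) = 0 := by
    simp only [pow_succ, pow_zero, one_mul, ← mulVec_mulVec, E0_eq, U_E, mulVec_add, dotProduct_add,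
      a0, a1, a2, a3, Nat.reduceAdd]
    field_simp
    ring
  refine ⟨h0, fun G hU hV => ?_⟩
  have hem : U 3 F *ᵥ (U 3 F ^ 2 *ᵥ E0 3 F) = U 3 F ^ 3 *ᵥ E0 3 F := by
    rw [mulVec_mulVec, ← pow_succ']
  refine finish (by omega) hU (E0_dot_pow 3) hV (by rw [sq_last le_rfl]; simp) ?_
    (odd_core (cm := U 3 F *ᵥ E0 3 F + E0 3 F) h2 (E0_dot_pow 3) (E0_dot_pow 2) h0 ?_
      (in_s hU (E0_dot_pow 3) hem hV) (hU.pow 2) (E0_vecMul_U_pow 2) ?_ ?_ h26 hγ ?_)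
  · have : ∀ x : Fin 4 → F, U 3 F ^ 2 *ᵥ x - x = sh 3 F *ᵥ (U 3 F *ᵥ x + x) := fun x => by
      rw [pow_two, ← mulVec_mulVec, U_mulVec (U 3 F *ᵥ x), mulVec_add, U_mulVec x]; abel
    rw [this, sh_one (by omega), dotProduct_add, E0_dot_U, dotProduct_mulVec, E0_vecMul_U_pow,
      dotProduct_add, E0_dot_pow, E0_dot_pow]
    intro h; exact h4 (by linear_combination h)
  · simp only [pow_succ, pow_zero, one_mul, ← mulVec_mulVec, E0_eq, U_E, mulVec_add, dotProduct_add,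
      a0, a1, a2, a3, Nat.reduceAdd]
    field_simp
    ring
  · rw [mulVec_add, mulVec_mulVec, ← pow_succ]
  · simp only [pow_succ, pow_zero, one_mul, ← mulVec_mulVec, E0_eq, U_E, mulVec_add, dotProduct_add,
      a0, a1, a2, a3, a4, Nat.reduceAdd, mulVec_zero, dotProduct_zero]
    field_simp
    ring
  · simp only [E0_eq, U_E, dotProduct_add, a0, a1, Nat.reduceAdd]
    field_simp
    ring

theorem even_gen (h2 : (2 : F) = 0) (hn : 3 ≤ n) {γ κ : F} (hγ0 : γ ≠ 0) (hγ : Gen γ)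
    (hl : (if n = 3 then -γ else κ) ≠ 0) :
    sq n γ (-γ) γ (-γ) κ ⬝ᵥ (U n F ^ 2 *ᵥ E0 n F) = 0 ∧
      Gen2 (V (U n F ^ 2 *ᵥ E0 n F) (sq n γ (-γ) γ (-γ) κ)) := by
  obtain ⟨a0, a1, a2, a3⟩ := sq_dot hn γ (-γ) γ (-γ) κ
  have h0 : sq n γ (-γ) γ (-γ) κ ⬝ᵥ (U n F ^ 2 *ᵥ E0 n F) = 0 := by
    simp only [pow_two, ← mulVec_mulVec, E0_eq, U_E, mulVec_add, dotProduct_add, a0, a1, a2,
      Nat.reduceAdd]
    ring
  refine ⟨h0, fun G hU hV => ?_⟩
  have hem : U n F *ᵥ (U n F ^ 1 *ᵥ E0 n F) = U n F ^ 2 *ᵥ E0 n F := by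
    rw [mulVec_mulVec, ← pow_succ']
  refine finish (by omega) hU (E0_dot_pow 2) hV (by rwa [sq_last hn]) ?_
    (even_core (dm := E0 n F - U n F *ᵥ E0 n F) h2 (E0_dot_pow 2) (E0_dot_pow 1) h0 ?_
      (in_s hU (E0_dot_pow 2) hem hV) hU E0_vecMul_U hem ?_ ?_ hγ0 hγ ?_)
  · rw [← hem, U_mulVec (U n F ^ 1 *ᵥ _), sub_add_cancel_left, Pi.neg_apply, sh_one (by omega),
      E0_dot_pow]
    simp
  · simp only [pow_one, E0_eq, U_E, dotProduct_add, a0, a1, Nat.reduceAdd]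
    ring
  · rw [mulVec_sub, mulVec_mulVec, pow_two, pow_one]
  · simp only [pow_two, pow_one, ← mulVec_mulVec, E0_eq, U_E, mulVec_add, mulVec_sub, dotProduct_add,
      dotProduct_sub, a0, a1, a2, a3, Nat.reduceAdd]
    ring
  · simp only [E0_eq, U_E, dotProduct_add, dotProduct_sub, a0, a1, Nat.reduceAdd]
    ring

theorem three_gen (hn : 3 ≤ n) {ω : F} (hω0 : ω ≠ 0) (hω : Gen ω) {φ : Fin (n + 1) → F}
    (h0 : φ 0 = 0) (hl : φ (Fin.last n) ≠ 0) (G : Subgroup (SpecialLinearGroup (Fin (n + 1)) F))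
    (hU : In G (U n F)) (hV : In G (V (E0 n F) φ)) (hV' : In G (V (E0 n F) (φ + ω • E n F 2))) :
    G = ⊤ := by
  have d : ∀ j k, k ≤ 2 → E n F j ⬝ᵥ E n F k = if k = j then 1 else 0 := fun j k hk => by
    rw [E_dot_E, if_pos (by omega)]
  have hVE : V (E0 n F) φ *ᵥ E n F 0 = E n F 0 := by
    rw [V_mulVec, ← E0_eq, dot_E0 φ, h0, U_mulVec, E0_eq, d 0 0 (by omega)]; simp
  have u2 : E n F 2 ᵥ* U n F = E n F 2 + E n F 1 := by rw [vecMul_U, E_sh (by omega)]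
  have u1 : E n F 1 ᵥ* U n F = E n F 1 + E n F 0 := by rw [vecMul_U, E_sh (by omega)]
  have u0 : E n F 0 ᵥ* U n F = E n F 0 := by rw [← E0_eq, E0_vecMul_U]
  have T : TI G (ω • E n F 0) (E n F 2) := by
    rw [TI.smul_iff]
    refine ⟨by rw [smul_dotProduct, d 2 0 (by omega)]; simp, hV.of_left ?_⟩
    convert hV' using 1
    rw [TX, mul_add, mul_one, mul_vecMulVec, hVE, V, V, vecMulVec_add, E0_eq, add_assoc]
  have r1 : ∀ t : F, TI G (t • E n F 0) (E n F 2) → TI G (t • E n F 0) (E n F 1) := fun t h => by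
    have := TI.conj' hV (b := t • E n F 0) (by rwa [mulVec_smul, hVE])
    have e : E n F 2 ᵥ* V (E0 n F) φ = E n F 2 + E n F 1 := by
      rw [V, vecMul_add, vecMul_sub, u2, vecMul_vecMulVec, vecMul_vecMulVec, E0_eq, sh_E,
        d 2 0 (by omega), d 2 _ (by omega)]
      simp
    rw [e] at this
    simpa using this.sub_right h
  have r2 : ∀ t : F, TI G (t • E n F 0) (E n F 2) → TI G (t • (E n F 0 + E n F 1)) (E n F 2) :=
    fun t h => by
      have := TI.conj hU (h.add_right (r1 t h)) u2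
      rwa [mulVec_smul, U_E] at this
  have S : ∀ t : F, TI G (t • E n F 0) (E n F 2) := hω.all hω0 T fun t h => by
    have := (r1 _ T).comm (r2 t h) (by rw [dotProduct_smul, d 2 0 (by omega)]; simp)
    rw [dotProduct_smul, dotProduct_add, d 1 0 (by omega), d 1 1 (by omega), smul_smul] at this
    simpa [mul_comm] using this
  have S1 : ∀ t : F, TI G (t • E n F 1) (E n F 2) := fun t =>
    ((r2 t (S t)).sub_left (S t)).congr (by module) rfl
  refine finish (w := E n F 1) (by omega) hU (by rw [E0_eq, d 0 0 (by omega)]; simp) hV hl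
    (by simp [E]) fun t => ?_
  have h1 := TI.conj (hU.mul hU) (((S t).neg_right.sub_right (r1 t (S t))).sub_right (r1 t (S t)))
    (ψ' := E n F 0 - E n F 2) (by
      rw [← vecMul_vecMul, sub_vecMul, u0, u2, sub_vecMul, add_vecMul, u0, u1, u2]; abel)
  have h2 := (S1 1).comm h1 (by
    rw [one_smul, sub_dotProduct, d 0 1 (by omega), d 2 1 (by omega)]; simp)
  rw [mulVec_smul, ← mulVec_mulVec, U_E, mulVec_add, U_E, U_E, dotProduct_smul] at h2
  simp only [dotProduct_add, Nat.reduceAdd, d 2 0 (by omega), d 2 1 (by omega), d 2 2 (by omega)] at h2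
  have h3 : TI G (t • E n F 1) (E n F 0 - E n F 2) := by simpa using h2
  rw [E0_eq]
  simpa using h3.add_right (S1 t)

theorem two_conj [Fintype F] (hn : 3 ≤ n) (h : 4 ≤ n ∨ (Fintype.card F).Prime) :
    ∃ u g : SpecialLinearGroup (Fin (n + 1)) F, Reg u ∧
      Subgroup.closure ({u, g * u * g⁻¹} : Set (SpecialLinearGroup (Fin (n + 1)) F)) = ⊤ := by
  have hs : ((-1 : F) ^ n) ≠ 0 := pow_ne_zero _ (neg_ne_zero.2 one_ne_zero)
  have hss : (-1 : F) ^ n * (-1) ^ n = 1 := by rw [← mul_pow]; simp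
  obtain ⟨ω, hω0, hω⟩ := exists_genel (F := F)
  by_cases h2 : (2 : F) = 0
  · obtain ⟨γ, hγ0, hγ, h3⟩ : ∃ γ : F, γ ≠ 0 ∧ Gen γ ∧ (n = 3 → γ = 1) := by
      rcases h with h | h
      · exact ⟨ω, hω0, hω, by omega⟩
      · exact ⟨1, one_ne_zero, gen_of_prime h 1, fun _ => rfl⟩
    have hl : (if n = 3 then -γ else (-1) ^ n) = (-1) ^ n := by
      split_ifs with h
      · rw [h3 h, h]; norm_num
      · rfl
    obtain ⟨h0, hg⟩ := even_gen h2 hn (κ := (-1) ^ n) hγ0 hγ (by rwa [hl])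
    obtain ⟨g, hd, hc⟩ := exists_conj (by omega) 2 h0
    exact hg.pair_conj (by rw [hd, sq_last hn, hl, hss]) hc
  by_cases h3 : n = 3
  · subst h3
    have hp : (Fintype.card F).Prime := h.resolve_left (by omega)
    by_cases h15 : (15 : F) = 0
    · obtain ⟨h0, hg⟩ := odd_gen4 h2 (fun h26 => one_ne_zero (by
        linear_combination 7 * h15 - 4 * h26 : (1 : F) = 0)) (gen_of_prime hp _)
      obtain ⟨g, hd, hc⟩ := exists_conj (by omega) 3 h0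
      exact hg.pair_conj (by rw [hd, sq_last hn]; norm_num) hc
    · obtain ⟨h0, hg⟩ := odd_gen h2 hn (κ := 0) h15 (gen_of_prime hp _) (by norm_num)
      obtain ⟨g, hd, hc⟩ := exists_conj (by omega) 2 h0
      exact hg.pair_conj (by rw [hd, sq_last hn]; norm_num) hc
  · obtain ⟨h0, hg⟩ := odd_gen h2 hn (γ := ω / 2) (κ := (-1) ^ n) (div_ne_zero hω0 h2)
      (by rwa [mul_div_cancel₀ _ h2]) (by rwa [if_neg h3])
    obtain ⟨g, hd, hc⟩ := exists_conj (by omega) 2 h0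
    exact hg.pair_conj (by rw [hd, sq_last hn, if_neg h3, hss]) hc

theorem two_reg [Fintype F] (hn : 3 ≤ n) :
    ∃ u v : SpecialLinearGroup (Fin (n + 1)) F, Reg u ∧ Reg v ∧
      Subgroup.closure ({u, v} : Set (SpecialLinearGroup (Fin (n + 1)) F)) = ⊤ := by
  have hs : ((-1 : F) ^ n) ≠ 0 := pow_ne_zero _ (neg_ne_zero.2 one_ne_zero)
  obtain ⟨ω, hω0, hω⟩ := exists_genel (F := F)
  by_cases h2 : (2 : F) = 0
  · have hl : (if n = 3 then -ω else 1) ≠ 0 := by split_ifs <;> simp [hω0]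
    obtain ⟨h0, hg⟩ := even_gen h2 hn (κ := 1) hω0 hω hl
    obtain ⟨g, hd, hc⟩ := exists_conj (by omega) 2 h0
    exact hg.pair (by rw [hd, sq_last hn]; exact mul_ne_zero hs hl) hc
  obtain ⟨γ, hγ0, hγ, h16⟩ : ∃ γ : F, γ ≠ 0 ∧ Gen (2 * γ) ∧ γ - 16 ≠ 0 := by
    by_cases h : ω / 2 - 16 = 0
    · refine ⟨-(ω / 2), neg_ne_zero.2 (div_ne_zero hω0 h2), ?_, fun h' => ?_⟩
      · rw [mul_neg, mul_div_cancel₀ _ h2]; exact hω.neg
      · exact pow_ne_zero 5 h2 (by linear_combination -h - h')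
    · exact ⟨ω / 2, div_ne_zero hω0 h2, by rwa [mul_div_cancel₀ _ h2], h⟩
  have hl : (if n = 3 then γ - 16 else 1) ≠ 0 := by split_ifs <;> simp [h16]
  obtain ⟨h0, hg⟩ := odd_gen h2 hn (κ := 1) hγ0 hγ hl
  obtain ⟨g, hd, hc⟩ := exists_conj (by omega) 2 h0
  exact hg.pair (by rw [hd, sq_last hn]; exact mul_ne_zero hs hl) hc

theorem three_conj [Fintype F] (hn : 3 ≤ n) :
    ∃ u g h : SpecialLinearGroup (Fin (n + 1)) F, Reg u ∧
      Subgroup.closure ({u, g * u * g⁻¹, h * u * h⁻¹} :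
        Set (SpecialLinearGroup (Fin (n + 1)) F)) = ⊤ := by
  have hs : ((-1 : F) ^ n) ≠ 0 := pow_ne_zero _ (neg_ne_zero.2 one_ne_zero)
  have hss : (-1 : F) ^ n * (-1) ^ n = 1 := by rw [← mul_pow]; simp
  obtain ⟨ω, hω0, hω⟩ := exists_genel (F := F)
  set φ : Fin (n + 1) → F := ((-1 : F) ^ n) • E n F n with hφ
  have h0 : φ 0 = 0 := by
    have : ¬ (0 = n) := by omega
    simp [hφ, E, this]
  have hl : φ (Fin.last n) = (-1) ^ n := by simp [hφ, E]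
  have h0' : (φ + ω • E n F 2) 0 = 0 := by rw [Pi.add_apply, h0]; simp [E]
  have hl' : (φ + ω • E n F 2) (Fin.last n) = (-1) ^ n := by
    rw [Pi.add_apply, hl]; simp only [E, Pi.smul_apply, Fin.val_last]
    rw [if_neg (by omega)]; simp
  obtain ⟨g, hd, hc⟩ := exists_conj_E0 (by omega) h0
  obtain ⟨g', hd', hc'⟩ := exists_conj_E0 (by omega) h0'
  obtain ⟨g1, h1⟩ := exists_SL_conj (by rw [hd, hl, hss]) hc
  obtain ⟨g2, h2⟩ := exists_SL_conj (by rw [hd', hl', hss]) hc'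
  exact ⟨uS n F, g1, g2, reg_uS, three_gen hn hω0 hω h0 (by rwa [hl]) _
    ⟨uS n F, Subgroup.subset_closure (by simp), rfl⟩ ⟨_, Subgroup.subset_closure (by simp), h1⟩
    ⟨_, Subgroup.subset_closure (by simp), h2⟩⟩

end H16.RU
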