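import Cfsg.Agent.H16.RU1

/-! Two conjugate regular unipotent elements generate `SL_3`. -/

set_option autoImplicit false
set_option linter.unusedSectionVars false
set_option linter.unusedSimpArgs false
open Matrix

namespace H16.RU

variable {F : Type*} [Field F] {G : Subgroup (SpecialLinearGroup (Fin 3) F)}

/-- companion matrix of `(X - 1)^3` -/
def C3 (F : Type*) [Field F] : Matrix (Fin 3) (Fin 3) F := !![0, 0, 1; 1, 0, -3; 0, 1, 3]

theorem det_C3 : (C3 F).det = 1 := by simp [C3, det_fin_three]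

theorem pair3 {v g : Matrix (Fin 3) (Fin 3) F} (hg : g.det = 1) (h : v * g = g * C3 F)
    (hv : ∀ G : Subgroup (SpecialLinearGroup (Fin 3) F), In G (C3 F) → In G v → G = ⊤) :
    ∃ u g : SpecialLinearGroup (Fin 3) F, IsNilpotent ((u : Matrix (Fin 3) (Fin 3) F) - 1) ∧
      ((u : Matrix (Fin 3) (Fin 3) F) - 1) ^ (3 - 1) ≠ 0 ∧
      Subgroup.closure ({u, g * u * g⁻¹} : Set (SpecialLinearGroup (Fin 3) F)) = ⊤ := by
  obtain ⟨g', rfl⟩ : ∃ g' : SpecialLinearGroup (Fin 3) F, (g' : Matrix _ _ F) = g := ⟨⟨g, hg⟩, rfl⟩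
  obtain ⟨u, hu⟩ : ∃ u : SpecialLinearGroup (Fin 3) F, (u : Matrix _ _ F) = C3 F := ⟨⟨_, det_C3⟩, rfl⟩
  have hd : v.det = 1 := by
    have := congrArg det h
    rwa [det_mul, det_mul, det_C3, hg, mul_one, mul_one] at this
  obtain ⟨v', rfl⟩ : ∃ v' : SpecialLinearGroup (Fin 3) F, (v' : Matrix _ _ F) = v := ⟨⟨v, hd⟩, rfl⟩
  rw [← hu] at h
  have e : g' * u = v' * g' := Subtype.ext h.symm
  have e1 : C3 F - 1 = !![-1, 0, 1; 1, -1, -3; 0, 1, 2] := by
    ext i j; fin_cases i <;> fin_cases j <;> simp [C3]; norm_num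
  refine ⟨u, g', ⟨3, ?_⟩, ?_, hv _ ⟨u, Subgroup.subset_closure (by simp), hu⟩
    ⟨g' * u * g'⁻¹, Subgroup.subset_closure (by simp), by rw [e, mul_inv_cancel_right]⟩⟩
  · rw [hu, e1, pow_succ, pow_two]
    ext i j; fin_cases i <;> fin_cases j <;> simp [Matrix.mul_apply, Fin.sum_univ_three] <;> norm_num
  · rw [hu, e1]
    intro h0
    have := congrFun (congrFun h0 0) 0
    simp [pow_two, Matrix.mul_apply, Fin.sum_univ_three] at this

theorem c3_one (hC : In G (C3 F)) {s : F} (h : TI G (s • ![1, 0, 0]) ![0, 0, 1]) :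
    TI G (s • ![0, 1, 0]) ![1, 0, 0] := by
  have := TI.conj hC h (ψ' := ![1, 0, 0]) (by ext i; fin_cases i <;> simp [C3, vecHead, vecTail])
  exact this.congr (by ext i; fin_cases i <;> simp [C3, vecHead, vecTail]) rfl

theorem c3_two (hC : In G (C3 F)) {s t : F} (h : TI G (s • ![1, 0, 0]) ![0, 0, 1])
    (h' : TI G (t • ![1, 0, 0]) ![0, 0, 1]) : TI G ((s * t) • ![0, 1, 0]) ![0, 0, 1] := by
  have := (c3_one hC h).comm h' (by simp)
  exact this.congr (by ext i; fin_cases i <;> simp [mul_comm]) rfl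

theorem finish3 (hC : In G (C3 F)) (h : ∀ s : F, TI G (s • ![1, 0, 0]) ![0, 0, 1]) : G = ⊤ := by
  have h2 : Full G ![0, 0, 1] := fun w hw => by
    have hw2 : w 2 = 0 := by simpa [Fin.sum_univ_three, vecHead, vecTail] using hw
    exact ((h (w 0)).add_left (c3_two hC (h (w 1)) (h 1))).congr
      (by ext i; fin_cases i <;> simp [hw2]) rfl
  have h0 : Full G ![1, 0, 0] := Full.of_vecMul (by
    convert h2 using 1
    ext i; fin_cases i <;> simp [C3, vecHead, vecTail]) hC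
  have h1 := h2.vecMul hC
  refine eq_top_of_full fun χ => ?_
  have := ((h0.smul (χ 0)).add (h1.smul (χ 1))).add (h2.smul (χ 2 - 3 * χ 1))
  convert this using 1
  ext i; fin_cases i <;> simp [C3, vecHead, vecTail]
  ring

theorem sl3_even [Fintype F] (h2 : (2 : F) = 0) :
    ∃ u g : SpecialLinearGroup (Fin 3) F, IsNilpotent ((u : Matrix (Fin 3) (Fin 3) F) - 1) ∧
      ((u : Matrix (Fin 3) (Fin 3) F) - 1) ^ (3 - 1) ≠ 0 ∧
      Subgroup.closure ({u, g * u * g⁻¹} : Set (SpecialLinearGroup (Fin 3) F)) = ⊤ := by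
  obtain ⟨σ, hσ0, hσ⟩ := exists_genel (F := F)
  refine pair3 (v := !![1, 1, σ; 0, 1, 1; 0, 0, 1])
    (g := !![0, -σ, -(2 * σ + 1); 0, -1, -2; -1, -1, -1]) ?_ ?_ fun G hC hv => ?_
  · simp [det_fin_three]; ring
  · ext i j; fin_cases i <;> fin_cases j <;> simp [C3, Matrix.mul_apply, Fin.sum_univ_three] <;> ring
  have T : TI G ((1 : F) • ![1, 0, 0]) ![0, 0, 1] := by
    refine ⟨by simp, ?_⟩
    convert hv.mul hv using 1
    ext i j; fin_cases i <;> fin_cases j <;>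
      simp [TX, Matrix.mul_apply, Fin.sum_univ_three, vecMulVec_apply, one_apply]
    · linear_combination -h2
    · linear_combination -σ * h2
    · linear_combination -h2
  have T1 := c3_two hC T T
  have T2 : TI G ![1, 0, 0] ![0, 1, 0] := by
    have := TI.conj' hC (b := ![1, 0, 0]) (T1.congr (b' := C3 F *ᵥ ![1, 0, 0])
      (by ext i; fin_cases i <;> simp [C3, vecHead, vecTail]) rfl)
    rw [one_smul] at T
    exact (((this.sub_right T).sub_right T).sub_right T).congr rfl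
      (by ext i; fin_cases i <;> simp [C3, vecHead, vecTail]; ring)
  have T3 : TI G (σ • ![1, 0, 0]) ![0, 0, 1] := by
    refine ⟨by simp, (T1.2.mul T2.2).of_left ?_⟩
    convert hv using 1
    ext i j; fin_cases i <;> fin_cases j <;>
      simp [TX, Matrix.mul_apply, Fin.sum_univ_three, vecMulVec_apply, one_apply]
  refine finish3 hC (hσ.all one_ne_zero T fun c hc => ?_)
  have := T2.comm (c3_two hC T3 hc) (by simp)
  exact this.congr (by simp) rfl

theorem gen_cube [Fintype F] (h2 : (2 : F) ≠ 0) {ω : F} (h : ∀ c : F, c ≠ 0 → ∃ k : ℕ, ω ^ k = c) :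
    Gen (ω ^ 3) := by
  intro S ⟨x, hx, h0⟩ hm c
  have key : ∀ k : ℕ, (ω ^ 3) ^ k * x ∈ S := by
    intro k
    induction k with
    | zero => simpa using hx
    | succ k ih => rw [pow_succ', mul_assoc]; exact hm _ ih
  have cube : ∀ y : F, y ^ 3 * x ∈ S := fun y => by
    by_cases hy : y = 0
    · simp [hy]
    obtain ⟨k, rfl⟩ := h y hy
    rw [← pow_mul, mul_comm k, pow_mul]; exact key k
  by_cases h3 : (3 : F) = 0
  · have : Fact (Nat.Prime 3) := ⟨Nat.prime_three⟩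
    have : CharP F 3 := (CharP.charP_iff_prime_eq_zero Nat.prime_three).2 (by exact_mod_cast h3)
    obtain ⟨y, hy⟩ := (frobeniusEquiv F 3).surjective (c / x)
    have hy : y ^ 3 = c / x := hy
    have := cube y
    rwa [hy, div_mul_cancel₀ _ h0] at this
  · have h6 : (6 : F) ≠ 0 := by rw [show (6 : F) = 2 * 3 by norm_num]; exact mul_ne_zero h2 h3
    have := S.sub_mem (S.sub_mem (S.add_mem (cube (c / x / 6 + 1)) (cube (c / x / 6 - 1)))
      (cube (c / x / 6))) (cube (c / x / 6))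
    convert this using 1
    field_simp
    ring

theorem w_pow (α β x z l : F) (k : ℕ) :
    (!![α, (α - β) * x, l * α - (α - β) * x * z; 0, β, (α - β) * z; 0, 0, α] :
      Matrix (Fin 3) (Fin 3) F) ^ k =
    !![α ^ k, (α ^ k - β ^ k) * x, k * l * α ^ k - (α ^ k - β ^ k) * x * z;
      0, β ^ k, (α ^ k - β ^ k) * z; 0, 0, α ^ k] := by
  induction k with
  | zero => ext i j; fin_cases i <;> fin_cases j <;> simp
  | succ k ih =>
    rw [pow_succ, ih]
    ext i j; fin_cases i <;> fin_cases j <;> simp [Matrix.mul_apply, Fin.sum_univ_three] <;> ring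

theorem odd3_core [Fintype F] {ω x z l : F} (hω0 : ω ≠ 0) (hω1 : ω ^ 3 ≠ 1) (hω : Gen (ω ^ 3))
    (hx : x ≠ 0) (hl : l ≠ 0) (hC : In G (C3 F))
    (hw : In G !![ω⁻¹, (ω⁻¹ - ω ^ 2) * x, l * ω⁻¹ - (ω⁻¹ - ω ^ 2) * x * z;
      0, ω ^ 2, (ω⁻¹ - ω ^ 2) * z; 0, 0, ω⁻¹]) : G = ⊤ := by
  have T : TI G ((-l) • ![1, 0, 0]) ![0, 0, 1] := by
    refine ⟨by simp, ?_⟩
    have := hw.pow (Fintype.card F - 1)
    rw [w_pow, FiniteField.pow_card_sub_one_eq_one _ (inv_ne_zero hω0),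
      FiniteField.pow_card_sub_one_eq_one _ (pow_ne_zero 2 hω0), Nat.cast_pred Fintype.card_pos,
      FiniteField.cast_card_eq_zero] at this
    convert this using 1
    ext i j; fin_cases i <;> fin_cases j <;> simp [TX, vecMulVec_apply, one_apply]
  have cw : ∀ b : Fin 3 → F, TI G b ![0, 0, 1] → TI G ![b 0 + (1 - ω ^ 3) * x * b 1, ω ^ 3 * b 1, 0]
      ![0, 0, 1] := fun b hb => by
    have hb2 : b 2 = 0 := by simpa [Fin.sum_univ_three, vecHead, vecTail] using hb.1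
    have := TI.conj hw hb (ψ' := ω • ![0, 0, 1]) (by
      ext i; fin_cases i <;> simp [vecHead, vecTail, hω0])
    rw [← TI.smul_iff] at this
    refine this.congr ?_ rfl
    ext i; fin_cases i <;> simp [vecHead, vecTail, mulVec, dotProduct, Fin.sum_univ_three, hb2]
    · field_simp
    · ring
  have T1 := c3_two hC T T
  have S2 : ∀ c : F, TI G (c • ![-x, 1, 0]) ![0, 0, 1] := by
    refine hω.all (c₀ := (ω ^ 3 - 1) * (l * l))
      (mul_ne_zero (sub_ne_zero.2 hω1) (mul_ne_zero hl hl)) ?_ fun c hc => ?_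
    · refine ((cw _ T1).sub_left T1).congr ?_ rfl
      ext i; fin_cases i <;> simp <;> ring
    · refine (cw _ hc).congr ?_ rfl
      ext i; fin_cases i <;> simp
      ring
  have S1 : ∀ c : F, TI G (c • ![0, 1, 0]) ![0, 0, 1] := fun c => by
    have := (c3_one hC T).comm (S2 (c / (x * l))) (by simp)
    refine this.congr ?_ rfl
    ext i; fin_cases i <;> simp
    field_simp
  refine finish3 hC fun c => ((S1 (c / x)).sub_left (S2 (c / x))).congr ?_ rfl
  ext i; fin_cases i <;> simp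
  field_simp

theorem conj3 {α ω : F} (hαω : α * ω = 1) (y : F) :
    C3 F * !![α, y, α ^ 2 * (y * (3 - y) - 3) + 3 * α; 0, ω ^ 2, 3 - 3 * α - y; 0, 0, α] *
      !![1, 0, 0; 0, α, α * y; 0, 0, α * ω ^ 2] = !![1, 0, 0; 0, α, α * y; 0, 0, α * ω ^ 2] * C3 F := by
  ext i j; fin_cases i <;> fin_cases j <;> simp [C3, Matrix.mul_apply, Fin.sum_univ_three] <;> grind

theorem sl3_odd [Fintype F] (h2 : (2 : F) ≠ 0) :
    ∃ u g : SpecialLinearGroup (Fin 3) F, IsNilpotent ((u : Matrix (Fin 3) (Fin 3) F) - 1) ∧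
      ((u : Matrix (Fin 3) (Fin 3) F) - 1) ^ (3 - 1) ≠ 0 ∧
      Subgroup.closure ({u, g * u * g⁻¹} : Set (SpecialLinearGroup (Fin 3) F)) = ⊤ := by
  obtain ⟨ω, hω0, hω⟩ := exists_prim (F := F)
  have hω1 : ω ^ 3 ≠ 1 := fun h => by
    obtain ⟨k, hk⟩ := hω (-1) (neg_ne_zero.2 one_ne_zero)
    have : (ω ^ k) ^ 3 = 1 := by rw [← pow_mul, mul_comm, pow_mul, h, one_pow]
    rw [hk] at this
    exact h2 (by linear_combination -this)
  obtain ⟨α, hα⟩ : ∃ α, α = ω⁻¹ := ⟨_, rfl⟩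
  have hα0 : α ≠ 0 := hα ▸ inv_ne_zero hω0
  have hαω : α * ω = 1 := hα ▸ inv_mul_cancel₀ hω0
  have hd : α - ω ^ 2 ≠ 0 := fun h => hω1 (by linear_combination hαω - ω * h)
  obtain ⟨y, hy, hΔ⟩ : ∃ y : F, y ≠ 0 ∧
      (α - ω ^ 2) * (α ^ 2 * (y * (3 - y) - 3) + 3 * α) + y * (3 - 3 * α - y) ≠ 0 := by
    by_contra hc
    push Not at hc
    have h1 := hc 1 one_ne_zero
    by_cases h3 : (3 : F) = 0
    · refine pow_ne_zero 3 hα0 ?_
      linear_combination -h1 + (α * ω + 1) * hαω +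
        (1 - α + (α - ω ^ 2) * α) * h3
    · have h1' := hc (-1) (neg_ne_zero.2 one_ne_zero)
      have h2' := hc 2 h2
      refine mul_ne_zero (mul_ne_zero h2 h3) (pow_ne_zero 3 hα0) ?_
      linear_combination 3 * h1 - h1' - 2 * h2' + 6 * (α * ω + 1) * hαω
  obtain ⟨x, hx⟩ : ∃ x, (α - ω ^ 2) * x = y := ⟨y / (α - ω ^ 2), mul_div_cancel₀ _ hd⟩
  obtain ⟨z, hz⟩ : ∃ z, (α - ω ^ 2) * z = 3 - 3 * α - y := ⟨_ / (α - ω ^ 2), mul_div_cancel₀ _ hd⟩
  obtain ⟨l, hl⟩ : ∃ l, l * α - y * z = α ^ 2 * (y * (3 - y) - 3) + 3 * α :=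
    ⟨(α ^ 2 * (y * (3 - y) - 3) + 3 * α + y * z) / α, by field_simp; ring⟩
  refine pair3 (v := C3 F * !![α, y, α ^ 2 * (y * (3 - y) - 3) + 3 * α; 0, ω ^ 2, 3 - 3 * α - y; 0, 0, α])
    (g := !![1, 0, 0; 0, α, α * y; 0, 0, α * ω ^ 2]) ?_ ?_ fun G hC hv => ?_
  · simp [det_fin_three]
    linear_combination (α * ω + 1) * hαω
  · exact conj3 hαω y
  · refine odd3_core (x := x) (z := z) (l := l) hω0 hω1 (gen_cube h2 hω) (fun h => hy ?_)
      (fun h => hΔ ?_) hC ?_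
    · rw [← hx, h, mul_zero]
    · rw [← hl, ← hz, h]; ring
    · rw [← hα, hx, hz, hl]; exact hC.of_left hv

theorem sl3_conj [Fintype F] :
    ∃ u g : SpecialLinearGroup (Fin 3) F, IsNilpotent ((u : Matrix (Fin 3) (Fin 3) F) - 1) ∧
      ((u : Matrix (Fin 3) (Fin 3) F) - 1) ^ (3 - 1) ≠ 0 ∧
      Subgroup.closure ({u, g * u * g⁻¹} : Set (SpecialLinearGroup (Fin 3) F)) = ⊤ := by
  by_cases h2 : (2 : F) = 0
  · exact sl3_even h2
  · exact sl3_odd h2

end H16.RU
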