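import Cfsg.Agent.H16.RU1

/-! Siegel transformations for skew-hermitian (or alternating) forms inside a group of isometries. -/

set_option autoImplicit false
set_option linter.unusedSectionVars false
set_option linter.unusedSimpArgs false
set_option linter.unusedVariables false

namespace H16.SQ

/-- a skew-hermitian form, linear in the first argument -/
structure SK {F : Type*} [Field F] (σ : F →+* F) (V : Type*) [AddCommGroup V] [Module F V] where
  L : V → V →ₗ[F] F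
  invol : ∀ c, σ (σ c) = c
  skew' : ∀ x y, L x y = -σ (L y x)

variable {F V : Type*} [Field F] {σ : F →+* F} [AddCommGroup V] [Module F V] (Φ : SK σ V)

namespace SK

/-- the form -/
def B (x y : V) : F := Φ.L y x

theorem skew (x y : V) : Φ.B y x = -σ (Φ.B x y) := Φ.skew' x y
@[simp] theorem B_add_left (x y z : V) : Φ.B (x + y) z = Φ.B x z + Φ.B y z := map_add _ _ _
@[simp] theorem B_sub_left (x y z : V) : Φ.B (x - y) z = Φ.B x z - Φ.B y z := map_sub _ _ _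
@[simp] theorem B_neg_left (x z : V) : Φ.B (-x) z = -Φ.B x z := map_neg _ _
@[simp] theorem B_smul_left (c : F) (x z : V) : Φ.B (c • x) z = c * Φ.B x z := map_smul _ _ _
@[simp] theorem B_zero_left (z : V) : Φ.B 0 z = 0 := map_zero _
@[simp] theorem B_add_right (x y z : V) : Φ.B z (x + y) = Φ.B z x + Φ.B z y := by
  rw [Φ.skew, B_add_left, map_add, Φ.skew x z, Φ.skew y z]; ring
@[simp] theorem B_smul_right (c : F) (x z : V) : Φ.B z (c • x) = σ c * Φ.B z x := by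
  rw [Φ.skew, B_smul_left, map_mul, Φ.skew x z]; ring
@[simp] theorem B_zero_right (z : V) : Φ.B z 0 = 0 := by rw [Φ.skew, B_zero_left]; simp
@[simp] theorem B_neg_right (x z : V) : Φ.B z (-x) = -Φ.B z x := by
  rw [Φ.skew, B_neg_left, map_neg, Φ.skew x z]
@[simp] theorem B_sub_right (x y z : V) : Φ.B z (x - y) = Φ.B z x - Φ.B z y := by
  rw [sub_eq_add_neg, B_add_right, B_neg_right, sub_eq_add_neg]
variable {Φ} in
theorem zero_symm {x y : V} (h : Φ.B x y = 0) : Φ.B y x = 0 := by rw [Φ.skew, h]; simp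
variable {Φ} in
theorem one_symm {x y : V} (h : Φ.B x y = 1) : Φ.B y x = -1 := by rw [Φ.skew, h]; simp
theorem σ_B (x y : V) : σ (Φ.B x y) = -Φ.B y x := by rw [Φ.skew x y, neg_neg]

/-- Siegel transformation -/
def q (a b : V) (κ : F) : Module.End F V :=
  1 + (Φ.L a).smulRight b + (Φ.L b).smulRight a + κ • (Φ.L a).smulRight a

theorem q_apply (a b : V) (κ : F) (x : V) :
    Φ.q a b κ x = x + Φ.B x a • b + (Φ.B x b + κ * Φ.B x a) • a := by
  simp only [q, B, LinearMap.add_apply, Module.End.one_apply, LinearMap.smulRight_apply,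
    LinearMap.smul_apply]
  module

/-- isometries -/
def Pres (g : Module.End F V) : Prop := ∀ x y, Φ.B (g x) (g y) = Φ.B x y

/-- admissible data -/
structure QV (a b : V) (κ : F) : Prop where
  aa : Φ.B a a = 0
  ba : Φ.B b a = 0
  bb : κ - σ κ = Φ.B b b

variable {Φ} {a b b' a' : V} {κ κ' : F}

theorem Pres.mul {f g : Module.End F V} (hf : Φ.Pres f) (hg : Φ.Pres g) : Φ.Pres (f * g) :=
  fun x y => by rw [Module.End.mul_apply, Module.End.mul_apply, hf, hg]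

theorem QV.pres (h : Φ.QV a b κ) : Φ.Pres (Φ.q a b κ) := fun x y => by
  have h1 := zero_symm h.ba
  simp only [q_apply, B_add_left, B_add_right, B_smul_left, B_smul_right, h.aa, h.ba, h1, ← h.bb,
    map_add, map_mul, σ_B]
  ring

theorem q_mul (haa : Φ.B a a = 0) (hb : Φ.B b a = 0) (hb' : Φ.B b' a = 0) (κ κ' : F) :
    Φ.q a b κ * Φ.q a b' κ' = Φ.q a (b + b') (κ + κ' + Φ.B b' b) := by
  ext x
  simp only [Module.End.mul_apply, q_apply, B_add_left, B_add_right, B_smul_left, haa, hb',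
    zero_symm hb]
  module

theorem q_zero (a : V) : Φ.q a 0 0 = 1 := by ext x; simp [q_apply]

theorem q_shift (a b : V) (κ t : F) : Φ.q a (b + t • a) κ = Φ.q a b (κ + t + σ t) := by
  ext x
  simp only [q_apply, B_add_right, B_smul_right]
  module

theorem q_scale (a b : V) (κ t : F) : Φ.q (t • a) b κ = Φ.q a (σ t • b) (t * σ t * κ) := by
  ext x
  simp only [q_apply, B_smul_right, Φ.invol]
  module

theorem q_swap (a b : V) : Φ.q a b 0 = Φ.q b a 0 := by
  ext x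
  simp only [q_apply]
  module

theorem q_conj {g : Module.End F V} (hg : Φ.Pres g) (a b : V) (κ : F) :
    Φ.q (g a) (g b) κ * g = g * Φ.q a b κ := by
  ext x
  simp only [Module.End.mul_apply, q_apply, hg _ _, map_add, map_smul]

theorem det_unip [FiniteDimensional F V] {f : Module.End F V} (h : IsNilpotent (f - 1)) :
    LinearMap.det f = 1 := by
  have h1 := (IsNilpotent.charpoly_eq_X_pow_finrank h.neg)
  have h2 := LinearMap.eval_charpoly (-(f - 1)) 1
  rw [h1] at h2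
  simpa using h2.symm

theorem QV.det [FiniteDimensional F V] (h : Φ.QV a b κ) : LinearMap.det (Φ.q a b κ) = 1 := by
  have h1 := zero_symm h.ba
  refine det_unip ⟨3, ?_⟩
  ext x
  simp only [pow_succ, pow_zero, one_mul, Module.End.mul_apply, LinearMap.sub_apply,
    Module.End.one_apply, q_apply, B_add_left, B_sub_left, B_smul_left, h.aa, h.ba, h1,
    LinearMap.zero_apply]
  module

end SK

open SK

/-- a group of isometries -/
structure GS (S : Submonoid (Module.End F V)) : Prop where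
  inv : ∀ g ∈ S, ∃ g' ∈ S, g' * g = 1 ∧ g * g' = 1
  pres : ∀ g ∈ S, Φ.Pres g

/-- the Siegel transformation lies in `S` -/
structure QI (S : Submonoid (Module.End F V)) (a b : V) (κ : F) : Prop where
  v : Φ.QV a b κ
  m : Φ.q a b κ ∈ S

variable {Φ} {S : Submonoid (Module.End F V)} {a b b' a' : V} {κ κ' : F}

theorem GS.of_left (hS : GS Φ S) {f g : Module.End F V} (hf : f ∈ S) (h : f * g ∈ S) : g ∈ S := by
  obtain ⟨f', h1, h2, -⟩ := hS.inv f hf
  have := S.mul_mem h1 h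
  rwa [← mul_assoc, h2, one_mul] at this

theorem GS.of_right (hS : GS Φ S) {f g : Module.End F V} (hf : f ∈ S) (h : g * f ∈ S) : g ∈ S := by
  obtain ⟨f', h1, -, h2⟩ := hS.inv f hf
  have := S.mul_mem h h1
  rwa [mul_assoc, h2, mul_one] at this

theorem QI.congr (h : QI Φ S a b κ) (h1 : a = a') (h2 : b = b') (h3 : κ = κ') : QI Φ S a' b' κ' :=
  h1 ▸ h2 ▸ h3 ▸ h

theorem QI.zero (h : Φ.B a a = 0) : QI Φ S a 0 0 :=
  ⟨⟨h, by simp, by simp⟩, by rw [q_zero]; exact S.one_mem⟩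

theorem QI.mul (h : QI Φ S a b κ) (h' : QI Φ S a b' κ') :
    QI Φ S a (b + b') (κ + κ' + Φ.B b' b) :=
  ⟨⟨h.v.aa, by simp [h.v.ba, h'.v.ba], by
      simp only [map_add, σ_B, B_add_left, B_add_right, ← h.v.bb, ← h'.v.bb]; ring⟩,
    q_mul h.v.aa h.v.ba h'.v.ba κ κ' ▸ S.mul_mem h.m h'.m⟩

theorem QI.neg (hS : GS Φ S) (h : QI Φ S a b κ) : QI Φ S a (-b) (-σ κ) := by
  refine ⟨⟨h.v.aa, by simp [h.v.ba], by simp [Φ.invol, ← h.v.bb]; ring⟩, hS.of_left h.m ?_⟩
  rw [q_mul h.v.aa h.v.ba (by simp [h.v.ba]), add_neg_cancel, B_neg_left, ← h.v.bb,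
    show κ + -σ κ + -(κ - σ κ) = 0 by ring, q_zero]
  exact S.one_mem

theorem QI.sub (hS : GS Φ S) (h : QI Φ S a b κ) (h' : QI Φ S a b' κ') :
    QI Φ S a (b - b') (κ - σ κ' - Φ.B b' b) :=
  (h.mul (h'.neg hS)).congr rfl (by abel) (by simp; ring)

theorem QI.shift (h : QI Φ S a (b + κ' • a) κ) : QI Φ S a b (κ + κ' + σ κ') := by
  have h1 : Φ.B b a = 0 := by simpa [h.v.aa] using h.v.ba
  refine ⟨⟨h.v.aa, h1, ?_⟩, q_shift a b κ κ' ▸ h.m⟩
  have := h.v.bb
  simp only [B_add_left, B_add_right, B_smul_left, B_smul_right, h1, zero_symm h1, h.v.aa] at this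
  simp only [map_add, Φ.invol]
  linear_combination this

theorem QI.scale {t : F} (h : QI Φ S a (σ t • b) (t * σ t * κ)) (hv : Φ.QV (t • a) b κ) :
    QI Φ S (t • a) b κ := ⟨hv, by rw [q_scale]; exact h.m⟩

theorem QI.unscale {t : F} (h : QI Φ S (t • a) b κ) (haa : Φ.B a a = 0) (hba : Φ.B b a = 0) :
    QI Φ S a (σ t • b) (t * σ t * κ) :=
  ⟨⟨haa, by simp [hba], by simp [Φ.invol, ← h.v.bb]; ring⟩, by rw [← q_scale]; exact h.m⟩

theorem QI.swap (h : QI Φ S a b 0) : QI Φ S b a 0 :=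
  ⟨⟨by simpa using h.v.bb.symm, zero_symm h.v.ba, by simp [h.v.aa]⟩, by rw [q_swap]; exact h.m⟩

theorem QI.conj (hS : GS Φ S) {g : Module.End F V} (hg : g ∈ S) (h : QI Φ S a b κ) :
    QI Φ S (g a) (g b) κ := by
  have hp := hS.pres g hg
  refine ⟨⟨by rw [hp, h.v.aa], by rw [hp, h.v.ba], by rw [hp, h.v.bb]⟩, hS.of_right hg ?_⟩
  rw [q_conj hp]; exact S.mul_mem hg h.m

theorem QI.conj' (hS : GS Φ S) {g : Module.End F V} (hg : g ∈ S) (h : QI Φ S (g a) (g b) κ) :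
    QI Φ S a b κ := by
  have hp := hS.pres g hg
  refine ⟨⟨by rw [← hp, h.v.aa], by rw [← hp, h.v.ba], by rw [← hp, h.v.bb]⟩, hS.of_left hg ?_⟩
  rw [← q_conj hp]; exact S.mul_mem h.m hg

/-- two centres -/
theorem QI.two (hS : GS Φ S) (h : QI Φ S a b κ) (h' : QI Φ S (a + a') b κ) (h1 : Φ.B a' a = 0) :
    QI Φ S a' (b + κ • a) κ := by
  have h2 := zero_symm h1
  have h3 : Φ.B a' a' = 0 := by simpa [h.v.aa, h1, h2] using h'.v.aa
  have h4 : Φ.B b a' = 0 := by simpa [h.v.ba] using h'.v.ba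
  refine ⟨⟨h3, by simp [h4, h2], by simp [h.v.bb, h.v.ba, zero_symm h.v.ba, h.v.aa]⟩,
    hS.of_right h.m ?_⟩
  convert h'.m using 1
  ext x
  have hb : Φ.B b b = κ - σ κ := h.v.bb.symm
  simp only [Module.End.mul_apply, q_apply, B_add_left, B_add_right, B_smul_left, B_smul_right,
    h.v.aa, h.v.ba, zero_symm h.v.ba, h1, h2, h4, hb]
  module

/-- converse of `QI.two` -/
theorem QI.two' (hS : GS Φ S) (h : QI Φ S a b κ) (h' : QI Φ S a' (b + κ • a) κ)
    (h1 : Φ.B a' a = 0) : QI Φ S (a + a') b κ := by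
  have h2 := zero_symm h1
  have h3 := h'.v.aa
  have h4 : Φ.B b a' = 0 := by simpa [h2] using h'.v.ba
  refine ⟨⟨by simp [h.v.aa, h1, h2, h3], by simp [h4, h.v.ba], h.v.bb⟩, ?_⟩
  convert S.mul_mem h'.m h.m using 1
  ext x
  have hb : Φ.B b b = κ - σ κ := h.v.bb.symm
  simp only [Module.End.mul_apply, q_apply, B_add_left, B_add_right, B_smul_left, B_smul_right,
    h.v.aa, h.v.ba, zero_symm h.v.ba, h1, h2, h4, hb]
  module

theorem QI.comm (hS : GS Φ S) (h : QI Φ S a b κ) (h' : QI Φ S a b' κ') :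
    QI Φ S a 0 (Φ.B b' b + σ (Φ.B b' b)) := by
  refine ((h.mul h').sub hS (h'.mul h)).congr rfl (by abel) ?_
  simp only [map_add, σ_B, B_add_left, B_add_right, ← h.v.bb, ← h'.v.bb]
  ring

/-- the whole unipotent radical at `a` lies in `S` -/
def Full (Φ : SK σ V) (S : Submonoid (Module.End F V)) (a : V) : Prop :=
  Φ.B a a = 0 ∧ ∀ b κ, Φ.QV a b κ → Φ.q a b κ ∈ S

theorem Full.conj (hS : GS Φ S) {g : Module.End F V} (hg : g ∈ S) (h : Full Φ S a) :
    Full Φ S (g a) := by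
  have hp := hS.pres g hg
  refine ⟨by rw [hp, h.1], fun b κ hv => ?_⟩
  obtain ⟨g', -, -, h2⟩ := hS.inv g hg
  obtain ⟨b, rfl⟩ : ∃ b', g b' = b := ⟨g' b, by rw [← Module.End.mul_apply, h2]; rfl⟩
  have hv' : Φ.QV a b κ := ⟨h.1, by rw [← hp, hv.ba], by rw [← hp, hv.bb]⟩
  exact (QI.conj hS hg ⟨hv', h.2 b κ hv'⟩).m

theorem Full.smul (h : Full Φ S a) {t : F} (ht : t ≠ 0) : Full Φ S (t • a) := by
  refine ⟨by simp [h.1], fun b κ hv => ?_⟩
  have hb : Φ.B b a = 0 := by simpa [ht] using hv.ba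
  rw [q_scale]
  exact h.2 _ _ ⟨h.1, by simp [hb], by simp [Φ.invol, ← hv.bb]; ring⟩

theorem Full.of_ne (hS : GS Φ S) (h : Full Φ S a) (h' : Full Φ S a') (h1 : Φ.B a' a ≠ 0) {x : V}
    (hx : Φ.B x x = 0) (hxa : Φ.B x a ≠ 0) : Full Φ S x := by
  obtain ⟨t, ht⟩ : ∃ t, t * Φ.B a' a = Φ.B x a := ⟨_, div_mul_cancel₀ _ h1⟩
  have ht0 : t ≠ 0 := fun h0 => hxa (by rw [← ht, h0, zero_mul])
  have h2 := h'.smul ht0
  have h3 : Φ.B (t • a') a = Φ.B x a := by simp [ht]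
  generalize t • a' = y at h2 h3
  obtain ⟨s, hs⟩ : ∃ s, s * Φ.B x a = 1 := ⟨_, inv_mul_cancel₀ hxa⟩
  have hv : Φ.QV a (s • (x - y)) (-(s * σ s * Φ.B y x)) :=
    ⟨h.1, by simp [h3], by simp [Φ.invol, σ_B, hx, h2.1]; ring⟩
  have := h2.conj hS (h.2 _ _ hv)
  convert this using 1
  rw [q_apply, h3, smul_smul, mul_comm _ s, hs]
  have : Φ.B y (s • (x - y)) + -(s * σ s * Φ.B y x) * Φ.B x a = 0 := by
    simp [h2.1]; linear_combination (-σ s * Φ.B y x) * hs
  rw [this]; module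

theorem Full.all (hS : GS Φ S) (hN : ∀ x, x ≠ 0 → ∃ y, Φ.B y x ≠ 0)
    (hT : ∀ b, ∃ κ, κ - σ κ = Φ.B b b) (h : Full Φ S a) (h' : Full Φ S a') (h1 : Φ.B a' a ≠ 0)
    (x : V) (κ : F) (hx : Φ.B x x = 0) (hκ : σ κ = κ) : Φ.q x 0 κ ∈ S := by
  by_cases h0 : x = 0
  · have : Φ.q x 0 κ = 1 := by ext y; simp [q_apply, h0]
    rw [this]; exact S.one_mem
  refine (?_ : Full Φ S x).2 0 κ ⟨hx, by simp, by simp [hκ]⟩
  have h1' : Φ.B a a' ≠ 0 := fun e => h1 (zero_symm e)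
  by_cases hxa : Φ.B x a = 0
  swap
  · exact h.of_ne hS h' h1 hx hxa
  by_cases hxa' : Φ.B x a' = 0
  swap
  · exact h'.of_ne hS h h1' hx hxa'
  obtain ⟨y, hy⟩ := hN x h0
  obtain ⟨t, ht⟩ : ∃ t, t * Φ.B a' a = Φ.B y a := ⟨_, div_mul_cancel₀ _ h1⟩
  obtain ⟨κ', hκ'⟩ := hT (y - t • a')
  have hv : Φ.QV a (y - t • a') κ' := ⟨h.1, by simp [ht], hκ'⟩
  refine (h'.conj hS (h.2 _ _ hv)).of_ne hS h (fun e => h1 ?_) hx (fun e => hy ?_)
  · simpa [q_apply, hv.ba, h.1, ht] using zero_symm e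
  · simpa [q_apply, zero_symm hxa, zero_symm hxa', h1] using zero_symm e

/-- directions at the centre `a` -/
def YI (Φ : SK σ V) (S : Submonoid (Module.End F V)) (a b : V) : Prop := ∃ κ, QI Φ S a b κ

theorem YI.add (h : YI Φ S a b) (h' : YI Φ S a b') : YI Φ S a (b + b') :=
  let ⟨_, h⟩ := h; let ⟨_, h'⟩ := h'; ⟨_, h.mul h'⟩

theorem YI.neg (hS : GS Φ S) (h : YI Φ S a b) : YI Φ S a (-b) := let ⟨_, h⟩ := h; ⟨_, h.neg hS⟩

theorem YI.sub (hS : GS Φ S) (h : YI Φ S a b) (h' : YI Φ S a b') : YI Φ S a (b - b') :=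
  let ⟨_, h⟩ := h; let ⟨_, h'⟩ := h'; ⟨_, h.sub hS h'⟩

theorem YI.self (h : Φ.B a a = 0) (t : F) : YI Φ S a (t • a) := by
  refine ⟨-(t + σ t), ⟨h, by simp [h], by simp [h, Φ.invol]; ring⟩, ?_⟩
  have := q_shift (Φ := Φ) a 0 (-(t + σ t)) t
  rw [zero_add] at this
  rw [this, show -(t + σ t) + t + σ t = 0 by ring, q_zero]
  exact S.one_mem

theorem YI.conj (hS : GS Φ S) {g : Module.End F V} (hg : g ∈ S) (ha : g a = a) (h : YI Φ S a b) :
    YI Φ S a (g b) := let ⟨κ, h⟩ := h; ⟨κ, (h.conj hS hg).congr ha rfl rfl⟩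

theorem YI.congr (h : YI Φ S a b) (e : b = b') : YI Φ S a b' := e ▸ h

/-- scalars `c` with `c b` a direction at `a` -/
def ysc (hS : GS Φ S) (h : Φ.B a a = 0) (b : V) : AddSubgroup F where
  carrier := {c | YI Φ S a (c • b)}
  zero_mem' := ⟨0, by simpa using QI.zero h⟩
  add_mem' := fun hx hy => (YI.add hx hy).congr (add_smul _ _ _).symm
  neg_mem' := fun hx => (YI.neg hS hx).congr (neg_smul _ _).symm

/-- directions all of whose multiples occur -/
def ysub (h : Φ.B a a = 0) : Submodule F V where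
  carrier := {b | ∀ c : F, YI Φ S a (c • b)}
  zero_mem' := fun c => ⟨0, by simpa using QI.zero h⟩
  add_mem' := fun hx hy c => (YI.add (hx c) (hy c)).congr (smul_add _ _ _).symm
  smul_mem' := fun c _ hx d => (hx (d * c)).congr (mul_smul _ _ _)

/-- scalars `c` with pure element `(a, c b, 0)` -/
def psc (hS : GS Φ S) (h : Φ.B a a = 0) (b : V) (hb : Φ.B b b = 0) : AddSubgroup F where
  carrier := {c | QI Φ S a (c • b) 0}
  zero_mem' := by simpa using QI.zero h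
  add_mem' := fun hx hy => (QI.mul hx hy).congr rfl (add_smul _ _ _).symm (by simp [hb])
  neg_mem' := fun hx => (QI.neg hS hx).congr rfl (neg_smul _ _).symm (by simp)

theorem full_of_Y (hS : GS Φ S) (h : Φ.B a a = 0) (hY : ∀ b, Φ.B b a = 0 → YI Φ S a b)
    (hZ : ∀ κ, σ κ = κ → QI Φ S a 0 κ) : Full Φ S a := by
  refine ⟨h, fun b κ hv => ?_⟩
  obtain ⟨κ', h'⟩ := hY b hv.ba
  have := h'.mul (hZ (κ - κ') (by
    rw [map_sub]; linear_combination h'.v.bb - hv.bb))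
  simpa using this.m

/-- Nakayama step for a regular unipotent `g` fixing `a` -/
theorem Y_all (hS : GS Φ S) (h : Φ.B a a = 0) {g : Module.End F V} (hg : g ∈ S) (ha : g a = a)
    (hn : IsNilpotent (g - 1)) {c : V} (hc : ∀ t : F, YI Φ S a (t • c))
    (hr : ∀ x, Φ.B x a = 0 → ∃ t : F, ∃ z, Φ.B z a = 0 ∧ x = t • c + (g z - z)) (b : V)
    (hb : Φ.B b a = 0) : YI Φ S a b := by
  obtain ⟨k, hk⟩ := hn
  have := RU.nakayama (g - 1) hk {x | Φ.B x a = 0} (ysub (S := S) h) (fun y hy t => by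
    have := ((hy t).conj hS hg ha).sub hS (hy t)
    exact this.congr (by simp [smul_sub])) (fun x hx => by
    obtain ⟨t, z, hz, e⟩ := hr x hx
    exact ⟨t • c, (ysub (S := S) h).smul_mem t hc, z, hz, by simpa using e⟩) b hb 1
  simpa using this

end H16.SQ
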