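import Cfsg.Agent.H16.SQ1

/-! Conjugacy moves and the symplectic generation arguments. -/

set_option autoImplicit false
set_option linter.unusedSectionVars false
set_option linter.unusedSimpArgs false
set_option linter.unusedVariables false

namespace H16.SQ

open SK RU

section conj
variable {F V : Type*} [Field F] {σ : F →+* F} [AddCommGroup V] [Module F V] [FiniteDimensional F V]
  {Φ : SK σ V}

/-- conjugacy under isometries of determinant one -/
def Cj (Φ : SK σ V) (u v : Module.End F V) : Prop :=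
  ∃ g, Φ.Pres g ∧ LinearMap.det g = 1 ∧ v * g = g * u

theorem Cj.trans {u v w : Module.End F V} (h : Cj Φ u v) (h' : Cj Φ v w) : Cj Φ u w := by
  obtain ⟨g, h1, h2, h3⟩ := h
  obtain ⟨g', h1', h2', h3'⟩ := h'
  exact ⟨g' * g, h1'.mul h1, by rw [map_mul, h2, h2', one_mul], by
    rw [← mul_assoc, h3', mul_assoc, h3, mul_assoc]⟩

theorem Cj.congr {u v w : Module.End F V} (h : Cj Φ u v) (e : v = w) : Cj Φ u w := e ▸ h

theorem q_comm {y : Module.End F V} (hy : Φ.Pres y) {a b : V} (κ : F) (ha : y a = a) (hb : y b = b) :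
    Φ.q a b κ * y = y * Φ.q a b κ := by rw [← q_conj hy, ha, hb]

/-- conjugation by a Siegel element commuting with `y` -/
theorem cj_q {y : Module.End F V} (hy : Φ.Pres y) {a b : V} {κ : F} (h : Φ.QV a b κ) (ha : y a = a)
    (hb : y b = b) (a' b' : V) (κ' : F) :
    Cj Φ (Φ.q a' b' κ' * y) (Φ.q (Φ.q a b κ a') (Φ.q a b κ b') κ' * y) :=
  ⟨_, h.pres, h.det, by
    rw [mul_assoc, ← q_comm hy κ ha hb, ← mul_assoc, q_conj h.pres, mul_assoc]⟩

/-- conjugation by a Siegel element with the same centre -/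
theorem cj_mv {y : Module.End F V} (hy : Φ.Pres y) {f b d : V} {κ₀ : F} (h : Φ.QV f b κ₀)
    (hf : y f = f) (hd : Φ.B d f = 0) (κ : F) :
    Cj Φ (Φ.q f d κ * y) (Φ.q f (b + d - y b)
      (κ₀ + κ + Φ.B d b - σ κ₀ - Φ.B (y b) (b + d)) * y) := by
  refine ⟨_, h.pres, h.det, ?_⟩
  have h1 : Φ.B (y b) f = 0 := by rw [← hf, hy, h.ba]
  have h2 := q_conj hy f b κ₀
  rw [hf] at h2
  rw [mul_assoc, ← h2, ← mul_assoc, ← mul_assoc, q_mul h.aa (by simp [h.ba, hd, h1]) h1,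
    q_mul h.aa h.ba hd]
  congr 2
  · abel
  · simp only [B_sub_right, hy b b, ← h.bb]; ring

theorem cj_ef {y : Module.End F V} (hy : Φ.Pres y) {e f c : V} (hee : Φ.B e e = 0)
    (hff : Φ.B f f = 0) (hef : Φ.B e f = 1) (hce : Φ.B c e = 0) (hcf : Φ.B c f = 0) (he : y e = e)
    (hf : y f = f) (κ : F) : Cj Φ (Φ.q e c κ * y) (Φ.q f c κ * y) := by
  refine ((cj_q hy (a := f) (b := 0) (κ := 1) ⟨hff, by simp, by simp⟩ hf (by simp) e c κ).trans
    (cj_q hy (a := e) (b := 0) (κ := 1) ⟨hee, by simp, by simp⟩ he (by simp) _ _ κ)).congr ?_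
  simp [q_apply, hef, hce, hcf, hee, one_symm hef]

end conj

variable {F V : Type*} [Field F] [AddCommGroup V] [Module F V] {Φ : SK (RingHom.id F) V}
  {S : Submonoid (Module.End F V)}

/-- basic configuration -/
structure Cfg {σ : F →+* F} (Φ : SK σ V) (y : Module.End F V) (e f c a : V) : Prop where
  py : Φ.Pres y
  ee : Φ.B e e = 0
  ff : Φ.B f f = 0
  cc : Φ.B c c = 0
  aa : Φ.B a a = 0
  ef : Φ.B e f = 1
  ce : Φ.B c e = 0
  cf : Φ.B c f = 0
  ae : Φ.B a e = 0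
  af : Φ.B a f = 0
  ac : Φ.B a c = 1
  ye : y e = e
  yf : y f = f
  ya : y a = a

theorem mix (hS : GS Φ S) {e f b b' : V} {κ₁ κ₂ : F} (hef : Φ.B e f = 1) (hbb : Φ.B b b' = 0)
    (hb'e : Φ.B b' e = 0) (hb'f : Φ.B b' f = 0)
    (he : ∀ t : F, QI Φ S e (t • b) 0) (hf : ∀ t : F, QI Φ S f (t • b) 0) (h1 : QI Φ S e b' κ₁)
    (h2 : QI Φ S f b' κ₂) : QI Φ S b 0 (-(κ₁ + κ₂)) := by
  have hbe : Φ.B b e = 0 := by simpa using (he 1).v.ba
  have hbf : Φ.B b f = 0 := by simpa using (hf 1).v.ba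
  have hb : Φ.B b b = 0 := by simpa using (he 1).v.bb.symm
  have hb' : Φ.B b' b' = 0 := by simpa using h1.v.bb.symm
  have he' : ∀ t : F, QI Φ S b (t • e) 0 := fun t =>
    ((he t).swap.unscale hb (zero_symm hbe)).congr rfl (by simp) (by simp)
  have hf' : ∀ t : F, QI Φ S b (t • f) 0 := fun t =>
    ((hf t).swap.unscale hb (zero_symm hbf)).congr rfl (by simp) (by simp)
  have hq1 : Φ.q f b' κ₂ b = b := by simp [q_apply, hbf, hbb]
  have hq2 : Φ.q e b' κ₁ b = b := by simp [q_apply, hbe, hbb]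
  have e1 := ((((he' 1).conj hS h2.m).congr hq1 rfl rfl).sub hS (he' 1)).sub hS (hf' κ₂)
  have e2 := ((((hf' 1).conj hS h1.m).congr hq2 rfl rfl).sub hS (hf' 1)).mul (he' κ₁)
  refine (e1.mul e2).congr rfl ?_ ?_
  · simp only [one_smul, q_apply, hef, one_symm hef, zero_symm hb'e, zero_symm hb'f]
    module
  · simp [q_apply, hef, one_symm hef, zero_symm hb'e, zero_symm hb'f, hb'e, hb'f, h1.v.aa, h2.v.aa,
      hb']

theorem z_of_T (hS : GS Φ S) {e b b'' : V} (hbb : Φ.B b b'' = 1) (hY : YI Φ S e b'')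
    (he : ∀ t : F, QI Φ S e (t • b) 0) {s : F} (h : QI Φ S b 0 s) : QI Φ S e 0 s := by
  obtain ⟨κ, hκ⟩ := hY
  have hbe : Φ.B b e = 0 := by simpa using (he 1).v.ba
  have h1 := h.conj hS hκ.m
  have : Φ.q e b'' κ b = b + e := by simp [q_apply, hbe, hbb]
  rw [this, map_zero] at h1
  exact ((h.two hS h1 (zero_symm hbe)).sub hS (he s)).congr rfl (by simp) (by simp [h.v.aa])

theorem T_sq {b : V} {t κ : F} (hb : Φ.B b b = 0) (h : QI Φ S (t • b) 0 κ) :
    QI Φ S b 0 (t * t * κ) := (h.unscale hb (by simp)).congr rfl (by simp) (by simp)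

/-- extra data in rank at least three -/
structure Cfg3 (Φ : SK (RingHom.id F) V) (y : Module.End F V) (e f c a a₃ b₀ : V) : Prop
    extends Cfg Φ y e f c a where
  alt : ∀ x, Φ.B x x = 0
  te : Φ.B a₃ e = 0
  tf : Φ.B a₃ f = 0
  ta : Φ.B a₃ a = 0
  tc : Φ.B a₃ c = -1
  yt : y a₃ = a₃ + a
  ycc : Φ.B (y c) c = 0
  be : Φ.B b₀ e = 0
  bf : Φ.B b₀ f = 0
  yb : b₀ - y b₀ = a₃

theorem Cfg3.cj [FiniteDimensional F V] {y : Module.End F V} {e f c a a₃ b₀ : V}
    (h : Cfg3 Φ y e f c a a₃ b₀) (ω : F) :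
    Cj Φ (Φ.q e c 0 * y) (Φ.q f (c + a) 0 * y) ∧
      Cj Φ (Φ.q e c 0 * y) (Φ.q f (ω • a₃) 0 * (Φ.q f (c + a) 0 * y)) := by
  have hca := one_symm h.ac
  have h1 : Cj Φ (Φ.q e c 0 * y) (Φ.q f (c + a) 0 * y) :=
    ((cj_ef h.py h.ee h.ff h.ef h.ce h.cf h.ye h.yf 0).trans
      (cj_q h.py (a := a) (b := 0) (κ := -1) ⟨h.aa, by simp, by simp⟩ h.ya (by simp) _ _ 0)).congr
      (by simp [q_apply, zero_symm h.af, hca])
  refine ⟨h1, ?_⟩
  have h2 := h1.trans (cj_mv h.py (b := ω • b₀) (κ₀ := 0) ⟨h.ff, by simp [h.bf], by simp [h.alt]⟩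
    h.yf (by simp [h.cf, h.af]) 0)
  have e2 : ω • b₀ + (c + a) - y (ω • b₀) = ω • a₃ + (c + a) := by
    rw [← h.yb, map_smul]; module
  rw [e2] at h2
  generalize (0 + 0 + Φ.B (c + a) (ω • b₀) - (RingHom.id F) 0 -
    Φ.B (y (ω • b₀)) (ω • b₀ + (c + a))) = κ at h2
  have h3 := h2.trans (cj_mv h.py (b := (ω - κ) • a₃) (κ₀ := 0)
    ⟨h.ff, by simp [h.tf], by simp [h.alt]⟩ h.yf (by simp [h.cf, h.af, h.tf]) κ)
  refine (h3.trans (cj_q h.py (a := a) (b := 0) (κ := κ - ω) ⟨h.aa, by simp, by simp⟩ h.ya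
    (by simp) _ _ _)).congr ?_
  rw [← mul_assoc, q_mul h.ff (by simp [h.tf]) (by simp [h.cf, h.af])]
  have hct : Φ.B c a₃ = 1 := by rw [Φ.skew, h.tc]; simp
  congr 2
  · simp [q_apply, zero_symm h.af]
  · simp only [q_apply, map_smul, h.yt, B_add_left, B_sub_left, B_smul_left, h.ta, h.aa, hca,
      B_zero_right]
    module
  · simp [h.yt, h.alt, h.ta, zero_symm h.ta, hct, h.tc, h.ac]

theorem Cfg3.full [Finite F] {y : Module.End F V} {e f c a a₃ b₀ : V} (h : Cfg3 Φ y e f c a a₃ b₀)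
    {ω : F} (hω0 : ω ≠ 0) (hω : Gen ω) (hn : IsNilpotent (Φ.q e c 0 * y - 1))
    (hr : ∀ x, Φ.B x e = 0 → ∃ t : F, ∃ z, Φ.B z e = 0 ∧ x = t • c + ((Φ.q e c 0 * y) z - z))
    (hS : GS Φ S) (hu : Φ.q e c 0 * y ∈ S) (hv : Φ.q f (c + a) 0 * y ∈ S)
    (hv' : Φ.q f (ω • a₃) 0 * (Φ.q f (c + a) 0 * y) ∈ S) :
    ∃ x x', Full Φ S x ∧ Full Φ S x' ∧ Φ.B x' x ≠ 0 := by
  have hca := one_symm h.ac
  have hfe := one_symm h.ef
  have hct : Φ.B c a₃ = 1 := by rw [Φ.skew, h.tc]; simp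
  have hec := zero_symm h.ce
  have hfc := zero_symm h.cf
  have hea := zero_symm h.ae
  have hfa := zero_symm h.af
  have het := zero_symm h.te
  have hft := zero_symm h.tf
  have hat := zero_symm h.ta
  have hyce : Φ.B (y c) e = 0 := by rw [← h.ye, h.py, h.ce]
  have hycf : Φ.B (y c) f = 0 := by rw [← h.yf, h.py, h.cf]
  have hycd : Φ.B (y c) a₃ + Φ.B (y c) a = 1 := by rw [← B_add_right, ← h.yt, h.py, hct]
  have T := h.alt
  obtain ⟨u, hudef⟩ : ∃ u, u = Φ.q e c 0 * y := ⟨_, rfl⟩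
  obtain ⟨v, hvdef⟩ : ∃ v, v = Φ.q f (c + a) 0 * y := ⟨_, rfl⟩
  rw [← hudef] at hu hn hr
  rw [← hvdef] at hv hv'
  have ue : u e = e := by simp [hudef, q_apply, h.ye, T, hec]
  have uf : u f = f + -c := by simp [hudef, q_apply, h.yf, hfe, hfc]
  have ua : u a = a + e := by simp [hudef, q_apply, h.ya, h.ae, h.ac]
  have ut : u a₃ = a₃ + a := by simp [hudef, q_apply, h.yt, h.ae, h.ac, h.te, h.tc]
  have uc : u c = y c := by simp [hudef, q_apply, hyce, h.ycc]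
  have vf : v f = f := by simp [hvdef, q_apply, h.yf, T, hfc, hfa]
  have vt : v a₃ = a₃ + a := by simp [hvdef, q_apply, h.yt, h.af, h.ac, h.tf, h.tc, h.ta, T]
  have r0 : QI Φ S f (ω • a₃) 0 := ⟨⟨T _, by simp [h.tf], by simp [T]⟩, hS.of_right hv hv'⟩
  have r1 : ∀ t : F, QI Φ S f (t • a₃) 0 → QI Φ S f (t • (a₃ + a)) 0 := fun t ht =>
    (ht.conj hS hv).congr vf (by rw [map_smul, vt]) rfl
  have r2 : ∀ t : F, QI Φ S f (t • a₃) 0 → QI Φ S f (t • a) 0 := fun t ht =>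
    ((r1 t ht).sub hS ht).congr rfl (by module) (by simp [T, h.ta])
  have r3 : ∀ t : F, QI Φ S f (t • a₃) 0 → QI Φ S (f + -c) (t • (a₃ + a)) 0 := fun t ht =>
    (ht.conj hS hu).congr uf (by rw [map_smul, ut]) rfl
  have P3 : ∀ t : F, QI Φ S f (t • a₃) 0 := hω (psc hS (T f) a₃ (T _)) ⟨ω, r0, hω0⟩ fun t ht => by
    have h1 := ((r3 t ht).conj hS (r2 ω r0).m).congr (a' := f + -c + ω • f) (b' := t • (a₃ + a))
      (by simp [q_apply, T, hfa, h.cf, hca]) (by simp [q_apply, T, h.tf, h.af, h.ta]) rfl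
    have h2 := ((r3 t ht).two hS h1 (by simp [T, hfc])).unscale (T _) (by simp [h.tf, h.af])
    exact QI.conj' hS hv (h2.congr vf.symm (by simp [vt, smul_smul]) (by simp))
  have P4 : ∀ t : F, QI Φ S (-c) (t • (a₃ + a)) 0 := fun t =>
    ((r1 t (P3 t)).two hS (r3 t (P3 t)) (by simp [h.cf])).congr rfl (by simp) rfl
  have P5 : ∀ t : F, QI Φ S (f + -c - y c) (t • (a₃ + a - e)) 0 := fun t => by
    have h1 := ((P3 t).sub hS (r2 t (P3 t))).congr rfl rfl (κ' := 0) (by simp [hat])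
    refine ((h1.conj hS hu).conj hS hu).congr ?_ ?_ rfl
    · simp only [uf, map_add, map_neg, uc]; abel
    · simp only [map_sub, map_smul, map_add, ut, ua, ue]; module
  have P6 : ∀ t : F, QI Φ S e (t • c) 0 := fun t => by
    have h1 := ((P5 t).conj hS (P4 (-1)).m).congr (a' := f + -c - y c + -c) (b' := t • (a₃ + a - e))
      (by
        simp only [q_apply, B_add_left, B_sub_left, B_neg_left, B_neg_right, B_smul_right,
          B_add_right, hfc, T, h.ycc, hft, hfa, hct, hca, RingHom.id_apply, eq_sub_of_add_eq hycd]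
        module)
      (by simp [q_apply, h.tc, h.ac, hec, T, h.ta, hat, het, hea]) rfl
    have h2 := (P5 t).two hS h1 (by simp [h.cf, T, zero_symm h.ycc])
    have h3 := ((h2.sub hS (P4 t)).congr rfl (b' := (-t) • e) (κ' := 0) (by module)
      (by simp [T, h.ta, hat, h.te, h.ae])).swap
    exact (h3.unscale (T _) (by simp [h.ce])).congr rfl (by simp) (by simp)
  have Y := Y_all hS (T e) hu ue hn (fun t => ⟨0, P6 t⟩) hr
  have hy : y ∈ S := hS.of_left (by simpa using (P6 1).m) (hudef ▸ hu)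
  have hq : QI Φ S f (c + a) 0 :=
    ⟨⟨T _, by simp [h.cf, h.af], by simp [T]⟩, hS.of_right hy (hvdef ▸ hv)⟩
  have Z : ∀ s : F, QI Φ S e 0 s := by
    intro s
    by_cases h2 : (2 : F) = 0
    swap
    · obtain ⟨κ, hκ⟩ := Y a h.ae
      refine ((P6 (s / 2)).comm hS hκ).congr rfl rfl ?_
      simp [h.ac]; field_simp; ring
    have sq : ∀ s : F, ∃ t, s = t * t := fun s =>
      FiniteField.isSquare_of_char_two (CharP.ringChar_of_prime_eq_zero Nat.prime_two
        (by exact_mod_cast h2)) s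
    have Q3 : ∀ t : F, QI Φ S e (t • a₃) (-(t * t * Φ.B (y b₀) b₀)) := fun t => by
      obtain ⟨κ, hκ⟩ := Y (t • b₀) (by simp [h.be])
      refine (hκ.sub hS ((hκ.conj hS hy).congr h.ye rfl rfl)).congr rfl ?_ ?_
      · rw [map_smul, ← smul_sub, h.yb]
      · simp; ring
    by_cases h3 : Φ.B (y b₀) b₀ = 0
    · have Q4 : ∀ t : F, QI Φ S e (t • (a₃ + a)) 0 := fun t =>
        ((Q3 t).conj hS hy).congr h.ye (by rw [map_smul, h.yt]) (by simp [h3])
      obtain ⟨t, rfl⟩ := sq s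
      have h4 := mix hS (b := t • (a₃ + a)) h.ef (by simp [h.tc, h.ac]) h.ce h.cf
        (fun r => by rw [smul_smul]; exact Q4 _) (fun r => by rw [smul_smul]; exact r1 _ (P3 _))
        ((P6 1).congr rfl (one_smul _ _) rfl)
        ((hq.sub hS (r2 1 (P3 1))).congr rfl (by simp) rfl)
      refine z_of_T hS (b'' := -y c) ?_ (Y _ (by simp [hyce])) Q4
        ((T_sq (T _) h4).congr rfl rfl (by simp [h.ac, T]))
      rw [B_neg_right, Φ.skew, B_add_right, hycd]; simp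
    · have Q4 : ∀ t : F, QI Φ S e (t • a) 0 := fun t =>
        ((((Q3 t).conj hS hy).congr h.ye rfl rfl).sub hS (Q3 t)).congr rfl
          (by rw [map_smul, h.yt]; module) (by simp [h.yt, T, h.ta])
      obtain ⟨t, ht⟩ := sq (s / Φ.B (y b₀) b₀)
      have h4 := mix hS (b := t • a) h.ef (by simp [hat]) h.te h.tf
        (fun r => by rw [smul_smul]; exact Q4 _) (fun r => by rw [smul_smul]; exact r2 _ (P3 _))
        ((Q3 1).congr rfl (one_smul _ _) rfl) ((P3 1).congr rfl (one_smul _ _) rfl)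
      refine z_of_T hS h.ac (Y _ h.ce) Q4 ((T_sq (T _) h4).congr rfl rfl ?_)
      rw [← ht]; field_simp; ring
  have hF := full_of_Y hS (T e) Y fun s _ => Z s
  refine ⟨e, _, hF, (hF.conj hS (r2 1 (P3 1)).m).conj hS hq.m, ?_⟩
  simp [q_apply, h.ef, hea, hec, h.af, h.ac, T, h.ae, h.ce, hfe]

/-- scalars of transvections with centre `a` -/
def zsc (hS : GS Φ S) {a : V} (h : Φ.B a a = 0) : AddSubgroup F where
  carrier := {c | QI Φ S a 0 c}
  zero_mem' := QI.zero h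
  add_mem' := fun hx hy => (QI.mul hx hy).congr rfl (by simp) (by simp)
  neg_mem' := fun hx => (QI.neg hS hx).congr rfl (by simp) (by simp)

theorem half (hS : GS Φ S) {g : Module.End F V} (hg : g ∈ S) {a e : V} (ha : g a = a + e)
    (he : g e = e) (hee : Φ.B e e = 0) (hae : Φ.B a e = 0) {κ : F} (h : QI Φ S a 0 κ) :
    QI Φ S a ((2 * κ) • e) 0 := by
  have h1 := (h.conj hS hg).congr ha (map_zero _) rfl
  have h2 := (h1.conj hS hg).congr (a' := a + (2 : F) • e) (by rw [map_add, ha, he]; module)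
    (map_zero _) rfl
  have h3 := h.two hS h1 (zero_symm hae)
  have h4 := (h.two hS h2 (by simp [zero_symm hae])).unscale hee (by simp [hae])
  have h5 := (h3.mul h3).sub hS (h4.sub hS (h3.mul h3))
  have h6 := (h5.congr rfl (b' := (2 * κ) • a) (κ' := 0) (by simp; module)
    (by simp [h.v.aa]; ring)).swap
  exact (h6.unscale h.v.aa (zero_symm hae)).congr rfl (by simp) (by simp)

theorem Cfg.full_odd {y : Module.End F V} {e f c a : V} (h : Cfg Φ y e f c a) (h2 : (2 : F) ≠ 0)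
    (hsp : ∀ x, ∃ p r s t : F, x = p • e + r • f + s • c + t • a) {δ : F} (hδ0 : δ ≠ 0)
    (hδ : Gen (8 * δ)) (hS : GS Φ S) (hu : Φ.q e c 0 * y ∈ S) (hv : Φ.q f c 0 * y ∈ S)
    (hT : QI Φ S a 0 δ) : ∃ x x', Full Φ S x ∧ Full Φ S x' ∧ Φ.B x' x ≠ 0 := by
  have ua : (Φ.q e c 0 * y) a = a + e := by simp [q_apply, h.ya, h.ae, h.ac]
  have va : (Φ.q f c 0 * y) a = a + f := by simp [q_apply, h.ya, h.af, h.ac]
  have ue : (Φ.q e c 0 * y) e = e := by simp [q_apply, h.ye, h.ee, zero_symm h.ce]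
  have vf : (Φ.q f c 0 * y) f = f := by simp [q_apply, h.yf, h.ff, zero_symm h.cf]
  have r1 := fun κ => half hS hu ua ue h.ee h.ae (κ := κ)
  have r2 := fun κ => half hS hv va vf h.ff h.af (κ := κ)
  have Z : ∀ κ : F, QI Φ S a 0 κ := hδ (zsc hS h.aa) ⟨δ, hT, hδ0⟩ fun κ hκ =>
    ((r2 κ hκ).comm hS (r1 δ hT)).congr rfl rfl (by simp [h.ef]; ring)
  have hF := full_of_Y hS h.aa (fun b hb => by
    obtain ⟨p, r, s, t, rfl⟩ := hsp b
    have hs : s = 0 := by simpa [zero_symm h.ae, zero_symm h.af, one_symm h.ac, h.aa] using hb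
    refine ((YI.add ⟨0, r1 _ (Z (p / 2))⟩ ⟨0, r2 _ (Z (r / 2))⟩).add (YI.self h.aa t)).congr ?_
    rw [mul_div_cancel₀ _ h2, mul_div_cancel₀ _ h2, hs]; module) fun s _ => Z s
  refine ⟨_, _, hF.conj hS hu, hF.conj hS hv, ?_⟩
  rw [ua, va]
  simp [h.aa, h.ae, zero_symm h.af, one_symm h.ef]

theorem Cfg.T_three {y : Module.End F V} {e f c a : V} (h : Cfg Φ y e f c a) (hy : y c = c + a)
    (hS : GS Φ S) (hu : Φ.q e c 0 * y ∈ S) (hv : Φ.q f c 0 * y ∈ S)
    (hv' : Φ.q f 0 1 * (Φ.q f c 0 * y) ∈ S) : QI Φ S a 0 1 := by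
  have h0 : QI Φ S f 0 1 := ⟨⟨h.ff, by simp, by simp⟩, hS.of_right hv hv'⟩
  have h1 := (h0.conj hS hu).congr (a' := f - c)
    (by simp [q_apply, h.yf, one_symm h.ef, zero_symm h.cf, sub_eq_add_neg]) (map_zero _) rfl
  have h2 := (h1.conj hS hv).congr (a' := -(c + a))
    (by simp [q_apply, h.yf, hy, h.ff, zero_symm h.cf, h.cf, h.af, h.cc, h.ac]; abel) (map_zero _) rfl
  refine QI.conj' hS hv ((h1.conj hS h2.m).congr ?_ (by simp) rfl)
  simp only [q_apply, Module.End.mul_apply, h.ya, B_sub_left, B_neg_right, B_add_right,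
    zero_symm h.cf, zero_symm h.af, h.cc, one_symm h.ac, h.af, h.ac, B_zero_right]
  module

theorem Cfg.cj_three [FiniteDimensional F V] {y : Module.End F V} {e f c a : V}
    (h : Cfg Φ y e f c a) (h2 : (2 : F) ≠ 0) :
    Cj Φ (Φ.q e c 0 * y) (Φ.q f 0 1 * (Φ.q f c 0 * y)) := by
  refine ((cj_ef h.py h.ee h.ff h.ef h.ce h.cf h.ye h.yf 0).trans
    (cj_mv h.py (b := (-2⁻¹ : F) • a) (κ₀ := 0) ⟨h.ff, by simp [h.af], by simp [h.aa]⟩ h.yf h.cf
      0)).congr ?_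
  rw [← mul_assoc, q_mul h.ff (by simp) h.cf]
  congr 2
  · simp [h.ya]
  · simp [h.ya, h.aa, h.ac, one_symm h.ac]; field_simp; ring

theorem exists_torus [FiniteDimensional F V] {e f : V} (hee : Φ.B e e = 0) (hff : Φ.B f f = 0)
    (hef : Φ.B e f = 1) {t : F} (ht : t ≠ 0) : ∃ g, Φ.Pres g ∧ LinearMap.det g = 1 ∧ g e = t • e ∧
      g f = t⁻¹ • f ∧ ∀ x, Φ.B x e = 0 → Φ.B x f = 0 → g x = x := by
  have v1 : ∀ κ : F, Φ.QV e 0 κ := fun κ => ⟨hee, by simp, by simp⟩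
  have v2 : ∀ κ : F, Φ.QV f 0 κ := fun κ => ⟨hff, by simp, by simp⟩
  refine ⟨Φ.q f 0 1 * Φ.q e 0 (1 - t⁻¹) * Φ.q f 0 (-t) * Φ.q e 0 (-(1 - t⁻¹) * t⁻¹),
    (((v2 _).pres.mul (v1 _).pres).mul (v2 _).pres).mul (v1 _).pres,
    by simp [(v1 _).det, (v2 _).det], ?_, ?_, fun x h1 h2 => by simp [q_apply, h1, h2]⟩
  · simp only [Module.End.mul_apply, q_apply, B_add_left, B_smul_left, hee, hff, hef, one_symm hef,
      B_zero_right, smul_zero, add_zero]
    match_scalars <;> field_simp <;> ring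
  · simp only [Module.End.mul_apply, q_apply, B_add_left, B_smul_left, hee, hff, hef, one_symm hef,
      B_zero_right, smul_zero, add_zero]
    match_scalars <;> field_simp <;> ring

theorem Cfg.cj_torus [FiniteDimensional F V] {y : Module.End F V} {e f c a : V}
    (h : Cfg Φ y e f c a) {t : F} (ht : t ≠ 0) (α : F) :
    Cj Φ (Φ.q e c 0 * Φ.q a 0 α) (Φ.q e c 0 * Φ.q a 0 α * Φ.q a 0 ((t * t - 1) * α)) := by
  obtain ⟨g, p1, d1, ge, -, g3⟩ := exists_torus h.ee h.ff h.ef ht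
  obtain ⟨g', p2, d2, ga, gc, g4⟩ := exists_torus h.aa h.cc h.ac ht
  refine ⟨g * g', p1.mul p2, by rw [map_mul, d1, d2, one_mul], ?_⟩
  have e1 : (g * g') e = t • e := by
    rw [Module.End.mul_apply, g4 e (zero_symm h.ae) (zero_symm h.ce), ge]
  have e2 : (g * g') c = t⁻¹ • c := by rw [Module.End.mul_apply, gc, map_smul, g3 c h.ce h.cf]
  have e3 : (g * g') a = t • a := by rw [Module.End.mul_apply, ga, map_smul, g3 a h.ae h.af]
  have hp := p1.mul p2
  generalize g * g' = k at *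
  rw [← mul_assoc k, ← q_conj hp, mul_assoc _ k, ← q_conj hp, e1, e2, e3, map_zero, q_scale, q_scale,
    mul_assoc (Φ.q e c 0), q_mul h.aa (by simp) (by simp), ← mul_assoc]
  congr 3
  · simp [smul_smul, ht]
  · simp
  · simp
  · simp; ring

theorem Cfg.full_even [Finite F] {y : Module.End F V} {e f c a : V} (h : Cfg Φ y e f c a)
    (h2 : (2 : F) = 0) (hsp : ∀ x, ∃ p r s t : F, x = p • e + r • f + s • c + t • a) {α κ : F}
    (hy : y c = c - α • a) (hα : α ≠ 0) (hκ : κ ≠ 0) (hθ : Gen (κ * α)) (hS : GS Φ S)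
    (hu : Φ.q e c 0 * y ∈ S) (hv : Φ.q f (c + (-1 - α) • a) 0 * y ∈ S)
    (hv' : Φ.q f 0 κ * (Φ.q f (c + (-1 - α) • a) 0 * y) ∈ S) :
    ∃ x x', Full Φ S x ∧ Full Φ S x' ∧ Φ.B x' x ≠ 0 := by
  have hca := one_symm h.ac
  have hfe := one_symm h.ef
  have hec := zero_symm h.ce
  have hfc := zero_symm h.cf
  have hea := zero_symm h.ae
  have hfa := zero_symm h.af
  obtain ⟨u, hudef⟩ : ∃ u, u = Φ.q e c 0 * y := ⟨_, rfl⟩
  obtain ⟨v, hvdef⟩ : ∃ v, v = Φ.q f (c + (-1 - α) • a) 0 * y := ⟨_, rfl⟩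
  rw [← hudef] at hu
  rw [← hvdef] at hv hv'
  obtain ⟨d, hd⟩ : ∃ d, d = c - α • a := ⟨_, rfl⟩
  have dd : Φ.B d d = 0 := by simp [hd, h.cc, h.aa, hca, h.ac]
  have df : Φ.B d f = 0 := by simp [hd, h.cf, h.af]
  have uf : u f = -c + f := by simp [hudef, q_apply, h.yf, hfe, hfc, add_comm]
  have uc : u c = d - α • e := by
    simp [hudef, q_apply, hy, hd, h.ce, h.ae, h.cc, h.ac, sub_eq_add_neg]
  have ud : u d = c := by
    simp only [hudef, q_apply, hd, Module.End.mul_apply, map_sub, map_smul, hy, h.ya, B_sub_left,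
      B_smul_left, h.ce, h.ae, h.cc, h.ac]
    linear_combination (norm := module) h2 • (-(α • a) - α • e)
  have vf : v f = f := by simp [hvdef, q_apply, h.yf, h.ff, hfc, hfa]
  have vc : v c = d + f := by
    simp only [hvdef, q_apply, hd, Module.End.mul_apply, hy, B_sub_left, B_add_right,
      B_smul_left, B_smul_right, h.cf, h.af, h.cc, h.ac, hca, h.aa, RingHom.id_apply]
    module
  have h0 : QI Φ S f 0 κ := ⟨⟨h.ff, by simp, by simp⟩, hS.of_right hv hv'⟩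
  have h1 := (h0.conj hS hu).congr uf (map_zero _) rfl
  have neg : ∀ {x : V} {s : F}, QI Φ S x 0 s → QI Φ S (-x) 0 s := fun {x s} hx =>
    (QI.scale (t := -1) (hx.congr rfl (by simp) (by simp))
      ⟨by simp [hx.v.aa], by simp, by simp⟩).congr (by simp) rfl rfl
  have h3 : QI Φ S d 0 κ := (neg (h1.conj hS hv |>.congr rfl (map_zero _) rfl)).congr
    (by simp [vf, vc]) rfl rfl
  have h4 : QI Φ S c 0 κ := (h3.conj hS hu).congr ud (map_zero _) rfl
  have h5 : YI Φ S f (κ • c) := (YI.neg hS ⟨_, (neg h4).two hS h1 (by simp [hfc])⟩).congr (by simp)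
  have back : ∀ t : F, YI Φ S f (t • d) → YI Φ S f (t • c) := fun t ht => by
    obtain ⟨κ', h'⟩ := ht.add (YI.self h.ff t)
    exact ⟨κ', QI.conj' hS hv (h'.congr vf.symm (by rw [map_smul, vc, smul_add]) rfl)⟩
  have Yc : ∀ t : F, YI Φ S f (t • c) := hθ (ysc hS h.ff c) ⟨κ, h5, hκ⟩ fun t ht => by
    refine back _ (((YI.conj hS h3.m (by simp [q_apply, zero_symm df]) ht).sub hS ht).congr ?_)
    simp only [q_apply, hd, B_smul_left, B_sub_right, B_smul_right, h.cc, hca, B_zero_right,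
      RingHom.id_apply]
    module
  have Ya : ∀ t : F, YI Φ S f (t • a) := fun t => by
    refine (((Yc (t / α)).add (YI.self h.ff (t / α))).sub hS ((Yc (t / α)).conj hS hv vf)).congr ?_
    rw [map_smul, vc, hd]
    match_scalars <;> field_simp <;> ring
  have mv : ∀ (x : V) (s ν : F), Φ.B x f = 0 → QI Φ S x 0 s → QI Φ S (x + (ν * Φ.B x a) • f) 0 s :=
    fun x s ν hx hq => by
      obtain ⟨κ', h'⟩ := Ya ν
      exact (hq.conj hS h'.m).congr (by simp [q_apply, hx]) (map_zero _) rfl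
  have Tc : ∀ s : F, QI Φ S c 0 s := fun s => by
    obtain ⟨t, ht⟩ : ∃ t, s / κ = t * t :=
      FiniteField.isSquare_of_char_two (CharP.ringChar_of_prime_eq_zero Nat.prime_two
        (by exact_mod_cast h2)) _
    by_cases h0 : t = 0
    · have : s = 0 := by simpa [h0, hκ] using ht
      rw [this]; exact QI.zero h.cc
    have h6 := ((mv d κ (t - 1) df h3).conj hS hu).congr (a' := t • c + (1 - t) • f)
      (by
        simp only [map_add, map_smul, ud, uf, hd, B_sub_left, B_smul_left, hca, h.aa]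
        rw [← hd, ud]; module) (map_zero _) rfl
    have h7 := (mv _ κ ((1 - t) / t) (by simp [h.cf, h.ff]) h6).congr (a' := t • c) (by
      simp only [B_add_left, B_smul_left, hca, hfa]
      match_scalars <;> field_simp <;> ring) rfl rfl
    exact (T_sq h.cc h7).congr rfl rfl (by rw [← ht]; field_simp)
  have hF := full_of_Y hS h.ff (fun b hb => by
    obtain ⟨p, r, s, t, rfl⟩ := hsp b
    have hp : p = 0 := by simpa [h.ef, h.ff, h.cf, h.af] using hb
    refine (((YI.self h.ff r).add (Yc s)).add (Ya t)).congr ?_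
    rw [hp]; module) fun s _ => QI.conj' hS hu ((mv _ s 1 (by simp [h.cf]) (neg (Tc s))).congr
      (by simp [uf, hca]) (by simp) rfl)
  refine ⟨_, _, hF, (hF.conj hS hu).conj hS hu, ?_⟩
  simp [uf, uc, df, h.ef, h.cf, h.ff, hα]

theorem Cfg.cj_even [FiniteDimensional F V] {y : Module.End F V} {e f c a : V}
    (h : Cfg Φ y e f c a) (h2 : (2 : F) = 0) {α : F} (hy : y c = c - α • a) (ν : F) :
    Cj Φ (Φ.q e c 0 * y) (Φ.q f (c + (-1 - α) • a) 0 * y) ∧
    Cj Φ (Φ.q e c 0 * y) (Φ.q f 0 (α * (ν * ν + ν)) * (Φ.q f (c + (-1 - α) • a) 0 * y)) := by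
  have hca := one_symm h.ac
  have h1 : Cj Φ (Φ.q e c 0 * y) (Φ.q f (c + (-1 - α) • a) 0 * y) :=
    ((cj_ef h.py h.ee h.ff h.ef h.ce h.cf h.ye h.yf 0).trans
      (cj_q h.py (a := a) (b := 0) (κ := 1 + α) ⟨h.aa, by simp, by simp⟩ h.ya (by simp) _ _ 0)).congr
      (by congr 2
          · simp [q_apply, zero_symm h.af]
          · simp only [q_apply, hca, B_zero_right]; module)
  refine ⟨h1, ((h1.trans (cj_mv h.py (b := ν • c) (κ₀ := 0) ⟨h.ff, by simp [h.cf], by simp [h.cc]⟩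
    h.yf (by simp [h.cf, h.af]) 0)).trans (cj_q h.py (a := a) (b := 0) (κ := ν * α)
      ⟨h.aa, by simp, by simp⟩ h.ya (by simp) _ _ _)).congr ?_⟩
  rw [← mul_assoc, q_mul h.ff (by simp) (by simp [h.cf, h.af])]
  congr 2
  · simp [q_apply, zero_symm h.af]
  · simp only [q_apply, map_smul, hy, B_add_left, B_sub_left, B_smul_left, h.aa, hca, B_zero_right]
    module
  · simp [hy, h.cc, h.aa, hca, h.ac]
    linear_combination (-ν - ν * α) * h2

end H16.SQ
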