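import Cfsg.Agent.H16.SQ2
import Cfsg.Agent.H16.RU3
import Cfsg.Agent.H23.SpGen

/-! Three regular unipotent conjugates generate the symplectic group. -/

set_option autoImplicit false
set_option linter.unusedSectionVars false
set_option linter.unusedSimpArgs false
set_option linter.unusedVariables false

namespace H16.SQ

open SK RU Module Matrix

section gen
variable {F V : Type*} [Field F] {σ : F →+* F} [AddCommGroup V] [Module F V] [FiniteDimensional F V]
  {Φ : SK σ V}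

theorem assemble {H : Type*} [Group H] (ρ : H →* Module.End F V) (inj : Function.Injective ρ)
    (hs : ∀ g, Φ.Pres g → LinearMap.det g = 1 → ∃ h, ρ h = g) (hp : ∀ h, Φ.Pres (ρ h))
    (hgen : ∀ G : Subgroup H,
      (∀ h : H, (∃ x κ, Φ.B x x = 0 ∧ σ κ = κ ∧ ρ h = Φ.q x 0 κ) → h ∈ G) → G = ⊤)
    (hN : ∀ x, x ≠ 0 → ∃ y, Φ.B y x ≠ 0) (hT : ∀ b, ∃ κ, κ - σ κ = Φ.B b b)
    {u v w : Module.End F V} (hu : Φ.Pres u) (hd : LinearMap.det u = 1) (hv : Cj Φ u v)
    (hw : Cj Φ u w) (h : ∀ S, GS Φ S → u ∈ S → v ∈ S → w ∈ S →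
      ∃ x x', Full Φ S x ∧ Full Φ S x' ∧ Φ.B x' x ≠ 0) :
    ∃ u' g k : H, ρ u' = u ∧ ρ (g * u' * g⁻¹) = v ∧ ρ (k * u' * k⁻¹) = w ∧
      Subgroup.closure ({u', g * u' * g⁻¹, k * u' * k⁻¹} : Set H) = ⊤ := by
  obtain ⟨u', rfl⟩ := hs u hu hd
  have key : ∀ v, Cj Φ (ρ u') v → ∃ g : H, ρ (g * u' * g⁻¹) = v := fun v ⟨g, h1, h2, h3⟩ => by
    obtain ⟨g, rfl⟩ := hs g h1 h2
    exact ⟨g, by rw [map_mul, map_mul, ← h3, mul_assoc, ← map_mul, mul_inv_cancel, map_one, mul_one]⟩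
  obtain ⟨g, hg⟩ := key v hv
  obtain ⟨k, hk⟩ := key w hw
  refine ⟨u', g, k, rfl, hg, hk, hgen _ fun t ⟨x, κ, h1, h2, h3⟩ => ?_⟩
  set G := Subgroup.closure ({u', g * u' * g⁻¹, k * u' * k⁻¹} : Set H)
  have hS : GS Φ (G.toSubmonoid.map ρ) := ⟨by
    rintro _ ⟨a, ha, rfl⟩
    exact ⟨_, ⟨a⁻¹, G.inv_mem ha, rfl⟩, by rw [← map_mul, inv_mul_cancel, map_one],
      by rw [← map_mul, mul_inv_cancel, map_one]⟩, by rintro _ ⟨a, -, rfl⟩; exact hp a⟩
  obtain ⟨y, y', f1, f2, f3⟩ := h _ hS ⟨u', Subgroup.subset_closure (by simp), rfl⟩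
    ⟨_, Subgroup.subset_closure (by simp), hg⟩ ⟨_, Subgroup.subset_closure (by simp), hk⟩
  obtain ⟨a, ha, e⟩ := Full.all hS hN hT f1 f2 f3 x κ h1 h2
  rwa [← inj (e.trans h3.symm)]

theorem pow_ne_zero_of_range {N : Module.End F V} {f : V}
    (h : ∀ x, ∃ t : F, ∃ z, x = t • f + N z) {k : ℕ} (hk : k < finrank F V) : N ^ k ≠ 0 := by
  have key : ∀ j : ℕ, finrank F V ≤ finrank F (LinearMap.range (N ^ j)) + j := by
    intro j
    induction j with
    | zero => rw [pow_zero, Module.End.one_eq_id, LinearMap.range_id, finrank_top]; rfl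
    | succ j ih =>
      have h1 : LinearMap.range (N ^ j) ≤
          LinearMap.range (N ^ (j + 1)) ⊔ Submodule.span F {(N ^ j) f} := by
        rintro _ ⟨x, rfl⟩
        obtain ⟨t, z, rfl⟩ := h x
        rw [map_add, map_smul, add_comm (t • _)]
        exact Submodule.add_mem_sup ⟨z, by rw [pow_succ]; rfl⟩
          (Submodule.smul_mem _ _ (Submodule.mem_span_singleton_self _))
      have h2 := Submodule.finrank_mono h1
      have h3 := Submodule.finrank_add_le_finrank_add_finrank (LinearMap.range (N ^ (j + 1)))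
        (Submodule.span F {(N ^ j) f})
      have h4 : finrank F (Submodule.span F {(N ^ j) f}) ≤ 1 := by
        simpa using finrank_span_le_card (R := F) {(N ^ j) f}
      omega
  intro h0
  have := key k
  rw [h0, LinearMap.range_zero, finrank_bot] at this
  omega

/-- configuration attached to a regular unipotent isometry -/
structure UC (Φ : SK σ V) (u : Module.End F V) (e f c a : V) : Prop where
  pu : Φ.Pres u
  ee : Φ.B e e = 0
  ff : Φ.B f f = 0
  cc : Φ.B c c = 0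
  aa : Φ.B a a = 0
  ef : Φ.B e f = 1
  ce : Φ.B c e = 0
  cf : Φ.B c f = 0
  ae : Φ.B a e = 0
  af : Φ.B a f = 0
  ac : Φ.B a c = 1
  ue : u e = e
  uf : u f = f - c
  ua : u a = a + e
  nil : IsNilpotent (u - 1)
  surj : ∀ x, Φ.B x e = 0 → ∃ z, u z - z = x

variable {u : Module.End F V} {e f c a : V}

theorem UC.eq (h : UC Φ u e f c a) : Φ.q e c 0 * (Φ.q e (-c) 0 * u) = u := by
  rw [← mul_assoc, q_mul h.ee h.ce (by simp [h.ce])]
  simp [h.cc, q_zero]

theorem UC.cfg (h : UC Φ u e f c a) : Cfg Φ (Φ.q e (-c) 0 * u) e f c a where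
  py := (QV.pres ⟨h.ee, by simp [h.ce], by simp [h.cc]⟩).mul h.pu
  ee := h.ee
  ff := h.ff
  cc := h.cc
  aa := h.aa
  ef := h.ef
  ce := h.ce
  cf := h.cf
  ae := h.ae
  af := h.af
  ac := h.ac
  ye := by simp [q_apply, h.ue, h.ee, zero_symm h.ce]
  yf := by simp [q_apply, h.uf, h.ce, one_symm h.ef, zero_symm h.cf, h.cc]
  ya := by simp [q_apply, h.ua, h.ae, h.ee, h.ac, zero_symm h.ce]

theorem UC.hr (h : UC Φ u e f c a) (x : V) (hx : Φ.B x e = 0) :
    ∃ t : F, ∃ z, Φ.B z e = 0 ∧ x = t • c + (u z - z) := by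
  obtain ⟨w, rfl⟩ := h.surj x hx
  exact ⟨Φ.B w e, w + Φ.B w e • f, by simp [one_symm h.ef], by
    rw [map_add, map_smul, h.uf]; module⟩

theorem UC.reg (h : UC Φ u e f c a) {k : ℕ} (hk : k < finrank F V) : (u - 1) ^ k ≠ 0 :=
  pow_ne_zero_of_range (f := f) (fun x => by
    obtain ⟨z, hz⟩ := h.surj (x + Φ.B x e • f) (by simp [one_symm h.ef])
    exact ⟨-Φ.B x e, z, by rw [LinearMap.sub_apply, Module.End.one_apply, hz]; module⟩) hk

theorem UC.exists_b (h : UC Φ u e f c a) {d : V} (de : Φ.B d e = 0) (df : Φ.B d f = 0)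
    (da : Φ.B d a = 0) :
    ∃ b, Φ.B b e = 0 ∧ Φ.B b f = 0 ∧ b - (Φ.q e (-c) 0 * u) b = d := by
  obtain ⟨t, z, hz, e1⟩ := h.hr (-d) (by simp [de])
  have h1 : Φ.B (u z) e = 0 := by rw [← h.ue, h.pu, hz]
  have h2 : Φ.B (u z) a = Φ.B z a := by rw [← h.pu z a, h.ua, B_add_right, h1, add_zero]
  have ht : t = 0 := by simpa [da, h2, one_symm h.ac] using congrArg (Φ.B · a) e1
  have h3 := h.cfg.py z f
  rw [h.cfg.yf] at h3
  have h4 : u z = z - d := by rw [ht] at e1; linear_combination (norm := module) -e1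
  refine ⟨z - Φ.B z f • e, by simp [hz, h.ee], by simp [h.ef], ?_⟩
  rw [map_sub, map_smul, h.cfg.ye]
  simp only [Module.End.mul_apply, q_apply, h4, B_sub_left, B_add_left, B_smul_left, hz, de, df,
    h.ef, B_neg_left, h.cf, B_neg_right] at h3 ⊢
  have h5 : Φ.B z c = Φ.B d c := by linear_combination -h3
  rw [h5]; module

end gen

variable {F : Type*} [Field F]

/-- the split alternating form -/
def spK (n : ℕ) (F : Type*) [Field F] : SK (RingHom.id F) ((Fin n → F) × (Fin n → F)) where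
  L y :=
    { toFun := fun x => x.2 ⬝ᵥ y.1 - x.1 ⬝ᵥ y.2
      map_add' := fun x x' => by simp [add_dotProduct]; ring
      map_smul' := fun c x => by simp [smul_dotProduct]; ring }
  invol _ := rfl
  skew' x y := by simp [dotProduct_comm]

theorem spK_B {n : ℕ} (x y : (Fin n → F) × (Fin n → F)) :
    (spK n F).B x y = x.2 ⬝ᵥ y.1 - x.1 ⬝ᵥ y.2 := rfl

theorem spK_alt {n : ℕ} (x : (Fin n → F) × (Fin n → F)) : (spK n F).B x x = 0 := by
  rw [spK_B, dotProduct_comm, sub_self]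

theorem assemble_sp {n : ℕ} {u v w : Module.End F ((Fin n → F) × (Fin n → F))}
    (hu : (spK n F).Pres u) (hn : IsNilpotent (u - 1)) (hr : (u - 1) ^ (2 * n - 1) ≠ 0)
    (hv : Cj (spK n F) u v) (hw : Cj (spK n F) u w)
    (h : ∀ S, GS (spK n F) S → u ∈ S → v ∈ S → w ∈ S →
      ∃ x x', Full (spK n F) S x ∧ Full (spK n F) S x' ∧ (spK n F).B x' x ≠ 0) :
    ∃ u g h : Matrix.symplecticGroup (Fin n) F,
      IsNilpotent ((u : Matrix (Fin n ⊕ Fin n) (Fin n ⊕ Fin n) F) - 1) ∧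
      ((u : Matrix (Fin n ⊕ Fin n) (Fin n ⊕ Fin n) F) - 1) ^ (2 * n - 1) ≠ 0 ∧
      Subgroup.closure ({u, g * u * g⁻¹, h * u * h⁻¹} :
        Set (Matrix.symplecticGroup (Fin n) F)) = ⊤ := by
  let φ := (LinearEquiv.sumArrowLequivProdArrow (Fin n) (Fin n) F F).symm
  let Ψ := (LinearMap.toMatrixAlgEquiv (Basis.ofEquivFun φ)).symm
  have hΨ : ∀ M x, φ (Ψ M x) = M *ᵥ φ x := fun M x => by
    have := LinearMap.toMatrix_mulVec_repr (Basis.ofEquivFun φ) (Basis.ofEquivFun φ) (Ψ M) x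
    have e : LinearMap.toMatrix (Basis.ofEquivFun φ) (Basis.ofEquivFun φ) (Ψ M) = M :=
      Ψ.symm_apply_apply M
    rw [e] at this
    exact this.symm
  have hB : ∀ x y, (spK n F).B x y = Cfsg.sympForm n F (φ x) (φ y) := fun x y => by
    rw [H23.sympForm_eq, spK_B, Finset.sum_sub_distrib]; rfl
  obtain ⟨u', g, k, h1, -, -, h2⟩ := assemble (Φ := spK n F)
    (H := Matrix.symplecticGroup (Fin n) F)
    ((Ψ : _ →* _).comp (Matrix.symplecticGroup (Fin n) F).subtype)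
    (Ψ.injective.comp Subtype.val_injective) (fun g hg _ => ⟨⟨Ψ.symm g, by
      rw [H23.mem_symplecticGroup_iff]
      intro x y
      obtain ⟨x, rfl⟩ := φ.surjective x
      obtain ⟨y, rfl⟩ := φ.surjective y
      rw [← hΨ, ← hΨ, ← hB, ← hB, Ψ.apply_symm_apply, hg]⟩, Ψ.apply_symm_apply g⟩)
    (fun A x y => by
      rw [hB, hB]
      exact (congrArg₂ _ (hΨ A x) (hΨ A y)).trans (H23.mem_symplecticGroup_iff.1 A.2 _ _))
    (fun G hG => by
      rw [eq_top_iff, ← H23.sp_closure_transvections, Subgroup.closure_le]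
      rintro A ⟨x, κ, hA⟩
      obtain ⟨x, rfl⟩ := φ.surjective x
      refine hG A ⟨x, κ, spK_alt x, rfl, LinearMap.ext fun y => φ.injective ?_⟩
      refine (hΨ A y).trans ?_
      rw [hA, Cfsg.sympTransvection, add_mulVec, one_mulVec, smul_mulVec, vmv_mulVec, q_apply,
        hB y x, Cfsg.sympForm, dotProduct_comm]
      simp [smul_smul])
    (fun x hx => by
      by_contra hc
      push Not at hc
      refine hx (φ.injective ((H23.spForm_nondeg n _ fun y => ?_).trans (map_zero φ).symm))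
      obtain ⟨y, rfl⟩ := φ.surjective y
      rw [H23.spForm_B, ← hB, zero_symm (hc y)])
    (fun b => ⟨0, by simp [spK_alt]⟩) hu (det_unip hn) hv hw h
  have e : Ψ ((u' : Matrix _ _ F) - 1) = u - 1 := by rw [map_sub, map_one, ← h1]; rfl
  refine ⟨u', g, k, ?_, fun h0 => hr ?_, h2⟩
  · have := hn.map Ψ.symm
    rwa [← e, Ψ.symm_apply_apply] at this
  · rw [← e, ← map_pow, h0, map_zero]

variable {m : ℕ}

/-- the contragredient of `U` -/
noncomputable def UA (m : ℕ) (F : Type*) [Field F] : Matrix (Fin (m + 1)) (Fin (m + 1)) F :=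
  ((U m F)⁻¹)ᵀ

theorem UA_mul : UA m F * (U m F)ᵀ = 1 := by
  rw [UA, ← transpose_mul, mul_nonsing_inv _ (by rw [det_U]; exact isUnit_one), transpose_one]

theorem UA_vecMul (x : Fin (m + 1) → F) : UA m F *ᵥ (x ᵥ* U m F) = x := by
  rw [← mulVec_transpose, mulVec_mulVec, UA_mul, one_mulVec]

theorem UA_dot (x y : Fin (m + 1) → F) : (U m F *ᵥ x) ⬝ᵥ (UA m F *ᵥ y) = x ⬝ᵥ y := by
  rw [dotProduct_comm, dotProduct_mulVec, ← mulVec_transpose, mulVec_mulVec,
    mul_eq_one_comm.1 UA_mul, one_mulVec, dotProduct_comm]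

theorem UA_nil : (UA m F - 1) ^ (m + 1) = 0 := by
  have h1 : UA m F - 1 = -UA m F * (sh m F)ᵀ := by
    rw [← UA_mul (m := m) (F := F), U, transpose_add, transpose_one]; noncomm_ring
  have h2 : Commute (-UA m F) (sh m F)ᵀ := by
    have : Commute (UA m F) (U m F)ᵀ := UA_mul.trans (mul_eq_one_comm.1 UA_mul).symm
    have h3 : (sh m F)ᵀ = (U m F)ᵀ - 1 := by rw [U, transpose_add, transpose_one]; abel
    rw [h3]; exact (this.sub_right (Commute.one_right _)).neg_left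
  rw [h1, h2.mul_pow, ← transpose_pow, sh_pow_succ]; simp

theorem UA_E0 : UA m F *ᵥ E m F 0 = E m F 0 := by
  have := UA_vecMul (m := m) (E0 m F)
  rwa [E0_vecMul_U, E0_eq] at this

theorem UA_E {k : ℕ} (hk : k + 1 ≤ m) : UA m F *ᵥ (E m F (k + 1) + E m F k) = E m F (k + 1) := by
  have := UA_vecMul (m := m) (E m F (k + 1))
  rwa [vecMul_U, E_sh hk] at this

theorem UA_E1 (hm : 1 ≤ m) : UA m F *ᵥ E m F 1 = E m F 1 - E m F 0 := by
  have := UA_E (F := F) (k := 0) hm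
  rw [mulVec_add, UA_E0] at this
  exact eq_sub_of_add_eq this

theorem dot_E_last (x : Fin (m + 1) → F) : x ⬝ᵥ E m F m = x (Fin.last m) := by
  have : E m F m = Pi.single (Fin.last m) 1 := by
    ext i; simp [E, Pi.single_apply, Fin.ext_iff]
  rw [this]; simp

theorem sh_E_last : sh m F *ᵥ E m F m = 0 := by
  rw [sh_E]; ext i; simp only [E]; rw [if_neg (by omega)]; rfl

/-- the regular unipotent symplectic map -/
noncomputable def spU (m : ℕ) (α : F) : Module.End F ((Fin (m + 1) → F) × (Fin (m + 1) → F)) :=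
  (spK (m + 1) F).q (E m F m, 0) 0 α * (toLin' (UA m F)).prodMap (toLin' (U m F))

theorem spU_apply (α : F) (x y : Fin (m + 1) → F) :
    spU m α (x, y) = (UA m F *ᵥ x + (α * (U m F *ᵥ y) ⬝ᵥ E m F m) • E m F m, U m F *ᵥ y) := by
  simp [spU, q_apply, spK_B]

theorem spU_uc (hm : 1 ≤ m) {α : F} (hα : α ≠ 0) : UC (spK (m + 1) F) (spU m α) (E m F 0, 0)
    (0, -E m F 0) ((if m = 1 then α else 0) • E m F m, E m F 1) (-E m F 1, 0) := by
  have d : ∀ j k, k ≤ m → E m F j ⬝ᵥ E m F k = if k = j then 1 else 0 := fun j k hk => by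
    rw [E_dot_E, if_pos hk]
  have hm0 : m ≠ 0 := by omega
  refine ⟨(QV.pres ⟨spK_alt _, by simp, by simp⟩).mul fun x y => ?_, spK_alt _, spK_alt _,
    spK_alt _, spK_alt _, by simp [spK_B, d], by simp [spK_B, d], ?_, by simp [spK_B],
    by simp [spK_B, d], by simp [spK_B, d 1 1 hm], by simp [spU_apply, UA_E0], ?_, ?_, ?_, ?_⟩
  · simp [spK_B, UA_dot, dotProduct_comm (UA m F *ᵥ _), dotProduct_comm x.1]
  · rw [spK_B]; simp only [dotProduct_zero, dotProduct_neg, smul_dotProduct, d m 0 (by omega)]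
    simp [hm0.symm]
  · simp only [spU_apply, mulVec_neg, U_E, mulVec_zero, neg_dotProduct, add_dotProduct,
      d _ m le_rfl, hm0, if_false, Prod.mk_sub_mk, Nat.reduceAdd]
    congr 1
    · split_ifs <;> simp
    · abel
  · simp [spU_apply, mulVec_neg, UA_E1 hm]; abel
  · have h1 : ∀ k : ℕ, ∀ x, (((spU m α - 1) ^ k) x).2 = sh m F ^ k *ᵥ x.2 := fun k => by
      induction k with
      | zero => simp
      | succ k ih =>
        intro x
        rw [pow_succ, Module.End.mul_apply, ih, pow_succ, ← mulVec_mulVec]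
        obtain ⟨x, y⟩ := x
        simp [spU_apply, U_mulVec]
    have h2 : ∀ k : ℕ, ∀ x, ((spU m α - 1) ^ k) (x, 0) = ((UA m F - 1) ^ k *ᵥ x, 0) := fun k => by
      induction k with
      | zero => simp
      | succ k ih =>
        intro x
        rw [pow_succ, Module.End.mul_apply, pow_succ, ← mulVec_mulVec, ← ih]
        simp [spU_apply, sub_mulVec]
    refine ⟨(m + 1) + (m + 1), LinearMap.ext fun x => ?_⟩
    rw [pow_add, Module.End.mul_apply]
    have := h1 (m + 1) x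
    rw [sh_pow_succ, zero_mulVec] at this
    rw [← Prod.mk.eta (p := ((spU m α - 1) ^ (m + 1)) x), this, h2, UA_nil]
    simp
  · rintro ⟨p, p'⟩ hx
    have h0 : p' 0 = 0 := by simpa [spK_B, ← E0_eq, dot_E0] using hx
    obtain ⟨z', hz', -⟩ := exists_sh_mulVec h0
    obtain ⟨t, ht⟩ : ∃ t, α * t = p (Fin.last m) - α * (U m F *ᵥ z') ⬝ᵥ E m F m :=
      ⟨_, mul_div_cancel₀ _ hα⟩
    obtain ⟨w, hw, -⟩ := exists_vecMul_sh (x := p (Fin.last m) • E m F m - p) (by simp [E])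
    refine ⟨(w ᵥ* U m F, z' + t • E m F m), ?_⟩
    rw [spU_apply, UA_vecMul, mulVec_add, mulVec_smul, U_mulVec (E m F m), sh_E_last, add_zero,
      add_dotProduct, smul_dotProduct, d m m le_rfl, if_pos rfl, vecMul_U, hw, U_mulVec z', hz',
      Prod.mk_sub_mk, smul_eq_mul, mul_one, mul_add, ht, U_mulVec z', hz']
    congr 1 <;> module

theorem finrank_sp : finrank F ((Fin (m + 1) → F) × (Fin (m + 1) → F)) = 2 * (m + 1) := by
  simp [two_mul]

theorem sp_big [Fintype F] (hm : 2 ≤ m) :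
    ∃ u g h : Matrix.symplecticGroup (Fin (m + 1)) F,
      IsNilpotent ((u : Matrix (Fin (m + 1) ⊕ Fin (m + 1)) (Fin (m + 1) ⊕ Fin (m + 1)) F) - 1) ∧
      ((u : Matrix (Fin (m + 1) ⊕ Fin (m + 1)) (Fin (m + 1) ⊕ Fin (m + 1)) F) - 1) ^
        (2 * (m + 1) - 1) ≠ 0 ∧
      Subgroup.closure ({u, g * u * g⁻¹, h * u * h⁻¹} :
        Set (Matrix.symplecticGroup (Fin (m + 1)) F)) = ⊤ := by
  have h := spU_uc (F := F) (m := m) (by omega) one_ne_zero
  rw [if_neg (by omega), zero_smul] at h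
  have d : ∀ j k, k ≤ m → E m F j ⬝ᵥ E m F k = if k = j then 1 else 0 := fun j k hk => by
    rw [E_dot_E, if_pos hk]
  have d1 := fun j => d j 1 (by omega)
  have d0 := fun j => d j 0 (by omega)
  obtain ⟨b, b1, b2, b3⟩ := h.exists_b (d := (E m F 2 + E m F 1, 0)) (by simp [spK_B])
    (by simp [spK_B, d0]) (by simp [spK_B])
  have h3 : Cfg3 (spK (m + 1) F) _ _ _ _ _ (E m F 2 + E m F 1, 0) b :=
    { h.cfg with
      alt := spK_alt
      te := by simp [spK_B]
      tf := by simp [spK_B, d0]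
      ta := by simp [spK_B]
      tc := by simp [spK_B, d1]
      yt := by simp [q_apply, spU_apply, UA_E (k := 1) hm, spK_B, d1]
      ycc := by
        have : ¬ 1 = m := by omega
        simp [q_apply, spU_apply, spK_B, d1, d0, U_E, this]
      be := b1
      bf := b2
      yb := b3 }
  obtain ⟨ω, hω0, hω⟩ := exists_genel (F := F)
  have hc := h3.cj ω
  have hf := fun S => h3.full (S := S) hω0 hω (by rw [h.eq]; exact h.nil) (by rw [h.eq]; exact h.hr)
  rw [h.eq] at hc hf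
  exact assemble_sp h.pu h.nil (h.reg (by rw [finrank_sp]; omega)) hc.1 hc.2 hf

theorem sp_four [Fintype F] (hq : Fintype.card F ≠ 2) :
    ∃ u g h : Matrix.symplecticGroup (Fin (1 + 1)) F,
      IsNilpotent ((u : Matrix (Fin (1 + 1) ⊕ Fin (1 + 1)) (Fin (1 + 1) ⊕ Fin (1 + 1)) F) - 1) ∧
      ((u : Matrix (Fin (1 + 1) ⊕ Fin (1 + 1)) (Fin (1 + 1) ⊕ Fin (1 + 1)) F) - 1) ^
        (2 * (1 + 1) - 1) ≠ 0 ∧
      Subgroup.closure ({u, g * u * g⁻¹, h * u * h⁻¹} :
        Set (Matrix.symplecticGroup (Fin (1 + 1)) F)) = ⊤ := by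
  have d : ∀ j k, k ≤ 1 → E 1 F j ⬝ᵥ E 1 F k = if k = j then 1 else 0 := fun j k hk => by
    rw [E_dot_E, if_pos hk]
  have H := fun (α : F) (hα : α ≠ 0) => spU_uc (F := F) (m := 1) le_rfl hα
  simp only [if_true] at H
  have hsp : ∀ (α : F) (x : (Fin 2 → F) × (Fin 2 → F)), ∃ p r s t : F, x = p • (E 1 F 0, 0) +
      r • (0, -E 1 F 0) + s • (α • E 1 F 1, E 1 F 1) + t • (-E 1 F 1, 0) := fun α x =>
    ⟨x.1 0, -x.2 0, x.2 1, x.2 1 * α - x.1 1, by
      ext i <;> fin_cases i <;> simp [E]⟩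
  have hy : ∀ (α : F) (hα : α ≠ 0), (spK 2 F).q (E 1 F 0, 0) (-(α • E 1 F 1, E 1 F 1)) 0 * spU 1 α =
      (spK 2 F).q (-E 1 F 1, 0) 0 α := fun α hα => by
    have h := (H α hα).cfg
    refine LinearMap.ext fun x => ?_
    obtain ⟨p, r, s, t, rfl⟩ := hsp α x
    have hc : ((spK 2 F).q (E 1 F 0, 0) (-(α • E 1 F 1, E 1 F 1)) 0 * spU 1 α)
        (α • E 1 F 1, E 1 F 1) = (α • E 1 F 1, E 1 F 1) - α • (-E 1 F 1, 0) := by
      simp [q_apply, spU_apply, spK_B, U_mulVec, sh_E_last (m := 1), mulVec_smul, UA_E1, d]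
      module
    simp only [map_add, map_smul, h.ye, h.yf, h.ya, hc]
    simp only [q_apply, zero_symm h.ae, zero_symm h.af, one_symm h.ac, h.aa, B_zero_right]
    module
  have hyc : ∀ (α : F) (hα : α ≠ 0), ((spK 2 F).q (E 1 F 0, 0) (-(α • E 1 F 1, E 1 F 1)) 0 * spU 1 α)
      (α • E 1 F 1, E 1 F 1) = (α • E 1 F 1, E 1 F 1) - α • (-E 1 F 1, 0) := fun α hα => by
    rw [hy α hα, q_apply, one_symm (H α hα).ac]; simp [sub_eq_add_neg]
  obtain ⟨ω, hω0, hω⟩ := exists_prim (F := F)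
  have hg := gen_of_pow hω
  have h1 : ω ≠ 1 := fun h => hq (by
    classical
    have : (Finset.univ : Finset F) = {0, 1} := by
      ext x; by_cases hx : x = 0
      · simp [hx]
      · obtain ⟨k, rfl⟩ := hω x hx; simp [h]
    rw [← Finset.card_univ, this]; simp)
  by_cases h2 : (2 : F) = 0
  · have hν : ω * ω + ω ≠ 0 := fun h =>
      h1 (mul_left_cancel₀ hω0 (by linear_combination h - ω * h2))
    obtain ⟨α, hα⟩ : ∃ t, ω / (ω * ω + ω) = t * t :=
      FiniteField.isSquare_of_char_two (CharP.ringChar_of_prime_eq_zero Nat.prime_two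
        (by exact_mod_cast h2)) _
    have hα0 : α ≠ 0 := fun h => div_ne_zero hω0 hν (by rw [hα, h, mul_zero])
    have h := H α hα0
    have hc := h.cfg.cj_even h2 (hyc α hα0) ω
    have hf := fun S => h.cfg.full_even (S := S) h2 (hsp α) (hyc α hα0) hα0 (mul_ne_zero hα0 hν) (by
      rw [mul_right_comm, ← hα, div_mul_cancel₀ _ hν]; exact hg)
    rw [h.eq] at hc hf
    exact assemble_sp h.pu h.nil (h.reg (by rw [finrank_sp]; omega)) hc.1 hc.2 hf
  have h8 : (8 : F) ≠ 0 := by rw [show (8 : F) = 2 ^ 3 by norm_num]; exact pow_ne_zero _ h2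
  by_cases h3 : ω * ω - 1 = 0
  · have hm : ω = -1 := by
      rcases mul_self_eq_one_iff.1 (sub_eq_zero.1 h3) with h | h
      · exact absurd h h1
      · exact h
    have h := H (-1) (by simp)
    have hc1 := cj_ef h.cfg.py h.ee h.ff h.ef h.ce h.cf h.cfg.ye h.cfg.yf 0
    have hc2 := h.cfg.cj_three h2
    have h9 : (8 : F) * 1 = ω := by
      obtain ⟨k, hk⟩ := hω 2 h2
      rw [hm] at hk ⊢
      rcases neg_one_pow_eq_or F k with e | e <;> rw [e] at hk
      · exact absurd (by linear_combination -hk) (one_ne_zero (α := F))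
      · linear_combination -3 * hk
    have hf := fun S (hS : GS _ S) hu hv hw => h.cfg.full_odd (S := S) h2 (hsp _) one_ne_zero
      (h9 ▸ hg) hS hu hv (h.cfg.T_three (by rw [hyc _ (by simp), neg_one_smul F (_, _), sub_neg_eq_add]) hS hu hv hw)
    rw [h.eq] at hc1 hc2 hf
    exact assemble_sp h.pu h.nil (h.reg (by rw [finrank_sp]; omega)) hc1 hc2 hf
  · have hα0 : ω / 8 / (ω * ω - 1) ≠ 0 := div_ne_zero (div_ne_zero hω0 h8) h3
    have h := H _ hα0
    have hc1 := cj_ef h.cfg.py h.ee h.ff h.ef h.ce h.cf h.cfg.ye h.cfg.yf 0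
    have hc2 := h.cfg.cj_torus hω0 (ω / 8 / (ω * ω - 1))
    rw [← hy _ hα0, mul_div_cancel₀ _ h3] at hc2
    have hf := fun S (hS : GS _ S) hu hv hw => h.cfg.full_odd (S := S) h2 (hsp _)
      (div_ne_zero hω0 h8) (by rwa [mul_div_cancel₀ _ h8]) hS hu hv
      ⟨⟨h.aa, by simp, by simp⟩, hS.of_left hu hw⟩
    rw [h.eq] at hc1 hc2 hf
    exact assemble_sp h.pu h.nil (h.reg (by rw [finrank_sp]; omega)) hc1 hc2 hf

end H16.SQ
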