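import Cfsg.Agent.H16.SQ3
import Cfsg.Agent.H23.SuGen2

/-! Regular unipotent conjugates generate the special unitary group in odd dimension at least five. -/

set_option autoImplicit false
set_option linter.unusedSectionVars false
set_option linter.unusedSimpArgs false
set_option linter.unusedVariables false

namespace H16.SQ

open SK RU Module Matrix

section gen
variable {F V : Type*} [Field F] {σ : F →+* F} [AddCommGroup V] [Module F V] [FiniteDimensional F V]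
  {Φ : SK σ V} {S : Submonoid (Module.End F V)} {u : Module.End F V} {e f c a : V}

theorem exists_kappa (Φ : SK σ V) {θ : F} (hθ : θ + σ θ = 1) (b : V) : ∃ κ, κ - σ κ = Φ.B b b :=
  ⟨θ * Φ.B b b, by rw [map_mul, σ_B]; linear_combination Φ.B b b * hθ⟩

theorem cj_shift {θ : F} (hθ : θ + σ θ = 1) {y : Module.End F V} (hy : Φ.Pres y) {b d : V}
    {κ κ' : F} (hf : y f = f) (hb : y b = b) (hbf : Φ.B b f = 0) (h : Φ.QV f d κ) (h' : Φ.QV f d κ')
    (hdb : Φ.B d b ≠ 0) : Cj Φ (Φ.q f d κ * y) (Φ.q f d κ' * y) := by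
  obtain ⟨ν, hν⟩ : ∃ ν, ν * Φ.B d b = θ * (κ' - κ) := ⟨_, div_mul_cancel₀ _ hdb⟩
  obtain ⟨κ₀, h0⟩ := exists_kappa Φ hθ (σ ν • b)
  refine (cj_mv hy (b := σ ν • b) ⟨h.aa, by simp [hbf], h0⟩ hf h.ba κ).congr ?_
  have h1 := congrArg σ hν
  rw [map_mul, map_mul, map_sub, σ_B] at h1
  congr 2
  · rw [map_smul, hb]; abel
  · rw [map_smul, hb, B_add_right, ← h0]
    simp only [B_smul_left, B_smul_right, Φ.invol]
    linear_combination hν + h1 + (κ' - κ) * hθ + σ θ * (h.bb - h'.bb)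

theorem z_of_Y (hS : GS Φ S) {θ : F} (hθ : θ + σ θ = 1) {b b' : V} (hb : Φ.B b' b ≠ 0)
    (h : YI Φ S a b) (h' : ∀ t : F, YI Φ S a (t • b')) (κ : F) (hκ : σ κ = κ) : QI Φ S a 0 κ := by
  obtain ⟨κ₁, h⟩ := h
  obtain ⟨κ₂, h'⟩ := h' (θ * κ / Φ.B b' b)
  refine (h.comm hS h').congr rfl rfl ?_
  rw [B_smul_left, div_mul_cancel₀ _ hb, map_mul, hκ]
  linear_combination κ * hθ

theorem UC.swap (h : UC Φ u e f c a) :
    UC Φ (Φ.q f c 0 * (Φ.q e (-c) 0 * u)) f (-e) c a := by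
  have k := h.cfg
  have hfe := one_symm h.ef
  have v1 : Φ.QV e 0 1 := ⟨h.ee, by simp, by simp⟩
  have v2 : Φ.QV f 0 1 := ⟨h.ff, by simp, by simp⟩
  obtain ⟨g, hg⟩ : ∃ g, g = Φ.q e 0 1 * Φ.q f 0 1 := ⟨_, rfl⟩
  have gp : Φ.Pres g := hg ▸ v1.pres.mul v2.pres
  have ge : g e = f := by simp [hg, q_apply, h.ef, h.ee, hfe]
  have gc : g c = c := by simp [hg, q_apply, h.ce, h.cf]
  have gu : IsUnit g := (LinearMap.isUnit_iff_isUnit_det g).2 (by simp [hg, v1.det, v2.det])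
  have hc : Φ.q f c 0 * (Φ.q e (-c) 0 * u) * g = g * u := by
    conv_rhs => rw [← h.eq, ← mul_assoc, ← q_conj gp, ge, gc]
    rw [mul_assoc, mul_assoc _ g, hg, ← mul_assoc (_ * u), ← q_comm k.py 1 k.ye (by simp),
      mul_assoc (Φ.q e 0 1), ← q_comm k.py 1 k.yf (by simp), ← mul_assoc (Φ.q e 0 1)]
  refine ⟨(QV.pres ⟨h.ff, h.cf, by simp [h.cc]⟩).mul k.py, h.ff, by simp [h.ee], h.cc, h.aa,
    by simp [hfe], h.cf, by simp [h.ce], h.af, by simp [h.ae], h.ac, ?_, ?_, ?_, ?_, fun x hx => ?_⟩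
  · rw [Module.End.mul_apply, k.yf]; simp [q_apply, h.ff, zero_symm h.cf]
  · rw [Module.End.mul_apply, map_neg, k.ye]; simp [q_apply, h.ef, zero_symm h.ce, sub_eq_add_neg]
  · rw [Module.End.mul_apply, k.ya]; simp [q_apply, h.af, h.ac]
  · obtain ⟨n, hn⟩ := h.nil
    have : ∀ j : ℕ, (Φ.q f c 0 * (Φ.q e (-c) 0 * u) - 1) ^ j * g = g * (u - 1) ^ j := fun j => by
      induction j with
      | zero => simp
      | succ j ih => rw [pow_succ', mul_assoc, ih, ← mul_assoc, sub_mul, hc, pow_succ']; noncomm_ring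
    exact ⟨n, gu.mul_left_eq_zero.1 (by rw [this, hn, mul_zero])⟩
  · obtain ⟨x, rfl⟩ := ((Module.End.isUnit_iff g).1 gu).2 x
    obtain ⟨z, rfl⟩ := h.surj x (by rw [← gp, ge, hx])
    exact ⟨g z, by rw [← Module.End.mul_apply, hc, map_sub]; rfl⟩

theorem UC.chain (h : UC Φ u e f c a) (hN : ∀ x, x ≠ 0 → ∃ y, Φ.B y x ≠ 0) {x : V}
    (hx : ∀ t : F, x ≠ t • e) : ∃ (k : ℕ) (s t : F), s ≠ 0 ∧ ((u - 1) ^ k) x = s • a + t • e := by
  classical
  have ker : ∀ z, u z - z = 0 → ∃ t : F, z = t • e := fun z hz => by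
    refine ⟨Φ.B z f, sub_eq_zero.1 ?_⟩
    by_contra h0
    obtain ⟨y, hy⟩ := hN _ h0
    obtain ⟨w, hw⟩ := h.surj (y + Φ.B y e • f) (by simp [one_symm h.ef])
    have h1 : Φ.B (u w) z = Φ.B w z := by rw [← h.pu w z, sub_eq_zero.1 hz]
    have h2 := congrArg (Φ.B · z) hw
    simp only [B_sub_left, B_add_left, B_smul_left, h1] at h2
    exact hy (by simp only [B_sub_right, B_smul_right, σ_B]; linear_combination -h2)
  obtain ⟨n, hn⟩ := h.nil
  have hex : ∃ k : ℕ, ∃ t : F, ((u - 1) ^ k) x = t • e := ⟨n, 0, by simp [hn]⟩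
  obtain ⟨s, hs⟩ := Nat.find_spec hex
  obtain ⟨k, hk⟩ : ∃ k, Nat.find hex = k + 1 := Nat.exists_eq_succ_of_ne_zero fun h0 => by
    rw [h0] at hs; exact hx s hs
  have hmin := Nat.find_min hex (m := k) (by omega)
  rw [hk, pow_succ', Module.End.mul_apply, LinearMap.sub_apply, Module.End.one_apply] at hs
  obtain ⟨t, ht⟩ := ker (((u - 1) ^ k) x - s • a) (by
    rw [map_sub, map_smul, h.ua]; linear_combination (norm := module) hs)
  exact ⟨k, s, t, fun h0 => hmin ⟨t, by simpa [h0] using ht⟩, by rw [← ht]; abel⟩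

theorem YI.pow (hS : GS Φ S) (hu : u ∈ S) (he : u e = e) {x : V} (h : YI Φ S e x) (k : ℕ) :
    YI Φ S e (((u - 1) ^ k) x) := by
  induction k with
  | zero => exact h
  | succ k ih => exact ((ih.conj hS hu he).sub hS ih).congr (by rw [pow_succ']; rfl)

theorem UC.exists_full (h : UC Φ u e f c a) (hS : GS Φ S) (hu : u ∈ S) (hF : Full Φ S f) :
    ∃ x x', Full Φ S x ∧ Full Φ S x' ∧ Φ.B x' x ≠ 0 := by
  have hk : ∀ k : ℕ, Full Φ S ((u ^ k) f) := fun k => hF.conj hS (S.pow_mem hu k)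
  by_contra hc
  have h0 : ∀ k : ℕ, Φ.B ((u ^ k) f) f = 0 := fun k => by
    by_contra h1; exact hc ⟨_, _, hF, hk k, h1⟩
  obtain ⟨n, hn⟩ := h.nil
  let Y : Submodule F V :=
    { carrier := {x | ∀ k : ℕ, Φ.B ((u ^ k) x) f = 0}
      zero_mem' := fun k => by simp
      add_mem' := fun hx hy k => by simp [hx k, hy k]
      smul_mem' := fun t x hx k => by simp [hx k] }
  have := nakayama (u - 1) hn Set.univ Y (fun y hy k => by
    have h1 := hy (k + 1)
    rw [pow_succ, Module.End.mul_apply] at h1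
    simp [h1, hy k]) (fun x _ => by
    obtain ⟨z, hz⟩ := h.surj (x + Φ.B x e • f) (by simp [one_symm h.ef])
    exact ⟨(-Φ.B x e) • f, Y.smul_mem _ h0, z, trivial, by
      rw [LinearMap.sub_apply, Module.End.one_apply, hz]; module⟩) e trivial 0
  simp [h.ef] at this

theorem UC.cj_unit (h : UC Φ u e f c a) {θ : F} (hθ : θ + σ θ = 1) {d : V} {κ : F}
    (hd : Φ.QV f d κ) (de : Φ.B d e = 0) (da : Φ.B d a = 0) :
    Cj Φ u (Φ.q f c 0 * (Φ.q e (-c) 0 * u)) ∧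
      Cj Φ u (Φ.q f d κ * (Φ.q f c 0 * (Φ.q e (-c) 0 * u))) := by
  have k := h.cfg
  have h1 := cj_ef k.py h.ee h.ff h.ef h.ce h.cf k.ye k.yf 0
  rw [h.eq] at h1
  refine ⟨h1, ?_⟩
  obtain ⟨b, b1, b2, b3⟩ := h.exists_b de hd.ba da
  obtain ⟨κ₀, h0⟩ := exists_kappa Φ hθ b
  generalize Φ.q e (-c) 0 * u = y at *
  have t1 : QI Φ ⊤ f b κ₀ := ⟨⟨h.ff, b2, h0⟩, trivial⟩
  have t2 : QI Φ ⊤ f c 0 := ⟨⟨h.ff, h.cf, by simp [h.cc]⟩, trivial⟩
  have t3 : QI Φ ⊤ f (-y b) (-σ κ₀) := ⟨⟨h.ff, by rw [B_neg_left, ← k.yf, k.py, b2, neg_zero], by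
    simp only [map_neg, Φ.invol, B_neg_left, B_neg_right, k.py b b, ← h0]; ring⟩, trivial⟩
  have t4 : QI Φ ⊤ f d κ := ⟨hd, trivial⟩
  have e1 : b + c - y b = d + c := by rw [← b3]; abel
  have t5 := ((t1.mul t2).mul t3).congr rfl (b' := d + c) (κ' := κ₀ + 0 + Φ.B c b - σ κ₀ -
    Φ.B (y b) (b + c)) (by rw [← e1]; abel) (by rw [B_neg_left]; ring)
  have h2 := h1.trans (cj_mv k.py t1.v k.yf h.cf 0)
  rw [e1] at h2
  refine (h2.trans (cj_shift hθ k.py k.yf k.ya h.af t5.v (t4.mul t2).v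
    (by simp [da, one_symm h.ac]))).congr ?_
  rw [← mul_assoc, q_mul h.ff hd.ba h.cf]

theorem UC.full_unit (h : UC Φ u e f c a) (hN : ∀ x, x ≠ 0 → ∃ y, Φ.B y x ≠ 0) {θ : F}
    (hθ : θ + σ θ = 1) : ∃ s : F, s ≠ 0 ∧ ∀ (d : V) (κ : F), Φ.QV f d κ → Φ.B d e = 0 →
      Φ.B d a = 0 → Φ.B d d ≠ 0 → Φ.B (u d) f = 0 → Gen (κ * s) → ∀ S, GS Φ S → u ∈ S →
      Φ.q f c 0 * (Φ.q e (-c) 0 * u) ∈ S → Φ.q f d κ * (Φ.q f c 0 * (Φ.q e (-c) 0 * u)) ∈ S →
      ∃ x x', Full Φ S x ∧ Full Φ S x' ∧ Φ.B x' x ≠ 0 := by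
  have k := h.swap
  generalize Φ.q f c 0 * (Φ.q e (-c) 0 * u) = v at k ⊢
  have hca := one_symm h.ac
  have hfa := zero_symm h.af
  obtain ⟨K, s, t₀, hs, hK⟩ := k.chain hN (x := c) fun t ht => by
    simpa [h.ac, h.af] using congrArg (Φ.B a) ht
  refine ⟨s, hs, fun d κ hd de da dd udf hg S hS hu hv hr => h.exists_full hS hu ?_⟩
  have hκ : κ ≠ 0 := fun h0 => dd (by rw [← hd.bb, h0]; simp)
  have r : QI Φ S f d κ := ⟨hd, hS.of_right hv hr⟩
  have uda : Φ.B (u d) a = 0 := by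
    have h1 := h.pu d a
    have h2 := h.pu d e
    rw [h.ue, de] at h2
    rwa [h.ua, B_add_right, h2, add_zero, da] at h1
  obtain ⟨z₀, hz₀, hz₁⟩ : ∃ z, Φ.B z f = 0 ∧ u d = v z - z := by
    obtain ⟨t, z, hz, e1⟩ := k.hr (u d) udf
    have h1 : Φ.B (v z) f = 0 := by rw [← k.ue, k.pu, hz]
    have h2 : Φ.B (v z) a = Φ.B z a := by rw [← k.pu z a, k.ua, B_add_right, h1, add_zero]
    have ht : t = 0 := by simpa [uda, h2, hca] using congrArg (Φ.B · a) e1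
    exact ⟨z, hz, by simpa [ht] using e1⟩
  have hvf : (v - 1) f = 0 := by simp [k.ue]
  obtain ⟨t₁, ht₁⟩ : ∃ t : F, ((v - 1) ^ K) (u d) = t • f := by
    obtain ⟨n, hn⟩ := k.nil
    have := nakayama (v - 1) hn {x | Φ.B x f = 0}
      ((Submodule.span F {f}).comap ((v - 1) ^ (K + 1))) (fun y hy => by
        obtain ⟨t, ht⟩ := Submodule.mem_span_singleton.1 hy
        rw [Submodule.mem_comap, ← Module.End.mul_apply, ← pow_succ, pow_succ', Module.End.mul_apply,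
          ← ht, map_smul, hvf, smul_zero]
        exact Submodule.zero_mem _) (fun x hx => by
        obtain ⟨t, z, hz, e1⟩ := k.hr x hx
        refine ⟨t • c, Submodule.smul_mem _ _ ?_, z, hz, e1⟩
        rw [Submodule.mem_comap, pow_succ', Module.End.mul_apply, hK, map_add, map_smul, map_smul, hvf]
        simp [k.ua, Submodule.smul_mem _ _ (Submodule.mem_span_singleton_self f)]) z₀ hz₀
    obtain ⟨t, ht⟩ := Submodule.mem_span_singleton.1 this
    exact ⟨t, by rw [ht, hz₁, pow_succ]; rfl⟩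
  have r1 := (r.conj hS hu).congr h.uf rfl rfl
  have step : ∀ t : F, YI Φ S f (t • a) → YI Φ S f (t • (u d - κ • c)) := fun t ⟨κ₂, h2⟩ => by
    have h3 := (r1.conj hS h2.m).congr (a' := f - c + σ t • f) (b' := u d)
      (by simp [q_apply, h.ff, h.cf, hfa, hca]) (by simp [q_apply, udf, uda]) rfl
    have h4 := (r1.two hS h3 (by simp [h.ff, zero_symm h.cf])).unscale h.ff
      (by simp [udf, h.ff, h.cf])
    refine (YI.sub hS ⟨_, h4⟩ (YI.self h.ff (t * κ))).congr ?_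
    rw [Φ.invol]; module
  obtain ⟨K', s', t', hs', hK'⟩ := k.chain hN (x := d) fun t ht => dd (by simp [ht, h.ff])
  have Ya : ∀ t : F, YI Φ S f (t • a) := hg.neg (ysc hS h.ff a) ⟨s',
    ((YI.pow hS hv k.ue ⟨κ, r⟩ K').sub hS (YI.self h.ff t')).congr (by rw [hK']; abel), hs'⟩
    fun t ht => (((step t ht).pow hS hv k.ue K).sub hS (YI.self h.ff (t * t₁ - t * κ * t₀))).congr (by
      rw [map_smul, map_sub, map_smul, ht₁, hK]; module)
  have Y := Y_all hS h.ff hv k.ue k.nil (fun t => step t (Ya t)) fun x hx => by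
    obtain ⟨t, z, hz, e1⟩ := k.hr x hx
    refine ⟨-(t / κ), z + (t / κ) • z₀, by simp [hz, hz₀], ?_⟩
    rw [e1, map_add, map_smul, hz₁]
    match_scalars <;> field_simp <;> ring
  exact full_of_Y hS h.ff Y (z_of_Y hS hθ (by simp [h.ac]) (Y c h.cf) Ya)

theorem fixed_of_pres {x y : V} {κ : F} (h : Φ.Pres (Φ.q x 0 κ)) (hx : Φ.B x x = 0)
    (hy : Φ.B y x ≠ 0) : σ κ = κ := by
  have h1 := h y y
  have h2 : Φ.B x y ≠ 0 := fun e => hy (zero_symm e)
  simp only [q_apply, B_add_left, B_add_right, B_smul_left, B_smul_right, hx, B_zero_left,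
    B_zero_right, map_add, map_mul, map_zero, σ_B] at h1
  exact mul_left_cancel₀ (mul_ne_zero hy h2) (by linear_combination -h1)

end gen

variable {F : Type*} [Field F] [Fintype F] {q : ℕ}

theorem assemble_su (hF : Fintype.card F = q ^ 2) {V : Type*} [AddCommGroup V] [Module F V]
    [FiniteDimensional F V] {Φ : SK (H23.conj hF) V} {n : ℕ} (hV : finrank F V = n) (hn : 2 ≤ n)
    (h32 : ¬ (n = 3 ∧ q = 2)) (hN : ∀ x, x ≠ 0 → ∃ y, Φ.B y x ≠ 0) {u v w : Module.End F V}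
    (hu : Φ.Pres u) (hnil : IsNilpotent (u - 1)) (hr : (u - 1) ^ (n - 1) ≠ 0) (hv : Cj Φ u v)
    (hw : Cj Φ u w) (h : ∀ S, GS Φ S → u ∈ S → v ∈ S → w ∈ S →
      ∃ x x', Full Φ S x ∧ Full Φ S x' ∧ Φ.B x' x ≠ 0) :
    ∃ u g k : ↥(Cfsg.SU n F q), (IsNilpotent (((u : Matrix.SpecialLinearGroup (Fin n) F) :
      Matrix (Fin n) (Fin n) F) - 1) ∧ (((u : Matrix.SpecialLinearGroup (Fin n) F) :
      Matrix (Fin n) (Fin n) F) - 1) ^ (n - 1) ≠ 0) ∧
      Subgroup.closure ({u, g * u * g⁻¹, k * u * k⁻¹} : Set ↥(Cfsg.SU n F q)) = ⊤ ∧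
      (v = w → k * u * k⁻¹ = g * u * g⁻¹) := by
  obtain ⟨δ, hδ0, hδ⟩ := H23.exists_trace_zero_ne_zero hF
  have hδ' : H23.conj hF δ = -δ := by rw [H23.conj_apply]; linear_combination hδ
  obtain ⟨θ, hθ⟩ := H23.Form.exists_add_conj_eq_one (H23.conj_ne_id hF) (H23.conj_conj hF)
  let B' : V →ₛₗ[H23.conj hF] V →ₗ[F] F :=
    { toFun := fun x => δ⁻¹ • Φ.L x
      map_add' := fun x y => by
        ext z; exact (congrArg (δ⁻¹ * ·) (Φ.B_add_right x y z)).trans (mul_add _ _ _)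
      map_smul' := fun t x => by
        ext z; exact (congrArg (δ⁻¹ * ·) (Φ.B_smul_right t x z)).trans (mul_left_comm _ _ _) }
  have hB' : ∀ x y, B' x y = δ⁻¹ * Φ.B y x := fun _ _ => rfl
  obtain ⟨b, hb⟩ := H23.exists_orthonormal_basis_herm (H23.conj_ne_id hF)
    (Φ := H23.Form.ofHerm (H23.conj_ne_id hF) (H23.conj_conj hF) B' ⟨fun x y => by
      rw [hB', hB', map_mul, map_inv₀, hδ', σ_B]; field_simp⟩) rfl (fun x hx => by
      by_contra h0
      obtain ⟨y, hy⟩ := hN x h0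
      exact mul_ne_zero (inv_ne_zero hδ0) hy (hx y)) hV
  have hb' : ∀ i j, Φ.B (b i) (b j) = if i = j then δ else 0 := fun i j => by
    have := hb j i
    rw [H23.Form.ofHerm_B, hB', inv_mul_eq_iff_eq_mul₀ hδ0] at this
    rw [this]; by_cases e : i = j <;> simp [e, eq_comm]
  let φ := b.equivFun
  let Ψ := (LinearMap.toMatrixAlgEquiv b).symm
  have hΨ : ∀ M x, φ (Ψ M x) = M *ᵥ φ x := fun M x => by
    have := LinearMap.toMatrix_mulVec_repr b b (Ψ M) x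
    have e : LinearMap.toMatrix b b (Ψ M) = M := Ψ.symm_apply_apply M
    rw [e] at this
    exact this.symm
  have hB : ∀ x y, Φ.B x y = δ * Cfsg.hermForm n F q (φ x) (φ y) := fun x y => by
    have h1 : ∀ i, Φ.B (b i) y = δ * φ y i ^ q := fun i => by
      conv_lhs => rw [← b.sum_equivFun y]
      rw [Φ.skew, show ∀ x z, Φ.B x z = Φ.L z x from fun _ _ => rfl, map_sum, Finset.sum_eq_single i]
      · rw [map_smul, smul_eq_mul, show Φ.L (b i) (b i) = Φ.B (b i) (b i) from rfl, hb', if_pos rfl,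
          map_mul, hδ', H23.conj_apply]; ring
      · intro j _ hj
        rw [map_smul, show Φ.L (b i) (b j) = Φ.B (b j) (b i) from rfl, hb', if_neg hj, smul_zero]
      · simp
    conv_lhs => rw [← b.sum_equivFun x]
    rw [show ∀ x z, Φ.B x z = Φ.L z x from fun _ _ => rfl, map_sum, Cfsg.hermForm, Finset.mul_sum]
    refine Finset.sum_congr rfl fun i _ => ?_
    rw [map_smul, smul_eq_mul, show Φ.L y (b i) = Φ.B (b i) y from rfl, h1]; ring
  let ρ : ↥(Cfsg.SU n F q) →* Module.End F V :=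
    ((Ψ : _ →* _).comp SpecialLinearGroup.coeMonoidHom).comp (Cfsg.SU n F q).subtype
  have hρ : ∀ A, ρ A = Ψ (A.1 : Matrix _ _ F) := fun _ => rfl
  have inj : Function.Injective ρ :=
    (Ψ.injective.comp SpecialLinearGroup.coeMonoidHom_injective).comp Subtype.val_injective
  have hp : ∀ A, Φ.Pres (ρ A) := fun A x y => by
    rw [hB, hB, hρ, hΨ, hΨ]; exact congrArg _ (A.2 _ _)
  obtain ⟨u', g, k, h1, h3, h4, h2⟩ := assemble (Φ := Φ) ρ inj (fun g hg hd => ⟨⟨⟨Ψ.symm g, by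
      rw [← hd, ← LinearMap.det_toMatrix b]; rfl⟩, fun x y => by
      obtain ⟨x, rfl⟩ := φ.surjective x
      obtain ⟨y, rfl⟩ := φ.surjective y
      refine mul_left_cancel₀ hδ0 ?_
      have := hg x y
      rw [hB, hB, ← Ψ.apply_symm_apply g, hΨ, hΨ] at this
      exact this⟩, Ψ.apply_symm_apply g⟩) hp
    (fun G hG => by
      rw [eq_top_iff, ← H23.su_closure_transvections hF n hn h32, Subgroup.closure_le]
      rintro A ⟨x, κ, hx, hA⟩
      obtain ⟨x, rfl⟩ := φ.surjective x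
      have hx' : Φ.B x x = 0 := by rw [hB, hx, mul_zero]
      have key : ρ A = Φ.q x 0 (κ / δ) := LinearMap.ext fun y => φ.injective <| by
        rw [hρ, hΨ, hA, Cfsg.unitaryTransvection, add_mulVec, one_mulVec, smul_mulVec, vmv_mulVec,
          q_apply, hB y x, dotProduct_comm, B_zero_right, smul_zero, add_zero, zero_add, ← mul_assoc,
          div_mul_cancel₀ _ hδ0, map_add, map_smul, smul_smul]
        rfl
      by_cases h0 : x = 0
      · refine hG A ⟨x, 0, hx', map_zero _, key.trans ?_⟩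
        ext y; simp [q_apply, h0]
      · obtain ⟨y, hy⟩ := hN x h0
        exact hG A ⟨x, _, hx', fixed_of_pres (key ▸ hp A) hx' hy, key⟩)
    hN (exists_kappa Φ hθ) hu (det_unip hnil) hv hw h
  have e : Ψ ((u'.1 : Matrix _ _ F) - 1) = u - 1 := by rw [map_sub, map_one, ← h1]; rfl
  refine ⟨u', g, k, ⟨?_, fun h0 => hr ?_⟩, h2, fun e => inj (by rw [h3, h4, e])⟩
  · have := hnil.map Ψ.symm
    rwa [← e, Ψ.symm_apply_apply] at this
  · rw [← e, ← map_pow, h0, map_zero]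

end H16.SQ
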