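import Cfsg.Agent.H16.SQ4

/-! A regular unipotent element of the unitary group in odd dimension at least five. -/

set_option autoImplicit false
set_option linter.unusedSectionVars false
set_option linter.unusedSimpArgs false
set_option linter.unusedVariables false

namespace H16.SQ

open SK RU Module Matrix

variable {F : Type*} [Field F] {σ : F →+* F} {m : ℕ}

theorem conj_dot {n : ℕ} (x y : Fin n → F) : σ (x ⬝ᵥ y) = (σ ∘ x) ⬝ᵥ (σ ∘ y) := by
  simp [dotProduct]

theorem conj_E (k : ℕ) : σ ∘ E m F k = E m F k := by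
  ext i; simp only [Function.comp_apply, E]; split_ifs <;> simp

theorem map_U : (U m F).map σ = U m F := by
  ext i j; simp only [U, sh, map_apply, Matrix.add_apply, one_apply, of_apply]
  split_ifs <;> simp

theorem conj_U (x : Fin (m + 1) → F) : σ ∘ (U m F *ᵥ x) = U m F *ᵥ (σ ∘ x) := by
  ext i; rw [Function.comp_apply, RingHom.map_mulVec, map_U]

theorem conj_UA (x : Fin (m + 1) → F) : σ ∘ (UA m F *ᵥ x) = UA m F *ᵥ (σ ∘ x) := by
  have : (UA m F).map σ * (U m F)ᵀ = 1 := by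
    rw [← map_U (σ := σ), ← transpose_map, ← Matrix.map_mul, UA_mul]; simp
  ext i; rw [Function.comp_apply, RingHom.map_mulVec, left_inv_eq_left_inv this UA_mul]

/-- the split skew-hermitian form in odd dimension -/
def suK (n : ℕ) (hσ : ∀ c, σ (σ c) = c) {δ : F} (hδ : σ δ = -δ) :
    SK σ ((Fin n → F) × (Fin n → F) × F) where
  L y :=
    { toFun := fun x => x.2.1 ⬝ᵥ (σ ∘ y.1) - x.1 ⬝ᵥ (σ ∘ y.2.1) + δ * x.2.2 * σ y.2.2
      map_add' := fun x x' => by simp [add_dotProduct]; ring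
      map_smul' := fun c x => by simp [smul_dotProduct]; ring }
  invol := hσ
  skew' x y := by
    have : ∀ z : Fin n → F, σ ∘ σ ∘ z = z := fun z => funext fun i => hσ _
    simp only [LinearMap.coe_mk, AddHom.coe_mk, map_add, map_sub, map_mul, conj_dot, this, hσ, hδ,
      dotProduct_comm (σ ∘ _)]
    ring

variable {hσ : ∀ c, σ (σ c) = c} {δ : F} {hδ : σ δ = -δ}

theorem suK_B {n : ℕ} (x y : (Fin n → F) × (Fin n → F) × F) : (suK n hσ hδ).B x y =
    x.2.1 ⬝ᵥ (σ ∘ y.1) - x.1 ⬝ᵥ (σ ∘ y.2.1) + δ * x.2.2 * σ y.2.2 := rfl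

theorem suK_nd {n : ℕ} (h0 : δ ≠ 0) (x : (Fin n → F) × (Fin n → F) × F) (hx : x ≠ 0) :
    ∃ y, (suK n hσ hδ).B y x ≠ 0 := by
  by_contra hc
  push Not at hc
  refine hx (Prod.ext (funext fun i => ?_) (Prod.ext (funext fun i => ?_) ?_))
  · simpa [suK_B] using hc (0, Pi.single i 1, 0)
  · simpa [suK_B] using hc (Pi.single i 1, 0, 0)
  · simpa [suK_B, h0] using hc (0, 0, 1)

/-- the regular unipotent unitary map -/
noncomputable def suU (m : ℕ) (hσ : ∀ c, σ (σ c) = c) (hδ : σ δ = -δ) (κ : F) :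
    Module.End F ((Fin (m + 1) → F) × (Fin (m + 1) → F) × F) :=
  (suK (m + 1) hσ hδ).q (E m F m, 0, 0) (0, 0, 1) κ *
    (toLin' (UA m F)).prodMap ((toLin' (U m F)).prodMap LinearMap.id)

theorem suU_apply (κ : F) (x y : Fin (m + 1) → F) (z : F) : suU m hσ hδ κ (x, y, z) =
    (UA m F *ᵥ x + (δ * z + κ * (U m F *ᵥ y) ⬝ᵥ E m F m) • E m F m, U m F *ᵥ y,
      z + (U m F *ᵥ y) ⬝ᵥ E m F m) := by
  simp [suU, q_apply, suK_B, conj_E]

theorem suU_uc (hm : 1 ≤ m) (h0 : δ ≠ 0) {κ : F} (hκ : κ - σ κ = δ) :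
    UC (suK (m + 1) hσ hδ) (suU m hσ hδ κ) (E m F 0, 0, 0) (0, -E m F 0, 0)
      (((if m = 1 then 1 else 0) * κ) • E m F m, E m F 1, if m = 1 then 1 else 0)
      (-E m F 1, 0, 0) := by
  have d : ∀ j k, k ≤ m → E m F j ⬝ᵥ E m F k = if k = j then 1 else 0 := fun j k hk => by
    rw [E_dot_E, if_pos hk]
  have hm0 : m ≠ 0 := by omega
  have cn : ∀ x : Fin (m + 1) → F, σ ∘ (-x) = -(σ ∘ x) := fun x => by ext; simp
  have cs : ∀ (t : F) (x : Fin (m + 1) → F), σ ∘ (t • x) = σ t • (σ ∘ x) := fun t x => by ext; simp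
  have c0 : σ ∘ (0 : Fin (m + 1) → F) = 0 := by ext; simp
  refine ⟨(QV.pres ⟨by simp [suK_B, c0], by simp [suK_B, c0], by simp [suK_B, c0, hκ]⟩).mul
    fun x y => ?_, by simp [suK_B, c0], by simp [suK_B, c0], ?_, by simp [suK_B, c0],
    by simp [suK_B, c0, cn, conj_E, d], by simp [suK_B, c0, conj_E, d], ?_, by simp [suK_B, c0],
    by simp [suK_B, c0, cn, conj_E, d], by simp [suK_B, conj_E, d 1 1 hm],
    by simp [suU_apply, UA_E0], ?_, ?_, ?_, ?_⟩
  · simp [suK_B, conj_U, conj_UA, UA_dot, dotProduct_comm (UA m F *ᵥ _), dotProduct_comm x.1]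
  · rw [suK_B]
    simp only [cs, conj_E, dotProduct_smul, smul_dotProduct, d 1 m le_rfl, d m 1 hm]
    by_cases h : m = 1
    · subst h; simp [← hκ]
    · simp [h]
  · rw [suK_B]; simp only [c0, cn, conj_E, dotProduct_zero, dotProduct_neg, smul_dotProduct,
      d m 0 (by omega)]
    simp [hm0.symm]
  · simp only [suU_apply, mulVec_neg, U_E, mulVec_zero, neg_dotProduct, add_dotProduct,
      d _ m le_rfl, hm0, if_false, Prod.mk_sub_mk, Nat.reduceAdd]
    congr 1
    · split_ifs <;> simp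
    · congr 1
      · abel
      · simp
  · simp [suU_apply, mulVec_neg, UA_E1 hm]; abel
  · have h1 : ∀ k : ℕ, ∀ x, (((suU m hσ hδ κ - 1) ^ k) x).2.1 = sh m F ^ k *ᵥ x.2.1 := fun k => by
      induction k with
      | zero => simp
      | succ k ih =>
        intro x
        rw [pow_succ, Module.End.mul_apply, ih, pow_succ, ← mulVec_mulVec]
        obtain ⟨x, y, z⟩ := x
        simp [suU_apply, U_mulVec]
    have h2 : ∀ k : ℕ, ∀ x, ((suU m hσ hδ κ - 1) ^ k) (x, 0, 0) =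
        ((UA m F - 1) ^ k *ᵥ x, 0, 0) := fun k => by
      induction k with
      | zero => simp
      | succ k ih =>
        intro x
        rw [pow_succ, Module.End.mul_apply, pow_succ, ← mulVec_mulVec, ← ih]
        congr 1
        simp [suU_apply, sub_mulVec]; rfl
    refine ⟨(m + 1) + 1 + (m + 1), LinearMap.ext fun x => ?_⟩
    rw [pow_add, Module.End.mul_apply]
    have := h1 (m + 1) x
    rw [sh_pow_succ, zero_mulVec] at this
    obtain ⟨p, p', z, e⟩ : ∃ p p' z, ((suU m hσ hδ κ - 1) ^ (m + 1)) x = (p, p', z) := ⟨_, _, _, rfl⟩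
    rw [e] at this ⊢
    obtain rfl : p' = 0 := this
    have h3 : (suU m hσ hδ κ - 1) (p, 0, z) = (UA m F *ᵥ p + (δ * z) • E m F m - p, 0, 0) := by
      simp [suU_apply, Prod.mk_zero_zero]
    rw [pow_succ, Module.End.mul_apply, h3, h2, UA_nil]
    simp
  · rintro ⟨p, p', r⟩ hx
    have h1 : p' 0 = 0 := by
      rw [suK_B, conj_E, c0, ← E0_eq, dot_E0] at hx; simpa using hx
    obtain ⟨z', hz', -⟩ := exists_sh_mulVec h1
    obtain ⟨ζ, hζ⟩ : ∃ t, δ * t = p (Fin.last m) - κ * r := ⟨_, mul_div_cancel₀ _ h0⟩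
    obtain ⟨w, hw, -⟩ := exists_vecMul_sh (x := p (Fin.last m) • E m F m - p) (by simp [E])
    refine ⟨(w ᵥ* U m F, z' + (r - (U m F *ᵥ z') ⬝ᵥ E m F m) • E m F m, ζ), ?_⟩
    rw [suU_apply, UA_vecMul, mulVec_add, mulVec_smul, U_mulVec (E m F m), sh_E_last, add_zero,
      add_dotProduct, smul_dotProduct, d m m le_rfl, if_pos rfl, vecMul_U, hw, smul_eq_mul, mul_one,
      add_sub_cancel, hζ, sub_add_cancel, Prod.mk_sub_mk, Prod.mk_sub_mk, U_mulVec z', hz']
    congr 1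
    · module
    · congr 1
      · module
      · ring

theorem Gen.succ {γ : F} (h : Gen γ) : Gen (γ + 1) := fun S h0 hm =>
  h S h0 fun x hx => by simpa [add_mul] using S.sub_mem (hm x hx) hx

theorem exists_gen_moved [Fintype F] (h : σ ≠ RingHom.id F) {s : F} (hs : s ≠ 0) :
    ∃ κ, Gen (κ * s) ∧ σ κ ≠ κ := by
  obtain ⟨ω, -, hω⟩ := exists_genel (F := F)
  by_contra hc
  push Not at hc
  have h1 := hc (ω / s) (by rwa [div_mul_cancel₀ _ hs])
  have h2 := hc ((ω + 1) / s) (by rw [div_mul_cancel₀ _ hs]; exact Gen.succ hω)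
  have h3 : σ (1 / s) = 1 / s := by
    rw [add_div, map_add, h1] at h2; exact add_left_cancel h2
  have h4 : σ ω = ω := by
    rw [div_eq_mul_one_div, map_mul, h3] at h1
    exact mul_right_cancel₀ (one_div_ne_zero hs) h1
  exact h (RingHom.ext (hω (σ.eqLocus (RingHom.id F)).toAddSubgroup ⟨1, map_one σ, one_ne_zero⟩
    fun x hx => (map_mul σ ω x).trans (congrArg₂ _ h4 hx)))

theorem su_big [Fintype F] {q : ℕ} (hF : Fintype.card F = q ^ 2) (hm : 1 ≤ m) {n : ℕ}
    (hn : n = 2 * (m + 1) + 1) :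
    ∃ u g k : ↥(Cfsg.SU n F q), (IsNilpotent (((u : Matrix.SpecialLinearGroup (Fin n) F) :
      Matrix (Fin n) (Fin n) F) - 1) ∧ (((u : Matrix.SpecialLinearGroup (Fin n) F) :
      Matrix (Fin n) (Fin n) F) - 1) ^ (n - 1) ≠ 0) ∧
      Subgroup.closure ({u, g * u * g⁻¹, k * u * k⁻¹} : Set ↥(Cfsg.SU n F q)) = ⊤ := by
  obtain ⟨δ, h0, hδ⟩ := H23.exists_trace_zero_ne_zero hF
  have hδ' : H23.conj hF δ = -δ := by rw [H23.conj_apply]; linear_combination hδ
  obtain ⟨θ, hθ⟩ := H23.Form.exists_add_conj_eq_one (H23.conj_ne_id hF) (H23.conj_conj hF)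
  have h := suU_uc (hσ := H23.conj_conj hF) (hδ := hδ') (κ := θ * δ) hm h0 (by
    rw [map_mul, hδ']; linear_combination δ * hθ)
  obtain ⟨s, hs, H⟩ := h.full_unit (suK_nd h0) hθ
  obtain ⟨κ, hg, hκ⟩ := exists_gen_moved (H23.conj_ne_id hF) hs
  obtain ⟨x, hx⟩ := H23.exists_norm_eq_of_invol (H23.conj_ne_id hF) (H23.conj_conj hF)
    (μ := (κ - H23.conj hF κ) / δ) (by
      rw [map_div₀, map_sub, H23.conj_conj, hδ', div_neg, ← neg_div, neg_sub])
  have c0 : H23.conj hF ∘ (0 : Fin (m + 1) → F) = 0 := funext fun _ => map_zero _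
  have dd : κ - H23.conj hF κ = (suK (m + 1) (H23.conj_conj hF) hδ').B (0, 0, x) (0, 0, x) := by
    rw [suK_B, ← mul_div_cancel₀ (κ - H23.conj hF κ) h0, ← hx]; simp only [zero_dotProduct]; ring
  have hd : (suK (m + 1) (H23.conj_conj hF) hδ').QV (0, -E m F 0, 0) (0, 0, x) κ :=
    ⟨h.ff, by rw [suK_B, map_zero]; simp, dd⟩
  have de : (suK (m + 1) (H23.conj_conj hF) hδ').B (0, 0, x) (E m F 0, 0, 0) = 0 := by
    rw [suK_B, map_zero]; simp
  have da : (suK (m + 1) (H23.conj_conj hF) hδ').B (0, 0, x) (-E m F 1, 0, 0) = 0 := by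
    rw [suK_B, map_zero]; simp
  have hc := h.cj_unit hθ hd de da
  have hr : finrank F ((Fin (m + 1) → F) × (Fin (m + 1) → F) × F) = n := by simp [hn]; ring
  obtain ⟨u, g, k, h1, h2, -⟩ := assemble_su hF hr (by omega) (by omega) (suK_nd h0) h.pu h.nil
    (h.reg (by omega)) hc.1 hc.2 (H _ κ hd de da (by rw [← dd]; exact sub_ne_zero.2 hκ.symm) (by
      have cn : H23.conj hF ∘ (-E m F 0) = -E m F 0 := by
        conv_rhs => rw [← conj_E (σ := H23.conj hF)]
        ext; simp only [Function.comp_apply, Pi.neg_apply, map_neg]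
      rw [suU_apply, suK_B, c0, cn, map_zero]
      simp [E_dot_E, show ¬ 0 = m by omega]) hg)
  exact ⟨u, g, k, h1, h2⟩

end H16.SQ
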