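import Cfsg.Agent.H16.SQ5

/-! Two regular unipotent conjugates generate the three-dimensional special unitary group. -/

set_option autoImplicit false
set_option linter.unusedSectionVars false
set_option linter.unusedSimpArgs false
set_option linter.unusedVariables false

namespace H16.SQ

open SK RU Module Matrix

variable {F : Type*} [Field F] {σ : F →+* F}

theorem gen_of_sub [Fintype F] {γ : F}
    (h : ∀ k j : ℕ, 2 ≤ k → 2 ≤ j → k ^ j = Fintype.card F → γ ^ k ≠ γ) : Gen γ := by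
  classical
  intro S ⟨x, hx, h0⟩ hm c
  let R : Subring F :=
    { carrier := {t | ∀ y ∈ S, t * y ∈ S}
      mul_mem' := fun ha hb y hy => by rw [mul_assoc]; exact ha _ (hb y hy)
      one_mem' := fun y hy => by rwa [one_mul]
      add_mem' := fun ha hb y hy => by rw [add_mul]; exact S.add_mem (ha y hy) (hb y hy)
      zero_mem' := fun y hy => by rw [zero_mul]; exact S.zero_mem
      neg_mem' := fun ha y hy => by rw [neg_mul]; exact S.neg_mem (ha y hy) }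
  let _ : Field R := Fintype.fieldOfDomain R
  have h1 := Module.card_eq_pow_finrank (K := R) (V := F)
  have h2 : (⟨γ, hm⟩ : R) ^ Fintype.card R = ⟨γ, hm⟩ := FiniteField.pow_card _
  have h3 : ¬ 2 ≤ finrank R F := fun e =>
    h _ _ Fintype.one_lt_card e h1.symm (congrArg Subtype.val h2)
  have h4 : Fintype.card F ≤ Fintype.card R := by
    rw [h1]; exact (Nat.pow_le_pow_right Fintype.card_pos (by omega)).trans (pow_one _).le
  have h5 : Function.Bijective R.subtype := (Fintype.bijective_iff_injective_and_card _).2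
    ⟨Subtype.val_injective, le_antisymm (Fintype.card_le_of_injective _ Subtype.val_injective) h4⟩
  obtain ⟨t, ht⟩ := h5.2 (c / x)
  have := t.2 x hx
  rwa [show (t : F) = c / x from ht, div_mul_cancel₀ _ h0] at this

theorem arith_q {q k j : ℕ} (hk : 2 ≤ k) (hj : 2 ≤ j) (h : k ^ j = q ^ 2) :
    k ≤ q ∧ k ∣ q ^ 2 :=
  ⟨(Nat.pow_le_pow_iff_left two_ne_zero).1 (h ▸ Nat.pow_le_pow_right (by omega) hj),
    h ▸ dvd_pow_self k (by omega)⟩

theorem arith_gen {q k j : ℕ} (hk : 2 ≤ k) (hj : 2 ≤ j) (h : k ^ j = q ^ 2) (hq : 3 ≤ q)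
    (hd : q + 1 ∣ 3 * (k - 1)) : q = 5 ∨ q = 8 := by
  obtain ⟨h1, h2⟩ := arith_q hk hj h
  obtain ⟨c, hc⟩ := hd
  have key : ∀ p : ℕ, p.Prime → p ∣ q → p ∣ k := fun p hp e =>
    hp.dvd_of_dvd_pow (h ▸ e.trans (dvd_pow_self q two_ne_zero) : p ∣ k ^ j)
  have hc0 : c ≠ 0 := by rintro rfl; omega
  have hc3 : c < 3 := by
    by_contra e
    have := Nat.mul_le_mul_left (q + 1) (not_lt.1 e); omega
  obtain ⟨t, ht⟩ := h2
  have k7 := key 7 (by norm_num)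
  have k5 := key 5 (by norm_num)
  have k11 := key 11 (by norm_num)
  interval_cases c
  · exact absurd rfl hc0
  · have e : q + 4 = 3 * k := by omega
    have : k ∣ 16 := by
      rw [← Int.natCast_dvd_natCast]
      exact ⟨t - 9 * k + 24, by zify at e ht; push_cast; linear_combination ht - (q - 4 + 3 * k) * e⟩
    have := Nat.le_of_dvd (by norm_num) this
    interval_cases k <;> omega
  · have e : 2 * q + 5 = 3 * k := by omega
    have : k ∣ 25 := by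
      rw [← Int.natCast_dvd_natCast]
      exact ⟨4 * t - 9 * k + 30, by
        zify at e ht; push_cast; linear_combination 4 * ht - (2 * q - 5 + 3 * k) * e⟩
    have := Nat.le_of_dvd (by norm_num) this
    interval_cases k <;> omega

/-- a skew-hermitian form in dimension three -/
def s3K (hσ : ∀ c, σ (σ c) = c) {δ : F} (hδ : σ δ = -δ) : SK σ (Fin 3 → F) where
  L y :=
    { toFun := fun x => x 0 * σ (y 2) - x 2 * σ (y 0) + δ * x 1 * σ (y 1)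
      map_add' := fun x x' => by simp; ring
      map_smul' := fun c x => by simp; ring }
  invol := hσ
  skew' x y := by
    simp only [LinearMap.coe_mk, AddHom.coe_mk, map_add, map_sub, map_mul, hσ, hδ]; ring

variable {hσ : ∀ c, σ (σ c) = c} {δ : F} {hδ : σ δ = -δ}

theorem s3K_B (x y : Fin 3 → F) :
    (s3K hσ hδ).B x y = x 0 * σ (y 2) - x 2 * σ (y 0) + δ * x 1 * σ (y 1) := rfl

theorem s3K_nd (h0 : δ ≠ 0) (x : Fin 3 → F) (hx : x ≠ 0) : ∃ y, (s3K hσ hδ).B y x ≠ 0 := by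
  by_contra hc
  push Not at hc
  refine hx (funext fun i => ?_)
  fin_cases i
  · simpa [s3K_B] using hc ![0, 0, 1]
  · simpa [s3K_B, h0] using hc ![0, 1, 0]
  · simpa [s3K_B] using hc ![1, 0, 0]

/-- first generator -/
def s3U (hσ : ∀ c, σ (σ c) = c) (hδ : σ δ = -δ) (κ : F) : Module.End F (Fin 3 → F) :=
  (s3K hσ hδ).q ![1, 0, 0] ![0, 1, 0] κ

/-- second generator -/
def s3V (hσ : ∀ c, σ (σ c) = c) (hδ : σ δ = -δ) (l κ : F) : Module.End F (Fin 3 → F) :=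
  (s3K hσ hδ).q ![0, 0, 1] ![0, l, 0] κ

theorem s3U_apply (κ a b c : F) : s3U hσ hδ κ ![a, b, c] = ![a + δ * b - κ * c, b - c, c] := by
  ext i; fin_cases i <;> simp [s3U, q_apply, s3K_B] <;> ring

theorem s3V_apply (l κ a b c : F) :
    s3V hσ hδ l κ ![a, b, c] = ![a, b + l * a, c + σ l * δ * b + κ * a] := by
  ext i; fin_cases i <;> simp [s3V, q_apply, s3K_B] <;> ring

theorem s3U_pres {κ : F} (hκ : κ - σ κ = δ) : (s3K hσ hδ).Pres (s3U hσ hδ κ) :=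
  QV.pres ⟨by simp [s3K_B], by simp [s3K_B], by rw [hκ, s3K_B]; simp⟩

theorem s3U_sub (κ : F) (x : Fin 3 → F) :
    (s3U hσ hδ κ - 1) x = ![δ * x 1 - κ * x 2, -x 2, 0] := by
  ext i; fin_cases i <;> simp [s3U, q_apply, s3K_B, vecHead, vecTail]; ring

theorem s3U_nil {κ : F} : IsNilpotent (s3U hσ hδ κ - 1) := ⟨3, LinearMap.ext fun x => by
  rw [pow_three', Module.End.mul_apply, Module.End.mul_apply, s3U_sub, s3U_sub, s3U_sub]; simp⟩

theorem s3U_reg (h0 : δ ≠ 0) {κ : F} : (s3U hσ hδ κ - 1) ^ (3 - 1) ≠ 0 := fun e => h0 (by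
  have := congrFun (LinearMap.congr_fun e ![0, 0, 1]) 0
  rw [show 3 - 1 = 2 from rfl, pow_two, Module.End.mul_apply, s3U_sub, s3U_sub] at this
  simpa using this)

theorem s3_cj {θ : F} (hθ : θ + σ θ = 1) (h0 : δ ≠ 0) {κ l κ' α : F} (hκ : κ - σ κ = δ)
    (hκ' : κ' - σ κ' = δ * l * σ l) (hα : α ≠ 0) (hl : l * α = σ α ^ 2) :
    Cj (s3K hσ hδ) (s3U hσ hδ κ) (s3V hσ hδ l κ') := by
  have hα' : σ α ≠ 0 := (map_ne_zero σ).2 hα
  obtain rfl : l = σ α ^ 2 / α := eq_div_of_mul_eq hα hl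
  let g : Module.End F (Fin 3 → F) := toLin' !![0, 0, -(σ α)⁻¹; 0, σ α / α, 0; α, 0, 0]
  have hg : ∀ x, g x = ![-(σ α)⁻¹ * x 2, σ α / α * x 1, α * x 0] := fun x => by
    ext i; fin_cases i <;> simp [g, mulVec, dotProduct, Fin.sum_univ_three]
  have gp : (s3K hσ hδ).Pres g := fun x y => by
    simp [hg, s3K_B, hσ]; field_simp; ring
  have c1 : Cj (s3K hσ hδ) (s3U hσ hδ κ) (s3V hσ hδ (σ α ^ 2 / α) (α * σ α * κ) * 1) :=
    ⟨g, gp, by simp [g, det_fin_three]; field_simp, by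
      rw [s3U, ← q_conj gp, mul_one, s3V,
        show g ![1, 0, 0] = α • ![0, 0, 1] by rw [hg]; simp, q_scale, hg]
      congr 2
      ext i; fin_cases i <;> simp; field_simp⟩
  refine (c1.trans (cj_shift hθ (y := 1) (fun _ _ => rfl) (b := ![0, 1, 0]) rfl rfl
    (by simp [s3K_B]) ⟨by simp [s3K_B], by simp [s3K_B], ?_⟩
    ⟨by simp [s3K_B], by simp [s3K_B], by rw [hκ', s3K_B]; simp⟩ (by simp [s3K_B, h0, hα, hα']))).congr
    (mul_one _)
  simp [s3K_B, hσ]; field_simp; linear_combination hκ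

theorem s3_full {θ : F} (hθ : θ + σ θ = 1) (h0 : δ ≠ 0) {κ l κ' : F} (hκ : κ - σ κ = δ)
    (hκ' : κ' ≠ 0) {S : Submonoid (Module.End F (Fin 3 → F))} (hS : GS (s3K hσ hδ) S)
    (hu : s3U hσ hδ κ ∈ S) (hv : s3V hσ hδ l κ' ∈ S) {w : Module.End F (Fin 3 → F)} (hw : w ∈ S)
    {ρ ρ' : F} (h1 : w ![1, 0, 0] = ![ρ, 0, 0]) (hρ : ρ ≠ 0) (h2 : w ![0, 1, 0] 1 = ρ')
    (hg : Gen (σ ρ * ρ')) : ∃ x x', Full (s3K hσ hδ) S x ∧ Full (s3K hσ hδ) S x' ∧
      (s3K hσ hδ).B x' x ≠ 0 := by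
  have ee : (s3K hσ hδ).B ![1, 0, 0] ![1, 0, 0] = 0 := by simp [s3K_B]
  have h3 : w ![0, 1, 0] 2 = 0 := by
    have := hS.pres w hw ![0, 1, 0] ![1, 0, 0]
    rw [h1] at this
    simpa [s3K_B, hρ] using this
  have u0 : YI (s3K hσ hδ) S ![1, 0, 0] ![0, 1, 0] :=
    ⟨κ, ⟨ee, by simp [s3K_B], by simp [s3K_B, hκ]⟩, hu⟩
  have Y : ∀ t : F, YI (s3K hσ hδ) S ![1, 0, 0] (t • ![0, 1, 0]) :=
    hg (ysc hS ee _) ⟨1, u0.congr (one_smul _ _).symm, one_ne_zero⟩ fun t ⟨κ₁, ht⟩ => by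
      have h4 := ((ht.conj hS hw).congr (a' := ρ • ![1, 0, 0]) (by rw [h1]; simp) rfl rfl).unscale ee
        (by rw [map_smul]; simp [s3K_B, h3])
      refine (YI.sub hS ⟨_, h4⟩ (YI.self ee (σ ρ * t * w ![0, 1, 0] 0))).congr ?_
      rw [map_smul]
      ext i; fin_cases i <;> simp [h2, h3] <;> ring
  have hF := full_of_Y hS ee (fun b hb => ((Y (b 1)).add (YI.self ee (b 0))).congr (by
    have : b 2 = 0 := by simpa [s3K_B] using hb
    ext i; fin_cases i <;> simp [this])) (z_of_Y hS hθ (by simp [s3K_B, h0]) u0 Y)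
  exact ⟨_, _, hF, hF.conj hS hv, by rw [s3V_apply]; simp [s3K_B, hκ']⟩

theorem s3_final [Fintype F] {q : ℕ} (hF : Fintype.card F = q ^ 2) (hq : 3 ≤ q) {δ : F}
    (hδ : H23.conj hF δ = -δ) (h0 : δ ≠ 0) {κ l κ' α : F} (hκ : κ - H23.conj hF κ = δ)
    (hκ' : κ' - H23.conj hF κ' = δ * l * H23.conj hF l) (hα : α ≠ 0)
    (hl : l * α = H23.conj hF α ^ 2) {w : Module.End F (Fin 3 → F)}
    (hw : ∀ S : Submonoid (Module.End F (Fin 3 → F)), s3U (H23.conj_conj hF) hδ κ ∈ S →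
      s3V (H23.conj_conj hF) hδ l κ' ∈ S → w ∈ S)
    {ρ ρ' : F} (h1 : w ![1, 0, 0] = ![ρ, 0, 0]) (hρ : ρ ≠ 0) (h2 : w ![0, 1, 0] 1 = ρ')
    (hg : Gen (H23.conj hF ρ * ρ')) :
    ∃ u g : ↥(Cfsg.SU 3 F q), (IsNilpotent (((u : Matrix.SpecialLinearGroup (Fin 3) F) :
      Matrix (Fin 3) (Fin 3) F) - 1) ∧ (((u : Matrix.SpecialLinearGroup (Fin 3) F) :
      Matrix (Fin 3) (Fin 3) F) - 1) ^ (3 - 1) ≠ 0) ∧
      Subgroup.closure ({u, g * u * g⁻¹} : Set ↥(Cfsg.SU 3 F q)) = ⊤ := by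
  obtain ⟨θ, hθ⟩ := H23.Form.exists_add_conj_eq_one (H23.conj_ne_id hF) (H23.conj_conj hF)
  have hc := s3_cj (hσ := H23.conj_conj hF) (hδ := hδ) hθ h0 hκ hκ' hα hl
  have hl0 : l ≠ 0 := fun e => pow_ne_zero 2 ((map_ne_zero _).2 hα) (by rw [← hl, e, zero_mul])
  have hk0 : κ' ≠ 0 := fun e => mul_ne_zero (mul_ne_zero h0 hl0) ((map_ne_zero _).2 hl0)
    (by rw [← hκ', e, map_zero, sub_zero])
  obtain ⟨u, g, k, h3, h4, h5⟩ := assemble_su hF (n := 3) (by simp) (by omega) (by omega) (s3K_nd h0)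
    (s3U_pres hκ) s3U_nil (s3U_reg h0) hc hc
    (fun S hS hu hv _ => s3_full hθ h0 hκ hk0 hS hu hv (hw S hu hv) h1 hρ h2 hg)
  rw [h5 rfl] at h4
  exact ⟨u, g, h3, by simpa using h4⟩

theorem s3_word_gen {ε : F} (h0 : δ ≠ 0) (he : ε ≠ 0) (h1 : 1 + ε ≠ 0) {l κ κ' : F}
    (hl : l = -(1 + ε) ^ 2 / ε / δ) (hl' : σ l = -l) (hκ : κ = δ * (2 * ε ^ 2 + ε + 1) / (1 + ε) ^ 3)
    (hκ' : κ' = l * (1 + ε)) :
    (s3V hσ hδ l κ' * s3U hσ hδ κ * s3V hσ hδ l κ') ![1, 0, 0] = ![ε, 0, 0] ∧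
    (s3V hσ hδ l κ' * s3U hσ hδ κ * s3V hσ hδ l κ') ![0, 1, 0] 1 = ε⁻¹ ^ 2 := by
  simp only [Module.End.mul_apply, s3U_apply, s3V_apply, hl']
  subst hκ' hκ hl
  refine ⟨?_, ?_⟩
  · ext i; fin_cases i <;> simp <;> field_simp <;> ring
  · simp; field_simp; ring

theorem s3_word5 {ε : F} (h5 : (5 : F) = 0) (he : ε ^ 2 - ε + 1 = 0) (hd : δ = 2 + ε) :
    (s3V hσ hδ 1 (3 + 3 * ε) * s3U hσ hδ (3 * ε) * s3V hσ hδ 1 (3 + 3 * ε) *
      s3V hσ hδ 1 (3 + 3 * ε)) ![1, 0, 0] = ![1 + 2 * ε, 0, 0] ∧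
    (s3V hσ hδ 1 (3 + 3 * ε) * s3U hσ hδ (3 * ε) * s3V hσ hδ 1 (3 + 3 * ε) *
      s3V hσ hδ 1 (3 + 3 * ε)) ![0, 1, 0] 1 = ε := by
  simp only [Module.End.mul_apply, s3U_apply, s3V_apply, map_one]
  subst hd
  clear hσ hδ
  refine ⟨?_, ?_⟩
  · ext i; fin_cases i <;> simp only [Fin.zero_eta, Fin.mk_one, Fin.reduceFinMk, cons_val] <;> grind
  · simp only [cons_val]; grind

theorem s3_word8 {ε l κ : F} (h2 : (2 : F) = 0) (he : ε ^ 6 + ε ^ 3 + 1 = 0) (hd : δ = 1)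
    (hl : l = ε + ε ^ 2 + ε ^ 4 + ε ^ 5) (hl' : σ l = ε + ε ^ 2) (hκ : κ = ε + ε ^ 2 + ε ^ 3 + ε ^ 4) :
    (s3V hσ hδ l ε * s3U hσ hδ κ * s3U hσ hδ κ * s3V hσ hδ l ε * s3U hσ hδ κ *
      s3V hσ hδ l ε) ![1, 0, 0] = ![1 + ε ^ 2 + ε ^ 4 + ε ^ 5, 0, 0] ∧
    (s3V hσ hδ l ε * s3U hσ hδ κ * s3U hσ hδ κ * s3V hσ hδ l ε * s3U hσ hδ κ *
      s3V hσ hδ l ε) ![0, 1, 0] 1 = ε := by
  simp only [Module.End.mul_apply, s3U_apply, s3V_apply, hl']
  clear hl'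
  subst hd hl hκ
  clear hσ hδ
  refine ⟨?_, ?_⟩
  · ext i; fin_cases i <;> simp only [Fin.zero_eta, Fin.mk_one, Fin.reduceFinMk, cons_val] <;> grind
  · simp only [cons_val]; grind

theorem m8_ne {ε : F} (h2 : (2 : F) = 0) (e : ε ^ 6 + ε ^ 3 + 1 = 0) {k : ℕ}
    (hk : k = 2 ∨ k = 4 ∨ k = 8) : (1 + ε + ε ^ 2 + ε ^ 3) ^ k ≠ 1 + ε + ε ^ 2 + ε ^ 3 := by
  rcases hk with rfl | rfl | rfl <;> exact fun h => one_ne_zero (α := F) (by grind)

theorem su_three5 [Fintype F] {q : ℕ} (hF : Fintype.card F = q ^ 2) (hq : q = 5) {ε : F}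
    (h5 : (5 : F) = 0) (e : ε ^ 2 - ε + 1 = 0) (hs : H23.conj hF ε = 1 - ε) :
    ∃ u g : ↥(Cfsg.SU 3 F q), (IsNilpotent (((u : Matrix.SpecialLinearGroup (Fin 3) F) :
      Matrix (Fin 3) (Fin 3) F) - 1) ∧ (((u : Matrix.SpecialLinearGroup (Fin 3) F) :
      Matrix (Fin 3) (Fin 3) F) - 1) ^ (3 - 1) ≠ 0) ∧
      Subgroup.closure ({u, g * u * g⁻¹} : Set ↥(Cfsg.SU 3 F q)) = ⊤ := by
  have hδ : H23.conj hF (2 + ε) = -(2 + ε) := by rw [map_add, map_ofNat, hs]; grind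
  have hw := s3_word5 (hσ := H23.conj_conj hF) (hδ := hδ) h5 e rfl
  refine s3_final hF (by omega) hδ (fun h => one_ne_zero (α := F) (by grind))
    (κ := 3 * ε) (l := 1) (κ' := 3 + 3 * ε) (α := 1)
    (by rw [map_mul, map_ofNat, hs]; grind) (by rw [map_add, map_mul, map_ofNat, map_one, hs]; grind)
    one_ne_zero (by rw [map_one]; ring)
    (fun S hu hv => S.mul_mem (S.mul_mem (S.mul_mem hv hu) hv) hv) hw.1
    (fun h => one_ne_zero (α := F) (by grind)) hw.2 (gen_of_sub fun k j hk hj h => ?_)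
  obtain ⟨a1, a2⟩ := arith_q hk hj (h.trans hF)
  rw [map_add, map_mul, map_ofNat, map_one, hs]
  subst hq
  obtain rfl : k = 5 := by interval_cases k <;> omega
  exact fun h => one_ne_zero (α := F) (by grind)

theorem su_three8 [Fintype F] {q : ℕ} (hF : Fintype.card F = q ^ 2) (hq : q = 8) {ε : F}
    (h2 : (2 : F) = 0) (e : ε ^ 6 + ε ^ 3 + 1 = 0) (hs : H23.conj hF ε = ε ^ 5 + ε ^ 2) :
    ∃ u g : ↥(Cfsg.SU 3 F q), (IsNilpotent (((u : Matrix.SpecialLinearGroup (Fin 3) F) :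
      Matrix (Fin 3) (Fin 3) F) - 1) ∧ (((u : Matrix.SpecialLinearGroup (Fin 3) F) :
      Matrix (Fin 3) (Fin 3) F) - 1) ^ (3 - 1) ≠ 0) ∧
      Subgroup.closure ({u, g * u * g⁻¹} : Set ↥(Cfsg.SU 3 F q)) = ⊤ := by
  have hδ : H23.conj hF 1 = -1 := by rw [map_one]; grind
  have hl : H23.conj hF (ε + ε ^ 2 + ε ^ 4 + ε ^ 5) = ε + ε ^ 2 := by
    simp only [map_add, map_pow, hs]; grind
  have hw := s3_word8 (hσ := H23.conj_conj hF) (hδ := hδ) h2 e rfl rfl hl rfl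
  refine s3_final hF (by omega) hδ one_ne_zero (α := 1 + ε)
    (by simp only [map_add, map_pow, hs]; grind) (by rw [hl, hs]; grind)
    (fun h => one_ne_zero (α := F) (by grind)) (by rw [map_add, map_one, hs]; grind)
    (fun S hu hv => S.mul_mem (S.mul_mem (S.mul_mem (S.mul_mem (S.mul_mem hv hu) hu) hv) hu) hv)
    hw.1 (fun h => one_ne_zero (α := F) (by grind)) hw.2 (gen_of_sub fun k j hk hj h => ?_)
  obtain ⟨a1, a2⟩ := arith_q hk hj (h.trans hF)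
  have : H23.conj hF (1 + ε ^ 2 + ε ^ 4 + ε ^ 5) * ε = 1 + ε + ε ^ 2 + ε ^ 3 := by
    simp only [map_add, map_pow, map_one, hs]; grind
  rw [this]
  subst hq
  exact m8_ne h2 e (by interval_cases k <;> omega)

theorem su_three [Fintype F] {q : ℕ} (hF : Fintype.card F = q ^ 2) (hq : 3 ≤ q) :
    ∃ u g : ↥(Cfsg.SU 3 F q), (IsNilpotent (((u : Matrix.SpecialLinearGroup (Fin 3) F) :
      Matrix (Fin 3) (Fin 3) F) - 1) ∧ (((u : Matrix.SpecialLinearGroup (Fin 3) F) :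
      Matrix (Fin 3) (Fin 3) F) - 1) ^ (3 - 1) ≠ 0) ∧
      Subgroup.closure ({u, g * u * g⁻¹} : Set ↥(Cfsg.SU 3 F q)) = ⊤ := by
  obtain ⟨ε, hε⟩ : ∃ ε : F, IsPrimitiveRoot ε (q + 1) := by
    classical
    obtain ⟨ω, hω⟩ := IsCyclic.exists_ofOrder_eq_natCard (α := Fˣ)
    have h1 := IsPrimitiveRoot.coe_units_iff.2 (IsPrimitiveRoot.orderOf ω)
    rw [hω, Nat.card_eq_fintype_card, Fintype.card_units, hF] at h1
    refine ⟨_, h1.pow (a := q - 1) (by have := Nat.pow_le_pow_left hq 2; omega) ?_⟩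
    rw [mul_comm, ← Nat.sq_sub_sq, one_pow]
  have he : ε ≠ 0 := hε.ne_zero (by omega)
  have hp : ∀ k, 0 < k → k < q + 1 → ε ^ k - 1 ≠ 0 := fun k h1 h2 =>
    sub_ne_zero.2 (hε.pow_ne_one_of_pos_of_lt h1.ne' h2)
  have h1 := hε.pow_eq_one
  have hc := FiniteField.cast_card_eq_zero F
  rw [hF] at hc
  have hs : H23.conj hF ε = ε ^ q := rfl
  by_cases h5 : q = 5
  · subst h5
    have h5 : (5 : F) = 0 := pow_eq_zero_iff (two_ne_zero) |>.1 (by exact_mod_cast hc)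
    have e : ε ^ 2 - ε + 1 = 0 := by
      refine mul_left_cancel₀ (mul_ne_zero (hp 3 (by omega) (by omega)) (hp 2 (by omega) (by omega))) ?_
      linear_combination (ε - 1) * h1
    exact su_three5 hF rfl h5 e (by rw [hs]; grind)
  by_cases h8 : q = 8
  · subst h8
    have h2 : (2 : F) = 0 := pow_eq_zero_iff (show 6 ≠ 0 by omega) |>.1 (by exact_mod_cast hc)
    have e : ε ^ 6 + ε ^ 3 + 1 = 0 := by
      refine mul_left_cancel₀ (hp 3 (by omega) (by omega)) ?_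
      linear_combination h1
    exact su_three8 hF rfl h2 e (by rw [hs]; grind)
  obtain ⟨δ, h0, hδ⟩ := H23.exists_trace_zero_ne_zero hF
  have hδ' : H23.conj hF δ = -δ := by rw [H23.conj_apply]; linear_combination hδ
  have hs : H23.conj hF ε = ε⁻¹ := by rw [hs]; field_simp; rw [← h1]; ring
  have h2 : 1 + ε ≠ 0 := fun e => hp 2 (by omega) (by omega) (by linear_combination (ε - 1) * e)
  have hl : H23.conj hF (-(1 + ε) ^ 2 / ε / δ) = -(-(1 + ε) ^ 2 / ε / δ) := by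
    simp only [map_div₀, map_neg, map_pow, map_add, map_one, hs, hδ']; field_simp; ring
  have hw := s3_word_gen (hσ := H23.conj_conj hF) (hδ := hδ') h0 he h2 rfl hl rfl rfl
  have h3 : ε + 1 ≠ 0 := by rwa [add_comm]
  refine s3_final hF hq hδ' h0 (α := -(1 + ε) ^ 2 / ε / δ) ?_ ?_
    (div_ne_zero (div_ne_zero (neg_ne_zero.2 (pow_ne_zero 2 h2)) he) h0) (by rw [hl]; ring)
    (fun S hu hv => S.mul_mem (S.mul_mem hv hu) hv) hw.1 he hw.2 (gen_of_sub fun k j hk hj h e => ?_)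
  · simp only [map_div₀, map_mul, map_pow, map_add, map_one, map_ofNat, hs, hδ']; field_simp; ring
  · rw [map_mul, hl, map_add, map_one, hs]; field_simp; ring
  · rw [hs, ← pow_succ', ← pow_mul, inv_pow, inv_pow, _root_.inv_inj] at e
    obtain ⟨k, rfl⟩ : ∃ k', k = k' + 1 := ⟨k - 1, by omega⟩
    have : ε ^ (3 * k) = 1 := mul_right_cancel₀ (pow_ne_zero 3 he) (by linear_combination e)
    have := arith_gen hk hj (h.trans hF) hq (by simpa using hε.dvd_of_pow_eq_one _ this)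
    omega

end H16.SQ
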